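import Mathlib
import Cfsg.Agent.Lib.PGroup.ItoBasic
import Cfsg.Agent.Lib.Hall.FPFAction
import Cfsg.Agent.Lib.Hall.FrobSylow
import Cfsg.Agent.Lib.Core.MinNormal
import Cfsg.Agent.Lib.Core.MinNormal2
import Cfsg.Agent.S0016

/-!
# An abstract lemma on two Frobenius-like actions

A finite group cannot act on two abelian groups of different prime power order so that
each action is fixed point free modulo a subgroup fixed pointwise, when both primes divide
the order of the acting group.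
-/

set_option autoImplicit false

namespace Cfsg.Agent.Lib.PGroup.Ito

open Subgroup

/-- An action of `F` on an abelian `s`-group `A`, trivial on `Z < A`, and with no fixed points
off `Z` for nontrivial elements of `F`. -/
structure FrAct {F A : Type*} [Group F] [CommGroup A] (ρ : F →* MulAut A) (s : ℕ) (Z : Subgroup A) : Prop where
  isP : IsPGroup s A
  fix : ∀ f, ∀ z ∈ Z, ρ f z = z
  ne_top : Z ≠ ⊤
  fr : ∀ f, f ≠ 1 → ∀ a, ρ f a = a → a ∈ Z

section

variable {F A : Type*} [Group F] [CommGroup A] {ρ : F →* MulAut A} {s : ℕ} {Z : Subgroup A}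

theorem FrAct.eq_one_of_pow (h : FrAct ρ s Z) {a : A} {n : ℕ} (hn : n.Coprime s) (ha : a ^ n = 1) : a = 1 := by
  obtain ⟨k, hk⟩ := h.isP a
  have h1 : orderOf a ∣ n := orderOf_dvd_of_pow_eq_one ha
  have h2 : orderOf a ∣ s ^ k := orderOf_dvd_of_pow_eq_one hk
  have h3 : orderOf a ∣ 1 := by
    have : Nat.Coprime n (s ^ k) := Nat.Coprime.pow_right k hn
    rw [← this.gcd_eq_one]
    exact Nat.dvd_gcd h1 h2
  exact orderOf_eq_one_iff.mp (Nat.dvd_one.mp h3)

theorem FrAct.of_pow_eq (h : FrAct ρ s Z) {a b : A} {n : ℕ} (hn : n.Coprime s) (e : a ^ n = b ^ n) : a = b := by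
  have h1 : (a * b⁻¹) ^ n = 1 := by rw [mul_pow, inv_pow, e, mul_inv_cancel]
  exact mul_inv_eq_one.mp (h.eq_one_of_pow hn h1)

/-- A subgroup of order prime to `s` cannot be normalized by a nontrivial `s`-element. -/
theorem FrAct.no_normalized [Finite F] [Finite A] (h : FrAct ρ s Z) (hs : s.Prime) (D : Subgroup F) (hD : D ≠ ⊥)
    (hcop : (Nat.card D).Coprime s) {f : F} (hf1 : f ≠ 1) (hf : PE s f) (hfD : ∀ d ∈ D, f * d * f⁻¹ ∈ D) : False := by
  classical
  haveI : Fintype D := Fintype.ofFinite D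
  haveI : Fintype A := Fintype.ofFinite A
  haveI : Fact s.Prime := ⟨hs⟩
  obtain ⟨n, hn⟩ : ∃ n, n = Nat.card D := ⟨_, rfl⟩
  rw [← hn] at hcop
  let Nm : A → A := fun a => ∏ d : D, ρ d a
  have hNmul : ∀ a b, Nm (a * b) = Nm a * Nm b := by
    intro a b
    simp only [Nm, map_mul, Finset.prod_mul_distrib]
  have hN1 : Nm 1 = 1 := by simp [Nm]
  have hNinv : ∀ a, Nm a⁻¹ = (Nm a)⁻¹ := by
    intro a
    simp only [Nm, map_inv, Finset.prod_inv_distrib]
  have hNpow : ∀ a (m : ℕ), Nm (a ^ m) = (Nm a) ^ m := by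
    intro a m
    simp only [Nm, map_pow, Finset.prod_pow]
  have hNfixed : ∀ d : D, ∀ a, ρ d (Nm a) = Nm a := by
    intro d a
    simp only [Nm, map_prod]
    refine Fintype.prod_equiv (Equiv.mulLeft d) _ _ (fun x => ?_)
    rw [← MulAut.mul_apply, ← map_mul]
    rfl
  have hNconst : ∀ a, (∀ d : D, ρ d a = a) → Nm a = a ^ n := by
    intro a ha
    simp only [Nm, ha]
    rw [Finset.prod_const, Finset.card_univ, ← Nat.card_eq_fintype_card, hn]
  have hNf : ∀ a, ρ f (Nm a) = Nm (ρ f a) := by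
    intro a
    simp only [Nm, map_prod]
    let σ : D → D := fun d => ⟨f * d * f⁻¹, hfD d d.2⟩
    have hσinj : Function.Injective σ := by
      intro x y hxy
      have := congrArg Subtype.val hxy
      simp only [σ] at this
      exact Subtype.ext (by simpa using this)
    have hσbij := Finite.injective_iff_bijective.mp hσinj
    refine Fintype.prod_bijective σ hσbij _ _ (fun d => ?_)
    rw [← MulAut.mul_apply, ← MulAut.mul_apply, ← map_mul, ← map_mul]
    congr 2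
    show f * d = f * d * f⁻¹ * f
    group
  let V : Subgroup A :=
    { carrier := {a | Nm a = 1}
      mul_mem' := by
        intro a b ha hb
        show Nm (a * b) = 1
        rw [hNmul, show Nm a = 1 from ha, show Nm b = 1 from hb, one_mul]
      one_mem' := hN1
      inv_mem' := by
        intro a ha
        show Nm a⁻¹ = 1
        rw [hNinv, show Nm a = 1 from ha, inv_one] }
  have hVmem : ∀ a, a ∈ V ↔ Nm a = 1 := fun a => Iff.rfl
  have hVne : V ≠ ⊥ := by
    intro hV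
    obtain ⟨⟨d₀, hd₀⟩, hd₀1⟩ := ne_bot_iff_exists_ne_one.mp hD
    have hd₀1' : d₀ ≠ 1 := fun e => hd₀1 (Subtype.ext e)
    apply h.ne_top
    rw [eq_top_iff]
    intro a _
    apply h.fr d₀ hd₀1' a
    have hb : a ^ n * (Nm a)⁻¹ ∈ V := by
      rw [hVmem, hNmul, hNinv, hNpow, hNconst (Nm a) (fun d => hNfixed d a), mul_inv_cancel]
    rw [hV, mem_bot] at hb
    have e : a ^ n = Nm a := mul_inv_eq_one.mp hb
    have e2 : (ρ d₀ a) ^ n = a ^ n := by
      rw [← map_pow, e]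
      exact hNfixed ⟨d₀, hd₀⟩ a
    exact h.of_pow_eq hcop e2
  have hVf : ∀ v ∈ V, ρ f v ∈ V := by
    intro v hv
    rw [hVmem] at hv ⊢
    rw [← hNf, hv, map_one]
  let τ : V → V := fun v => ⟨ρ f v, hVf v v.2⟩
  have hτinj : Function.Injective τ := by
    intro x y hxy
    have := congrArg Subtype.val hxy
    simp only [τ] at this
    exact Subtype.ext ((ρ f).injective this)
  let σ : Equiv.Perm V := Equiv.ofBijective τ (Finite.injective_iff_bijective.mp hτinj)
  have hσpow : ∀ (m : ℕ) (v : V), (((σ ^ m) v : V) : A) = ρ (f ^ m) v := by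
    intro m
    induction m with
    | zero => intro v; simp
    | succ m ih =>
      intro v
      rw [pow_succ', Equiv.Perm.mul_apply, pow_succ', map_mul, MulAut.mul_apply, ← ih]
      rfl
  obtain ⟨k, hk⟩ := hf
  have hσ : σ ^ s ^ k = 1 := by
    ext v
    rw [hσpow, hk]
    simp
  have hσ1 : σ 1 = 1 := by
    apply Subtype.ext
    show ρ f 1 = 1
    rw [map_one]
  have hVp : IsPGroup s V := h.isP.to_subgroup V
  have hdvd : s ∣ Fintype.card V := by
    rw [← Nat.card_eq_fintype_card]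
    rcases hVp.card_eq_or_dvd with h1 | h1
    · exact absurd (eq_bot_of_card_eq V h1) hVne
    · exact h1
  obtain ⟨b, hb, hb1⟩ := Equiv.Perm.exists_fixed_point_of_prime' hdvd hσ hσ1
  have hbf : ρ f (b : A) = b := congrArg Subtype.val hb
  have hbZ := h.fr f hf1 _ hbf
  have hbN := hNconst b (fun d => h.fix d _ hbZ)
  have hb2 : (b : A) ^ n = 1 := by
    rw [← hbN]
    exact b.2
  exact hb1 (Subtype.ext (h.eq_one_of_pow hcop hb2))

/-- An element acting trivially modulo `Z` is an `s`-element. -/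
theorem FrAct.pe_of_trivial [Finite F] [Finite A] (h : FrAct ρ s Z) (hs : s.Prime) (w : F)
    (hw : ∀ a, ρ w a * a⁻¹ ∈ Z) : PE s w := by
  obtain ⟨u, v, e, hc, hu, hv, hu', hv'⟩ := parts hs w
  have hstep : ∀ (m : ℕ) (a : A), ρ (w ^ m) a * a⁻¹ ∈ Z := by
    intro m a
    induction m with
    | zero => simp [Z.one_mem]
    | succ m ih =>
      rw [pow_succ', map_mul, MulAut.mul_apply]
      obtain ⟨c, hc⟩ : ∃ c, c = ρ (w ^ m) a * a⁻¹ := ⟨_, rfl⟩
      have h1 : ρ (w ^ m) a = c * a := by rw [hc]; simp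
      rw [h1, map_mul, h.fix w c (hc ▸ ih), mul_assoc]
      exact Z.mul_mem (hc ▸ ih) (hw a)
  obtain ⟨m, hm⟩ : ∃ m : ℕ, w ^ m = v := mem_powers_iff_mem_zpowers.mpr hv'
  have hv1 : v = 1 := by
    by_contra hne
    apply h.ne_top
    rw [eq_top_iff]
    intro a _
    apply h.fr v hne a
    have hcZ : ρ v a * a⁻¹ ∈ Z := hm ▸ hstep m a
    have hpow : ∀ k : ℕ, ρ (v ^ k) a = (ρ v a * a⁻¹) ^ k * a := by
      intro k
      induction k with
      | zero => simp
      | succ k ih =>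
        rw [pow_succ', map_mul, MulAut.mul_apply, ih, map_mul, map_pow, h.fix v _ hcZ, pow_succ]
        simp [mul_comm, mul_assoc, mul_left_comm]
    have h1 := hpow (orderOf v)
    rw [pow_orderOf_eq_one, map_one] at h1
    have h2 : (ρ v a * a⁻¹) ^ orderOf v = 1 := by
      have h3 : (1 : MulAut A) a = a := rfl
      rw [h3] at h1
      exact (mul_eq_right.mp h1.symm)
    have h3 := h.eq_one_of_pow hv h2
    exact mul_inv_eq_one.mp h3
  rw [e, hv1, mul_one]
  exact hu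

/-- An involution inverts modulo `Z`. -/
theorem FrAct.invol_mul_mem (h : FrAct ρ s Z) {z : F} (hz1 : z ≠ 1) (hz : z * z = 1) (a : A) : a * ρ z a ∈ Z := by
  apply h.fr z hz1
  rw [map_mul, ← MulAut.mul_apply, ← map_mul, hz, map_one]
  exact mul_comm _ _

/-- A product of two involutions acts trivially modulo `Z`. -/
theorem FrAct.two_invol (h : FrAct ρ s Z) {z₁ z₂ : F} (h11 : z₁ ≠ 1) (h1 : z₁ * z₁ = 1) (h21 : z₂ ≠ 1)
    (h2 : z₂ * z₂ = 1) (a : A) : ρ (z₁ * z₂) a * a⁻¹ ∈ Z := by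
  have hc2 := h.invol_mul_mem h21 h2 a
  have hc1 := h.invol_mul_mem h11 h1 a
  rw [map_mul, MulAut.mul_apply]
  have e : ρ z₁ (ρ z₂ a) = (ρ z₁ a)⁻¹ * (a * ρ z₂ a) := by
    have e0 : ρ z₂ a = a⁻¹ * (a * ρ z₂ a) := by simp
    conv_lhs => rw [e0, map_mul, map_inv, h.fix z₁ _ hc2]
  rw [e]
  have e4 : (ρ z₁ a)⁻¹ * (a * ρ z₂ a) * a⁻¹ = (a * ρ z₁ a)⁻¹ * (a * ρ z₂ a) := by
    rw [mul_inv_rev, mul_right_comm]
  rw [e4]
  exact Z.mul_mem (Z.inv_mem hc1) hc2

/-- Norm along the powers of an element. -/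
theorem FrAct.norm_mem (h : FrAct ρ s Z) {t : ℕ} {f : F} (hf1 : f ≠ 1) (hf : f ^ t = 1) (a : A) :
    ∏ j ∈ Finset.range t, ρ (f ^ j) a ∈ Z := by
  apply h.fr f hf1
  rw [map_prod]
  rcases t with _ | t
  · simp
  have e : ∀ j, ρ f (ρ (f ^ j) a) = ρ (f ^ (j + 1)) a := by
    intro j
    rw [← MulAut.mul_apply, ← map_mul, pow_succ']
  simp only [e]
  rw [Finset.prod_range_succ, Finset.prod_range_succ', hf]
  simp

/-- No `Z_t × Z_t` for `t ≠ s`. -/
theorem FrAct.no_ep2 [Finite A] (h : FrAct ρ s Z) (hs : s.Prime) {t : ℕ} (ht : t.Prime) (hts : t ≠ s) {c x : F}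
    (hcx : c * x = x * c) (hc1 : c ≠ 1) (hc : c ^ t = 1) (hx : x ^ t = 1) (hxc : x ∉ zpowers c) : False := by
  haveI : Fact t.Prime := ⟨ht⟩
  apply h.ne_top
  rw [eq_top_iff]
  intro a _
  have hcomm : Commute x c := hcx.symm
  have hcp : ∀ j, 0 < j → j < t → c ^ j ≠ 1 := by
    intro j hj0 hjt hj
    have hor : orderOf c = t := orderOf_eq_prime hc hc1
    exact absurd (orderOf_dvd_of_pow_eq_one hj) (fun hd => by
      rw [hor] at hd
      exact absurd (Nat.le_of_dvd hj0 hd) (by omega))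
  have hxne : ∀ i : ℕ, x * c ^ i ≠ 1 := by
    intro i hi
    apply hxc
    have : x = (c ^ i)⁻¹ := eq_inv_of_mul_eq_one_left hi
    rw [this]
    exact inv_mem (npow_mem_zpowers c i)
  have hxt : ∀ i : ℕ, (x * c ^ i) ^ t = 1 := by
    intro i
    rw [(hcomm.pow_right i).mul_pow, hx, one_mul, ← pow_mul, mul_comm, pow_mul, hc, one_pow]
  have hL : ∏ i ∈ Finset.range t, ∏ j ∈ Finset.range t, ρ ((x * c ^ i) ^ j) a ∈ Z :=
    Z.prod_mem (fun i _ => h.norm_mem (hxne i) (hxt i) a)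
  rw [Finset.prod_comm] at hL
  have hterm : ∀ j, ∏ i ∈ Finset.range t, ρ ((x * c ^ i) ^ j) a = ρ (x ^ j) (∏ i ∈ Finset.range t, ρ ((c ^ j) ^ i) a) := by
    intro j
    rw [map_prod]
    refine Finset.prod_congr rfl (fun i _ => ?_)
    rw [← MulAut.mul_apply, ← map_mul, (hcomm.pow_right i).mul_pow, ← pow_mul, ← pow_mul, mul_comm i j]
  simp only [hterm] at hL
  obtain ⟨t', rfl⟩ : ∃ t', t = t' + 1 := ⟨t - 1, by have := ht.pos; omega⟩
  rw [Finset.prod_range_succ'] at hL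
  have hW : ∏ j ∈ Finset.range t', ρ (x ^ (j + 1)) (∏ i ∈ Finset.range (t' + 1), ρ ((c ^ (j + 1)) ^ i) a) ∈ Z := by
    refine Z.prod_mem (fun j hj => ?_)
    have hj' : j < t' := Finset.mem_range.mp hj
    have hne : c ^ (j + 1) ≠ 1 := hcp _ (by omega) (by omega)
    have ht1 : (c ^ (j + 1)) ^ (t' + 1) = 1 := by
      rw [← pow_mul, mul_comm, pow_mul, hc, one_pow]
    have := h.norm_mem hne ht1 a
    rw [h.fix _ _ this]
    exact this
  have h0 := (Subgroup.mul_mem_cancel_left Z hW).mp hL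
  have hh0 : ∏ i ∈ Finset.range (t' + 1), ρ ((c ^ 0) ^ i) a = a ^ (t' + 1) := by
    simp
  rw [hh0] at h0
  simp only [pow_zero, map_one, MulAut.one_apply] at h0
  -- `a ^ t ∈ Z`
  obtain ⟨k, hk⟩ := h.isP a
  have hcop : (t' + 1).Coprime (orderOf a) := by
    obtain ⟨j, -, hj⟩ := (Nat.dvd_prime_pow hs).mp (orderOf_dvd_of_pow_eq_one hk)
    rw [hj]
    exact Nat.Coprime.pow_right _ ((Nat.coprime_primes ht hs).mpr hts)
  obtain ⟨m, hm⟩ := exists_pow_eq_self_of_coprime hcop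
  rw [← hm]
  exact Z.pow_mem h0 m

end

section ZZ

variable {F A₁ A₂ : Type*} [Group F] [Finite F] [CommGroup A₁] [Finite A₁] [CommGroup A₂] [Finite A₂]
  {ρ₁ : F →* MulAut A₁} {ρ₂ : F →* MulAut A₂} {s₁ s₂ : ℕ} {Z₁ : Subgroup A₁} {Z₂ : Subgroup A₂}

theorem zz_invol (h₁ : FrAct ρ₁ s₁ Z₁) (h₂ : FrAct ρ₂ s₂ Z₂) (hs₁ : s₁.Prime) (hs₂ : s₂.Prime) (hne : s₁ ≠ s₂)
    {z₁ z₂ : F} (h11 : z₁ ≠ 1) (h1 : z₁ * z₁ = 1) (h21 : z₂ ≠ 1) (h2 : z₂ * z₂ = 1) : z₁ = z₂ := by
  have p1 := h₁.pe_of_trivial hs₁ (z₁ * z₂) (h₁.two_invol h11 h1 h21 h2)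
  have p2 := h₂.pe_of_trivial hs₂ (z₁ * z₂) (h₂.two_invol h11 h1 h21 h2)
  have h3 := p1.eq_one_of_coprime hs₁ hs₂ hne p2
  have h4 : z₁ = z₂⁻¹ := eq_inv_of_mul_eq_one_left h3
  have e : z₂⁻¹ = z₂ := inv_eq_of_mul_eq_one_left h2
  rw [h4, e]

omit [Finite A₁] [Finite A₂] in
theorem zz_no_normal_aux {A : Type*} [CommGroup A] [Finite A] {ρ : F →* MulAut A} {s : ℕ} {Z : Subgroup A}
    (h : FrAct ρ s Z) (hs : s.Prime) (hd : s ∣ Nat.card F) {r : ℕ} (hr : r.Prime) (hrs : r ≠ s) (D : Subgroup F)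
    (hDn : D.Normal) (hD : D ≠ ⊥) (hDp : IsPGroup r D) : False := by
  haveI : Fact s.Prime := ⟨hs⟩
  haveI : Fact r.Prime := ⟨hr⟩
  obtain ⟨f, hf⟩ := exists_prime_orderOf_dvd_card' s hd
  have hf1 : f ≠ 1 := by
    rintro rfl
    rw [orderOf_one] at hf
    exact hs.one_lt.ne hf
  have hfs : f ^ s ^ 1 = 1 := by
    rw [pow_one, ← hf]
    exact pow_orderOf_eq_one f
  obtain ⟨m, hm⟩ := IsPGroup.iff_card.mp hDp
  have hcop : (Nat.card D).Coprime s := by
    rw [hm]
    exact Nat.Coprime.pow_left _ ((Nat.coprime_primes hr hs).mpr hrs)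
  exact h.no_normalized hs D hD hcop hf1 ⟨1, hfs⟩ (fun d hd' => hDn.conj_mem d hd' f)

theorem zz_no_normal (h₁ : FrAct ρ₁ s₁ Z₁) (h₂ : FrAct ρ₂ s₂ Z₂) (hs₁ : s₁.Prime) (hs₂ : s₂.Prime) (hne : s₁ ≠ s₂)
    (hd₁ : s₁ ∣ Nat.card F) (hd₂ : s₂ ∣ Nat.card F) {r : ℕ} (hr : r.Prime) (D : Subgroup F)
    (hDn : D.Normal) (hD : D ≠ ⊥) (hDp : IsPGroup r D) : False := by
  by_cases hrs : r = s₁
  · have : r ≠ s₂ := hrs ▸ hne
    exact zz_no_normal_aux h₂ hs₂ hd₂ hr this D hDn hD hDp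
  · exact zz_no_normal_aux h₁ hs₁ hd₁ hr hrs D hDn hD hDp

theorem zz_odd (h₁ : FrAct ρ₁ s₁ Z₁) (h₂ : FrAct ρ₂ s₂ Z₂) (hs₁ : s₁.Prime) (hs₂ : s₂.Prime) (hne : s₁ ≠ s₂)
    (hodd : ¬ 2 ∣ Nat.card F) : IsZGroup F := by
  constructor
  intro t ht T
  haveI : Fact t.Prime := ⟨ht⟩
  have hTp : IsPGroup t T := T.isPGroup'
  by_cases hdvd : t ∣ Nat.card F
  · have ht2 : t ≠ 2 := fun e => hodd (e ▸ hdvd)
    have hcyc : ∀ E : Subgroup T, IsMulCommutative E → IsCyclic E := by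
      intro E hE
      by_contra hnc
      obtain ⟨p, hp, E', hE'E, hcard, hexp⟩ := Cfsg.Agent.Lib.Hall.exists_elementary_subgroup E hnc
      haveI : Fact p.Prime := ⟨hp⟩
      have hpt : p = t := by
        have h1 : IsPGroup t E' := hTp.to_subgroup E'
        obtain ⟨m, hm⟩ := IsPGroup.iff_card.mp h1
        have h2 : p ∣ t ^ m := by
          rw [← hm, hcard]
          exact dvd_pow_self p two_ne_zero
        exact (Nat.prime_dvd_prime_iff_eq hp ht).mp (hp.dvd_of_dvd_pow h2)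
      subst hpt
      have hcardpos : 1 < Nat.card E' := by
        rw [hcard]
        have := hp.one_lt
        nlinarith
      haveI : Nontrivial E' := Finite.one_lt_card_iff_nontrivial.mp hcardpos
      obtain ⟨c, hcE, hc1⟩ := (Subgroup.nontrivial_iff_exists_ne_one E').mp inferInstance
      have hord : orderOf c = p := orderOf_eq_prime (hexp c hcE) hc1
      obtain ⟨x, hxE, hxc⟩ : ∃ x ∈ E', x ∉ zpowers c := by
        by_contra hno
        push Not at hno
        have hle : E' ≤ zpowers c := hno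
        have h3 := Nat.le_of_dvd (Nat.card_pos) (card_dvd_of_le hle)
        rw [hcard, Nat.card_zpowers, hord] at h3
        have := hp.one_lt
        nlinarith
      have hcomm : c * x = x * c := by
        have h4 := hE.is_comm.comm (⟨c, hE'E hcE⟩ : E) ⟨x, hE'E hxE⟩
        exact congrArg Subtype.val h4
      have hcF : (c : F) * x = x * c := by
        exact congrArg Subtype.val hcomm
      have hc1F : (c : F) ≠ 1 := fun e => hc1 (Subtype.ext e)
      have hcpF : (c : F) ^ p = 1 := by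
        have := congrArg Subtype.val (hexp c hcE)
        simpa using this
      have hxpF : (x : F) ^ p = 1 := by
        have := congrArg Subtype.val (hexp x hxE)
        simpa using this
      have hxcF : (x : F) ∉ zpowers (c : F) := by
        intro hm
        obtain ⟨k, hk⟩ := mem_zpowers_iff.mp hm
        apply hxc
        refine mem_zpowers_iff.mpr ⟨k, Subtype.ext ?_⟩
        simpa using hk
      by_cases hps : p = s₁
      · have : p ≠ s₂ := hps ▸ hne
        exact h₂.no_ep2 hs₂ hp this hcF hc1F hcpF hxpF hxcF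
      · exact h₁.no_ep2 hs₁ hp hps hcF hc1F hcpF hxpF hxcF
    have huniq := Cfsg.Agent.Lib.Hall.unique_subgroup_of_abelian_cyclic hTp hcyc
    rcases Cfsg.Agent.S0016.result t hTp huniq with h | ⟨h, -⟩
    · exact h
    · exact absurd h ht2
  · have h1 : Nat.card T = 1 := by
      rcases hTp.card_eq_or_dvd with h | h
      · exact h
      · exact absurd (h.trans (card_subgroup_dvd_card _)) hdvd
    haveI : Subsingleton T := (Nat.card_eq_one_iff_unique.mp h1).1
    infer_instance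

/-- The abstract two-action lemma. -/
theorem zz_main (h₁ : FrAct ρ₁ s₁ Z₁) (h₂ : FrAct ρ₂ s₂ Z₂) (hs₁ : s₁.Prime) (hs₂ : s₂.Prime) (hne : s₁ ≠ s₂)
    (hd₁ : s₁ ∣ Nat.card F) (hd₂ : s₂ ∣ Nat.card F) : False := by
  have hnzz := fun {r : ℕ} (hr : r.Prime) (D : Subgroup F) (hDn : D.Normal) (hD : D ≠ ⊥) (hDp : IsPGroup r D) =>
    zz_no_normal h₁ h₂ hs₁ hs₂ hne hd₁ hd₂ hr D hDn hD hDp
  by_cases h2 : 2 ∣ Nat.card F
  · haveI : Fact (Nat.Prime 2) := ⟨Nat.prime_two⟩
    obtain ⟨z, hz⟩ := exists_prime_orderOf_dvd_card' 2 h2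
    have hz1 : z ≠ 1 := by
      rintro rfl
      rw [orderOf_one] at hz
      omega
    have hzz : z * z = 1 := by
      have := pow_orderOf_eq_one z
      rw [hz, pow_two] at this
      exact this
    have hconj : ∀ g : F, g * z * g⁻¹ = z := by
      intro g
      refine zz_invol h₁ h₂ hs₁ hs₂ hne ?_ ?_ hz1 hzz
      · intro e
        apply hz1
        have : z = g⁻¹ * (g * z * g⁻¹) * g := by group
        rw [this, e]; group
      · have : g * z * g⁻¹ * (g * z * g⁻¹) = g * (z * z) * g⁻¹ := by group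
        rw [this, hzz]; group
    refine hnzz Nat.prime_two (zpowers z) ?_ (zpowers_ne_bot.mpr hz1) ?_
    · constructor
      intro n hn g
      obtain ⟨k, rfl⟩ := mem_zpowers_iff.mp hn
      rw [← conj_zpow, hconj]
      exact zpow_mem_zpowers z k
    · exact PE.isPGroup_zpowers Nat.prime_two ⟨1, by rw [pow_one, pow_two]; exact hzz⟩
  · haveI : IsZGroup F := zz_odd h₁ h₂ hs₁ hs₂ hne h2
    haveI : Group.IsSolvable F := inferInstance
    have htop : (⊤ : Subgroup F) ≠ ⊥ := by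
      intro e
      have h3 : Nat.card F = 1 := by
        rw [← Nat.card_congr (Subgroup.topEquiv (G := F)).toEquiv, e]
        exact Nat.card_unique
      rw [h3] at hd₁
      exact hs₁.one_lt.ne' (Nat.dvd_one.mp hd₁)
    obtain ⟨L, hLn, hL1, -, hLmin⟩ := Cfsg.Agent.Lib.Core.exists_minimal_normal_le (K := ⊤) inferInstance htop
    haveI := hLn
    obtain ⟨-, p, hp, hLp⟩ := Cfsg.Agent.Lib.Core.minimal_normal_elementary L hL1 hLmin
    refine hnzz hp L hLn hL1 ?_
    rintro ⟨x, hx⟩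
    exact ⟨1, Subtype.ext (by simpa using hLp x hx)⟩

end ZZ

section LemmaZ

variable {G : Type*} [Group G]

/-- The `s`-elements of `Z(X)`. -/
def zPart (X : Subgroup G) (s : ℕ) : Subgroup G where
  carrier := {e | e ∈ X ∧ (∀ x ∈ X, x * e = e * x) ∧ PE s e}
  mul_mem' := by
    rintro a b ⟨ha1, ha2, ha3⟩ ⟨hb1, hb2, hb3⟩
    refine ⟨X.mul_mem ha1 hb1, ?_, PE.mul (ha2 b hb1).symm ha3 hb3⟩
    intro x hx
    rw [← mul_assoc, ha2 x hx, mul_assoc, hb2 x hx, mul_assoc]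
  one_mem' := ⟨X.one_mem, by simp, PE.one s⟩
  inv_mem' := by
    rintro a ⟨ha1, ha2, ha3⟩
    refine ⟨X.inv_mem ha1, ?_, ha3.inv⟩
    intro x hx
    have h : Commute x a := ha2 x hx
    exact h.inv_right

theorem mem_zPart {X : Subgroup G} {s : ℕ} {e : G} :
    e ∈ zPart X s ↔ e ∈ X ∧ (∀ x ∈ X, x * e = e * x) ∧ PE s e := Iff.rfl

instance zPartComm (X : Subgroup G) (s : ℕ) : CommGroup (zPart X s) :=
  { (zPart X s).toGroup with
    mul_comm := by
      rintro ⟨a, ha⟩ ⟨b, hb⟩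
      exact Subtype.ext (show a * b = b * a from (mem_zPart.mp hb).2.1 a (mem_zPart.mp ha).1) }

theorem zPart_conj {X : Subgroup G} {s : ℕ} {g e : G} (hg : g ∈ normalizer (X : Set G)) (he : e ∈ zPart X s) :
    g * e * g⁻¹ ∈ zPart X s := by
  obtain ⟨he1, he2, he3⟩ := mem_zPart.mp he
  refine mem_zPart.mpr ⟨(mem_normalizer_iff.mp hg e).mp he1, ?_, he3.conj g⟩
  intro x hx
  have hx' : g⁻¹ * x * g ∈ X := by
    have h1 := (mem_normalizer_iff.mp hg (g⁻¹ * x * g))
    rw [h1]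
    have e1 : g * (g⁻¹ * x * g) * g⁻¹ = x := by group
    rwa [e1]
  have h2 := he2 _ hx'
  have e1 : x * (g * e * g⁻¹) = g * ((g⁻¹ * x * g) * e) * g⁻¹ := by group
  have e2 : g * e * g⁻¹ * x = g * (e * (g⁻¹ * x * g)) * g⁻¹ := by group
  rw [e1, e2, h2]

/-- Conjugation on the `s`-part of `Z(X)`. -/
def rhoN (X : Subgroup G) (s : ℕ) : normalizer (X : Set G) →* MulAut (zPart X s) where
  toFun g :=
    { toFun := fun e => ⟨(g : G) * e * (g : G)⁻¹, zPart_conj g.2 e.2⟩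
      invFun := fun e => ⟨(g : G)⁻¹ * e * (g : G), by
        have := zPart_conj (X := X) (s := s) (g := (g : G)⁻¹) (e := e) (Subgroup.inv_mem _ g.2) e.2
        simpa using this⟩
      left_inv := by
        intro e
        apply Subtype.ext
        show (g : G)⁻¹ * ((g : G) * e * (g : G)⁻¹) * (g : G) = e
        group
      right_inv := by
        intro e
        apply Subtype.ext
        show (g : G) * ((g : G)⁻¹ * e * (g : G)) * (g : G)⁻¹ = e
        group
      map_mul' := by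
        intro a b
        apply Subtype.ext
        show (g : G) * ((a : G) * b) * (g : G)⁻¹ = ((g : G) * a * (g : G)⁻¹) * ((g : G) * b * (g : G)⁻¹)
        group }
  map_one' := by
    ext e
    show (1 : G) * e * (1 : G)⁻¹ = e
    group
  map_mul' := by
    intro a b
    ext e
    show ((a : G) * b) * e * ((a : G) * b)⁻¹ = (a : G) * ((b : G) * e * (b : G)⁻¹) * (a : G)⁻¹
    group

theorem rhoN_apply (X : Subgroup G) (s : ℕ) (g : normalizer (X : Set G)) (e : zPart X s) :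
    ((rhoN X s g e : zPart X s) : G) = (g : G) * e * (g : G)⁻¹ := rfl

/-- The quotient `N(X)/X`. -/
abbrev QN (X : Subgroup G) : Type _ := normalizer (X : Set G) ⧸ X.subgroupOf (normalizer (X : Set G))

instance (X : Subgroup G) : (X.subgroupOf (normalizer (X : Set G))).Normal :=
  (normal_subgroupOf_iff_le_normalizer le_normalizer).mpr le_rfl

/-- The induced action of `N(X)/X`. -/
def rhoF (X : Subgroup G) (s : ℕ) : QN X →* MulAut (zPart X s) :=
  QuotientGroup.lift _ (rhoN X s) (by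
    intro x hx
    ext e
    rw [rhoN_apply]
    have hx' : (x : G) ∈ X := hx
    have h1 := (mem_zPart.mp e.2).2.1 x hx'
    show (x : G) * e * (x : G)⁻¹ = e
    rw [h1]; group)

theorem rhoF_mk (X : Subgroup G) (s : ℕ) (g : normalizer (X : Set G)) (e : zPart X s) :
    ((rhoF X s (QuotientGroup.mk g) e : zPart X s) : G) = (g : G) * e * (g : G)⁻¹ := rfl

variable [Finite G]

theorem frAct_zPart (X : Subgroup G) {s : ℕ}
    (ha : ∀ e ∈ X, (∀ x ∈ X, x * e = e * x) → PE s e → ∀ g, g * e = e * g → g ∉ X → e ∈ center G)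
    (hb : ∃ e ∈ X, (∀ x ∈ X, x * e = e * x) ∧ PE s e ∧ e ∉ center G) :
    FrAct (rhoF X s) s ((center G).subgroupOf (zPart X s)) := by
  refine ⟨?_, ?_, ?_, ?_⟩
  · rintro ⟨e, he⟩
    obtain ⟨k, hk⟩ := (mem_zPart.mp he).2.2
    exact ⟨k, Subtype.ext (by simpa using hk)⟩
  · intro f z hz
    obtain ⟨g, rfl⟩ := QuotientGroup.mk_surjective f
    apply Subtype.ext
    rw [rhoF_mk]
    have hz' : (z : G) ∈ center G := hz
    rw [mem_center_iff.mp hz' g]
    group
  · intro htop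
    obtain ⟨e, he1, he2, he3, he4⟩ := hb
    have : (⟨e, mem_zPart.mpr ⟨he1, he2, he3⟩⟩ : zPart X s) ∈ (center G).subgroupOf (zPart X s) := htop ▸ mem_top _
    exact he4 this
  · intro f hf a ha'
    obtain ⟨g, rfl⟩ := QuotientGroup.mk_surjective f
    have hg : (g : G) ∉ X := by
      intro hg
      apply hf
      exact (QuotientGroup.eq_one_iff g).mpr hg
    have h1 : (g : G) * a * (g : G)⁻¹ = a := by
      rw [← rhoF_mk X s g a, ha']
    obtain ⟨h2, h3, h4⟩ := mem_zPart.mp a.2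
    refine ha a h2 h3 h4 g ?_ hg
    rw [mul_inv_eq_iff_eq_mul] at h1
    exact h1

theorem dvd_card_QN (X : Subgroup G) {s : ℕ} (hs : s.Prime) (hc : ∃ g ∈ normalizer (X : Set G), g ∉ X ∧ PE s g) :
    s ∣ Nat.card (QN X) := by
  obtain ⟨g, hg, hgX, hgp⟩ := hc
  have hq : (QuotientGroup.mk ⟨g, hg⟩ : QN X) ≠ 1 := by
    intro h
    have := (QuotientGroup.eq_one_iff (N := X.subgroupOf (normalizer (X : Set G))) (⟨g, hg⟩ : normalizer (X : Set G))).mp h
    exact hgX this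
  have hp : PE s (QuotientGroup.mk ⟨g, hg⟩ : QN X) := by
    obtain ⟨k, hk⟩ := hgp
    refine ⟨k, ?_⟩
    rw [← QuotientGroup.mk_pow]
    have : (⟨g, hg⟩ : normalizer (X : Set G)) ^ s ^ k = 1 := Subtype.ext (by simpa using hk)
    rw [this]
    rfl
  obtain ⟨j, hj⟩ := hp.orderOf_eq hs
  have hj0 : j ≠ 0 := by
    rintro rfl
    rw [pow_zero, orderOf_eq_one_iff] at hj
    exact hq hj
  have h1 : s ∣ orderOf (QuotientGroup.mk ⟨g, hg⟩ : QN X) := by
    rw [hj]
    exact dvd_pow_self s hj0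
  exact h1.trans (orderOf_dvd_natCard _)

/-- **Lemma Z.** -/
theorem lemmaZ (X : Subgroup G) {s₁ s₂ : ℕ} (hs₁ : s₁.Prime) (hs₂ : s₂.Prime) (hne : s₁ ≠ s₂)
    (ha₁ : ∀ e ∈ X, (∀ x ∈ X, x * e = e * x) → PE s₁ e → ∀ g, g * e = e * g → g ∉ X → e ∈ center G)
    (ha₂ : ∀ e ∈ X, (∀ x ∈ X, x * e = e * x) → PE s₂ e → ∀ g, g * e = e * g → g ∉ X → e ∈ center G)
    (hb₁ : ∃ e ∈ X, (∀ x ∈ X, x * e = e * x) ∧ PE s₁ e ∧ e ∉ center G)
    (hb₂ : ∃ e ∈ X, (∀ x ∈ X, x * e = e * x) ∧ PE s₂ e ∧ e ∉ center G)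
    (hc₁ : ∃ g ∈ normalizer (X : Set G), g ∉ X ∧ PE s₁ g)
    (hc₂ : ∃ g ∈ normalizer (X : Set G), g ∉ X ∧ PE s₂ g) : False :=
  zz_main (frAct_zPart X ha₁ hb₁) (frAct_zPart X ha₂ hb₂) hs₁ hs₂ hne (dvd_card_QN X hs₁ hc₁) (dvd_card_QN X hs₂ hc₂)

end LemmaZ

end Cfsg.Agent.Lib.PGroup.Ito
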