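import Mathlib
import Cfsg.Agent.Lib.PGroup.ItoZZ
import Cfsg.Agent.Lib.ClassSizes.Kazarin

/-!
# Itô's theorem: normalizing elements, and groups with one non-central class size off a prime
-/

set_option autoImplicit false

namespace Cfsg.Agent.Lib.PGroup.Ito

open Subgroup

section Norm

variable {G : Type*} [Group G] [Finite G]

theorem C_mul_central {z : G} (hz : z ∈ center G) (v : G) : C (z * v) = C v := by
  ext g
  rw [mem_C, mem_C]
  have h1 := mem_center_iff.mp hz g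
  constructor
  · intro h
    have h2 : z * (g * v) = z * (v * g) := by
      calc z * (g * v) = (z * g) * v := by group
        _ = (g * z) * v := by rw [h1]
        _ = g * (z * v) := by group
        _ = (z * v) * g := h
        _ = z * (v * g) := by group
    exact mul_left_cancel h2
  · intro h
    calc g * (z * v) = (g * z) * v := by group
      _ = (z * g) * v := by rw [h1]
      _ = z * (g * v) := by group
      _ = z * (v * g) := by rw [h]
      _ = z * v * g := by group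

/-- If `[c, v]` is central then `c` normalizes `C(v)`. -/
theorem mem_normalizer_C_of_comm {c v : G} (h : v * c * v⁻¹ * c⁻¹ ∈ center G) :
    c ∈ normalizer (C v : Subgroup G) := by
  apply mem_normalizer_of_C_conj_eq
  have h1 : c * v * c⁻¹ = (v * c * v⁻¹ * c⁻¹)⁻¹ * v := by group
  rw [h1]
  exact C_mul_central (inv_mem h) v

/-- Finding an `s`-element normalizing `X`. -/
theorem exists_norm (X : Subgroup G) {s : ℕ} (hs : s.Prime)
    (hcent : ∀ e ∈ X, PE s e → ∀ x ∈ X, x * e = e * x) (hd : s ∣ X.index) {w : G} (hwX : w ∈ X)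
    (hwp : PE s w) (hwc : w ∉ center G) (hC : ∀ e ∈ X, PE s e → e ∉ center G → C e = X) :
    ∃ g ∈ normalizer (X : Set G), g ∉ X ∧ PE s g := by
  haveI : Fact s.Prime := ⟨hs⟩
  have hPp : IsPGroup s (zPart X s) := by
    rintro ⟨e, he⟩
    obtain ⟨k, hk⟩ := (mem_zPart.mp he).2.2
    exact ⟨k, Subtype.ext (by simpa using hk)⟩
  obtain ⟨T, hT⟩ := hPp.exists_le_sylow
  have hne : (zPart X s) ≠ (T : Subgroup G) := by
    intro e
    have hle : (T : Subgroup G) ≤ X := by
      rw [← e]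
      exact fun x hx => (mem_zPart.mp hx).1
    have h1 : X.index ∣ (T : Subgroup G).index := index_dvd_of_le hle
    exact T.not_dvd_index (hd.trans h1)
  obtain ⟨g, hgT, hgP, hgN⟩ := Cfsg.Agent.Lib.PGroup.exists_mem_normalizer_of_lt T.isPGroup' (lt_of_le_of_ne hT hne)
  have hgp : PE s g := PE.of_mem_isPGroup T.isPGroup' hgT
  have hwP : w ∈ zPart X s := mem_zPart.mpr ⟨hwX, hcent w hwX hwp, hwp⟩
  have hg1 : g * w * g⁻¹ ∈ zPart X s := (mem_normalizer_iff.mp hgN w).mp hwP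
  have hgX : g ∉ X := fun hg => hgP (mem_zPart.mpr ⟨hg, hcent g hg hgp, hgp⟩)
  refine ⟨g, ?_, hgX, hgp⟩
  have e1 : C w = X := hC w hwX hwp hwc
  have e2 : C (g * w * g⁻¹) = C w := by
    rw [e1]
    exact hC _ (mem_zPart.mp hg1).1 (mem_zPart.mp hg1).2.2 (conj_not_mem_center hwc g)
  have := mem_normalizer_of_C_conj_eq e2
  rwa [e1] at this

/-- `X` is abelian, and equal to the centralizer of each of its non-central elements. -/
def ACC (X : Subgroup G) : Prop := ∀ e ∈ X, e ∉ center G → C e = X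

theorem ACC.comm {X : Subgroup G} (h : ACC X) {e : G} (he : e ∈ X) {x : G} (hx : x ∈ X) : x * e = e * x := by
  by_cases hc : e ∈ center G
  · exact (mem_center_iff.mp hc x)
  · rw [← h e he hc] at hx
    exact mem_C.mp hx

theorem ACC.conj {X : Subgroup G} (h : ACC X) (g : G) : ACC (Cfsg.Agent.Lib.Techniques.conjS g X) := by
  intro e he hec
  rw [Cfsg.Agent.Lib.Techniques.mem_conjS] at he
  have e1 : e = g * (g⁻¹ * e * g) * g⁻¹ := by group
  rw [e1, C_conj]
  have e2 := h _ he (by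
    have := conj_not_mem_center hec g⁻¹
    simpa using this)
  rw [e2]

/-- **Lemma Z+**. -/
theorem zplus {X : Subgroup G} (hX : ACC X) {s₁ s₂ : ℕ} (hs₁ : s₁.Prime) (hs₂ : s₂.Prime) (hne : s₁ ≠ s₂)
    (hd₁ : s₁ ∣ X.index) (hd₂ : s₂ ∣ X.index) {e₁ e₂ : G} (he₁ : e₁ ∈ X) (he₂ : e₂ ∈ X) (hp₁ : PE s₁ e₁)
    (hp₂ : PE s₂ e₂) (hc₁ : e₁ ∉ center G) (hc₂ : e₂ ∉ center G) : False := by
  have ha : ∀ e ∈ X, (∀ x ∈ X, x * e = e * x) → ∀ g, g * e = e * g → g ∉ X → e ∈ center G := by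
    intro e he _ g hg hgX
    by_contra hec
    apply hgX
    rw [← hX e he hec]
    exact mem_C.mpr hg
  refine lemmaZ X hs₁ hs₂ hne (fun e he h1 _ => ha e he h1) (fun e he h1 _ => ha e he h1)
    ⟨e₁, he₁, fun x hx => hX.comm he₁ hx, hp₁, hc₁⟩ ⟨e₂, he₂, fun x hx => hX.comm he₂ hx, hp₂, hc₂⟩ ?_ ?_
  · exact exists_norm X hs₁ (fun e he _ x hx => hX.comm he hx) hd₁ he₁ hp₁ hc₁ (fun e he _ hc => hX e he hc)
  · exact exists_norm X hs₂ (fun e he _ x hx => hX.comm he hx) hd₂ he₂ hp₂ hc₂ (fun e he _ hc => hX e he hc)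

end Norm

section Pd

variable {H : Type*} [Group H]

/-- Every element of order prime to `t₀` is central or has class size `d`. -/
def Pd (H : Type*) [Group H] (t₀ d : ℕ) : Prop :=
  ∀ e : H, (orderOf e).Coprime t₀ → e ∈ center H ∨ (C e).index = d

variable [Finite H] {t₀ d : ℕ}

theorem Pd.index_eq (hP : Pd H t₀ d) {e : H} (he : (orderOf e).Coprime t₀) (hc : e ∉ center H) : (C e).index = d :=
  (hP e he).resolve_left hc

/-- Commuting elements of coprime orders prime to `t₀` have the same centralizer. -/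
theorem Pd.C_eq (hP : Pd H t₀ d) {e f : H} (hc : e * f = f * e) (hcop : (orderOf e).Coprime (orderOf f))
    (he : (orderOf e).Coprime t₀) (hf : (orderOf f).Coprime t₀) (he' : e ∉ center H) : C e = C f ∨ f ∈ center H := by
  by_cases hf' : f ∈ center H
  · exact Or.inr hf'
  left
  have hle1 : C (e * f) ≤ C e := C_le_C_of_mem_zpowers (mem_zpowers_mul_of_coprime hc hcop)
  have hle2 : C (e * f) ≤ C f := C_le_C_of_mem_zpowers (mem_zpowers_mul_of_coprime' hc hcop)
  have hord : (orderOf (e * f)).Coprime t₀ := by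
    have hcomm : Commute e f := hc
    rw [hcomm.orderOf_mul_eq_mul_orderOf_of_coprime hcop]
    exact Nat.Coprime.mul_left he hf
  have hnc : e * f ∉ center H := by
    intro h
    apply he'
    have h1 := C_eq_top_iff.mpr h
    exact C_eq_top_iff.mp (top_le_iff.mp (h1 ▸ hle1))
  have i1 := hP.index_eq hord hnc
  have i2 := hP.index_eq he he'
  have i3 := hP.index_eq hf hf'
  have e1 := eq_of_le_of_index_eq hle1 (i1.trans i2.symm)
  have e2 := eq_of_le_of_index_eq hle2 (i1.trans i3.symm)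
  rw [← e1, e2]

/-- A Sylow subgroup for a prime dividing `d` is not central (given a non-central element). -/
theorem Pd.not_le_C (hP : Pd H t₀ d) {s : ℕ} (hsd : s ∣ d) {e : H} (he : (orderOf e).Coprime t₀) (hc : e ∉ center H)
    [Fact s.Prime] (S : Sylow s H) : ¬ (S : Subgroup H) ≤ C e := by
  intro hle
  have h1 : (C e).index ∣ (S : Subgroup H).index := index_dvd_of_le hle
  rw [hP.index_eq he hc] at h1
  exact S.not_dvd_index (hsd.trans h1)

theorem Pd.not_le_center (hP : Pd H t₀ d) {s : ℕ} (hsd : s ∣ d) {e : H} (he : (orderOf e).Coprime t₀)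
    (hc : e ∉ center H) [Fact s.Prime] (S : Sylow s H) : ¬ (S : Subgroup H) ≤ center H :=
  fun hle => hP.not_le_C hsd he hc S (hle.trans (center_le_C e))

/-- Upper central elements in a Sylow subgroup. -/
theorem Pd.exists_up (hP : Pd H t₀ d) {s : ℕ} (hs : s.Prime) (hsd : s ∣ d) {e : H} (he : (orderOf e).Coprime t₀)
    (hc : e ∉ center H) [Fact s.Prime] (S : Sylow s H) :
    ∃ v ∈ (S : Subgroup H), v ∉ center H ∧ ∀ c ∈ (S : Subgroup H), c ∈ normalizer (C v : Subgroup H) := by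
  obtain ⟨v, hvS, hvc, hv⟩ := exists_upper hs S.isPGroup' (hP.not_le_center hsd he hc S)
  exact ⟨v, hvS, hvc, fun c hcS => mem_normalizer_C_of_comm (hv c hcS)⟩

/-- **(D1)** -/
theorem Pd.D1 (hP : Pd H t₀ d) (ht₀ : t₀.Prime) {l l' : ℕ} (hl : l.Prime) (hl' : l'.Prime) (hne : l ≠ l')
    (h1 : l ≠ t₀) (h2 : l' ≠ t₀) (hdl : l ∣ d) (hdl' : l' ∣ d) {e₀ : H} (he₀ : (orderOf e₀).Coprime t₀)
    (he₀' : e₀ ∉ center H) : False := by
  haveI : Fact l.Prime := ⟨hl⟩
  haveI : Fact l'.Prime := ⟨hl'⟩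
  obtain ⟨S⟩ : Nonempty (Sylow l H) := inferInstance
  obtain ⟨S'⟩ : Nonempty (Sylow l' H) := inferInstance
  obtain ⟨y, hyS, hyc, hyN⟩ := hP.exists_up hl hdl he₀ he₀' S
  have hyp : PE l y := PE.of_mem_isPGroup S.isPGroup' hyS
  have hyo : (orderOf y).Coprime t₀ := hyp.coprime hl ht₀ h1
  obtain ⟨w₀, hw₀S, hw₀c⟩ : ∃ w₀ ∈ (S' : Subgroup H), w₀ ∉ center H := by
    by_contra hno
    push Not at hno
    exact hP.not_le_center hdl' he₀ he₀' S' hno
  have hw₀p : PE l' w₀ := PE.of_mem_isPGroup S'.isPGroup' hw₀S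
  have hw₀o : (orderOf w₀).Coprime t₀ := hw₀p.coprime hl' ht₀ h2
  -- X contains a non-central l'-element
  have hiy := hP.index_eq hyo hyc
  have hiw := hP.index_eq hw₀o hw₀c
  have hrel : (center H).relIndex (C y) = (center H).relIndex (C w₀) := by
    have a1 := relIndex_mul_index (center_le_C y)
    have a2 := relIndex_mul_index (center_le_C w₀)
    rw [hiy] at a1
    rw [hiw] at a2
    have hd0 : 0 < d := by
      rw [← hiy]
      exact Nat.pos_of_ne_zero index_ne_zero_of_finite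
    exact Nat.eq_of_mul_eq_mul_right hd0 (a1.trans a2.symm)
  have hdv : l' ∣ (center H).relIndex (C y) := by
    rw [hrel]
    exact dvd_relIndex_center hl' (self_mem_C w₀) hw₀c hw₀p
  obtain ⟨w, hwX, hwp, hwc⟩ := exists_primary_of_dvd_relIndex (center_le_C y) hl' hdv
  have hwo : (orderOf w).Coprime t₀ := hwp.coprime hl' ht₀ h2
  have hwy : w * y = y * w := mem_C.mp hwX
  have hcop : (orderOf w).Coprime (orderOf y) := hwp.coprime_orderOf hl' hl hne.symm hyp
  have hCw : C w = C y := (hP.C_eq hwy hcop hwo hyo hwc).resolve_right hyc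
  -- all primary elements of `X`
  have hA : ∀ e ∈ C y, PE l e → e ∉ center H → C e = C y := by
    intro e he hep hec
    have hc : e * w = w * e := by
      have : e ∈ C w := hCw ▸ he
      exact mem_C.mp this
    have h3 := (hP.C_eq hc (hep.coprime_orderOf hl hl' hne hwp) (hep.coprime hl ht₀ h1) hwo hec).resolve_right hwc
    rw [h3, hCw]
  have hA' : ∀ e ∈ C y, PE l' e → e ∉ center H → C e = C y := by
    intro e he hep hec
    have hc : e * y = y * e := mem_C.mp he
    exact (hP.C_eq hc (hep.coprime_orderOf hl' hl hne.symm hyp) (hep.coprime hl' ht₀ h2) hyo hec).resolve_right hyc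
  have hB : ∀ {s : ℕ}, (∀ e ∈ C y, PE s e → e ∉ center H → C e = C y) →
      ∀ e ∈ C y, PE s e → ∀ x ∈ C y, x * e = e * x := by
    intro s hs e he hep x hx
    by_cases hec : e ∈ center H
    · exact mem_center_iff.mp hec x
    · rw [← hs e he hep hec] at hx
      exact mem_C.mp hx
  have hBa : ∀ {s : ℕ}, (∀ e ∈ C y, PE s e → e ∉ center H → C e = C y) →
      ∀ e ∈ C y, (∀ x ∈ C y, x * e = e * x) → PE s e → ∀ g, g * e = e * g → g ∉ C y → e ∈ center H := by
    intro s hs e he _ hep g hg hgX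
    by_contra hec
    apply hgX
    rw [← hs e he hep hec]
    exact mem_C.mpr hg
  refine lemmaZ (C y) hl hl' hne (hBa hA) (hBa hA')
    ⟨y, self_mem_C y, fun x hx => mem_C.mp hx, hyp, hyc⟩ ⟨w, hwX, hB hA' w hwX hwp, hwp, hwc⟩ ?_ ?_
  · obtain ⟨c, hcS, hcX⟩ : ∃ c ∈ (S : Subgroup H), c ∉ C y := by
      by_contra hno
      push Not at hno
      exact hP.not_le_C hdl hyo hyc S hno
    exact ⟨c, hyN c hcS, hcX, PE.of_mem_isPGroup S.isPGroup' hcS⟩
  · refine exists_norm (C y) hl' (hB hA') ?_ hwX hwp hwc hA'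
    rw [hiy]
    exact hdl'

/-- **(K)** -/
theorem Pd.K (hP : Pd H t₀ d) (ht₀ : t₀.Prime) {r j : ℕ} (hr : r.Prime) (hd : d = r ^ j) (hrt₀ : r ≠ t₀) {t : ℕ}
    (ht : t.Prime) (htt₀ : t ≠ t₀) (htr : t ≠ r) {f : H} (hfp : PE t f) (hfc : f ∉ center H) : False := by
  haveI : Fact r.Prime := ⟨hr⟩
  obtain ⟨R⟩ : Nonempty (Sylow r H) := inferInstance
  have hfi : (C f).index = r ^ j := by
    rw [← hd]
    exact hP.index_eq (hfp.coprime ht ht₀ htt₀) hfc
  have hstep : ∀ v ∈ (R : Subgroup H), ∃ ρ ∈ (R : Subgroup H), ρ * v * ρ⁻¹ ∈ C f := by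
    intro v hv
    have hvp : PE r v := PE.of_mem_isPGroup R.isPGroup' hv
    have hcop : ¬ t ∣ (C v).index := by
      rcases hP v (hvp.coprime hr ht₀ hrt₀) with h1 | h1
      · rw [C_eq_top_iff.mpr h1, index_top]
        exact fun h => ht.one_lt.ne' (Nat.dvd_one.mp h)
      · rw [h1, hd]
        intro h
        exact htr ((Nat.prime_dvd_prime_iff_eq ht hr).mp (ht.dvd_of_dvd_pow h))
    obtain ⟨g, hg⟩ := exists_conj_mem ht hfp hcop
    -- `f` commutes with `g⁻¹ v g`
    have h1 : g⁻¹ * v * g ∈ C f := by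
      rw [mem_C]
      have h2 := mem_C.mp hg
      have e1 : g⁻¹ * v * g * f = g⁻¹ * (v * (g * f * g⁻¹)) * g := by group
      have e2 : f * (g⁻¹ * v * g) = g⁻¹ * ((g * f * g⁻¹) * v) * g := by group
      rw [e1, e2, h2]
    obtain ⟨c, hc, u, hu, e⟩ := Cfsg.Agent.Lib.ClassSizes.exists_centralizer_mul_sylow hfi R g⁻¹
    refine ⟨u, hu, ?_⟩
    have e3 : u * v * u⁻¹ = c⁻¹ * (g⁻¹ * v * g) * c := by
      have hg' : g = (c * u)⁻¹ := by rw [← e]; group
      rw [hg']
      group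
    rw [e3]
    exact (C f).mul_mem ((C f).mul_mem ((C f).inv_mem hc) h1) hc
  let D : Subgroup (R : Subgroup H) := (C f).subgroupOf (R : Subgroup H)
  have hD : D = ⊤ := by
    apply eq_top_of_forall_conj_mem
    rintro ⟨v, hv⟩
    obtain ⟨ρ, hρ, h⟩ := hstep v hv
    exact ⟨⟨ρ, hρ⟩, h⟩
  have hle : (R : Subgroup H) ≤ C f := by
    intro v hv
    have : (⟨v, hv⟩ : (R : Subgroup H)) ∈ D := hD ▸ mem_top _
    exact this
  have h1 : (C f).index ∣ (R : Subgroup H).index := index_dvd_of_le hle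
  rw [hfi] at h1
  rcases j with _ | j
  · rw [pow_zero] at hfi
    exact hfc (C_eq_top_iff.mp (index_eq_one.mp hfi))
  · exact R.not_dvd_index ((dvd_pow_self r (Nat.succ_ne_zero j)).trans h1)

/-- Conjugacy of centralizers, from an element of a prime not dividing `d`. -/
theorem Pd.exists_conj_C (hP : Pd H t₀ d) (ht₀ : t₀.Prime) {t s : ℕ} (ht : t.Prime) (hs : s.Prime) (htt₀ : t ≠ t₀)
    (hst₀ : s ≠ t₀) (hts : t ≠ s) (htd : ¬ t ∣ d) {f v : H} (hfp : PE t f) (hvp : PE s v) (hfc : f ∉ center H)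
    (hvc : v ∉ center H) : ∃ h : H, C v = C (h * f * h⁻¹) ∧ v * (h * f * h⁻¹) = (h * f * h⁻¹) * v := by
  have hi : ¬ t ∣ (C v).index := by
    rw [hP.index_eq (hvp.coprime hs ht₀ hst₀) hvc]
    exact htd
  obtain ⟨h, hh⟩ := exists_conj_mem ht hfp hi
  refine ⟨h, ?_, (mem_C.mp hh).symm⟩
  exact (hP.C_eq (mem_C.mp hh).symm (hvp.coprime_orderOf hs ht hts.symm (hfp.conj h)) (hvp.coprime hs ht₀ hst₀)
    ((hfp.conj h).coprime ht ht₀ htt₀) hvc).resolve_right (conj_not_mem_center hfc h)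

end Pd

end Cfsg.Agent.Lib.PGroup.Ito
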