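import Mathlib
import Cfsg.Agent.Lib.PGroup.ItoPd
import Cfsg.Agent.Lib.Char.Burnside
import Cfsg.Agent.Lib.Core.Basic
import Cfsg.Agent.Lib.FrobThm.Basic
import Cfsg.Agent.Lib.FrobThm.FixedPointFree

/-!
# Itô's theorem: solvability criteria
-/

set_option autoImplicit false

namespace Cfsg.Agent.Lib.PGroup.Ito

open Subgroup

section

variable {G : Type*} [Group G] [Finite G]

theorem solvable_ext (N : Subgroup G) [N.Normal] (h1 : Group.IsSolvable N) (h2 : Group.IsSolvable (G ⧸ N)) :
    Group.IsSolvable G := by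
  refine solvable_of_ker_le_range N.subtype (QuotientGroup.mk' N) ?_
  rw [QuotientGroup.ker_mk', range_subtype]

theorem eq_pow_mul_pow {q r n : ℕ} (hq : q.Prime) (hn : n ≠ 0) (h : ∀ l, l.Prime → l ∣ n → l = q ∨ l = r) :
    ∃ a b, n = q ^ a * r ^ b := by
  obtain ⟨a, m, hm, rfl⟩ := Nat.exists_eq_pow_mul_and_not_dvd hn q hq.ne_one
  have hm0 : m ≠ 0 := by
    rintro rfl
    simp at hn
  refine ⟨a, m.primeFactorsList.length, ?_⟩
  have h1 := Nat.eq_prime_pow_of_unique_prime_dvd hm0 (p := r) (fun {d} hd hdm => by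
    rcases h d hd (hdm.trans (dvd_mul_left m _)) with e | e
    · exact absurd (e ▸ hdm) hm
    · exact e)
  rw [← h1]

theorem solvable_quot_of_primes {E : Type*} [Group E] [Finite E] (π : G →* E) (hπ : Function.Surjective π)
    (N : Subgroup E) [N.Normal] {q r : ℕ} (hq : q.Prime) (hr : r.Prime)
    (h : ∀ l, l.Prime → l ≠ q → l ≠ r → ∀ y : G, PE l y → π y ∈ N) : Group.IsSolvable (E ⧸ N) := by
  have hidx : N.index = (N.comap π).index := (index_comap_of_surjective N hπ).symm
  have hn : N.index ≠ 0 := index_ne_zero_of_finite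
  have hp : ∀ l, l.Prime → l ∣ N.index → l = q ∨ l = r := by
    intro l hl hd
    by_contra hno
    push Not at hno
    rw [hidx] at hd
    obtain ⟨y, -, hy1, hy2⟩ := exists_primary_of_dvd_relIndex (X := ⊤) (W := N.comap π) le_top hl
      (by rwa [relIndex_top_right])
    exact hy2 (h l hl hno.1 hno.2 y hy1)
  obtain ⟨a, b, hab⟩ := eq_pow_mul_pow hq hn hp
  exact Cfsg.Agent.Lib.Char.isSolvable_of_card q r a b hq hr hab

/-- Conjugates of `x` commute: the normal closure is abelian. -/
theorem normalClosure_comm {E : Type*} [Group E] {x : E}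
    (h : ∀ g k : E, (g * x * g⁻¹) * (k * x * k⁻¹) = (k * x * k⁻¹) * (g * x * g⁻¹)) :
    ∀ a ∈ normalClosure ({x} : Set E), ∀ b ∈ normalClosure ({x} : Set E), a * b = b * a := by
  have hS : ∀ a ∈ Group.conjugatesOfSet ({x} : Set E), ∀ b ∈ Group.conjugatesOfSet ({x} : Set E), a * b = b * a := by
    intro a ha b hb
    obtain ⟨x', rfl, hax⟩ := Group.mem_conjugatesOfSet_iff.mp ha
    obtain ⟨x'', rfl, hbx⟩ := Group.mem_conjugatesOfSet_iff.mp hb
    obtain ⟨g, rfl⟩ := isConj_iff.mp hax
    obtain ⟨k, rfl⟩ := isConj_iff.mp hbx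
    exact h g k
  letI := closureCommGroupOfComm hS
  intro a ha b hb
  exact congrArg Subtype.val (mul_comm (⟨a, ha⟩ : closure (Group.conjugatesOfSet ({x} : Set E))) ⟨b, hb⟩)

theorem solvable_of_primary {p q : ℕ} (hp : p.Prime) (hq : q.Prime)
    (h : ∀ l, l.Prime → l ≠ q → ∀ x : G, PE l x → ∃ e, (C x).index = p ^ e) : Group.IsSolvable G := by
  haveI : Fact p.Prime := ⟨hp⟩
  let O := Cfsg.pCore p G
  haveI : O.Normal := Cfsg.Agent.Lib.Core.pCore_normal p G
  let E := G ⧸ O
  let F := Cfsg.fittingSubgroup E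
  haveI : F.Normal := Cfsg.Agent.Lib.Core.fittingSubgroup_normal E
  have hbot : Cfsg.pCore p E = ⊥ := Cfsg.Agent.Lib.Core.pCore_quotient_pCore_eq_bot (p := p) (G := G)
  let π : G →* E := QuotientGroup.mk' O
  have hπ : Function.Surjective π := QuotientGroup.mk'_surjective O
  have hT : ∀ l, l.Prime → l ≠ q → l ≠ q → ∀ y : G, PE l y → π y ∈ F := by
    intro l hl hlq _ y hy
    obtain ⟨e, he⟩ := h l hl hlq y hy
    obtain ⟨b, hb⟩ := Cfsg.Agent.Lib.ClassSizes.exists_index_centralizer_map hp O he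
    have hc := Cfsg.Agent.Lib.ClassSizes.conj_commute_of_pCore_eq_bot hbot (y : E) hb
    have hcomm := normalClosure_comm hc
    have hN : (normalClosure ({(y : E)} : Set E)).Normal := normalClosure_normal
    have hnil : Group.IsNilpotent (normalClosure ({(y : E)} : Set E)) := by
      letI : CommGroup (normalClosure ({(y : E)} : Set E)) :=
        { (normalClosure ({(y : E)} : Set E)).toGroup with
          mul_comm := fun a b => Subtype.ext (hcomm a a.2 b b.2) }
      infer_instance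
    exact Cfsg.Agent.Lib.Core.le_fittingSubgroup hN hnil (subset_normalClosure rfl)
  have h1 : Group.IsSolvable (E ⧸ F) := solvable_quot_of_primes π hπ F hq hq hT
  have h2 : Group.IsSolvable F := by
    haveI := Cfsg.Agent.Lib.Core.isNilpotent_fittingSubgroup E
    infer_instance
  have h3 : Group.IsSolvable E := solvable_ext F h2 h1
  have h4 : Group.IsSolvable O := by
    haveI := (Cfsg.Agent.Lib.Core.pCore_isPGroup p G).isNilpotent
    infer_instance
  exact solvable_ext O h4 h3

/-- A coprime lifting lemma. -/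
theorem exists_comm_of_comm_mem {B : Type*} [Group B] [Finite B] {q r : ℕ} (hq : q.Prime) (hr : r.Prime)
    (hne : q ≠ r) (O : Subgroup B) [hOn : O.Normal] (hO : IsPGroup q O) {x u : B} (hx : PE r x)
    (h : x * u * x⁻¹ * u⁻¹ ∈ O) : ∃ o ∈ O, (u * o) * x = x * (u * o) := by
  classical
  haveI : Fact q.Prime := ⟨hq⟩
  haveI : Fact r.Prime := ⟨hr⟩
  haveI : Fintype O := Fintype.ofFinite O
  have ho₀ : u⁻¹ * x * u * x⁻¹ ∈ O := by
    have := hOn.conj_mem _ h u⁻¹
    have e : u⁻¹ * (x * u * x⁻¹ * u⁻¹) * u⁻¹⁻¹ = u⁻¹ * x * u * x⁻¹ := by group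
    rwa [e] at this
  have hcj : ∀ o ∈ O, x * o * x⁻¹ ∈ O := fun o ho => hOn.conj_mem o ho x
  let φ : O → O := fun o => ⟨(u⁻¹ * x * u * x⁻¹) * (x * o * x⁻¹), O.mul_mem ho₀ (hcj o o.2)⟩
  have hφ : ∀ o : O, u * ((φ o : O) : B) = x * (u * o) * x⁻¹ := by
    intro o
    show u * ((u⁻¹ * x * u * x⁻¹) * (x * o * x⁻¹)) = x * (u * o) * x⁻¹
    group
  have hinj : Function.Injective φ := by
    intro a b hab
    have h1 := hφ a
    rw [hab, hφ b] at h1
    have h2 : u * (a : B) = u * b := by
      have := mul_left_cancel (mul_right_cancel h1)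
      exact this.symm
    exact Subtype.ext (mul_left_cancel h2)
  let σ : Equiv.Perm O := Equiv.ofBijective φ (Finite.injective_iff_bijective.mp hinj)
  have hσ : ∀ (n : ℕ) (o : O), u * (((σ ^ n) o : O) : B) = x ^ n * (u * o) * (x ^ n)⁻¹ := by
    intro n
    induction n with
    | zero => intro o; simp
    | succ n ih =>
      intro o
      rw [pow_succ', Equiv.Perm.mul_apply]
      have : u * ((σ ((σ ^ n) o) : O) : B) = x * (u * ((σ ^ n) o : O)) * x⁻¹ := hφ _
      rw [this, ih, pow_succ']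
      group
  obtain ⟨k, hk⟩ := hx
  have hσ1 : σ ^ r ^ k = 1 := by
    ext o
    have h1 := hσ (r ^ k) o
    rw [hk] at h1
    simp only [one_mul, inv_one, mul_one] at h1
    exact mul_left_cancel h1
  have hcard : ¬ r ∣ Fintype.card O := by
    rw [← Nat.card_eq_fintype_card]
    obtain ⟨m, hm⟩ := IsPGroup.iff_card.mp hO
    rw [hm]
    intro hd
    exact hne ((Nat.prime_dvd_prime_iff_eq hr hq).mp (hr.dvd_of_dvd_pow hd)).symm
  obtain ⟨o, ho⟩ := Equiv.Perm.exists_fixed_point_of_prime hcard hσ1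
  refine ⟨o, o.2, ?_⟩
  have h1 : ((φ o : O) : B) = o := congrArg Subtype.val ho
  have h2 := hφ o
  rw [h1] at h2
  calc u * (o : B) * x = (x * (u * o) * x⁻¹) * x := by rw [← h2]
    _ = x * (u * o) := by group

/-- The branch with a Sylow subgroup normalizing an abelian self-centralizing subgroup. -/
theorem solvable_KB {q r : ℕ} (hq : q.Prime) (hr : r.Prime) (hne : q ≠ r) (R : Sylow r G) {x : G}
    (hxR : x ∈ (R : Subgroup G)) (hxU : ∀ c ∈ (R : Subgroup G), x * c * x⁻¹ * c⁻¹ ∈ center G)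
    (hXab : ∀ a ∈ C x, ∀ b ∈ C x, a * b = b * a) {i j : ℕ} (hidx : (C x).index = q ^ i * r ^ j)
    (hconj : ∀ l, l.Prime → l ≠ q → l ≠ r → ∀ y, PE l y → y ∉ center G →
      ∃ g, C y = Cfsg.Agent.Lib.Techniques.conjS g (C x)) : Group.IsSolvable G := by
  haveI : Fact q.Prime := ⟨hq⟩
  haveI : Fact r.Prime := ⟨hr⟩
  have hxp : PE r x := PE.of_mem_isPGroup R.isPGroup' hxR
  -- `N(X)` is solvable
  have hNX : Group.IsSolvable (normalizer (C x : Subgroup G) : Subgroup G) := by
    let NX : Subgroup G := normalizer (C x : Subgroup G)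
    have hle : C x ≤ NX := le_normalizer
    let X' : Subgroup NX := (C x).subgroupOf NX
    haveI : X'.Normal := (normal_subgroupOf_iff_le_normalizer hle).mpr le_rfl
    have h1 : Group.IsSolvable X' := by
      apply isSolvable_of_comm
      rintro ⟨⟨a, ha⟩, ha'⟩ ⟨⟨b, hb⟩, hb'⟩
      exact Subtype.ext (Subtype.ext (hXab a ha' b hb'))
    have h2 : Group.IsSolvable (NX ⧸ X') := by
      have hd : X'.index ∣ q ^ i * r ^ j := by
        rw [← hidx]
        exact ⟨NX.index, (relIndex_mul_index hle).symm⟩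
      have hp : ∀ l, l.Prime → l ∣ X'.index → l = q ∨ l = r := by
        intro l hl hdl
        rcases (hl.dvd_mul).mp (hdl.trans hd) with h3 | h3
        · exact Or.inl ((Nat.prime_dvd_prime_iff_eq hl hq).mp (hl.dvd_of_dvd_pow h3))
        · exact Or.inr ((Nat.prime_dvd_prime_iff_eq hl hr).mp (hl.dvd_of_dvd_pow h3))
      obtain ⟨a, b, hab⟩ := eq_pow_mul_pow hq index_ne_zero_of_finite hp
      exact Cfsg.Agent.Lib.Char.isSolvable_of_card q r a b hq hr hab
    exact solvable_ext X' h1 h2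
  -- quotients
  let Z := center G
  let B := G ⧸ Z
  let π₁ : G →* B := QuotientGroup.mk' Z
  have hπ₁ : Function.Surjective π₁ := QuotientGroup.mk'_surjective Z
  let O := Cfsg.pCore q B
  haveI hOn : O.Normal := Cfsg.Agent.Lib.Core.pCore_normal q B
  let E := B ⧸ O
  let π₂ : B →* E := QuotientGroup.mk' O
  have hπ₂ : Function.Surjective π₂ := QuotientGroup.mk'_surjective O
  let π : G →* E := π₂.comp π₁
  have hπ : Function.Surjective π := hπ₂.comp hπ₁
  have hbot : Cfsg.pCore q E = ⊥ := Cfsg.Agent.Lib.Core.pCore_quotient_pCore_eq_bot (p := q) (G := B)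
  -- class of the image of `x` in `B`
  have hclB : ∃ e, (C (π₁ x)).index = q ^ e := by
    let D := (C (π₁ x)).comap π₁
    have h1 : D.index = (C (π₁ x)).index := index_comap_of_surjective _ hπ₁
    have h2 : C x ≤ D := by
      intro g hg
      show π₁ g ∈ C (π₁ x)
      rw [mem_C, ← map_mul, ← map_mul, mem_C.mp hg]
    have h3 : (R : Subgroup G) ≤ D := by
      intro c hc
      show π₁ c ∈ C (π₁ x)
      rw [mem_C]
      have h4 : π₁ (x * c * x⁻¹ * c⁻¹) = 1 := (QuotientGroup.eq_one_iff _).mpr (hxU c hc)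
      simp only [map_mul, map_inv] at h4
      have h5 : π₁ x * π₁ c = π₁ c * π₁ x := by
        have := congrArg (fun t => t * π₁ c * π₁ x) h4
        simpa using this
      exact h5.symm
    have h4 : D.index ∣ q ^ i * r ^ j := by
      rw [← hidx]
      exact index_dvd_of_le h2
    have h5 : ¬ r ∣ D.index := fun h => R.not_dvd_index (h.trans (index_dvd_of_le h3))
    have h6 : D.index.Coprime (r ^ j) := Nat.Coprime.pow_right _ (((Nat.Prime.coprime_iff_not_dvd hr).mpr h5).symm)
    have h7 : D.index ∣ q ^ i := h6.dvd_of_dvd_mul_right h4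
    obtain ⟨e, -, he⟩ := (Nat.dvd_prime_pow hq).mp h7
    exact ⟨e, by rw [← h1, he]⟩
  obtain ⟨e, he⟩ := hclB
  obtain ⟨b, hb⟩ := Cfsg.Agent.Lib.ClassSizes.exists_index_centralizer_map hq O he
  have hcE := Cfsg.Agent.Lib.ClassSizes.conj_commute_of_pCore_eq_bot hbot ((π₁ x : B) : E) hb
  have hcomm := normalClosure_comm hcE
  let xh : E := π x
  let Nh : Subgroup E := normalClosure ({xh} : Set E)
  haveI hNn : Nh.Normal := normalClosure_normal
  have hNcomm : ∀ a ∈ Nh, ∀ b ∈ Nh, a * b = b * a := hcomm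
  have hxhp : PE r xh := hxp.map π
  have hNp : ∀ a ∈ Nh, PE r a := by
    intro a ha
    have hgen : ∀ t ∈ Group.conjugatesOfSet ({xh} : Set E), PE r t := by
      intro t ht
      obtain ⟨x', rfl, hax⟩ := Group.mem_conjugatesOfSet_iff.mp ht
      obtain ⟨g, rfl⟩ := isConj_iff.mp hax
      exact hxhp.conj g
    refine Subgroup.closure_induction (p := fun a _ => PE r a) hgen (PE.one r) ?_ ?_ ha
    · intro u v hu hv hup hvp
      exact PE.mul (hNcomm u hu v hv) hup hvp
    · intro u _ hup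
      exact hup.inv
  have hNpg : IsPGroup r Nh := by
    rintro ⟨a, ha⟩
    obtain ⟨k, hk⟩ := hNp a ha
    exact ⟨k, Subtype.ext (by simpa using hk)⟩
  let Rh : Sylow r E := R.mapSurjective hπ
  have hNR : Nh ≤ (R : Subgroup G).map π := by
    have h1 : Nh ≤ Cfsg.pCore r E := Cfsg.Agent.Lib.Core.le_pCore hNn hNpg
    have h2 := Cfsg.Agent.Lib.Core.pCore_le_sylow (p := r) Rh
    have h3 : (Rh : Subgroup E) = (R : Subgroup G).map π := Sylow.coe_mapSurjective hπ R
    rw [h3] at h2
    exact h1.trans h2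
  let Ch : Subgroup E := centralizer (Nh : Set E)
  haveI hChn : Ch.Normal := by infer_instance
  -- Claim 1
  have hcl1 : ∀ l, l.Prime → l ≠ q → l ≠ r → ∀ y : G, PE l y → π y ∈ Ch := by
    intro l hl hlq hlr y hy
    by_cases hyc : y ∈ center G
    · rw [mem_centralizer_iff]
      intro a _
      have : π y ∈ center E := by
        rw [mem_center_iff]
        intro g
        obtain ⟨g', rfl⟩ := hπ g
        rw [← map_mul, ← map_mul, mem_center_iff.mp hyc g']
      exact (mem_center_iff.mp this a).symm ▸ rfl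
    obtain ⟨g, hg⟩ := hconj l hl hlq hlr y hy hyc
    have hy0 : g⁻¹ * y * g ∈ C x := by
      have h1 := self_mem_C y
      rw [hg, Cfsg.Agent.Lib.Techniques.mem_conjS] at h1
      exact h1
    have hy0p : PE l (g⁻¹ * y * g) := by
      have := hy.conj g⁻¹
      simpa using this
    have hmain : π (g⁻¹ * y * g) ∈ Ch := by
      rw [mem_centralizer_iff]
      intro bh hbh
      obtain ⟨c, hc, hcb⟩ := hNR hbh
      have hcN : c ∈ normalizer (C x : Subgroup G) := mem_normalizer_C_of_comm (hxU c hc)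
      obtain ⟨y₀, hy₀⟩ : ∃ y₀, y₀ = g⁻¹ * y * g := ⟨_, rfl⟩
      rw [← hy₀] at hy0 hy0p ⊢
      have hcy : c * y₀⁻¹ * c⁻¹ ∈ C x := (mem_normalizer_iff.mp hcN _).mp ((C x).inv_mem hy0)
      have hwX : y₀ * (c * y₀⁻¹ * c⁻¹) ∈ C x := (C x).mul_mem hy0 hcy
      have hwp : PE l (y₀ * (c * y₀⁻¹ * c⁻¹)) :=
        PE.mul (hXab _ hy0 _ hcy) hy0p (hy0p.inv.conj c)
      have h1 : π (y₀ * (c * y₀⁻¹ * c⁻¹)) = π y₀ * bh * (π y₀)⁻¹ * bh⁻¹ := by
        simp only [map_mul, map_inv, hcb]
        group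
      have h2 : π y₀ * bh * (π y₀)⁻¹ * bh⁻¹ ∈ Nh := Nh.mul_mem (hNn.conj_mem _ hbh _) (Nh.inv_mem hbh)
      have h3 : PE r (π (y₀ * (c * y₀⁻¹ * c⁻¹))) := by
        rw [h1]
        exact hNp _ h2
      have h4 := (hwp.map π).eq_one_of_coprime hl hr hlr h3
      rw [h1] at h4
      have h5 : π y₀ * bh = bh * π y₀ := by
        have := congrArg (fun t => t * bh * π y₀) h4
        simpa using this
      exact h5.symm
    have e1 : π y = π g * π (g⁻¹ * y * g) * (π g)⁻¹ := by
      simp only [map_mul, map_inv]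
      group
    rw [e1]
    exact hChn.conj_mem _ hmain _
  -- Claim 2
  have hcl2 : Ch ≤ (normalizer (C x : Subgroup G)).map π := by
    intro ch hch
    obtain ⟨b₀, rfl⟩ := hπ₂ ch
    obtain ⟨u, rfl⟩ := hπ₁ b₀
    have hxN : xh ∈ Nh := subset_normalClosure rfl
    have h1 : xh * π₂ (π₁ u) = π₂ (π₁ u) * xh := mem_centralizer_iff.mp hch xh hxN
    have h2 : π₁ x * π₁ u * (π₁ x)⁻¹ * (π₁ u)⁻¹ ∈ O := by
      have h3 : π₂ (π₁ x * π₁ u * (π₁ x)⁻¹ * (π₁ u)⁻¹) = 1 := by
        simp only [map_mul, map_inv]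
        have h4 : π₂ (π₁ x) * π₂ (π₁ u) = π₂ (π₁ u) * π₂ (π₁ x) := h1
        rw [h4]
        group
      exact (QuotientGroup.eq_one_iff _).mp h3
    obtain ⟨o, ho, ho'⟩ := exists_comm_of_comm_mem hq hr hne O (Cfsg.Agent.Lib.Core.pCore_isPGroup q B)
      (hxp.map π₁) h2
    obtain ⟨l, rfl⟩ := hπ₁ o
    have hw : x * (u * l) * x⁻¹ * (u * l)⁻¹ ∈ center G := by
      apply (QuotientGroup.eq_one_iff _).mp
      show π₁ (x * (u * l) * x⁻¹ * (u * l)⁻¹) = 1
      simp only [map_mul, map_inv]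
      have h5 : π₁ x * (π₁ u * π₁ l) = (π₁ u * π₁ l) * π₁ x := ho'.symm
      rw [h5]
      group
    refine ⟨u * l, mem_normalizer_C_of_comm hw, ?_⟩
    have h6 : π₂ (π₁ l) = 1 := (QuotientGroup.eq_one_iff _).mpr ho
    show π₂ (π₁ (u * l)) = π₂ (π₁ u)
    rw [map_mul, map_mul, h6, mul_one]
  have hsolCh : Group.IsSolvable Ch := by
    have h1 : Group.IsSolvable ((normalizer (C x : Subgroup G)).map π) := by
      refine solvable_of_surjective (f := π.subgroupMap (normalizer (C x : Subgroup G))) ?_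
      exact π.subgroupMap_surjective _
    exact solvable_of_solvable_injective (f := inclusion hcl2) (inclusion_injective hcl2)
  have hsolE : Group.IsSolvable E :=
    solvable_ext Ch hsolCh (solvable_quot_of_primes π hπ Ch hq hr hcl1)
  have hsolO : Group.IsSolvable O := by
    haveI := (Cfsg.Agent.Lib.Core.pCore_isPGroup q B).isNilpotent
    infer_instance
  have hsolB : Group.IsSolvable B := solvable_ext O hsolO hsolE
  have hsolZ : Group.IsSolvable Z := by
    apply isSolvable_of_comm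
    rintro ⟨a, ha⟩ ⟨b, hb⟩
    exact Subtype.ext (mem_center_iff.mp hb a)
  exact solvable_ext Z hsolZ hsolB

open scoped Pointwise in
/-- A self-normalizing `ACC` subgroup gives a Frobenius group modulo the centre. -/
theorem solvable_of_selfnorm {X : Subgroup G} (hX : ACC X) (hZ : center G ≤ X)
    (hN : normalizer (X : Set G) = X) (hne : X ≠ ⊤) {e₀ : G} (he₀ : e₀ ∈ X) (he₀c : e₀ ∉ center G) :
    Group.IsSolvable G := by
  classical
  let Z := center G
  let B := G ⧸ Z
  let π : G →* B := QuotientGroup.mk' Z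
  have hπ : Function.Surjective π := QuotientGroup.mk'_surjective Z
  let XB : Subgroup B := X.map π
  have hker : ∀ g, π g = 1 ↔ g ∈ center G := fun g => QuotientGroup.eq_one_iff g
  have hmem : ∀ g, π g ∈ XB ↔ g ∈ X := by
    intro g
    constructor
    · rintro ⟨x, hx, hxg⟩
      have h1 : π (x⁻¹ * g) = 1 := by rw [map_mul, map_inv, hxg, inv_mul_cancel]
      have h2 := hZ ((hker _).mp h1)
      have e : g = x * (x⁻¹ * g) := by group
      rw [e]
      exact X.mul_mem hx h2
    · intro hg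
      exact ⟨g, hg, rfl⟩
  have hF : Cfsg.IsFrobeniusComplement XB := by
    refine ⟨?_, ?_, ?_⟩
    · intro h
      have : π e₀ ∈ XB := (hmem e₀).mpr he₀
      rw [h, mem_bot] at this
      exact he₀c ((hker _).mp this)
    · intro h
      apply hne
      rw [eq_top_iff]
      intro g _
      rw [← hmem, h]
      exact mem_top _
    · intro gb hgb
      obtain ⟨g, rfl⟩ := hπ gb
      have hgX : g ∉ X := fun hg => hgb ((hmem g).mpr hg)
      rw [eq_bot_iff]
      rintro yb ⟨hy1, hy2⟩
      obtain ⟨y, rfl⟩ := hπ yb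
      have hyX : y ∈ X := (hmem y).mp hy1
      rw [mem_bot, hker]
      by_contra hyc
      obtain ⟨xb, hxb, hxy⟩ := hy2
      obtain ⟨x, hx, rfl⟩ := hxb
      have h3 : π (g⁻¹ * y * g) = π x := by
        rw [map_mul, map_mul, map_inv]
        have h4 : π g * π x * (π g)⁻¹ = π y := hxy
        rw [← h4]
        group
      have hy' : g⁻¹ * y * g ∈ X := by
        rw [← hmem, h3]
        exact (hmem x).mpr hx
      have hy'c : g⁻¹ * y * g ∉ center G := by
        have := conj_not_mem_center hyc g⁻¹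
        simpa using this
      have e1 : C y = X := hX y hyX hyc
      have e2 : C (g⁻¹ * y * g) = X := hX _ hy' hy'c
      have e3 : y = g * (g⁻¹ * y * g) * g⁻¹ := by group
      have e4 : C y = Cfsg.Agent.Lib.Techniques.conjS g X := by
        conv_lhs => rw [e3]
        rw [C_conj, e2]
      apply hgX
      rw [← hN, mem_normalizer_iff]
      intro a
      have e5 : X = Cfsg.Agent.Lib.Techniques.conjS g X := e1.symm.trans e4
      constructor
      · intro ha
        rw [e5, Cfsg.Agent.Lib.Techniques.mem_conjS]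
        have e6 : g⁻¹ * (g * a * g⁻¹) * g = a := by group
        rwa [e6]
      · intro ha
        rw [e5, Cfsg.Agent.Lib.Techniques.mem_conjS] at ha
        have e6 : g⁻¹ * (g * a * g⁻¹) * g = a := by group
        rwa [e6] at ha
  obtain ⟨N, -, hNn, hNc⟩ := Cfsg.Agent.Lib.FrobThm.frobenius_theorem XB hF
  -- a prime order element of `XB`
  have hXBne : XB ≠ ⊥ := hF.1
  obtain ⟨r, xb, hr, hxb, hxb1, hxbr⟩ : ∃ (r : ℕ) (xb : B), r.Prime ∧ xb ∈ XB ∧ xb ≠ 1 ∧ xb ^ r = 1 := by
    have h1 : Nat.card XB ≠ 1 := fun h => hXBne (eq_bot_of_card_eq XB h)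
    obtain ⟨r, hr, hrd⟩ := Nat.exists_prime_and_dvd h1
    haveI : Fact r.Prime := ⟨hr⟩
    obtain ⟨x, hx⟩ := exists_prime_orderOf_dvd_card' r hrd
    refine ⟨r, x, hr, x.2, ?_, ?_⟩
    · intro h
      have : x = 1 := Subtype.ext h
      rw [this, orderOf_one] at hx
      exact hr.one_lt.ne hx
    · have := pow_orderOf_eq_one x
      rw [hx] at this
      simpa using congrArg Subtype.val this
  have hdisj : N ⊓ XB = ⊥ := hNc.disjoint.eq_bot
  have hNsolv : Group.IsSolvable N := by
    haveI := hNn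
    let α : N ≃* N := MulAut.conjNormal xb
    have hαap : ∀ y : N, ((α y : N) : B) = xb * y * xb⁻¹ := fun y => rfl
    have hfix : ∀ y, α y = y → y = 1 := by
      intro y hy
      by_contra hy1
      have hy1' : (y : B) ≠ 1 := fun e => hy1 (Subtype.ext e)
      have hyX : (y : B) ∉ XB := by
        intro h
        have : (y : B) ∈ N ⊓ XB := ⟨y.2, h⟩
        rw [hdisj, mem_bot] at this
        exact hy1' this
      have h2 := hF.2.2 _ hyX
      have h3 : xb ∈ XB ⊓ (MulAut.conj (y : B) • XB) := by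
        refine ⟨hxb, ⟨xb, hxb, ?_⟩⟩
        have h4 : xb * y * xb⁻¹ = y := by
          rw [← hαap, hy]
        show (y : B) * xb * (y : B)⁻¹ = xb
        rw [mul_inv_eq_iff_eq_mul]
        rw [mul_inv_eq_iff_eq_mul] at h4
        exact h4.symm
      rw [h2, mem_bot] at h3
      exact hxb1 h3
    have hiter : ∀ (k : ℕ) (y : N), ((α^[k] y : N) : B) = xb ^ k * y * (xb ^ k)⁻¹ := by
      intro k
      induction k with
      | zero => intro y; simp
      | succ k ih =>
        intro y
        rw [Function.iterate_succ_apply', hαap, ih, pow_succ']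
        group
    have hαr : ∀ y, α^[r] y = y := by
      intro y
      apply Subtype.ext
      rw [hiter, hxbr]
      simp
    have := Cfsg.Agent.Lib.FrobThm.fpf_nilpotent hr α hfix hαr
    infer_instance
  have hXBsolv : Group.IsSolvable XB := by
    apply isSolvable_of_comm
    rintro ⟨a, ha⟩ ⟨b, hb⟩
    obtain ⟨x, hx, rfl⟩ := ha
    obtain ⟨y, hy, rfl⟩ := hb
    apply Subtype.ext
    show π x * π y = π y * π x
    rw [← map_mul, ← map_mul, (hX.comm hy hx)]
  haveI := hNn
  have hq : Group.IsSolvable (B ⧸ N) := by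
    refine solvable_of_surjective (f := (QuotientGroup.mk' N).comp XB.subtype) ?_
    intro b
    obtain ⟨b', rfl⟩ := QuotientGroup.mk_surjective b
    obtain ⟨⟨n, x⟩, hnx⟩ := hNc.2 b'
    refine ⟨x, ?_⟩
    show ((x : B) : B ⧸ N) = (b' : B ⧸ N)
    rw [← hnx]
    show ((x : B) : B ⧸ N) = (((n : B) * (x : B) : B) : B ⧸ N)
    rw [QuotientGroup.mk_mul]
    have : ((n : B) : B ⧸ N) = 1 := (QuotientGroup.eq_one_iff _).mpr n.2
    rw [this, one_mul]
  have hB : Group.IsSolvable B := solvable_ext N hNsolv hq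
  have hsolZ : Group.IsSolvable Z := by
    apply isSolvable_of_comm
    rintro ⟨a, ha⟩ ⟨b, hb⟩
    exact Subtype.ext (mem_center_iff.mp hb a)
  exact solvable_ext Z hsolZ hB

/-- Union bound for the conjugates of `X` off the centre. -/
theorem card_cover_le (X : Subgroup G) (hZ : center G ≤ X) :
    ∃ F : Finset G, F.card + Nat.card (center G) * (normalizer (X : Set G)).index
        ≤ (normalizer (X : Set G)).index * Nat.card X ∧
      ∀ x ∈ X, x ∉ center G → ∀ g : G, g * x * g⁻¹ ∈ F := by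
  classical
  haveI : Fintype G := Fintype.ofFinite G
  let N : Subgroup G := normalizer (X : Set G)
  let φ : (G ⧸ N) × ↥X → G := fun p => (p.1.out) * (p.2 : G) * (p.1.out)⁻¹
  let A : Finset ((G ⧸ N) × ↥X) := (Finset.univ : Finset ((G ⧸ N) × ↥X)).filter (fun p => (p.2 : G) ∉ center G)
  refine ⟨A.image φ, ?_, ?_⟩
  · have h1 : (A.image φ).card ≤ A.card := Finset.card_image_le
    let A₁ : Finset ↥X := (Finset.univ : Finset ↥X).filter (fun p : ↥X => (p : G) ∉ center G)
    let A₂ : Finset ↥X := (Finset.univ : Finset ↥X).filter (fun p : ↥X => (p : G) ∈ center G)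
    have h2 : A = (Finset.univ : Finset (G ⧸ N)) ×ˢ A₁ := by
      ext p
      simp [A, A₁]
    have h3 : A.card = N.index * A₁.card := by
      rw [h2, Finset.card_product]
      congr 1
      rw [Finset.card_univ, ← Nat.card_eq_fintype_card]
      rfl
    have h4 : A₂.card + A₁.card = Nat.card X := by
      have := Finset.card_filter_add_card_filter_not (s := (Finset.univ : Finset ↥X)) (fun p : ↥X => (p : G) ∈ center G)
      rw [Finset.card_univ, ← Nat.card_eq_fintype_card] at this
      exact this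
    have h5 : Nat.card (center G) ≤ A₂.card := by
      rw [Nat.card_eq_fintype_card, ← Finset.card_univ]
      refine Finset.card_le_card_of_injOn (fun z => ⟨z, hZ z.2⟩) ?_ ?_
      · intro z _
        simp only [A₂, Finset.coe_filter, Finset.mem_univ, true_and, Set.mem_setOf_eq]
        exact z.2
      · intro a _ b _ hab
        exact Subtype.ext (congrArg (fun t : ↥X => (t : G)) hab)
    show (A.image φ).card + Nat.card (center G) * N.index ≤ N.index * Nat.card X
    rw [← h4, mul_add]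
    have h6 : Nat.card (center G) * N.index ≤ N.index * A₂.card := by
      rw [mul_comm]
      exact Nat.mul_le_mul_left _ h5
    rw [h3] at h1
    omega
  · intro x hx hxc g
    obtain ⟨n, hn⟩ := QuotientGroup.mk_out_eq_mul N g
    have hn' : (n : G)⁻¹ ∈ normalizer (X : Set G) := N.inv_mem n.2
    have hmem : (n : G)⁻¹ * x * (n : G) ∈ X := by
      have h1 := (mem_normalizer_iff.mp hn' x).mp hx
      simpa using h1
    have hc : (n : G)⁻¹ * x * (n : G) ∉ center G := by
      have := conj_not_mem_center hxc (n : G)⁻¹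
      simpa using this
    refine Finset.mem_image.mpr ⟨((g : G ⧸ N), ⟨(n : G)⁻¹ * x * (n : G), hmem⟩), ?_, ?_⟩
    · simp only [A, Finset.mem_filter, Finset.mem_univ, true_and]
      exact hc
    · show ((g : G ⧸ N).out) * ((n : G)⁻¹ * x * (n : G)) * ((g : G ⧸ N).out)⁻¹ = g * x * g⁻¹
      rw [hn]
      group

theorem partition_arith {g z k₁ k₂ x₁ x₂ n₁ n₂ f₁ f₂ : ℕ} (hz : 0 < z) (hk₁ : 0 < k₁) (hk₂ : 0 < k₂)
    (h1 : k₁ * n₁ = g) (h2 : k₂ * n₂ = g) (h3 : 2 * x₁ ≤ n₁) (h4 : 2 * x₂ ≤ n₂)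
    (hf₁ : f₁ + z * k₁ ≤ k₁ * x₁) (hf₂ : f₂ + z * k₂ ≤ k₂ * x₂) (h5 : g ≤ z + (f₁ + f₂)) : False := by
  have a1 : k₁ * (2 * x₁) ≤ k₁ * n₁ := Nat.mul_le_mul_left _ h3
  have a2 : k₂ * (2 * x₂) ≤ k₂ * n₂ := Nat.mul_le_mul_left _ h4
  have a3 : z ≤ z * k₁ := Nat.le_mul_of_pos_right _ hk₁
  have a4 : z ≤ z * k₂ := Nat.le_mul_of_pos_right _ hk₂
  rw [h1] at a1
  rw [h2] at a2
  nlinarith

/-- Covering by the conjugates of two subgroups, neither self-normalizing, is impossible. -/
theorem partition_false {X₁ X₂ : Subgroup G} (hZ₁ : center G ≤ X₁) (hZ₂ : center G ≤ X₂)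
    (h₁ : normalizer (X₁ : Set G) ≠ X₁) (h₂ : normalizer (X₂ : Set G) ≠ X₂)
    (hcov : ∀ x, x ∉ center G → ∃ g y, (y ∈ X₁ ∨ y ∈ X₂) ∧ x = g * y * g⁻¹) : False := by
  classical
  haveI : Fintype G := Fintype.ofFinite G
  obtain ⟨F₁, hF₁, hm₁⟩ := card_cover_le X₁ hZ₁
  obtain ⟨F₂, hF₂, hm₂⟩ := card_cover_le X₂ hZ₂
  have hn : ∀ X : Subgroup G, normalizer (X : Set G) ≠ X →
      2 * Nat.card X ≤ Nat.card (normalizer (X : Set G)) := by
    intro X hX
    have hle : X ≤ normalizer (X : Set G) := le_normalizer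
    obtain ⟨c, hc⟩ := card_dvd_of_le hle
    have hc0 : c ≠ 0 := by
      rintro rfl
      simp at hc
    have hc1 : c ≠ 1 := by
      rintro rfl
      rw [mul_one] at hc
      exact hX (eq_of_le_of_card_ge hle hc.le).symm
    have : 2 ≤ c := by omega
    rw [hc, mul_comm]
    exact Nat.mul_le_mul_left _ this
  have hcard : Nat.card G ≤ Nat.card (center G) + (F₁.card + F₂.card) := by
    let Zf : Finset G := (Finset.univ : Finset G).filter (fun x => x ∈ center G)
    have hZf : Zf.card = Nat.card (center G) := by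
      rw [Nat.card_eq_fintype_card, Fintype.card_subtype]
    have hsub : (Finset.univ : Finset G) ⊆ Zf ∪ (F₁ ∪ F₂) := by
      intro x _
      by_cases hx : x ∈ center G
      · exact Finset.mem_union_left _ (by simp [Zf, hx])
      · obtain ⟨g, y, hy, rfl⟩ := hcov x hx
        have hyc : y ∉ center G := by
          intro hyc
          apply hx
          rw [mem_center_iff.mp hyc g]
          simpa using hyc
        refine Finset.mem_union_right _ ?_
        rcases hy with hy | hy
        · exact Finset.mem_union_left _ (hm₁ y hy hyc g)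
        · exact Finset.mem_union_right _ (hm₂ y hy hyc g)
    have h1 := Finset.card_le_card hsub
    have h2 := Finset.card_union_le Zf (F₁ ∪ F₂)
    have h3 := Finset.card_union_le F₁ F₂
    rw [Finset.card_univ, ← Nat.card_eq_fintype_card] at h1
    omega
  refine partition_arith (Nat.card_pos) (Nat.pos_of_ne_zero index_ne_zero_of_finite)
    (Nat.pos_of_ne_zero index_ne_zero_of_finite) ?_ ?_ (hn X₁ h₁) (hn X₂ h₂) hF₁ hF₂ hcard
  · rw [mul_comm]; exact card_mul_index _
  · rw [mul_comm]; exact card_mul_index _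

end

end Cfsg.Agent.Lib.PGroup.Ito
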