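import Mathlib
import Cfsg.Agent.Lib.PGroup.ItoSolv

/-!
# Itô's theorem: the case of two class sizes, neither dividing the other
-/

set_option autoImplicit false

namespace Cfsg.Agent.Lib.PGroup.Ito

open Subgroup Cfsg.Agent.Lib.Techniques

variable {G : Type*} [Group G] [Finite G]

theorem exists_primary_in {X Y : Subgroup G} (hZX : center G ≤ X) (hZY : center G ≤ Y) (hidx : X.index ∣ Y.index)
    {l : ℕ} (hl : l.Prime) {y : G} (hy : y ∈ Y) (hyp : PE l y) (hyc : y ∉ center G) :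
    ∃ e ∈ X, PE l e ∧ e ∉ center G := by
  have h1 := dvd_relIndex_center hl hy hyc hyp
  have a1 := relIndex_mul_index hZX
  have a2 := relIndex_mul_index hZY
  obtain ⟨k, hk⟩ := hidx
  have h2 : (center G).relIndex X = (center G).relIndex Y * k := by
    have hi : 0 < X.index := Nat.pos_of_ne_zero index_ne_zero_of_finite
    refine Nat.eq_of_mul_eq_mul_right hi ?_
    rw [a1, ← a2, hk]
    ring
  exact exists_primary_of_dvd_relIndex hZX hl (h2 ▸ h1.trans (dvd_mul_right _ _))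

theorem not_mem_center_of_index {u : G} {a : ℕ} (hu : (C u).index = a) (ha : 1 < a) : u ∉ center G := by
  intro h
  rw [C_eq_top_iff.mpr h, index_top] at hu
  omega

/-- The hypotheses of Case I. -/
structure CaseI (G : Type*) [Group G] (a b : ℕ) : Prop where
  cl : ∀ x : G, (C x).index = 1 ∨ (C x).index = a ∨ (C x).index = b
  ha : 1 < a
  hb : 1 < b
  hab : ¬ a ∣ b
  hba : ¬ b ∣ a

theorem CaseI.swap {a b : ℕ} (h : CaseI G a b) : CaseI G b a :=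
  ⟨fun x => by
    rcases h.cl x with h1 | h1 | h1
    · exact Or.inl h1
    · exact Or.inr (Or.inr h1)
    · exact Or.inr (Or.inl h1), h.hb, h.ha, h.hba, h.hab⟩

variable {a b : ℕ}

theorem CaseI.nc (h : CaseI G a b) {x : G} (hx : x ∉ center G) : (C x).index = a ∨ (C x).index = b := by
  rcases h.cl x with h1 | h1
  · exact absurd (C_eq_top_iff.mp (index_eq_one.mp h1)) hx
  · exact h1

theorem CaseI.C_eq_of_le (h : CaseI G a b) {x y : G} (hx : x ∉ center G) (hy : y ∉ center G) (hle : C x ≤ C y) :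
    C x = C y := by
  have hd : (C y).index ∣ (C x).index := index_dvd_of_le hle
  apply eq_of_le_of_index_eq hle
  rcases h.nc hx with h1 | h1 <;> rcases h.nc hy with h2 | h2
  · rw [h1, h2]
  · rw [h1, h2] at hd
    exact absurd hd h.hba
  · rw [h1, h2] at hd
    exact absurd hd h.hab
  · rw [h1, h2]

theorem CaseI.C_eq_of_coprime (h : CaseI G a b) {x y : G} (hc : x * y = y * x)
    (hcop : (orderOf x).Coprime (orderOf y)) (hx : x ∉ center G) (hy : y ∉ center G) : C x = C y := by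
  have hle1 : C (x * y) ≤ C x := C_le_C_of_mem_zpowers (mem_zpowers_mul_of_coprime hc hcop)
  have hle2 : C (x * y) ≤ C y := C_le_C_of_mem_zpowers (mem_zpowers_mul_of_coprime' hc hcop)
  have hnc : x * y ∉ center G := by
    intro h1
    apply hx
    have h2 := C_eq_top_iff.mpr h1
    exact C_eq_top_iff.mp (top_le_iff.mp (h2 ▸ hle1))
  rw [← h.C_eq_of_le hnc hx hle1, h.C_eq_of_le hnc hy hle2]

theorem CaseI.C_eq_primary (h : CaseI G a b) {w y : G} (hw : w ∉ center G) (hy : y ∈ zpowers w) (hyc : y ∉ center G) :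
    C w = C y :=
  h.C_eq_of_le hw hyc (C_le_C_of_mem_zpowers hy)

theorem CaseI.acc_of_two (h : CaseI G a b) {x e f : G} {p q : ℕ} (hp : p.Prime) (hq : q.Prime) (hpq : p ≠ q)
    (hx : x ∉ center G) (he : e ∈ C x) (hf : f ∈ C x) (hep : PE p e) (hfp : PE q f) (hec : e ∉ center G)
    (hfc : f ∉ center G) : ACC (C x) := by
  obtain ⟨t, x', ht, hx', hxp, hxc⟩ := exists_primary_not_mem' (center G) hx
  have e0 : C x = C x' := h.C_eq_primary hx hx' hxc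
  rw [e0] at he hf ⊢
  -- a primary element of the centralizer of `x'` of a different prime has the same centralizer
  have key : ∀ {s : ℕ} {y : G}, s.Prime → s ≠ t → y ∈ C x' → PE s y → y ∉ center G → C y = C x' := by
    intro s y hs hst hy hyp hyc
    exact h.C_eq_of_coprime (mem_C.mp hy) (hyp.coprime_orderOf hs ht hst hxp) hyc hxc
  obtain ⟨s₁, e₁, hs₁, hs₁t, he₁, hp₁, hc₁⟩ :
      ∃ (s₁ : ℕ) (e₁ : G), s₁.Prime ∧ s₁ ≠ t ∧ e₁ ∈ C x' ∧ PE s₁ e₁ ∧ e₁ ∉ center G := by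
    by_cases hpt : p = t
    · exact ⟨q, f, hq, fun hh => hpq (hpt.trans hh.symm), hf, hfp, hfc⟩
    · exact ⟨p, e, hp, hpt, he, hep, hec⟩
  have he₁C : C e₁ = C x' := key hs₁ hs₁t he₁ hp₁ hc₁
  intro w hw hwc
  obtain ⟨s, y, hs, hy, hyp, hyc⟩ := exists_primary_not_mem' (center G) hwc
  rw [h.C_eq_primary hwc hy hyc]
  have hyX : y ∈ C x' := (zpowers_le.mpr hw) hy
  by_cases hst : s = t
  · have hss : s ≠ s₁ := fun e => hs₁t (e.symm.trans hst)
    have hye : y ∈ C e₁ := he₁C ▸ hyX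
    have := h.C_eq_of_coprime (mem_C.mp hye) (hyp.coprime_orderOf hs hs₁ hss hp₁) hyc hc₁
    rw [this, he₁C]
  · exact key hs hst hyX hyp hyc

/-- The prime `l` occurs in the centralizers of elements of type `a`. -/
def Ra (G : Type*) [Group G] (a l : ℕ) : Prop :=
  l.Prime ∧ ∃ (u e : G), (C u).index = a ∧ e ∈ C u ∧ PE l e ∧ e ∉ center G

theorem Ra.exists_mem {l : ℕ} (h : Ra G a l) {u : G} (hu : (C u).index = a) : ∃ e ∈ C u, PE l e ∧ e ∉ center G := by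
  obtain ⟨hl, u₀, e, hu₀, he, hep, hec⟩ := h
  exact exists_primary_in (center_le_C u) (center_le_C u₀) (by rw [hu, hu₀]) hl he hep hec

theorem Ra.of_nc {l : ℕ} (hl : l.Prime) {e : G} (hep : PE l e) (hec : e ∉ center G) : Ra G (C e).index l :=
  ⟨hl, e, e, rfl, self_mem_C e, hep, hec⟩

theorem CaseI.acc_of_Ra (h : CaseI G a b) {l₁ l₂ : ℕ} (h₁ : Ra G a l₁) (h₂ : Ra G a l₂) (hne : l₁ ≠ l₂) {u : G}
    (hu : (C u).index = a) : ACC (C u) := by
  obtain ⟨e₁, he₁, hp₁, hc₁⟩ := h₁.exists_mem hu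
  obtain ⟨e₂, he₂, hp₂, hc₂⟩ := h₂.exists_mem hu
  exact h.acc_of_two h₁.1 h₂.1 hne (not_mem_center_of_index hu h.ha) he₁ he₂ hp₁ hp₂ hc₁ hc₂

theorem CaseI.not_both (h : CaseI G a b) {l₁ l₂ : ℕ} (h₁ : Ra G a l₁) (h₂ : Ra G a l₂) (hne : l₁ ≠ l₂) (hd₁ : l₁ ∣ a)
    (hd₂ : l₂ ∣ a) : False := by
  obtain ⟨_, u, _, hu, _⟩ := id h₁
  obtain ⟨e₁, he₁, hp₁, hc₁⟩ := h₁.exists_mem hu
  obtain ⟨e₂, he₂, hp₂, hc₂⟩ := h₂.exists_mem hu
  exact zplus (h.acc_of_Ra h₁ h₂ hne hu) h₁.1 h₂.1 hne (hu ▸ hd₁) (hu ▸ hd₂) he₁ he₂ hp₁ hp₂ hc₁ hc₂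

theorem CaseI.conj_of_Ra (h : CaseI G a b) {l₁ l₂ r : ℕ} (h₁ : Ra G a l₁) (h₂ : Ra G a l₂) (hne : l₁ ≠ l₂)
    (hr : Ra G a r) (hra : ¬ r ∣ a) {u u' : G} (hu : (C u).index = a) (hu' : (C u').index = a) :
    ∃ g, C u' = conjS g (C u) := by
  obtain ⟨e, he, hep, hec⟩ := hr.exists_mem hu
  obtain ⟨g, hg⟩ := exists_conj_mem hr.1 hep (X := C u') (by rwa [hu'])
  refine ⟨g, ?_⟩
  have e1 := h.acc_of_Ra h₁ h₂ hne hu' _ hg (conj_not_mem_center hec g)
  have e2 := h.acc_of_Ra h₁ h₂ hne hu e he hec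
  rw [← e1, C_conj, e2]

theorem CaseI.solvable_of_good (h : CaseI G a b) (hAa : ∀ u : G, (C u).index = a → ACC (C u))
    (hAb : ∀ u : G, (C u).index = b → ACC (C u))
    (hCa : ∀ u u' : G, (C u).index = a → (C u').index = a → ∃ g, C u' = conjS g (C u))
    (hCb : ∀ u u' : G, (C u).index = b → (C u').index = b → ∃ g, C u' = conjS g (C u)) {u₀ v₀ : G}
    (hu₀ : (C u₀).index = a) (hv₀ : (C v₀).index = b) : Group.IsSolvable G := by
  have hu₀c := not_mem_center_of_index hu₀ h.ha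
  have hv₀c := not_mem_center_of_index hv₀ h.hb
  by_cases h₁ : normalizer (C u₀ : Set G) = C u₀
  · refine solvable_of_selfnorm (hAa u₀ hu₀) (center_le_C u₀) h₁ ?_ (self_mem_C u₀) hu₀c
    intro h3
    exact hu₀c (C_eq_top_iff.mp h3)
  by_cases h₂ : normalizer (C v₀ : Set G) = C v₀
  · refine solvable_of_selfnorm (hAb v₀ hv₀) (center_le_C v₀) h₂ ?_ (self_mem_C v₀) hv₀c
    intro h3
    exact hv₀c (C_eq_top_iff.mp h3)
  exfalso
  refine partition_false (center_le_C u₀) (center_le_C v₀) h₁ h₂ ?_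
  intro x hx
  rcases h.nc hx with h1 | h1
  · obtain ⟨g, hg⟩ := hCa u₀ x hu₀ h1
    have hmem := self_mem_C x
    rw [hg, mem_conjS] at hmem
    exact ⟨g, g⁻¹ * x * g, Or.inl hmem, by group⟩
  · obtain ⟨g, hg⟩ := hCb v₀ x hv₀ h1
    have hmem := self_mem_C x
    rw [hg, mem_conjS] at hmem
    exact ⟨g, g⁻¹ * x * g, Or.inr hmem, by group⟩

/-- Case I when two primes occur in the type `a` centralizers. -/
theorem caseI_aux (h : CaseI G a b) {u₀ v₀ : G} (hu₀ : (C u₀).index = a) (hv₀ : (C v₀).index = b) {l₁ l₂ : ℕ}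
    (h₁ : Ra G a l₁) (h₂ : Ra G a l₂) (hne : l₁ ≠ l₂) : Group.IsSolvable G := by
  have hAa := fun u hu => h.acc_of_Ra (u := u) h₁ h₂ hne hu
  obtain ⟨r, hr, hra⟩ : ∃ r, Ra G a r ∧ ¬ r ∣ a := by
    by_cases hd₁ : l₁ ∣ a
    · by_cases hd₂ : l₂ ∣ a
      · exact absurd (h.not_both h₁ h₂ hne hd₁ hd₂) id
      · exact ⟨l₂, h₂, hd₂⟩
    · exact ⟨l₁, h₁, hd₁⟩
  have hCa := fun u u' hu hu' => h.conj_of_Ra (u := u) (u' := u') h₁ h₂ hne hr hra hu hu'
  by_cases h2 : ∃ k₁ k₂, k₁ ≠ k₂ ∧ Ra G b k₁ ∧ Ra G b k₂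
  · obtain ⟨k₁, k₂, hk, hk₁, hk₂⟩ := h2
    have hs := h.swap
    have hAb := fun u hu => hs.acc_of_Ra (u := u) hk₁ hk₂ hk hu
    obtain ⟨r', hr', hra'⟩ : ∃ r, Ra G b r ∧ ¬ r ∣ b := by
      by_cases hd₁ : k₁ ∣ b
      · by_cases hd₂ : k₂ ∣ b
        · exact absurd (hs.not_both hk₁ hk₂ hk hd₁ hd₂) id
        · exact ⟨k₂, hk₂, hd₂⟩
      · exact ⟨k₁, hk₁, hd₁⟩
    have hCb := fun u u' hu hu' => hs.conj_of_Ra (u := u) (u' := u') hk₁ hk₂ hk hr' hra' hu hu'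
    exact h.solvable_of_good hAa hAb hCa hCb hu₀ hv₀
  · push Not at h2
    have hv₀c := not_mem_center_of_index hv₀ h.hb
    obtain ⟨q, y, hq, hy, hyp, hyc⟩ := exists_primary_not_mem' (center G) hv₀c
    have hqb : Ra G b q := by
      refine ⟨hq, v₀, y, hv₀, ?_, hyp, hyc⟩
      exact (zpowers_le.mpr (self_mem_C v₀)) hy
    have hq_uniq : ∀ l, Ra G b l → l = q := by
      intro l hl
      by_contra hlq
      exact h2 l q hlq hl hqb
    have hTypeA : ∀ l, l.Prime → l ≠ q → ∀ e : G, PE l e → e ∉ center G → (C e).index = a := by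
      intro l hl hlq e hep hec
      rcases h.nc hec with h3 | h3
      · exact h3
      · exact absurd (hq_uniq l (h3 ▸ Ra.of_nc hl hep hec)) hlq
    have hRa : ∀ l, l.Prime → l ≠ q → l ∣ a → Ra G a l := by
      intro l hl hlq hla
      have h3 : a ∣ (center G).index := by
        rw [← hu₀]
        exact index_dvd_of_le (center_le_C u₀)
      obtain ⟨e, -, hep, hec⟩ := exists_primary_of_dvd_relIndex (X := ⊤) (W := center G) le_top hl
        (by rw [relIndex_top_right]; exact hla.trans h3)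
      have := Ra.of_nc hl hep hec
      rwa [hTypeA l hl hlq e hep hec] at this
    by_cases hr₁ : ∃ r₁, r₁.Prime ∧ r₁ ≠ q ∧ r₁ ∣ a
    · obtain ⟨r₁, hr₁p, hr₁q, hr₁a⟩ := hr₁
      have hR₁ := hRa r₁ hr₁p hr₁q hr₁a
      have hprimes : ∀ l, l.Prime → l ∣ a → l = q ∨ l = r₁ := by
        intro l hl hla
        by_contra hno
        push Not at hno
        exact h.not_both (hRa l hl hno.1 hla) hR₁ hno.2 hla hr₁a
      obtain ⟨i, j, hij⟩ := eq_pow_mul_pow hq (by have := h.ha; omega) hprimes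
      haveI : Fact r₁.Prime := ⟨hr₁p⟩
      obtain ⟨R⟩ : Nonempty (Sylow r₁ G) := inferInstance
      have hRne : ¬ (R : Subgroup G) ≤ center G := by
        obtain ⟨e, -, hep, hec⟩ := hR₁.exists_mem hu₀
        obtain ⟨g, hg⟩ := exists_conj_mem (X := (R : Subgroup G)) hr₁p hep (R.not_dvd_index)
        intro hle
        exact conj_not_mem_center hec g (hle hg)
      obtain ⟨x, hxR, hxc, hxU⟩ := exists_upper hr₁p R.isPGroup' hRne
      have hxp : PE r₁ x := PE.of_mem_isPGroup R.isPGroup' hxR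
      have hxa := hTypeA r₁ hr₁p hr₁q x hxp hxc
      have hACC := hAa x hxa
      refine solvable_KB hq hr₁p hr₁q.symm R hxR hxU (fun s hs t ht => hACC.comm ht hs) (i := i) (j := j)
        (hxa.trans hij) ?_
      intro l hl hlq hlr y hyp hyc
      exact hCa x y hxa (hTypeA l hl hlq y hyp hyc)
    · push Not at hr₁
      have ha0 : a ≠ 0 := by have := h.ha; omega
      have hap : a = q ^ a.primeFactorsList.length :=
        Nat.eq_prime_pow_of_unique_prime_dvd ha0 (fun {d} hd hda => by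
          by_contra hdq
          exact hr₁ d hd hdq hda)
      refine solvable_of_primary hq hq ?_
      intro l hl hlq x hxp
      by_cases hxc : x ∈ center G
      · exact ⟨0, by rw [C_eq_top_iff.mpr hxc, index_top, pow_zero]⟩
      · exact ⟨_, (hTypeA l hl hlq x hxp hxc).trans hap⟩

/-- **Case I.** -/
theorem caseI_main (h : CaseI G a b) {u₀ v₀ : G} (hu₀ : (C u₀).index = a) (hv₀ : (C v₀).index = b)
    (h3 : ∀ p q : ℕ, ∃ l, l.Prime ∧ l ≠ p ∧ l ≠ q ∧ ∃ e : G, PE l e ∧ e ∉ center G) : Group.IsSolvable G := by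
  obtain ⟨l₁, hl₁, -, -, e₁, hp₁, hc₁⟩ := h3 0 0
  obtain ⟨l₂, hl₂, h21, -, e₂, hp₂, hc₂⟩ := h3 l₁ l₁
  obtain ⟨l₃, hl₃, h31, h32, e₃, hp₃, hc₃⟩ := h3 l₁ l₂
  have hR₁ := Ra.of_nc hl₁ hp₁ hc₁
  have hR₂ := Ra.of_nc hl₂ hp₂ hc₂
  have hR₃ := Ra.of_nc hl₃ hp₃ hc₃
  -- pigeonhole
  have key : (∃ k₁ k₂, k₁ ≠ k₂ ∧ Ra G a k₁ ∧ Ra G a k₂) ∨ (∃ k₁ k₂, k₁ ≠ k₂ ∧ Ra G b k₁ ∧ Ra G b k₂) := by
    rcases h.nc hc₁ with i1 | i1 <;> rcases h.nc hc₂ with i2 | i2 <;> rcases h.nc hc₃ with i3 | i3 <;>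
      rw [i1] at hR₁ <;> rw [i2] at hR₂ <;> rw [i3] at hR₃
    · exact Or.inl ⟨l₂, l₁, h21, hR₂, hR₁⟩
    · exact Or.inl ⟨l₂, l₁, h21, hR₂, hR₁⟩
    · exact Or.inl ⟨l₃, l₁, h31, hR₃, hR₁⟩
    · exact Or.inr ⟨l₃, l₂, h32, hR₃, hR₂⟩
    · exact Or.inl ⟨l₃, l₂, h32, hR₃, hR₂⟩
    · exact Or.inr ⟨l₃, l₁, h31, hR₃, hR₁⟩
    · exact Or.inr ⟨l₂, l₁, h21, hR₂, hR₁⟩
    · exact Or.inr ⟨l₂, l₁, h21, hR₂, hR₁⟩
  rcases key with ⟨k₁, k₂, hk, hR, hR'⟩ | ⟨k₁, k₂, hk, hR, hR'⟩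
  · exact caseI_aux h hu₀ hv₀ hR hR' hk
  · exact caseI_aux h.swap hv₀ hu₀ hR hR' hk

end Cfsg.Agent.Lib.PGroup.Ito
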