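import Mathlib
import Cfsg.Agent.Lib.PGroup.ItoCaseI

/-!
# Itô's theorem: the case where one nontrivial class size divides the other
-/

set_option autoImplicit false

namespace Cfsg.Agent.Lib.PGroup.Ito

open Subgroup Cfsg.Agent.Lib.Techniques

/-- Upper central elements for two primes, with a common centralizer: the abstract core of (Q). -/
theorem Pd.Qa {H : Type*} [Group H] [Finite H] {a b d : ℕ} (hPa : Pd H a d) (hPb : Pd H b d) (ha : a.Prime)
    (hb : b.Prime) (hab : a ≠ b) (hda : a ∣ d) (hdb : b ∣ d) {t : ℕ} (ht : t.Prime) (hta : t ≠ a) (htb : t ≠ b)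
    {f : H} (hfp : PE t f) (hfc : f ∉ center H) : False := by
  haveI : Fact a.Prime := ⟨ha⟩
  haveI : Fact b.Prime := ⟨hb⟩
  by_cases htd : t ∣ d
  · exact hPb.D1 hb ht ha hta htb hab htd hda (hfp.coprime ht hb htb) hfc
  obtain ⟨Sa⟩ : Nonempty (Sylow a H) := inferInstance
  obtain ⟨y, hyS, hyc, hyN⟩ := hPb.exists_up ha hda (hfp.coprime ht hb htb) hfc Sa
  have hyp : PE a y := PE.of_mem_isPGroup Sa.isPGroup' hyS
  obtain ⟨h, hCy, hcomm⟩ := hPb.exists_conj_C hb ht ha htb hab hta htd hfp hyp hfc hyc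
  obtain ⟨f₁, hf₁⟩ : ∃ f₁, f₁ = h * f * h⁻¹ := ⟨_, rfl⟩
  rw [← hf₁] at hCy hcomm
  have hf₁p : PE t f₁ := hf₁ ▸ hfp.conj h
  have hf₁c : f₁ ∉ center H := hf₁ ▸ conj_not_mem_center hfc h
  obtain ⟨Sb⟩ : Nonempty (Sylow b H) := inferInstance
  obtain ⟨yb, hybS, hybc, hybN⟩ := hPa.exists_up hb hdb (hf₁p.coprime ht ha hta) hf₁c Sb
  have hybp : PE b yb := PE.of_mem_isPGroup Sb.isPGroup' hybS
  obtain ⟨h', hCyb, -⟩ := hPa.exists_conj_C ha ht hb hta hab.symm htb htd hf₁p hybp hf₁c hybc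
  -- conjugate `yb` back
  obtain ⟨y', hy'⟩ : ∃ y', y' = h'⁻¹ * yb * h'⁻¹⁻¹ := ⟨_, rfl⟩
  have hCy' : C y' = C f₁ := by
    rw [hy', C_conj, hCyb, C_conj]
    ext x
    rw [mem_conjS, mem_conjS]
    have e : h'⁻¹ * ((h'⁻¹)⁻¹ * x * h'⁻¹) * h' = x := by group
    rw [e]
  have hy'p : PE b y' := hy' ▸ hybp.conj _
  have hy'c : y' ∉ center H := hy' ▸ conj_not_mem_center hybc _
  obtain ⟨c', hc'S, hc'X⟩ : ∃ c' ∈ (Sb : Subgroup H), c' ∉ C yb := by
    by_contra hno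
    push Not at hno
    exact hPa.not_le_C hdb (hybp.coprime hb ha hab.symm) hybc Sb hno
  obtain ⟨c, hcS, hcX⟩ : ∃ c ∈ (Sa : Subgroup H), c ∉ C y := by
    by_contra hno
    push Not at hno
    exact hPb.not_le_C hda (hyp.coprime ha hb hab) hyc Sa hno
  -- `X`
  have ha₁ : ∀ e ∈ C f₁, (∀ x ∈ C f₁, x * e = e * x) → PE a e → ∀ g, g * e = e * g → g ∉ C f₁ → e ∈ center H := by
    intro e he hez hep g hg hgX
    by_contra hec
    have hcm : e * f₁ = f₁ * e := (hez f₁ (self_mem_C f₁)).symm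
    have h1 := (hPb.C_eq hcm (hep.coprime_orderOf ha ht hta.symm hf₁p) (hep.coprime ha hb hab)
      (hf₁p.coprime ht hb htb) hec).resolve_right hf₁c
    exact hgX (h1 ▸ mem_C.mpr hg)
  have ha₂ : ∀ e ∈ C f₁, (∀ x ∈ C f₁, x * e = e * x) → PE b e → ∀ g, g * e = e * g → g ∉ C f₁ → e ∈ center H := by
    intro e he hez hep g hg hgX
    by_contra hec
    have hcm : e * f₁ = f₁ * e := (hez f₁ (self_mem_C f₁)).symm
    have h1 := (hPa.C_eq hcm (hep.coprime_orderOf hb ht htb.symm hf₁p) (hep.coprime hb ha hab.symm)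
      (hf₁p.coprime ht ha hta) hec).resolve_right hf₁c
    exact hgX (h1 ▸ mem_C.mpr hg)
  refine lemmaZ (C f₁) ha hb hab ha₁ ha₂ ?_ ?_ ?_ ?_
  · refine ⟨y, hCy ▸ self_mem_C y, fun x hx => ?_, hyp, hyc⟩
    rw [← hCy] at hx
    exact mem_C.mp hx
  · refine ⟨y', hCy' ▸ self_mem_C y', fun x hx => ?_, hy'p, hy'c⟩
    rw [← hCy'] at hx
    exact mem_C.mp hx
  · exact ⟨c, hCy ▸ hyN c hcS, hCy ▸ hcX, PE.of_mem_isPGroup Sa.isPGroup' hcS⟩
  · refine ⟨h'⁻¹ * c' * h'⁻¹⁻¹, ?_, ?_, (PE.of_mem_isPGroup Sb.isPGroup' hc'S).conj _⟩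
    · rw [← hCy', hy']
      rw [mem_normalizer_iff]
      intro x
      have hN := mem_normalizer_iff.mp (hybN c' hc'S) (h'⁻¹⁻¹ * x * h'⁻¹)
      rw [mem_C_conj, mem_C_conj]
      have e1 : (h'⁻¹)⁻¹ * (h'⁻¹ * c' * h'⁻¹⁻¹ * x * (h'⁻¹ * c' * h'⁻¹⁻¹)⁻¹) * h'⁻¹ = c' * (h'⁻¹⁻¹ * x * h'⁻¹) * c'⁻¹ := by group
      rw [e1]
      have e2 : (h'⁻¹)⁻¹ * x * h'⁻¹ = h'⁻¹⁻¹ * x * h'⁻¹ := rfl
      rw [e2]
      exact hN
    · rw [← hCy', hy', mem_C_conj]
      have e1 : (h'⁻¹)⁻¹ * (h'⁻¹ * c' * h'⁻¹⁻¹) * h'⁻¹ = c' := by group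
      rw [e1]
      exact hc'X

variable {G : Type*} [Group G] [Finite G]

/-- The hypotheses of Case II. -/
structure CaseII (G : Type*) [Group G] (m d : ℕ) : Prop where
  cl : ∀ x : G, (C x).index = 1 ∨ (C x).index = m ∨ (C x).index = m * d
  hm : 1 < m
  hd : 1 < d

variable {m d : ℕ}

theorem CaseII.nc (h : CaseII G m d) {x : G} (hx : x ∉ center G) : (C x).index = m ∨ (C x).index = m * d := by
  rcases h.cl x with h1 | h1
  · exact absurd (C_eq_top_iff.mp (index_eq_one.mp h1)) hx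
  · exact h1

theorem CaseII.exists_in (h : CaseII G m d) {u : G} (hu : (C u).index = m) {l : ℕ} (hl : l.Prime) {e : G}
    (hep : PE l e) (hec : e ∉ center G) : ∃ e' ∈ C u, PE l e' ∧ e' ∉ center G := by
  refine exists_primary_in (center_le_C u) (center_le_C e) ?_ hl (self_mem_C e) hep hec
  rcases h.nc hec with h1 | h1 <;> rw [hu, h1]
  exact dvd_mul_right _ _

theorem CaseII.index_not_dvd (h : CaseII G m d) : ¬ m * d ∣ m := by
  intro h1
  have h2 := Nat.le_of_dvd (by have := h.hm; omega) h1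
  have hm := h.hm
  have hd := h.hd
  nlinarith

theorem CaseII.C_eq_of_central (h : CaseII G m d) {u z : G} (hu : (C u).index = m)
    (hz : ∀ g ∈ C u, g * z = z * g) (hzc : z ∉ center G) : C z = C u := by
  have hle : C u ≤ C z := fun g hg => mem_C.mpr (hz g hg)
  have hdv : (C z).index ∣ m := hu ▸ index_dvd_of_le hle
  rcases h.nc hzc with h1 | h1
  · exact (eq_of_le_of_index_eq hle (by rw [hu, h1])).symm
  · rw [h1] at hdv
    exact absurd hdv h.index_not_dvd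

theorem C_sub (H : Subgroup G) (e : H) : (C e : Subgroup H) = (C (e : G)).subgroupOf H := by
  ext g
  rw [mem_C, mem_subgroupOf, mem_C]
  constructor
  · intro h
    exact congrArg Subtype.val h
  · intro h
    exact Subtype.ext h

theorem index_C_sub (H : Subgroup G) (e : H) : (C e).index = (C (e : G)).relIndex H := by
  rw [C_sub]
  rfl

theorem mem_center_sub {H : Subgroup G} {e : H} : e ∈ center H ↔ ∀ g ∈ H, g * (e : G) = e * g := by
  rw [mem_center_iff]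
  constructor
  · intro h g hg
    exact congrArg Subtype.val (h ⟨g, hg⟩)
  · intro h g
    exact Subtype.ext (h g g.2)

theorem inf_index (H K : Subgroup G) : (H ⊓ K).index = K.relIndex H * H.index := by
  rw [← relIndex_mul_index (inf_le_left : H ⊓ K ≤ H), inf_relIndex_left]

theorem not_center_of_sub {H : Subgroup G} {e : H} (h : e ∉ center H) : (e : G) ∉ center G := by
  intro he
  apply h
  rw [mem_center_sub]
  intro g _
  exact mem_center_iff.mp he g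

/-- `H = C(u)` with a non-central primary element in its centre: the class sizes of `H` off the prime. -/
theorem CaseII.pd (h : CaseII G m d) {u z : G} {t₀ : ℕ} (ht₀ : t₀.Prime) (hu : (C u).index = m) (hz : ∀ g ∈ C u, g * z = z * g)
    (hzp : PE t₀ z) (hzc : z ∉ center G) : Pd (C u) t₀ d := by
  intro e heo
  by_cases hc : e ∈ center (C u)
  · exact Or.inl hc
  right
  have heo' : (orderOf (e : G)).Coprime t₀ := by rwa [Subgroup.orderOf_coe]
  have hCz := h.C_eq_of_central hu hz hzc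
  have hcm : z * e = e * z := (hz e e.2).symm
  have hcop : (orderOf z).Coprime (orderOf (e : G)) := by
    obtain ⟨j, hj⟩ := hzp.orderOf_eq ht₀
    rw [hj]
    exact Nat.Coprime.pow_left _ heo'.symm
  have h1 : C (z * e) = C u ⊓ C (e : G) := by
    apply le_antisymm
    · apply le_inf
      · exact (C_le_C_of_mem_zpowers (mem_zpowers_mul_of_coprime hcm hcop)).trans hCz.le
      · exact C_le_C_of_mem_zpowers (mem_zpowers_mul_of_coprime' hcm hcop)
    · rintro g ⟨hg1, hg2⟩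
      rw [mem_C]
      have hg3 : g * z = z * g := hz g hg1
      have hg4 : g * e = e * g := mem_C.mp hg2
      calc g * (z * e) = (g * z) * e := by group
        _ = (z * g) * e := by rw [hg3]
        _ = z * (g * e) := by group
        _ = z * (e * g) := by rw [hg4]
        _ = z * e * g := by group
  rw [index_C_sub]
  have h2 := inf_index (C u) (C (e : G))
  rw [hu] at h2
  have hk : (C (e : G)).relIndex (C u) ≠ 1 := by
    intro hk
    apply hc
    rw [mem_center_sub]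
    intro g hg
    exact mem_C.mp (relIndex_eq_one.mp hk hg)
  have hm := h.hm
  rcases h.cl (z * e) with h3 | h3 | h3
  · rw [h1, h2] at h3
    have := Nat.eq_one_of_mul_eq_one_left h3
    omega
  · rw [h1, h2] at h3
    exact absurd (Nat.eq_of_mul_eq_mul_right (by omega) (h3.trans (one_mul m).symm)) hk
  · rw [h1, h2, mul_comm m d] at h3
    exact Nat.eq_of_mul_eq_mul_right (by omega) h3

theorem CaseII.exists_primary_type (h : CaseII G m d) {x : G} (hx : (C x).index = m) :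
    ∃ (p : ℕ) (u : G), p.Prime ∧ PE p u ∧ (C u).index = m := by
  have hxc := not_mem_center_of_index hx h.hm
  obtain ⟨p, y, hp, hy, hyp, hyc⟩ := exists_primary_not_mem' (center G) hxc
  refine ⟨p, y, hp, hyp, ?_⟩
  have hdv : (C y).index ∣ m := hx ▸ index_dvd_of_le (C_le_C_of_mem_zpowers hy)
  rcases h.nc hyc with h1 | h1
  · exact h1
  · rw [h1] at hdv
    exact absurd hdv h.index_not_dvd

/-- (CC) -/
theorem CaseII.cc (h : CaseII G m d) {t : ℕ} (ht : t.Prime) {e : G} (hep : PE t e) (hec : e ∉ center G)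
    (htd : ¬ t ∣ d) : t ∣ m := by
  by_contra htm
  haveI : Fact t.Prime := ⟨ht⟩
  have hi : ∀ y : G, ¬ t ∣ (C y).index := by
    intro y hy
    rcases h.cl y with h1 | h1 | h1
    · rw [h1] at hy
      exact ht.one_lt.ne' (Nat.dvd_one.mp hy)
    · rw [h1] at hy
      exact htm hy
    · rw [h1] at hy
      rcases (ht.dvd_mul).mp hy with h2 | h2
      · exact htm h2
      · exact htd h2
  obtain ⟨T⟩ : Nonempty (Sylow t G) := inferInstance
  have htop : centralizer (T : Set G) = ⊤ := by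
    apply eq_top_of_forall_conj_mem
    intro y
    obtain ⟨S, hS⟩ := Cfsg.Agent.Lib.PSolv.exists_sylow_le_of_not_dvd_index (hi y)
    obtain ⟨k, hk⟩ := MulAction.exists_smul_eq G T S
    refine ⟨k⁻¹, ?_⟩
    rw [mem_centralizer_iff]
    intro c hc
    have h1 : k * c * k⁻¹ ∈ (S : Subgroup G) := by
      rw [← hk, Sylow.smul_def, Sylow.pointwise_smul_def]
      exact ⟨c, hc, rfl⟩
    have h2 := mem_C.mp (hS h1)
    have e1 : c * (k⁻¹ * y * k⁻¹⁻¹) = k⁻¹ * ((k * c * k⁻¹) * y) * k := by group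
    have e2 : k⁻¹ * y * k⁻¹⁻¹ * c = k⁻¹ * (y * (k * c * k⁻¹)) * k := by group
    rw [e1, e2, h2]
  obtain ⟨g, hg⟩ := exists_conj_mem (X := (T : Subgroup G)) ht hep T.not_dvd_index
  apply conj_not_mem_center hec g
  rw [mem_center_iff]
  intro x
  have hx : x ∈ centralizer (T : Set G) := htop ▸ mem_top x
  exact (mem_centralizer_iff.mp hx _ hg).symm

theorem CaseII.exists_nc_of_dvd (h : CaseII G m d) {l : ℕ} (hl : l.Prime) {u : G} (hu : (C u).index = m) (hlm : l ∣ m) :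
    ∃ e : G, PE l e ∧ e ∉ center G := by
  have h3 : m ∣ (center G).index := by
    rw [← hu]
    exact index_dvd_of_le (center_le_C u)
  obtain ⟨e, -, hep, hec⟩ := exists_primary_of_dvd_relIndex (X := ⊤) (W := center G) le_top hl
    (by rw [relIndex_top_right]; exact hlm.trans h3)
  exact ⟨e, hep, hec⟩

/-- (Ab) -/
theorem CaseII.ab (h : CaseII G m d) {u : G} (hu : (C u).index = m) (hab : ∀ a ∈ C u, ∀ b ∈ C u, a * b = b * a) :
    Group.IsSolvable G := by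
  have hACC : ACC (C u) := fun e he hec => h.C_eq_of_central hu (fun g hg => hab g hg e he) hec
  have hprim : ∀ s s' : ℕ, s.Prime → s'.Prime → s ≠ s' → s ∣ m → s' ∣ m → False := by
    intro s s' hs hs' hne hd hd'
    obtain ⟨e, hep, hec⟩ := h.exists_nc_of_dvd hs hu hd
    obtain ⟨e', hep', hec'⟩ := h.exists_nc_of_dvd hs' hu hd'
    obtain ⟨e₁, he₁, hp₁, hc₁⟩ := h.exists_in hu hs hep hec
    obtain ⟨e₂, he₂, hp₂, hc₂⟩ := h.exists_in hu hs' hep' hec'
    exact zplus hACC hs hs' hne (hu ▸ hd) (hu ▸ hd') he₁ he₂ hp₁ hp₂ hc₁ hc₂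
  have hm1 : m ≠ 1 := by have := h.hm; omega
  obtain ⟨p₀, hp₀, hp₀d⟩ := Nat.exists_prime_and_dvd hm1
  have huniq : ∀ {s : ℕ}, s.Prime → s ∣ m → s = p₀ := by
    intro s hs hd
    by_contra hne
    exact hprim s p₀ hs hp₀ hne hd hp₀d
  have hm0 : m ≠ 0 := by have := h.hm; omega
  have hmp : m = p₀ ^ m.primeFactorsList.length := Nat.eq_prime_pow_of_unique_prime_dvd hm0 huniq
  refine solvable_of_primary hp₀ hp₀ ?_
  intro l hl hlp x hxp
  by_cases hxc : x ∈ center G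
  · exact ⟨0, by rw [C_eq_top_iff.mpr hxc, index_top, pow_zero]⟩
  · have hlm : ¬ l ∣ m := fun hd => hlp (huniq hl hd)
    obtain ⟨g, hg⟩ := exists_conj_mem (X := C u) hl hxp (by rwa [hu])
    have h1 := hACC _ hg (conj_not_mem_center hxc g)
    refine ⟨m.primeFactorsList.length, ?_⟩
    rw [← index_C_conj x g, h1, hu]
    exact hmp

/-- (Q) -/
theorem CaseII.Q (h : CaseII G m d) {u : G} (hu : (C u).index = m)
    (h3 : ∀ p q : ℕ, ∃ l, l.Prime ∧ l ≠ p ∧ l ≠ q ∧ ∃ e : G, PE l e ∧ e ∉ center G) {t₁ t₂ : ℕ} {z₁ z₂ : G}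
    (ht₁ : t₁.Prime) (ht₂ : t₂.Prime) (hne : t₁ ≠ t₂) (hz₁ : z₁ ∈ C u) (hz₂ : z₂ ∈ C u)
    (hzc₁ : ∀ g ∈ C u, g * z₁ = z₁ * g) (hzc₂ : ∀ g ∈ C u, g * z₂ = z₂ * g) (hp₁ : PE t₁ z₁) (hp₂ : PE t₂ z₂)
    (hc₁ : z₁ ∉ center G) (hc₂ : z₂ ∉ center G) : ∀ a ∈ C u, ∀ b ∈ C u, a * b = b * a := by
  classical
  by_contra hnab
  push Not at hnab
  obtain ⟨a₀, ha₀, b₀, hb₀, hab₀⟩ := hnab
  have hnc : (⟨b₀, hb₀⟩ : C u) ∉ center (C u) := by
    rw [mem_center_sub]
    intro hh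
    exact hab₀ (hh a₀ ha₀)
  obtain ⟨s, e₀, hs, -, he₀p, he₀c⟩ := exists_primary_not_mem' (center (C u)) hnc
  have hP₁ : Pd (C u) t₁ d := h.pd ht₁ hu hzc₁ hp₁ hc₁
  have hP₂ : Pd (C u) t₂ d := h.pd ht₂ hu hzc₂ hp₂ hc₂
  have hnc_p : ∀ p : ℕ, p.Prime → p ∣ d → ∃ e : C u, PE p e ∧ e ∉ center (C u) := by
    intro p hp hpd
    haveI : Fact p.Prime := ⟨hp⟩
    obtain ⟨S⟩ : Nonempty (Sylow p (C u)) := inferInstance
    have hS : ¬ (S : Subgroup (C u)) ≤ center (C u) := by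
      by_cases hst : s = t₁
      · exact hP₂.not_le_center hpd (he₀p.coprime hs ht₂ (hst ▸ hne)) he₀c S
      · exact hP₁.not_le_center hpd (he₀p.coprime hs ht₁ hst) he₀c S
    obtain ⟨e, heS, hec⟩ := SetLike.not_le_iff_exists.mp hS
    exact ⟨e, PE.of_mem_isPGroup S.isPGroup' heS, hec⟩
  by_cases hpr : ∃ a b : ℕ, a.Prime ∧ b.Prime ∧ a ≠ b ∧ a ∣ d ∧ b ∣ d
  · obtain ⟨a, b, ha, hb, hab, hda, hdb⟩ := hpr
    by_cases ht₀ : ∃ (t₀ : ℕ) (z : G), t₀.Prime ∧ z ∈ C u ∧ (∀ g ∈ C u, g * z = z * g) ∧ PE t₀ z ∧ z ∉ center G ∧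
        t₀ ≠ a ∧ t₀ ≠ b
    · obtain ⟨t₀, z, ht₀', hz, hzc, hzp, hzn, h1, h2⟩ := ht₀
      have hP : Pd (C u) t₀ d := h.pd ht₀' hu hzc hzp hzn
      obtain ⟨e, hep, hec⟩ := hnc_p a ha hda
      exact hP.D1 ht₀' ha hb hab h1.symm h2.symm hda hdb (hep.coprime ha ht₀' h1.symm) hec
    · push Not at ht₀
      have hta₁ : t₁ = a ∨ t₁ = b := by
        by_contra hno
        push Not at hno
        exact hno.2 (ht₀ t₁ z₁ ht₁ hz₁ hzc₁ hp₁ hc₁ hno.1)
      have hta₂ : t₂ = a ∨ t₂ = b := by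
        by_contra hno
        push Not at hno
        exact hno.2 (ht₀ t₂ z₂ ht₂ hz₂ hzc₂ hp₂ hc₂ hno.1)
      have hPa : Pd (C u) a d := by
        rcases hta₁ with e1 | e1
        · exact e1 ▸ hP₁
        · rcases hta₂ with e2 | e2
          · exact e2 ▸ hP₂
          · exact absurd (e1.trans e2.symm) hne
      have hPb : Pd (C u) b d := by
        rcases hta₁ with e1 | e1
        · rcases hta₂ with e2 | e2
          · exact absurd (e1.trans e2.symm) hne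
          · exact e2 ▸ hP₂
        · exact e1 ▸ hP₁
      obtain ⟨l, hl, hla, hlb, e, hep, hec⟩ := h3 a b
      obtain ⟨f, hf, hfp, hfc⟩ := h.exists_in hu hl hep hec
      have hfn : (⟨f, hf⟩ : C u) ∉ center (C u) := by
        intro hh
        exact hlb (ht₀ l f hl hf (mem_center_sub.mp hh) hfp hfc hla)
      exact Pd.Qa hPa hPb ha hb hab hda hdb hl hla hlb (PE.of_subgroup hfp) hfn
  · push Not at hpr
    have hd1 : d ≠ 1 := by have := h.hd; omega
    have hd0 : d ≠ 0 := by have := h.hd; omega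
    obtain ⟨r, hr, hrd⟩ := Nat.exists_prime_and_dvd hd1
    have hruniq : ∀ {s : ℕ}, s.Prime → s ∣ d → s = r := by
      intro s hs hsd
      by_contra hne'
      exact hpr s r hs hr hne' hsd hrd
    have hdr : d = r ^ d.primeFactorsList.length := Nat.eq_prime_pow_of_unique_prime_dvd hd0 hruniq
    obtain ⟨t₀, z₀, ht₀, hz₀, hz₀c, hz₀p, hz₀n, ht₀r⟩ : ∃ (t₀ : ℕ) (z₀ : G), t₀.Prime ∧ z₀ ∈ C u ∧
        (∀ g ∈ C u, g * z₀ = z₀ * g) ∧ PE t₀ z₀ ∧ z₀ ∉ center G ∧ t₀ ≠ r := by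
      by_cases h1 : t₁ = r
      · exact ⟨t₂, z₂, ht₂, hz₂, hzc₂, hp₂, hc₂, fun e => hne (h1.trans e.symm)⟩
      · exact ⟨t₁, z₁, ht₁, hz₁, hzc₁, hp₁, hc₁, h1⟩
    have hP₀ : Pd (C u) t₀ d := h.pd ht₀ hu hz₀c hz₀p hz₀n
    obtain ⟨l, hl, hlr, hlt₀, e, hep, hec⟩ := h3 r t₀
    obtain ⟨f, hf, hfp, hfc⟩ := h.exists_in hu hl hep hec
    have hK₀ : ∀ t : ℕ, t.Prime → t ≠ t₀ → t ≠ r → ∀ e : C u, PE t e → e ∈ center (C u) := by
      intro t ht h1 h2 e hep
      by_contra hec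
      exact hP₀.K ht₀ hr hdr ht₀r.symm ht h1 h2 hep hec
    have hf0 : (⟨f, hf⟩ : C u) ∈ center (C u) := hK₀ l hl hlt₀ hlr _ (PE.of_subgroup hfp)
    have hP' : Pd (C u) l d := h.pd hl hu (mem_center_sub.mp hf0) hfp hfc
    have hK₁ : ∀ t : ℕ, t.Prime → t ≠ l → t ≠ r → ∀ e : C u, PE t e → e ∈ center (C u) := by
      intro t ht h1 h2 e hep
      by_contra hec
      exact hP'.K hl hr hdr hlr.symm ht h1 h2 hep hec
    have hall : ∀ t : ℕ, t.Prime → t ≠ r → ∀ e : C u, PE t e → e ∈ center (C u) := by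
      intro t ht htr e hep
      by_cases h1 : t = t₀
      · exact hK₁ t ht (h1 ▸ hlt₀.symm) htr e hep
      · exact hK₀ t ht h1 htr e hep
    have hnd : ∀ t : ℕ, t.Prime → t ≠ r → ¬ t ∣ d := fun t ht htr hd => htr (hruniq ht hd)
    have hcent : ∀ t : ℕ, t.Prime → t ≠ r → ∀ e ∈ C u, PE t e → ∀ x ∈ C u, x * e = e * x := by
      intro t ht htr e he hep x hx
      exact mem_center_sub.mp (hall t ht htr ⟨e, he⟩ (PE.of_subgroup hep)) x hx
    have hCu : ∀ t : ℕ, t.Prime → t ≠ r → ∀ e ∈ C u, PE t e → e ∉ center G → C e = C u := by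
      intro t ht htr e he hep hec
      exact h.C_eq_of_central hu (fun g hg => hcent t ht htr e he hep g hg) hec
    have hZ : ∀ e ∈ C u, (∀ x ∈ C u, x * e = e * x) → ∀ g, g * e = e * g → g ∉ C u → e ∈ center G := by
      intro e _ hez g hg hgX
      by_contra hec
      apply hgX
      rw [← h.C_eq_of_central hu (fun g hg => hez g hg) hec]
      exact mem_C.mpr hg
    refine lemmaZ (C u) ht₀ hl hlt₀.symm (fun e he hez _ => hZ e he hez) (fun e he hez _ => hZ e he hez)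
      ⟨z₀, hz₀, hz₀c, hz₀p, hz₀n⟩ ⟨f, hf, mem_center_sub.mp hf0, hfp, hfc⟩ ?_ ?_
    · refine exists_norm (C u) ht₀ (hcent t₀ ht₀ ht₀r) ?_ hz₀ hz₀p hz₀n (hCu t₀ ht₀ ht₀r)
      rw [hu]
      exact h.cc ht₀ hz₀p hz₀n (hnd t₀ ht₀ ht₀r)
    · refine exists_norm (C u) hl (hcent l hl hlr) ?_ hf hfp hfc (hCu l hl hlr)
      rw [hu]
      exact h.cc hl hfp hfc (hnd l hl hlr)

end Cfsg.Agent.Lib.PGroup.Ito
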