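import Mathlib
import Cfsg.Agent.Lib.PGroup.ItoCaseII

/-!
# Itô's theorem: two orbit counts
-/

set_option autoImplicit false

namespace Cfsg.Agent.Lib.PGroup.Ito

open Subgroup Cfsg.Agent.Lib.Techniques

/-- Orbits with a common stabilizer. -/
theorem dvd_ncard_of_act {P Ω : Type*} [Group P] [Finite P] [Finite Ω] (act : P → Ω → Ω) (h1 : ∀ x, act 1 x = x)
    (hm : ∀ g k x, act (g * k) x = act g (act k x)) (T : Set Ω) (hT : ∀ g, ∀ x ∈ T, act g x ∈ T) (S : Subgroup P)
    (hS : ∀ x ∈ T, ∀ g, act g x = x ↔ g ∈ S) : S.index ∣ T.ncard := by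
  classical
  letI : MulAction P T :=
    { smul := fun g x => ⟨act g x, hT g x x.2⟩
      one_smul := fun x => Subtype.ext (h1 x)
      mul_smul := fun g k x => Subtype.ext (hm g k x) }
  haveI : Fintype (MulAction.orbitRel.Quotient P T) := Fintype.ofFinite _
  have h2 : Nat.card T = Nat.card (Σ ω : MulAction.orbitRel.Quotient P T, MulAction.orbit P ω.out) :=
    Nat.card_congr (MulAction.selfEquivSigmaOrbits P T)
  rw [← Nat.card_coe_set_eq, h2, Nat.card_sigma]
  apply Finset.dvd_sum
  intro ω _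
  have h3 : MulAction.stabilizer P ω.out = S := by
    ext g
    rw [MulAction.mem_stabilizer_iff, ← hS _ ω.out.2 g]
    exact Subtype.ext_iff
  rw [← h3, MulAction.index_stabilizer, Nat.card_coe_set_eq]

variable {G : Type*} [Group G] [Finite G]

/-- The action of the primary part of `X` on the cosets of the normalizer. -/
theorem cnt_coset {H X : Subgroup G} {t : ℕ} (ht : t.Prime) (hXH : X ≤ H)
    (hXt : ∀ e ∈ X, PE t e → e ∉ center G → C e = X) (htd : ¬ t ∣ X.relIndex H) :
    ((center G).subgroupOf (zPart X t)).index ∣ ((normalizer (X : Set G)).subgroupOf H).index - 1 := by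
  classical
  let F : Subgroup G := zPart X t
  have hFX : F ≤ X := fun x hx => (mem_zPart.mp hx).1
  have hFH : F ≤ H := hFX.trans hXH
  let N' : Subgroup H := (normalizer (X : Set G)).subgroupOf H
  have hFN : ∀ g : F, (⟨g, hFH g.2⟩ : H) ∈ N' := fun g => le_normalizer (hFX g.2)
  let S : Subgroup F := (center G).subgroupOf F
  let act : F → (H ⧸ N') → (H ⧸ N') := fun g x => (⟨g, hFH g.2⟩ : H) • x
  have h1 : ∀ x, act 1 x = x := by
    intro x
    show (1 : H) • x = x
    exact one_smul _ x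
  have hm : ∀ g k x, act (g * k) x = act g (act k x) := by
    intro g k x
    show ((⟨g, hFH g.2⟩ : H) * (⟨k, hFH k.2⟩ : H)) • x = _
    exact mul_smul _ _ _
  let T : Set (H ⧸ N') := {x | x ≠ (QuotientGroup.mk 1 : H ⧸ N')}
  have hone : ∀ g : F, act g (QuotientGroup.mk 1) = (QuotientGroup.mk 1 : H ⧸ N') := by
    intro g
    show (⟨g, hFH g.2⟩ : H) • (QuotientGroup.mk 1 : H ⧸ N') = _
    rw [MulAction.Quotient.smul_mk, smul_eq_mul, mul_one, eq_comm, QuotientGroup.eq]
    simpa using hFN g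
  have hinv : ∀ (g : F) (x : H ⧸ N'), act g⁻¹ (act g x) = x := by
    intro g x
    rw [← hm, inv_mul_cancel, h1]
  have hT : ∀ g, ∀ x ∈ T, act g x ∈ T := by
    intro g x hx hgx
    apply hx
    rw [← hinv g x, hgx, hone]
  have hS : ∀ x ∈ T, ∀ g, act g x = x ↔ g ∈ S := by
    intro x hx g
    obtain ⟨⟨h, hh⟩, rfl⟩ := QuotientGroup.mk_surjective x
    have hhN : h ∉ normalizer (X : Set G) := by
      intro hn
      apply hx
      rw [eq_comm, QuotientGroup.eq]
      have e0 : ((1 : H)⁻¹ * ⟨h, hh⟩ : H) = ⟨h, hh⟩ := by simp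
      rw [e0]
      exact hn
    have hmk : act g (QuotientGroup.mk ⟨h, hh⟩) = (QuotientGroup.mk ((⟨g, hFH g.2⟩ : H) * ⟨h, hh⟩) : H ⧸ N') := by
      show (⟨g, hFH g.2⟩ : H) • (QuotientGroup.mk ⟨h, hh⟩ : H ⧸ N') = _
      rw [MulAction.Quotient.smul_mk, smul_eq_mul]
    rw [hmk, eq_comm, QuotientGroup.eq]
    constructor
    · intro hg
      have hg' : h⁻¹ * g * h ∈ normalizer (X : Set G) := by
        have : ((⟨h, hh⟩ : H)⁻¹ * ((⟨g, hFH g.2⟩ : H) * ⟨h, hh⟩) : H) ∈ N' := hg
        rw [mem_subgroupOf] at this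
        simpa [mul_assoc] using this
      by_contra hgZ
      have hgZ' : (g : G) ∉ center G := hgZ
      obtain ⟨hgX, -, hgp⟩ := mem_zPart.mp g.2
      have hg'p : PE t (h⁻¹ * g * h) := by
        have := hgp.conj h⁻¹
        simpa using this
      have hg'c : h⁻¹ * g * h ∉ center G := by
        have := conj_not_mem_center hgZ' h⁻¹
        simpa using this
      have hg'H : h⁻¹ * g * h ∈ H := H.mul_mem (H.mul_mem (H.inv_mem hh) (hXH hgX)) hh
      have hg'X : h⁻¹ * g * h ∈ X := by
        by_contra hno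
        let K : Subgroup G := H ⊓ normalizer (X : Set G)
        have hXK : X ≤ K := le_inf hXH le_normalizer
        haveI : (X.subgroupOf K).Normal :=
          (normal_subgroupOf_iff_le_normalizer hXK).mpr inf_le_right
        have h3 : t ∣ X.relIndex K := dvd_relIndex_of_primary ht (x := h⁻¹ * g * h) ⟨hg'H, hg'⟩ hno hg'p
        have h4 : X.relIndex K * K.relIndex H = X.relIndex H :=
          relIndex_mul_relIndex X K H hXK inf_le_left
        exact htd (h4 ▸ h3.trans (dvd_mul_right _ _))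
      apply hhN
      have e1 : C (h⁻¹ * g * h) = X := hXt _ hg'X hg'p hg'c
      have e2 : C (g : G) = X := hXt _ hgX hgp hgZ'
      have e3 : (g : G) = h * (h⁻¹ * g * h) * h⁻¹ := by group
      have e4 : C (g : G) = conjS h X := by
        rw [e3, C_conj, e1]
      have e5 : X = conjS h X := e2.symm.trans e4
      rw [mem_normalizer_iff]
      intro a
      constructor
      · intro ha
        rw [e5, mem_conjS]
        have e6 : h⁻¹ * (h * a * h⁻¹) * h = a := by group
        rwa [e6]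
      · intro ha
        rw [e5, mem_conjS] at ha
        have e6 : h⁻¹ * (h * a * h⁻¹) * h = a := by group
        rwa [e6] at ha
    · intro hg
      have hgZ : (g : G) ∈ center G := hg
      rw [mem_subgroupOf]
      have e : (((⟨h, hh⟩ : H)⁻¹ * ((⟨g, hFH g.2⟩ : H) * ⟨h, hh⟩) : H) : G) = (g : G) := by
        show h⁻¹ * ((g : G) * h) = g
        rw [← mem_center_iff.mp hgZ h]
        group
      rw [e]
      exact le_normalizer (hFX g.2)
  have hdvd := dvd_ncard_of_act act h1 hm T hT S hS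
  have hcard : T.ncard = N'.index - 1 := by
    have h2 := Set.ncard_add_ncard_compl ({(QuotientGroup.mk 1 : H ⧸ N')} : Set (H ⧸ N'))
    rw [Set.ncard_singleton] at h2
    have h3 : T = ({(QuotientGroup.mk 1 : H ⧸ N')} : Set (H ⧸ N'))ᶜ := by
      ext x
      simp [T]
    rw [h3]
    have h4 : Nat.card (H ⧸ N') = N'.index := rfl
    omega
  rw [hcard] at hdvd
  exact hdvd

/-- The action of a subgroup normalizing `X` on the primary part of `X` off the centre. -/
theorem cnt_conj {X P₀ : Subgroup G} {t : ℕ} (hP₀ : ∀ g ∈ P₀, ∀ x ∈ X, g * x * g⁻¹ ∈ X)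
    (hXt : ∀ e ∈ X, PE t e → e ∉ center G → C e = X) (hXc : ∀ e ∈ X, PE t e → ∀ x ∈ X, x * e = e * x) :
    (X.subgroupOf P₀).index ∣ Nat.card (zPart X t) - Nat.card ((center G).subgroupOf (zPart X t)) := by
  classical
  let F : Subgroup G := zPart X t
  let S : Subgroup F := (center G).subgroupOf F
  have hconj : ∀ g : P₀, ∀ x : F, (g : G) * x * (g : G)⁻¹ ∈ F := by
    intro g x
    obtain ⟨hx1, -, hx3⟩ := mem_zPart.mp x.2
    have h1 := hP₀ g g.2 x hx1
    exact mem_zPart.mpr ⟨h1, hXc _ h1 (hx3.conj g), hx3.conj g⟩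
  let act : P₀ → F → F := fun g x => ⟨(g : G) * x * (g : G)⁻¹, hconj g x⟩
  have h1 : ∀ x, act 1 x = x := by
    intro x
    apply Subtype.ext
    show (1 : G) * x * (1 : G)⁻¹ = x
    group
  have hm : ∀ g k x, act (g * k) x = act g (act k x) := by
    intro g k x
    apply Subtype.ext
    show ((g : G) * k) * x * ((g : G) * k)⁻¹ = (g : G) * ((k : G) * x * (k : G)⁻¹) * (g : G)⁻¹
    group
  let T : Set F := (S : Set F)ᶜ
  have hT : ∀ g, ∀ x ∈ T, act g x ∈ T := by
    intro g x hx hgx
    apply hx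
    have h2 : ((g : G) * x * (g : G)⁻¹) ∈ center G := hgx
    by_contra h3
    exact conj_not_mem_center h3 (g : G) h2
  let S' : Subgroup P₀ := X.subgroupOf P₀
  have hS : ∀ x ∈ T, ∀ g, act g x = x ↔ g ∈ S' := by
    intro x hx g
    obtain ⟨hx1, -, hx3⟩ := mem_zPart.mp x.2
    have hxc : (x : G) ∉ center G := hx
    have hCx : C (x : G) = X := hXt _ hx1 hx3 hxc
    have e : act g x = x ↔ (g : G) * x * (g : G)⁻¹ = x := Subtype.ext_iff
    rw [e, mul_inv_eq_iff_eq_mul]
    show _ ↔ (g : G) ∈ X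
    rw [← hCx, mem_C]
  have hdvd := dvd_ncard_of_act act h1 hm T hT S' hS
  have h2 := Set.ncard_add_ncard_compl (S : Set F)
  have h3 : (S : Set F).ncard = Nat.card S := Nat.card_coe_set_eq _ |>.symm
  have h4 : T.ncard = Nat.card F - Nat.card S := by
    have : (S : Set F)ᶜ.ncard = T.ncard := rfl
    omega
  rw [h4] at hdvd
  exact hdvd

end Cfsg.Agent.Lib.PGroup.Ito
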