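import Mathlib
import Cfsg.Agent.Lib.PGroup.ItoCount
import Cfsg.Agent.Lib.Transfer.MaxClass

/-!
# Itô's theorem: the case where the centres of the small centralizers involve one prime
-/

set_option autoImplicit false

namespace Cfsg.Agent.Lib.PGroup.Ito

open Subgroup Cfsg.Agent.Lib.Techniques

/-- A conjugate of a Sylow subgroup normalizes the centralizer of an element of a prime not dividing `d`. -/
theorem Pd.exists_sylow_le_normalizer {H : Type*} [Group H] [Finite H] {t₀ d : ℕ} (hP : Pd H t₀ d) (ht₀ : t₀.Prime)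
    {t s : ℕ} (ht : t.Prime) (hs : s.Prime) (htt₀ : t ≠ t₀) (hst₀ : s ≠ t₀) (hts : t ≠ s) (htd : ¬ t ∣ d)
    (hsd : s ∣ d) {f : H} (hfp : PE t f) (hfc : f ∉ center H) [Fact s.Prime] :
    ∃ S : Sylow s H, (S : Subgroup H) ≤ normalizer (C f : Set H) := by
  obtain ⟨T⟩ : Nonempty (Sylow s H) := inferInstance
  obtain ⟨v, hvT, hvc, hvN⟩ := hP.exists_up hs hsd (hfp.coprime ht ht₀ htt₀) hfc T
  have hvp : PE s v := PE.of_mem_isPGroup T.isPGroup' hvT
  obtain ⟨h, hCv, -⟩ := hP.exists_conj_C ht₀ ht hs htt₀ hst₀ hts htd hfp hvp hfc hvc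
  refine ⟨h⁻¹ • T, ?_⟩
  intro c hc
  rw [Sylow.smul_def, Sylow.pointwise_smul_def] at hc
  obtain ⟨c', hc', hcc⟩ := hc
  have hcc' : c = h⁻¹ * c' * h := by
    rw [← hcc]
    show MulAut.conj h⁻¹ c' = _
    rw [MulAut.conj_apply]
    group
  subst hcc'
  have hN := mem_normalizer_iff.mp (hvN c' hc')
  rw [mem_normalizer_iff]
  intro x
  have hx' : ∀ y : H, y ∈ C f ↔ h * y * h⁻¹ ∈ C v := by
    intro y
    rw [hCv, mem_C_conj]
    have e : h⁻¹ * (h * y * h⁻¹) * h = y := by group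
    rw [e]
  rw [hx', hx', hN (h * x * h⁻¹)]
  have e : h * (h⁻¹ * c' * h * x * (h⁻¹ * c' * h)⁻¹) * h⁻¹ = c' * (h * x * h⁻¹) * c'⁻¹ := by group
  rw [e]

variable {G : Type*} [Group G] [Finite G] {m d : ℕ}

/-- Each small centralizer has its centre involving only one prime. -/
def OneP (G : Type*) [Group G] (m : ℕ) : Prop :=
  ∀ (u z : G) (p t : ℕ), (C u).index = m → p.Prime → PE p u → t.Prime → (∀ g ∈ C u, g * z = z * g) → PE t z →
    z ∉ center G → t = p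

theorem nc_H (hΩ : OneP G m) {u : G} {p t : ℕ} (hu : (C u).index = m) (hp : p.Prime) (hup : PE p u) (ht : t.Prime)
    (htp : t ≠ p) {e : G} (he : e ∈ C u) (hep : PE t e) (hec : e ∉ center G) : (⟨e, he⟩ : C u) ∉ center (C u) := by
  intro hh
  exact htp (hΩ u e p t hu hp hup ht (mem_center_sub.mp hh) hep hec)

theorem pd_self (h : CaseII G m d) {u : G} {p : ℕ} (hu : (C u).index = m) (hp : p.Prime) (hup : PE p u) :
    Pd (C u) p d :=
  h.pd hp hu (fun _ hg => mem_C.mp hg) hup (not_mem_center_of_index hu h.hm)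

theorem rel_C_eq {H : Subgroup G} {p : ℕ} (hP : Pd H p d) (hp : p.Prime) {s s' : ℕ} (hs : s.Prime) (hs' : s'.Prime)
    (hss : s ≠ s') (hsp : s ≠ p) (hs'p : s' ≠ p) {e f : G} (he : e ∈ H) (hf : f ∈ H) (hc : e * f = f * e)
    (hep : PE s e) (hfp : PE s' f) (hen : (⟨e, he⟩ : H) ∉ center H) (hfn : (⟨f, hf⟩ : H) ∉ center H) :
    H ⊓ C e = H ⊓ C f := by
  have hep' : PE s (⟨e, he⟩ : H) := PE.of_subgroup hep
  have hfp' : PE s' (⟨f, hf⟩ : H) := PE.of_subgroup hfp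
  have h1 := (hP.C_eq (e := ⟨e, he⟩) (f := ⟨f, hf⟩) (Subtype.ext hc) (hep'.coprime_orderOf hs hs' hss hfp')
    (hep'.coprime hs hp hsp) (hfp'.coprime hs' hp hs'p) hen).resolve_right hfn
  rw [C_sub, C_sub] at h1
  ext x
  constructor
  · rintro ⟨hx1, hx2⟩
    have h2 : (⟨x, hx1⟩ : H) ∈ (C e).subgroupOf H := hx2
    rw [h1] at h2
    exact ⟨hx1, h2⟩
  · rintro ⟨hx1, hx2⟩
    have h2 : (⟨x, hx1⟩ : H) ∈ (C f).subgroupOf H := hx2
    rw [← h1] at h2
    exact ⟨hx1, h2⟩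

theorem rel_index {H : Subgroup G} {p : ℕ} (hP : Pd H p d) (hp : p.Prime) {s : ℕ} (hs : s.Prime) (hsp : s ≠ p) {e : G}
    (he : e ∈ H) (hep : PE s e) (hen : (⟨e, he⟩ : H) ∉ center H) : (C e).relIndex H = d := by
  have h1 := index_C_sub H ⟨e, he⟩
  rw [← show (C ((⟨e, he⟩ : H) : G)).relIndex H = (C e).relIndex H from rfl, ← h1]
  exact hP.index_eq ((PE.of_subgroup hep).coprime hs hp hsp) hen

theorem C_le_H {u : G} {p : ℕ} (hu : (C u).index = m) (hP : Pd (C u) p d) (hp : p.Prime) {s : ℕ} (hs : s.Prime)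
    (hsp : s ≠ p) {e : G} (he : e ∈ C u) (hep : PE s e) (hen : (⟨e, he⟩ : C u) ∉ center (C u))
    (het : (C e).index = m * d) : C e ≤ C u := by
  have h1 := inf_index (C u) (C e)
  rw [rel_index hP hp hs hsp he hep hen, hu] at h1
  have h2 := eq_of_le_of_index_eq (inf_le_right : C u ⊓ C e ≤ C e) (by rw [h1, het, mul_comm])
  rw [← h2]
  exact inf_le_left

section Ctx

variable (h : CaseII G m d) (hΩ : OneP G m)
  (h3 : ∀ p q : ℕ, ∃ l, l.Prime ∧ l ≠ p ∧ l ≠ q ∧ ∃ e : G, PE l e ∧ e ∉ center G)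

include h h3 in
theorem exists_f {u : G} (hu : (C u).index = m) (q₁ q₂ : ℕ) :
    ∃ (l : ℕ) (f : G), l.Prime ∧ l ≠ q₁ ∧ l ≠ q₂ ∧ f ∈ C u ∧ PE l f ∧ f ∉ center G := by
  obtain ⟨l, hl, h1, h2, e, hep, hec⟩ := h3 q₁ q₂
  obtain ⟨f, hf, hfp, hfc⟩ := h.exists_in hu hl hep hec
  exact ⟨l, f, hl, h1, h2, hf, hfp, hfc⟩

include h hΩ h3 in
theorem one_other {u : G} {p r r' : ℕ} (hu : (C u).index = m) (hp : p.Prime) (hup : PE p u) (hr : r.Prime)
    (hr' : r'.Prime) (hrr : r ≠ r') (hrp : r ≠ p) (hr'p : r' ≠ p) (hrd : r ∣ d) (hr'd : r' ∣ d) : False := by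
  obtain ⟨l, f, hl, hlp, -, hf, hfp, hfc⟩ := exists_f h h3 hu p p
  have hfn := nc_H hΩ hu hp hup hl hlp hf hfp hfc
  exact (pd_self h hu hp hup).D1 hp hr hr' hrr hrp hr'p hrd hr'd ((PE.of_subgroup hfp).coprime hl hp hlp) hfn

include h hΩ h3 in
theorem p_dvd_d {u : G} {p : ℕ} (hu : (C u).index = m) (hp : p.Prime) (hup : PE p u) : p ∣ d := by
  by_contra hpd
  have hd1 : d ≠ 1 := by have := h.hd; omega
  have hd0 : d ≠ 0 := by have := h.hd; omega
  obtain ⟨r, hr, hrd⟩ := Nat.exists_prime_and_dvd hd1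
  have hrp : r ≠ p := fun e => hpd (e ▸ hrd)
  obtain ⟨l, f, hl, hlp, hlr, hf, hfp, hfc⟩ := exists_f h h3 hu p r
  have hfn := nc_H hΩ hu hp hup hl hlp hf hfp hfc
  have hruniq : ∀ {s : ℕ}, s.Prime → s ∣ d → s = r := by
    intro s hs hsd
    by_contra hne
    exact one_other h hΩ h3 hu hp hup hs hr hne (fun e => hpd (e ▸ hsd)) hrp hsd hrd
  have hdr : d = r ^ d.primeFactorsList.length := Nat.eq_prime_pow_of_unique_prime_dvd hd0 hruniq
  exact (pd_self h hu hp hup).K hp hr hdr hrp hl hlp hlr (PE.of_subgroup hfp) hfn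

include h hΩ h3 in
theorem type_nd {t : ℕ} (ht : t.Prime) (htd : ¬ t ∣ d) {e : G} (hep : PE t e) (hec : e ∉ center G) :
    (C e).index = m * d := by
  rcases h.nc hec with h1 | h1
  · exact absurd (p_dvd_d h hΩ h3 h1 ht hep) htd
  · exact h1

include h hΩ in
/-- Applying Lemma Z to the centralizer of a commuting pair. -/
theorem omega_Z {u : G} {p s₁ s₂ : ℕ} (hu : (C u).index = m) (hp : p.Prime) (hup : PE p u) (hs₁ : s₁.Prime)
    (hs₂ : s₂.Prime) (hne : s₁ ≠ s₂) (h1p : s₁ ≠ p) (h2p : s₂ ≠ p) {f₁ f₂ : G} (hf₁ : f₁ ∈ C u) (hf₂ : f₂ ∈ C u)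
    (hp₁ : PE s₁ f₁) (hp₂ : PE s₂ f₂) (hc₁ : f₁ ∉ center G) (hc₂ : f₂ ∉ center G) (hcomm : f₁ * f₂ = f₂ * f₁)
    (ht₁ : ∀ e ∈ C u ⊓ C f₁, PE s₁ e → e ∉ center G → (C e).index = m * d)
    (ht₂ : ∀ e ∈ C u ⊓ C f₁, PE s₂ e → e ∉ center G → (C e).index = m * d)
    (hd₁ : s₁ ∣ m * d) (hd₂ : s₂ ∣ m * d) : False := by
  have hP := pd_self h hu hp hup
  have hn₁ := nc_H hΩ hu hp hup hs₁ h1p hf₁ hp₁ hc₁
  have hn₂ := nc_H hΩ hu hp hup hs₂ h2p hf₂ hp₂ hc₂
  have hX : C u ⊓ C f₁ = C u ⊓ C f₂ := rel_C_eq hP hp hs₁ hs₂ hne h1p h2p hf₁ hf₂ hcomm hp₁ hp₂ hn₁ hn₂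
  have hf₁X : f₁ ∈ C u ⊓ C f₁ := ⟨hf₁, self_mem_C f₁⟩
  have hf₂X : f₂ ∈ C u ⊓ C f₁ := ⟨hf₂, mem_C.mpr hcomm.symm⟩
  have e1 : C f₁ ≤ C u := C_le_H hu hP hp hs₁ h1p hf₁ hp₁ hn₁ (ht₁ f₁ hf₁X hp₁ hc₁)
  have e2 : C f₂ ≤ C u := C_le_H hu hP hp hs₂ h2p hf₂ hp₂ hn₂ (ht₂ f₂ hf₂X hp₂ hc₂)
  have hX₁ : C u ⊓ C f₁ = C f₁ := inf_eq_right.mpr e1
  have hX₂ : C u ⊓ C f₂ = C f₂ := inf_eq_right.mpr e2
  have e12 : C f₂ = C f₁ := by rw [← hX₂, ← hX, hX₁]
  have hXe₁ : ∀ e ∈ C f₁, PE s₁ e → e ∉ center G → C e = C f₁ := by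
    intro e he hep hec
    have heu := e1 he
    have hen := nc_H hΩ hu hp hup hs₁ h1p heu hep hec
    have hcm : e * f₂ = f₂ * e := by
      have : e ∈ C f₂ := e12 ▸ he
      exact mem_C.mp this
    have h4 := rel_C_eq hP hp hs₁ hs₂ hne h1p h2p heu hf₂ hcm hep hp₂ hen hn₂
    have h5 : C e ≤ C u := C_le_H hu hP hp hs₁ h1p heu hep hen (ht₁ e ⟨heu, he⟩ hep hec)
    rw [← inf_eq_right.mpr h5, h4, hX₂, e12]
  have hXe₂ : ∀ e ∈ C f₁, PE s₂ e → e ∉ center G → C e = C f₁ := by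
    intro e he hep hec
    have heu := e1 he
    have hen := nc_H hΩ hu hp hup hs₂ h2p heu hep hec
    have hcm : e * f₁ = f₁ * e := mem_C.mp he
    have h4 := rel_C_eq hP hp hs₂ hs₁ hne.symm h2p h1p heu hf₁ hcm hep hp₁ hen hn₁
    have h5 : C e ≤ C u := C_le_H hu hP hp hs₂ h2p heu hep hen (ht₂ e ⟨heu, he⟩ hep hec)
    rw [← inf_eq_right.mpr h5, h4, hX₁]
  have hcent : ∀ {s : ℕ}, (∀ e ∈ C f₁, PE s e → e ∉ center G → C e = C f₁) →
      ∀ e ∈ C f₁, PE s e → ∀ x ∈ C f₁, x * e = e * x := by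
    intro s hs e he hep x hx
    by_cases hec : e ∈ center G
    · exact mem_center_iff.mp hec x
    · rw [← hs e he hep hec] at hx
      exact mem_C.mp hx
  have hZ : ∀ {s : ℕ}, (∀ e ∈ C f₁, PE s e → e ∉ center G → C e = C f₁) →
      ∀ e ∈ C f₁, (∀ x ∈ C f₁, x * e = e * x) → PE s e → ∀ g, g * e = e * g → g ∉ C f₁ → e ∈ center G := by
    intro s hs e he _ hep g hg hgX
    by_contra hec
    apply hgX
    rw [← hs e he hep hec]
    exact mem_C.mpr hg
  have hi : (C f₁).index = m * d := ht₁ f₁ hf₁X hp₁ hc₁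
  have hf₂' : f₂ ∈ C f₁ := mem_C.mpr hcomm.symm
  refine lemmaZ (C f₁) hs₁ hs₂ hne (hZ hXe₁) (hZ hXe₂)
    ⟨f₁, self_mem_C f₁, fun x hx => mem_C.mp hx, hp₁, hc₁⟩ ⟨f₂, hf₂', hcent hXe₂ f₂ hf₂' hp₂, hp₂, hc₂⟩ ?_ ?_
  · exact exists_norm (C f₁) hs₁ (hcent hXe₁) (hi ▸ hd₁) (self_mem_C f₁) hp₁ hc₁ hXe₁
  · exact exists_norm (C f₁) hs₂ (hcent hXe₂) (hi ▸ hd₂) hf₂' hp₂ hc₂ hXe₂

include h hΩ h3 in
/-- Two small centralizers meeting in a common big centralizer: orbit counting. -/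
theorem omega_c2 {u w f : G} {p r t : ℕ} (hu : (C u).index = m) (hw : (C w).index = m) (hp : p.Prime) (hr : r.Prime)
    (ht : t.Prime) (hpr : p ≠ r) (htp : t ≠ p) (htr : t ≠ r) (hup : PE p u) (hwp : PE r w) (hfp : PE t f)
    (hfc : f ∉ center G) (htd : ¬ t ∣ d) (hdp : p ∣ d) (hdr : r ∣ d) (hprimes : ∀ l, l.Prime → l ∣ d → l = p ∨ l = r)
    (hX₁ : C f ≤ C u) (hX₂ : C f ≤ C w) : False := by
  classical
  haveI : Fact p.Prime := ⟨hp⟩
  haveI : Fact r.Prime := ⟨hr⟩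
  haveI : Fact t.Prime := ⟨ht⟩
  have hP : Pd (C u) p d := pd_self h hu hp hup
  have hP' : Pd (C w) r d := pd_self h hw hr hwp
  have hfu : f ∈ C u := hX₁ (self_mem_C f)
  have hfw : f ∈ C w := hX₂ (self_mem_C f)
  have hwf : w ∈ C f := comm_mem_C hfw
  have huf : u ∈ C f := comm_mem_C hfu
  have hwc := not_mem_center_of_index hw h.hm
  have hwu : w ∈ C u := hX₁ hwf
  have hfn : (⟨f, hfu⟩ : C u) ∉ center (C u) := nc_H hΩ hu hp hup ht htp hfu hfp hfc
  have hfn' : (⟨f, hfw⟩ : C w) ∉ center (C w) := nc_H hΩ hw hr hwp ht htr hfw hfp hfc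
  have hwn : (⟨w, hwu⟩ : C u) ∉ center (C u) := nc_H hΩ hu hp hup hr hpr.symm hwu hwp hwc
  have hfi : (C f).index = m * d := type_nd h hΩ h3 ht htd hfp hfc
  have hinf : C u ⊓ C f = C f := inf_eq_right.mpr hX₁
  have hinf' : C w ⊓ C f = C f := inf_eq_right.mpr hX₂
  have hCw : C u ⊓ C w = C f := by
    rw [rel_C_eq hP hp hr ht htr.symm hpr.symm htp hwu hfu (mem_C.mp hwf) hwp hfp hwn hfn, hinf]
  -- the `t`-elements
  have hXt : ∀ e ∈ C f, PE t e → e ∉ center G → C e = C f := by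
    intro e he hep hec
    have heu := hX₁ he
    have hen := nc_H hΩ hu hp hup ht htp heu hep hec
    have hew : e * w = w * e := mem_C.mp (hX₂ he)
    have e1 := rel_C_eq hP hp ht hr htr htp hpr.symm heu hwu hew hep hwp hen hwn
    have e2 : C e ≤ C u := C_le_H hu hP hp ht htp heu hep hen (type_nd h hΩ h3 ht htd hep hec)
    rw [← inf_eq_right.mpr e2, e1, hCw]
  -- primary elements of `X` are central in `X`
  have hXc : ∀ s : ℕ, s.Prime → ∀ e ∈ C f, PE s e → ∀ x ∈ C f, x * e = e * x := by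
    intro s hs e he hep x hx
    by_cases hec : e ∈ center G
    · exact mem_center_iff.mp hec x
    have key : C f ≤ C e := by
      by_cases hst : s = t
      · subst hst
        rw [hXt e he hep hec]
      by_cases hsp : s = p
      · subst hsp
        have hew := hX₂ he
        have hen := nc_H hΩ hw hr hwp hs hpr hew hep hec
        have e1 := rel_C_eq hP' hr hs ht hst hpr htr hew hfw (mem_C.mp he) hep hfp hen hfn'
        rw [← hinf', ← e1]
        exact inf_le_right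
      · have heu := hX₁ he
        have hen := nc_H hΩ hu hp hup hs hsp heu hep hec
        have e1 := rel_C_eq hP hp hs ht hst hsp htp heu hfu (mem_C.mp he) hep hfp hen hfn
        rw [← hinf, ← e1]
        exact inf_le_right
    exact mem_C.mp (key hx)
  -- the primary part
  let F : Subgroup G := zPart (C f) t
  let S : Subgroup F := (center G).subgroupOf F
  have hfF : f ∈ F := mem_zPart.mpr ⟨self_mem_C f, fun x hx => mem_C.mp hx, hfp⟩
  have hFp : IsPGroup t F := by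
    rintro ⟨e, he⟩
    obtain ⟨k, hk⟩ := (mem_zPart.mp he).2.2
    exact ⟨k, Subtype.ext (by simpa using hk)⟩
  have hτ : 1 < S.index := by
    have h0 : S.index ≠ 0 := index_ne_zero_of_finite
    have h1 : S.index ≠ 1 := by
      intro h1
      have h2 := index_eq_one.mp h1
      have : (⟨f, hfF⟩ : F) ∈ S := h2 ▸ mem_top _
      exact hfc this
    omega
  have hScard : Nat.card S * S.index = Nat.card F := card_mul_index S
  -- the index `c`
  let N' : Subgroup (C u) := (normalizer (C f : Set G)).subgroupOf (C u)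
  let X₁ : Subgroup (C u) := (C f).subgroupOf (C u)
  have hX₁i : X₁.index = d := by
    have := rel_index hP hp ht htp hfu hfp hfn
    exact this
  have hX₁N : X₁ ≤ N' := fun x hx => le_normalizer hx
  have hcd : N'.index ∣ d := hX₁i ▸ index_dvd_of_le hX₁N
  have hcr : ¬ r ∣ N'.index := by
    obtain ⟨S₁, hS₁⟩ := hP.exists_sylow_le_normalizer hp ht hr htp hpr.symm htr htd hdr (PE.of_subgroup (X := C u) (x := ⟨f, hfu⟩) hfp) hfn
    have hle : (S₁ : Subgroup (C u)) ≤ N' := by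
      intro c hc
      have h1 := hS₁ hc
      refine Cfsg.Agent.Lib.Transfer.mem_normalizer_of_forall_conj ?_
      intro a ha
      have hau : a ∈ C u := hX₁ ha
      have h2 : (⟨a, hau⟩ : C u) ∈ C (⟨f, hfu⟩ : C u) := by
        rw [C_sub]
        exact ha
      have h3 := (mem_normalizer_iff.mp h1 ⟨a, hau⟩).mp h2
      rw [C_sub] at h3
      exact h3
    intro hd
    exact S₁.not_dvd_index (hd.trans (index_dvd_of_le hle))
  have hcprimes : ∀ l, l.Prime → l ∣ N'.index → l = p := by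
    intro l hl hld
    rcases hprimes l hl (hld.trans hcd) with e | e
    · exact e
    · exact absurd (e ▸ hld) hcr
  -- the Sylow subgroup of `C w`
  obtain ⟨P, hPN⟩ := hP'.exists_sylow_le_normalizer hr ht hp htr hpr htp htd hdp (PE.of_subgroup (X := C w) (x := ⟨f, hfw⟩) hfp) hfn'
  let P₀ : Subgroup G := (P : Subgroup (C w)).map (C w).subtype
  have hP₀p : IsPGroup p P₀ := P.isPGroup'.map _
  have hP₀N : ∀ g ∈ P₀, ∀ x ∈ C f, g * x * g⁻¹ ∈ C f := by
    rintro _ ⟨g, hg, rfl⟩ x hx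
    have hxw : x ∈ C w := hX₂ hx
    have h1 := hPN hg
    have h2 : (⟨x, hxw⟩ : C w) ∈ C (⟨f, hfw⟩ : C w) := by
      rw [C_sub]
      exact hx
    have h3 := (mem_normalizer_iff.mp h1 ⟨x, hxw⟩).mp h2
    rw [C_sub] at h3
    exact h3
  obtain ⟨π, hπ⟩ : ∃ π, π = ((C f).subgroupOf P₀).index := ⟨_, rfl⟩
  -- numerics for `π`
  have hcπ : N'.index ∣ π := by
    have a1 : Nat.card ↥(C f ⊓ P₀) * (C f).relIndex P₀ = Nat.card P₀ :=
      Cfsg.Agent.Lib.PGroup.card_inf_mul_relIndex (C f) P₀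
    have a2 : Nat.card P₀ = Nat.card (P : Subgroup (C w)) :=
      card_map_of_injective (C w).subtype_injective
    have a3 : Nat.card (P : Subgroup (C w)) * (P : Subgroup (C w)).index = Nat.card (C w) := card_mul_index _
    obtain ⟨w', hw'⟩ : Nat.card ↥(C f ⊓ P₀) ∣ Nat.card (C f) := card_dvd_of_le inf_le_left
    have a4 : Nat.card (C f) * d = Nat.card (C w) := by
      have b1 := card_mul_index (C f)
      have b2 := card_mul_index (C w)
      rw [hfi] at b1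
      rw [hw] at b2
      have hm0 : 0 < m := by have := h.hm; omega
      refine Nat.eq_of_mul_eq_mul_right hm0 ?_
      rw [b2, ← b1]
      ring
    have a5 : d * w' = π * (P : Subgroup (C w)).index := by
      have hpos : 0 < Nat.card ↥(C f ⊓ P₀) := Nat.card_pos
      refine Nat.eq_of_mul_eq_mul_left hpos ?_
      calc Nat.card ↥(C f ⊓ P₀) * (d * w') = (Nat.card ↥(C f ⊓ P₀) * w') * d := by ring
        _ = Nat.card (C f) * d := by rw [← hw']
        _ = Nat.card (C w) := a4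
        _ = Nat.card (P : Subgroup (C w)) * (P : Subgroup (C w)).index := a3.symm
        _ = (Nat.card ↥(C f ⊓ P₀) * (C f).relIndex P₀) * (P : Subgroup (C w)).index := by rw [a1, a2]
        _ = Nat.card ↥(C f ⊓ P₀) * (π * (P : Subgroup (C w)).index) := by
            rw [hπ]
            show (Nat.card ↥(C f ⊓ P₀) * ((C f).subgroupOf P₀).index) * (P : Subgroup (C w)).index = _
            ring
    have a6 : N'.index.Coprime (P : Subgroup (C w)).index := by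
      by_contra hnc
      obtain ⟨l, hl, hl1, hl2⟩ := Nat.Prime.not_coprime_iff_dvd.mp hnc
      have := hcprimes l hl hl1
      exact P.not_dvd_index (this ▸ hl2)
    have a7 : N'.index ∣ π * (P : Subgroup (C w)).index := by
      rw [← a5]
      exact hcd.trans (dvd_mul_right _ _)
    exact a6.dvd_of_dvd_mul_right a7
  -- the two counts
  have hcnt1 : S.index ∣ N'.index - 1 := by
    have hXrel : ¬ t ∣ (C f).relIndex (C u) := by
      have : (C f).relIndex (C u) = d := hX₁i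
      rwa [this]
    exact cnt_coset ht hX₁ hXt hXrel
  have hcnt2 : π ∣ Nat.card F - Nat.card S := by
    rw [hπ]
    exact cnt_conj hP₀N hXt (fun e he hep x hx => hXc t ht e he hep x hx)
  have hπpos : 0 < π := by
    rw [hπ]
    exact Nat.pos_of_ne_zero index_ne_zero_of_finite
  have hπτ : π ∣ S.index - 1 := by
    have h1 : Nat.card F - Nat.card S = Nat.card S * (S.index - 1) := by
      rw [Nat.mul_sub, mul_one, hScard]
    rw [h1] at hcnt2
    have h2 : π.Coprime (Nat.card S) := by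
      have h3 : π ∣ Nat.card P₀ := by
        rw [hπ]
        exact index_dvd_card _ |>.trans (by
          rfl)
      obtain ⟨i, hi⟩ := IsPGroup.iff_card.mp hP₀p
      have h4 : Nat.card S ∣ Nat.card F := card_subgroup_dvd_card S
      obtain ⟨i', hi'⟩ := IsPGroup.iff_card.mp hFp
      rw [hi] at h3
      rw [hi'] at h4
      obtain ⟨a, -, ha⟩ := (Nat.dvd_prime_pow hp).mp h3
      obtain ⟨b, -, hb⟩ := (Nat.dvd_prime_pow ht).mp h4
      rw [ha, hb]
      exact Nat.Coprime.pow _ _ ((Nat.coprime_primes hp ht).mpr htp.symm)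
    exact h2.dvd_of_dvd_mul_left hcnt2
  -- conclude `c = 1`
  have hc1 : N'.index = 1 := by
    by_contra hne
    have hc0 : N'.index ≠ 0 := index_ne_zero_of_finite
    have h1 : S.index ≤ N'.index - 1 := Nat.le_of_dvd (by omega) hcnt1
    have h2 : π ≤ S.index - 1 := Nat.le_of_dvd (by omega) hπτ
    have h3 : N'.index ≤ π := Nat.le_of_dvd hπpos hcπ
    omega
  have hNtop : N' = ⊤ := index_eq_one.mp hc1
  -- contradiction
  obtain ⟨R⟩ : Nonempty (Sylow r (C u)) := inferInstance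
  apply hP.not_le_C hdr ((PE.of_subgroup (X := C u) (x := ⟨f, hfu⟩) hfp).coprime ht hp htp) hfn R
  intro v hv
  have hvp : PE r v := PE.of_mem_isPGroup R.isPGroup' hv
  rw [C_sub, mem_subgroupOf]
  by_cases hvc : v ∈ center (C u)
  · exact mem_C.mpr (mem_center_sub.mp hvc f hfu).symm
  · obtain ⟨k, -, hk⟩ := hP.exists_conj_C hp ht hr htp hpr.symm htr htd (f := ⟨f, hfu⟩) (v := v)
      (PE.of_subgroup hfp) hvp hfn hvc
    have hkN : (k : G) ∈ normalizer (C f : Set G) := by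
      have : k ∈ N' := hNtop ▸ mem_top k
      exact this
    have hf₁ : (k : G) * f * (k : G)⁻¹ ∈ C f := (mem_normalizer_iff.mp hkN f).mp (self_mem_C f)
    have hC₁ := hXt _ hf₁ (hfp.conj k) (conj_not_mem_center hfc k)
    have hcm : (v : G) * ((k : G) * f * (k : G)⁻¹) = ((k : G) * f * (k : G)⁻¹) * (v : G) := congrArg Subtype.val hk
    rw [← hC₁]
    exact mem_C.mpr hcm

include h hΩ h3 in
/-- **(Ω)** -/
theorem omega_main {x : G} (hx : (C x).index = m) : False := by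
  obtain ⟨p, u, hp, hup, hu⟩ := h.exists_primary_type hx
  have hP := pd_self h hu hp hup
  have hpd := p_dvd_d h hΩ h3 hu hp hup
  by_cases hr : ∃ r : ℕ, r.Prime ∧ r ≠ p ∧ r ∣ d
  · obtain ⟨r, hr, hrp, hrd⟩ := hr
    haveI : Fact r.Prime := ⟨hr⟩
    have hprimes : ∀ l, l.Prime → l ∣ d → l = p ∨ l = r := by
      intro l hl hld
      by_contra hno
      push Not at hno
      exact one_other h hΩ h3 hu hp hup hl hr hno.2 hno.1 hrp hld hrd
    obtain ⟨t, f', ht, htp, htr, hf', hf'p, hf'c⟩ := exists_f h h3 hu p r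
    have htd : ¬ t ∣ d := by
      intro hd
      rcases hprimes t ht hd with e | e
      · exact htp e
      · exact htr e
    have htm : t ∣ m := h.cc ht hf'p hf'c htd
    have hf'n := nc_H hΩ hu hp hup ht htp hf' hf'p hf'c
    have hf'p' : PE t (⟨f', hf'⟩ : C u) := PE.of_subgroup hf'p
    obtain ⟨R⟩ : Nonempty (Sylow r (C u)) := inferInstance
    obtain ⟨w₀, hw₀S, hw₀c⟩ : ∃ w₀ ∈ (R : Subgroup (C u)), w₀ ∉ center (C u) :=
      SetLike.not_le_iff_exists.mp (hP.not_le_center hrd (hf'p'.coprime ht hp htp) hf'n R)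
    have hw₀p : PE r w₀ := PE.of_mem_isPGroup R.isPGroup' hw₀S
    obtain ⟨k, -, hk⟩ := hP.exists_conj_C hp ht hr htp hrp htr htd hf'p' hw₀p hf'n hw₀c
    obtain ⟨f, hfdef⟩ : ∃ f : G, f = ((k * ⟨f', hf'⟩ * k⁻¹ : C u) : G) := ⟨_, rfl⟩
    have hfu : f ∈ C u := hfdef ▸ (k * ⟨f', hf'⟩ * k⁻¹ : C u).2
    have hfp : PE t f := hfdef ▸ (hf'p'.conj k).coe
    have hfc : f ∉ center G := by
      rw [hfdef]
      exact not_center_of_sub (conj_not_mem_center hf'n k)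
    have hcomm : f * (w₀ : G) = (w₀ : G) * f := by
      have := congrArg Subtype.val hk
      rw [hfdef]
      exact this.symm
    have hw₀G : (w₀ : G) ∉ center G := not_center_of_sub hw₀c
    have hw₀p' : PE r (w₀ : G) := hw₀p.coe
    have hfn := nc_H hΩ hu hp hup ht htp hfu hfp hfc
    have hw₀n : (⟨(w₀ : G), w₀.2⟩ : C u) ∉ center (C u) := hw₀c
    by_cases hc1 : ∀ e ∈ C u ⊓ C f, PE r e → e ∉ center G → (C e).index = m * d
    · refine omega_Z h hΩ hu hp hup ht hr htr htp hrp hfu w₀.2 hfp hw₀p' hfc hw₀G hcomm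
        (fun e _ hep hec => type_nd h hΩ h3 ht htd hep hec) hc1 (htm.trans (dvd_mul_right _ _))
        (hrd.trans (dvd_mul_left _ _))
    · push Not at hc1
      obtain ⟨w, hwX, hwp, hwc, hwne⟩ := hc1
      have hwm : (C w).index = m := (h.nc hwc).resolve_right hwne
      have hfi := type_nd h hΩ h3 ht htd hfp hfc
      have hXu : C f ≤ C u := C_le_H hu hP hp ht htp hfu hfp hfn hfi
      have hwn := nc_H hΩ hu hp hup hr hrp hwX.1 hwp hwc
      have hwf : w * f = f * w := (mem_C.mp hwX.2)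
      have e1 := rel_C_eq hP hp hr ht htr.symm hrp htp hwX.1 hfu hwf hwp hfp hwn hfn
      have hXw : C f ≤ C w := by
        rw [← inf_eq_right.mpr hXu, ← e1]
        exact inf_le_right
      exact omega_c2 h hΩ h3 hu hwm hp hr ht hrp.symm htp htr hup hwp hfp hfc htd hpd hrd hprimes hXu hXw
  · push Not at hr
    obtain ⟨t₁, f₁, ht₁, ht₁p, -, hf₁, hf₁p, hf₁c⟩ := exists_f h h3 hu p p
    obtain ⟨t₂, f₂', ht₂, ht₂p, ht₂₁, hf₂', hf₂'p, hf₂'c⟩ := exists_f h h3 hu p t₁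
    have htd₁ : ¬ t₁ ∣ d := hr t₁ ht₁ ht₁p
    have htd₂ : ¬ t₂ ∣ d := hr t₂ ht₂ ht₂p
    have hm₁ : t₁ ∣ m := h.cc ht₁ hf₁p hf₁c htd₁
    have hf₁n := nc_H hΩ hu hp hup ht₁ ht₁p hf₁ hf₁p hf₁c
    have hf₂'n := nc_H hΩ hu hp hup ht₂ ht₂p hf₂' hf₂'p hf₂'c
    have hf₂'p' : PE t₂ (⟨f₂', hf₂'⟩ : C u) := PE.of_subgroup hf₂'p
    have hf₁p' : PE t₁ (⟨f₁, hf₁⟩ : C u) := PE.of_subgroup hf₁p
    obtain ⟨k, -, hk⟩ := hP.exists_conj_C hp ht₂ ht₁ ht₂p ht₁p ht₂₁ htd₂ hf₂'p' hf₁p' hf₂'n hf₁n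
    obtain ⟨f₂, hfdef⟩ : ∃ f : G, f = ((k * ⟨f₂', hf₂'⟩ * k⁻¹ : C u) : G) := ⟨_, rfl⟩
    have hf₂ : f₂ ∈ C u := hfdef ▸ (k * ⟨f₂', hf₂'⟩ * k⁻¹ : C u).2
    have hf₂p : PE t₂ f₂ := hfdef ▸ (hf₂'p'.conj k).coe
    have hf₂c : f₂ ∉ center G := by
      rw [hfdef]
      exact not_center_of_sub (conj_not_mem_center hf₂'n k)
    have hcomm : f₁ * f₂ = f₂ * f₁ := by
      have := congrArg Subtype.val hk
      rw [hfdef]
      exact this
    have hm₂ : t₂ ∣ m := h.cc ht₂ hf₂p hf₂c htd₂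
    exact omega_Z h hΩ hu hp hup ht₁ ht₂ ht₂₁.symm ht₁p ht₂p hf₁ hf₂ hf₁p hf₂p hf₁c hf₂c hcomm
      (fun e _ hep hec => type_nd h hΩ h3 ht₁ htd₁ hep hec) (fun e _ hep hec => type_nd h hΩ h3 ht₂ htd₂ hep hec)
      (hm₁.trans (dvd_mul_right _ _)) (hm₂.trans (dvd_mul_right _ _))

end Ctx

/-- **Case II.** -/
theorem caseII_main (h : CaseII G m d) {x : G} (hx : (C x).index = m)
    (h3 : ∀ p q : ℕ, ∃ l, l.Prime ∧ l ≠ p ∧ l ≠ q ∧ ∃ e : G, PE l e ∧ e ∉ center G) : Group.IsSolvable G := by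
  by_cases hΩ : OneP G m
  · exact absurd (omega_main h hΩ h3 hx) id
  · unfold OneP at hΩ
    push Not at hΩ
    obtain ⟨u, z, p, t, hu, hp, hup, ht, hz, hzp, hzc, hne⟩ := hΩ
    have huc := not_mem_center_of_index hu h.hm
    refine h.ab hu (h.Q hu h3 hp ht hne.symm (self_mem_C u) ?_ (fun g hg => mem_C.mp hg) hz hup hzp huc hzc)
    exact mem_C.mpr (hz u (self_mem_C u)).symm

end Cfsg.Agent.Lib.PGroup.Ito
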