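import Mathlib
import Cfsg.Agent.Lib.PGroup.ConjAbM
import Cfsg.Agent.Lib.Hall.CoprimeLemmas

/-!
# The `Q₈` step, continued
-/

set_option autoImplicit false

namespace Cfsg.Agent.Lib.PGroup.ConjAb

open Subgroup Cfsg.Agent.Lib.Techniques

universe u

variable {G : Type u} [Group G]

section

variable [Finite G] (hB : HB G) (hs : Group.IsSolvable G)
  (hnp : ∀ M : Subgroup G, IsMinN M → ¬ (Nat.card M).Prime)

include hB hs hnp

theorem soc_no_two {T : Sylow 2 G} (hTF : ¬ (T : Subgroup G) ≤ soc G) {x : G} (hx : x ∈ soc G)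
    (k : ℕ) (hk : x ^ 2 ^ k = 1) : x = 1 := by
  haveI : Fact (Nat.Prime 2) := ⟨Nat.prime_two⟩
  by_contra hx1
  obtain ⟨M, hM, -, -, hall⟩ := soc_elem hB hs hnp 2 hx k hk hx1
  exact hTF ((hall _ T.isPGroup').trans (le_soc hM))

/-- `Q₈` is normal modulo the socle. -/
theorem q8_conj_data (T : Sylow 2 G) (he : Nonempty ((T : Subgroup G) ≃* QuaternionGroup 2))
    (hTF : ¬ (T : Subgroup G) ≤ soc G) :
    ∀ g t : G, t ∈ (T : Subgroup G) → ∃ t' ∈ (T : Subgroup G), ∃ f ∈ soc G, g * t * g⁻¹ = t' * f := by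
  classical
  haveI : Fact (Nat.Prime 2) := ⟨Nat.prime_two⟩
  haveI hFn : (soc G).Normal := soc_normal
  obtain ⟨e⟩ := id he
  have hD := Q8D.of_equiv e
  let π : G →* G ⧸ soc G := QuotientGroup.mk' (soc G)
  have hπ : Function.Surjective π := QuotientGroup.mk'_surjective _
  have hπ1 : ∀ x, π x = 1 ↔ x ∈ soc G := fun x => by
    rw [QuotientGroup.mk'_apply, QuotientGroup.eq_one_iff]
  let T' : Sylow 2 (G ⧸ soc G) := T.mapSurjective hπ
  have hT' : (T' : Subgroup (G ⧸ soc G)) = (T : Subgroup G).map π := Sylow.coe_mapSurjective hπ T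
  have hinf : ∀ x, x ∈ (T : Subgroup G) → x ∈ soc G → x = 1 := by
    intro x hxT hxF
    refine soc_no_two hB hs hnp hTF hxF 3 ?_
    exact hD.pow_eight hxT
  have hT'e : Nonempty ((T' : Subgroup (G ⧸ soc G)) ≃* QuaternionGroup 2) := by
    rw [hT']
    have hinj : Function.Injective (π.subgroupMap (T : Subgroup G)) := by
      intro a b hab
      have h1 : π (a : G) = π (b : G) := congrArg Subtype.val hab
      have h2 : π ((a : G)⁻¹ * b) = 1 := by rw [map_mul, map_inv, h1]; group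
      have h3 := hinf _ (mul_mem (inv_mem a.2) b.2) ((hπ1 _).mp h2)
      exact Subtype.ext (by
        have h4 : (a : G) * ((a : G)⁻¹ * b) = a := by rw [h3, mul_one]
        rw [← h4]; group)
    exact ⟨(MulEquiv.ofBijective (π.subgroupMap (T : Subgroup G))
      ⟨hinj, π.subgroupMap_surjective _⟩).symm.trans e⟩
  have hodd' : ∀ (r : ℕ) [Fact r.Prime], r ≠ 2 → ∀ S : Sylow r (G ⧸ soc G),
      IsCyclic (S : Subgroup (G ⧸ soc G)) := by
    intro r _ hr S
    obtain ⟨S₀, rfl⟩ := Sylow.mapSurjective_surjective hπ r S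
    rw [Sylow.coe_mapSurjective]
    rcases sylow_cases_odd hB hs hnp r hr S₀.isPGroup' with h | h
    · have : (S₀ : Subgroup G).map π = ⊥ := by
        rw [Subgroup.map_eq_bot_iff]
        show _ ≤ π.ker
        rw [QuotientGroup.ker_mk']
        exact h
      rw [this]
      infer_instance
    · exact isCyclic_of_surjective (π.subgroupMap (S₀ : Subgroup G)) (π.subgroupMap_surjective _)
  have hT'n := q8_normal (hb_quotient hB hs (soc G)) inferInstance T' hT'e hodd'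
  intro g t ht
  have h1 : π (g * t * g⁻¹) ∈ (T' : Subgroup (G ⧸ soc G)) := by
    have h2 : π t ∈ (T' : Subgroup (G ⧸ soc G)) := by rw [hT']; exact ⟨t, ht, rfl⟩
    have := hT'n.conj_mem _ h2 (π g)
    simpa using this
  rw [hT'] at h1
  obtain ⟨t', ht', htt⟩ := h1
  have h2 : π (t'⁻¹ * (g * t * g⁻¹)) = 1 := by rw [map_mul, map_inv, htt]; group
  exact ⟨t', ht', _, (hπ1 _).mp h2, by group⟩

end

/-- The subgroup of the socle inverted by `z`. -/
def invSub (hc : IsMulCommutative (soc G)) (z : G) : Subgroup G where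
  carrier := {x | x ∈ soc G ∧ z * x * z⁻¹ = x⁻¹}
  mul_mem' := by
    rintro a b ⟨ha, ha'⟩ ⟨hb, hb'⟩
    refine ⟨mul_mem ha hb, ?_⟩
    calc z * (a * b) * z⁻¹ = (z * a * z⁻¹) * (z * b * z⁻¹) := by group
      _ = a⁻¹ * b⁻¹ := by rw [ha', hb']
      _ = (b * a)⁻¹ := by group
      _ = (a * b)⁻¹ := by rw [comm_of_isMulCommutative hc hb ha]
  one_mem' := ⟨one_mem _, by group⟩
  inv_mem' := by
    rintro a ⟨ha, ha'⟩
    refine ⟨inv_mem ha, ?_⟩
    calc z * a⁻¹ * z⁻¹ = (z * a * z⁻¹)⁻¹ := by group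
      _ = a⁻¹⁻¹ := by rw [ha']

theorem mem_invSub {hc : IsMulCommutative (soc G)} {z x : G} :
    x ∈ invSub hc z ↔ x ∈ soc G ∧ z * x * z⁻¹ = x⁻¹ := Iff.rfl

theorem invSub_normal (hc : IsMulCommutative (soc G)) {z : G}
    (hz : ∀ g : G, ∃ f ∈ soc G, g * z * g⁻¹ = z * f) : (invSub hc z).Normal := by
  haveI hFn : (soc G).Normal := soc_normal
  constructor
  rintro x ⟨hx, hx'⟩ g
  refine ⟨hFn.conj_mem x hx g, ?_⟩
  obtain ⟨f, hf, hfe⟩ := hz g⁻¹
  have h1 : g⁻¹ * z * g = z * f := by simpa using hfe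
  have h2 : z = g * (z * f) * g⁻¹ := by rw [← h1]; group
  have hfx : f * x = x * f := comm_of_isMulCommutative hc hf hx
  calc z * (g * x * g⁻¹) * z⁻¹ = g * ((g⁻¹ * z * g) * x * (g⁻¹ * z * g)⁻¹) * g⁻¹ := by group
    _ = g * ((z * f) * x * (z * f)⁻¹) * g⁻¹ := by rw [h1]
    _ = g * (z * (f * x) * f⁻¹ * z⁻¹) * g⁻¹ := by group
    _ = g * (z * (x * f) * f⁻¹ * z⁻¹) * g⁻¹ := by rw [hfx]
    _ = g * (z * x * z⁻¹) * g⁻¹ := by group
    _ = g * x⁻¹ * g⁻¹ := by rw [hx']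
    _ = (g * x * g⁻¹)⁻¹ := by group

theorem conjS_normal_eq {N : Subgroup G} [hN : N.Normal] (g : G) : conjS g N = N := by
  ext x
  rw [mem_conjS]
  constructor
  · intro h
    have := hN.conj_mem _ h g
    have e : g * (g⁻¹ * x * g) * g⁻¹ = x := by group
    rwa [e] at this
  · intro h
    have := hN.conj_mem _ h g⁻¹
    simpa using this

section

variable [Finite G] (hB : HB G) (hs : Group.IsSolvable G)
  (hnp : ∀ M : Subgroup G, IsMinN M → ¬ (Nat.card M).Prime)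

include hB hs hnp

/-- The line trick: a `Q₈` normalizing a non-trivial part of a minimal normal subgroup inverted by
the involution contains everything. -/
theorem line_trick {T : Subgroup G} {z i j : G} (hD : Q8D T z i j)
    (hconj : ∀ g t : G, t ∈ T → ∃ t' ∈ T, ∃ f ∈ soc G, g * t * g⁻¹ = t' * f)
    {M W₀ : Subgroup G} (hM : IsMinN M) {r : ℕ} [hr : Fact r.Prime] (hMexp : ∀ x ∈ M, x ^ r = 1)
    (hMinv : ∀ x ∈ M, z * x * z⁻¹ = x⁻¹) (hno2 : ∀ x ∈ soc G, x ^ 2 = 1 → x = 1)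
    (hW₀M : W₀ ≤ M) (hW₀1 : W₀ ≠ ⊥) (hW₀T : ∀ t ∈ T, ∀ x ∈ W₀, t * x * t⁻¹ ∈ W₀) : W₀ = M := by
  classical
  by_contra hne
  haveI hMn : M.Normal := hM.1
  have hMF : M ≤ soc G := le_soc hM
  have hFc : IsMulCommutative (soc G) := soc_comm hB hs hnp
  obtain ⟨q, hq, hMc, -, -⟩ := min_data hB hs hnp hM
  have hMp : IsPGroup r M := fun x => ⟨1, Subtype.ext (by simpa using hMexp x x.2)⟩
  have hW₀p : IsPGroup r W₀ := hMp.to_le hW₀M
  obtain ⟨d, hd⟩ := IsPGroup.iff_card.mp hW₀p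
  have hd0 : d ≠ 0 := by
    rintro rfl
    rw [pow_zero] at hd
    exact hW₀1 (Subgroup.eq_bot_of_card_eq W₀ hd)
  obtain ⟨d', rfl⟩ := Nat.exists_eq_succ_of_ne_zero hd0
  have hltM : r ^ (d' + 1) < Nat.card M := by
    rw [← hd]
    refine lt_of_le_of_ne (Subgroup.card_le_of_le hW₀M) ?_
    intro h
    exact hne (Subgroup.eq_of_le_of_card_ge hW₀M (by rw [h]))
  -- all conjugates are invariant
  have hinv : ∀ W₁ : Subgroup G, W₁ ≤ M → Nat.card W₁ = Nat.card W₀ →
      ∀ t ∈ T, ∀ x ∈ W₁, t * x * t⁻¹ ∈ W₁ := by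
    intro W₁ hW₁ hcW₁ t ht x hx
    have habW₀ : IsMulCommutative W₀ := by
      refine isMulCommutative_of_comm ?_
      intro a ha b hb
      exact comm_of_isMulCommutative hMc (hW₀M ha) (hW₀M hb)
    have habW₁ : IsMulCommutative W₁ := by
      refine isMulCommutative_of_comm ?_
      intro a ha b hb
      exact comm_of_isMulCommutative hMc (hW₁ ha) (hW₁ hb)
    obtain ⟨g, hg⟩ := hB W₀ W₁ habW₀ habW₁ hcW₁.symm
    rw [hg] at hx ⊢
    obtain ⟨w, hw, rfl⟩ := hx
    obtain ⟨t', ht', f, hf, hfe⟩ := hconj g⁻¹ t ht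
    have h1 : g⁻¹ * t * g = t' * f := by simpa using hfe
    have hfw : f * w = w * f := comm_of_isMulCommutative hFc hf (hMF (hW₀M hw))
    have h2 : t' * w * t'⁻¹ ∈ W₀ := hW₀T t' ht' w hw
    refine ⟨_, h2, ?_⟩
    show g * (t' * w * t'⁻¹) * g⁻¹ = t * (g * w * g⁻¹) * t⁻¹
    calc g * (t' * w * t'⁻¹) * g⁻¹ = g * (t' * (w * f) * f⁻¹ * t'⁻¹) * g⁻¹ := by group
      _ = g * (t' * (f * w) * f⁻¹ * t'⁻¹) * g⁻¹ := by rw [hfw]
      _ = g * ((t' * f) * w * (t' * f)⁻¹) * g⁻¹ := by group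
      _ = g * ((g⁻¹ * t * g) * w * (g⁻¹ * t * g)⁻¹) * g⁻¹ := by rw [h1]
      _ = _ := by group
  -- lines are invariant
  have hlines : ∀ t ∈ T, ∀ m ∈ M, t * m * t⁻¹ ∈ zpowers m := by
    intro t ht m hm
    by_cases hm1 : m = 1
    · subst hm1
      simp
    by_contra hcon
    letI : CommGroup M := { (inferInstance : Group M) with mul_comm := hMc.is_comm.comm }
    have hexpA : ∀ x : M, x ^ r = 1 := fun x => Subtype.ext (by simpa using hMexp x x.2)
    have hm' : (⟨t * m * t⁻¹, hMn.conj_mem m hm t⟩ : M) ∉ zpowers (⟨m, hm⟩ : M) := by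
      intro h
      obtain ⟨a, ha⟩ := mem_zpowers_iff.mp h
      apply hcon
      have h2 : m ^ a = t * m * t⁻¹ := congrArg Subtype.val ha
      rw [← h2]
      exact Subgroup.zpow_mem _ (mem_zpowers m) a
    have hm1' : (⟨m, hm⟩ : M) ≠ 1 := fun h => hm1 (congrArg Subtype.val h)
    obtain ⟨W, hWc, hmW, hm'W⟩ := grow hexpA hm1' hm' d' hltM
    let W₁ : Subgroup G := W.map M.subtype
    have hW₁M : W₁ ≤ M := Subgroup.map_subtype_le _
    have hW₁c : Nat.card W₁ = Nat.card W₀ := by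
      rw [hd, ← hWc]
      exact Subgroup.card_map_of_injective M.subtype_injective
    have hmW₁ : m ∈ W₁ := ⟨⟨m, hm⟩, hmW, rfl⟩
    have h3 := hinv W₁ hW₁M hW₁c t ht m hmW₁
    obtain ⟨y, hy, hye⟩ := h3
    apply hm'W
    have : y = ⟨t * m * t⁻¹, hMn.conj_mem m hm t⟩ := Subtype.ext hye
    rwa [← this]
  -- the commutator acts trivially
  have hzfix : ∀ m ∈ M, z * m * z⁻¹ = m := by
    intro m hm
    obtain ⟨a, ha⟩ := mem_zpowers_iff.mp (hlines i hD.hi m hm)
    obtain ⟨b, hb⟩ := mem_zpowers_iff.mp (hlines j hD.hj m hm)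
    have h1 : (i * j) * m * (i * j)⁻¹ = m ^ (a * b) := by
      calc (i * j) * m * (i * j)⁻¹ = i * (j * m * j⁻¹) * i⁻¹ := by group
        _ = i * m ^ b * i⁻¹ := by rw [hb]
        _ = (i * m * i⁻¹) ^ b := (conj_zpow).symm
        _ = m ^ (a * b) := by rw [← ha, zpow_mul]
    have h2 : (j * i) * m * (j * i)⁻¹ = m ^ (a * b) := by
      calc (j * i) * m * (j * i)⁻¹ = j * (i * m * i⁻¹) * j⁻¹ := by group
        _ = j * m ^ a * j⁻¹ := by rw [ha]
        _ = (j * m * j⁻¹) ^ a := (conj_zpow).symm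
        _ = m ^ (a * b) := by rw [← hb, mul_comm a b, zpow_mul]
    have h3 : (i * j) * m * (i * j)⁻¹ = (j * i) * m * (j * i)⁻¹ := h1.trans h2.symm
    rw [← hD.comm]
    calc ((j * i)⁻¹ * (i * j)) * m * ((j * i)⁻¹ * (i * j))⁻¹
        = (j * i)⁻¹ * ((i * j) * m * (i * j)⁻¹) * (j * i) := by group
      _ = (j * i)⁻¹ * ((j * i) * m * (j * i)⁻¹) * (j * i) := by rw [h3]
      _ = m := by group
  -- contradiction
  apply hM.2.1
  rw [eq_bot_iff]
  intro m hm
  rw [Subgroup.mem_bot]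
  have h1 := hzfix m hm
  rw [hMinv m hm] at h1
  apply hno2 m (hMF hm)
  calc m ^ 2 = m * m := pow_two m
    _ = m⁻¹ * m := by nth_rewrite 1 [← h1]; rfl
    _ = 1 := by group

/-- **The `Q₈` step.** -/
theorem q8_step
    (hIH : ∀ K : Subgroup G, K.Normal → K ≠ ⊥ → ∀ A B : Subgroup G, K ≤ A → K ≤ B →
      Nat.card A = Nat.card B → ∃ g : G, B = conjS g A)
    (T : Sylow 2 G) (he : Nonempty ((T : Subgroup G) ≃* QuaternionGroup 2))
    (hTF : ¬ (T : Subgroup G) ≤ soc G) {D H₁ H₂ : Subgroup G} (hDF : D ≤ soc G)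
    (hTD : (T : Subgroup G) ≤ normalizer (D : Set G)) (hH₁ : H₁ ≤ normalizer (D : Set G))
    (hH₂ : H₂ ≤ normalizer (D : Set G)) (hcard : Nat.card H₁ = Nat.card H₂)
    (hcop : (Nat.card H₁).Coprime (Nat.card (soc G))) (heven : 2 ∣ Nat.card H₁) :
    ∃ c ∈ normalizer (D : Set G), H₂ = conjS c H₁ := by
  classical
  haveI : Fact (Nat.Prime 2) := ⟨Nat.prime_two⟩
  haveI hFn : (soc G).Normal := soc_normal
  have hFc : IsMulCommutative (soc G) := soc_comm hB hs hnp
  have hcomF : ∀ {a b : G}, a ∈ soc G → b ∈ soc G → a * b = b * a := fun ha hb =>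
    comm_of_isMulCommutative hFc ha hb
  obtain ⟨e⟩ := id he
  have hD := Q8D.of_equiv e
  obtain ⟨z, hzdef⟩ : ∃ z : G, z = ((e.symm (QuaternionGroup.a 2) : T) : G) := ⟨_, rfl⟩
  obtain ⟨i, hidef⟩ : ∃ i : G, i = ((e.symm (QuaternionGroup.a 1) : T) : G) := ⟨_, rfl⟩
  obtain ⟨j, hjdef⟩ : ∃ j : G, j = ((e.symm (QuaternionGroup.xa 0) : T) : G) := ⟨_, rfl⟩
  rw [← hzdef, ← hidef, ← hjdef] at hD
  have hconj := q8_conj_data hB hs hnp T he hTF
  have hno2k := fun (x : G) (hx : x ∈ soc G) (k : ℕ) (hk : x ^ 2 ^ k = 1) =>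
    soc_no_two hB hs hnp hTF hx k hk
  have hno2 : ∀ x ∈ soc G, x ^ 2 = 1 → x = 1 := fun x hx h =>
    hno2k x hx 1 (by simpa using h)
  have hzinv : z⁻¹ = z := by
    have h := hD.z2
    rw [pow_two] at h
    exact inv_eq_of_mul_eq_one_left h
  -- conjugates of `z`
  have hzconj : ∀ g : G, ∃ f ∈ soc G, g * z * g⁻¹ = z * f := by
    intro g
    obtain ⟨t', ht', f, hf, hfe⟩ := hconj g z hD.hz
    have hsq : (t' * f) ^ 2 = 1 := by
      rw [← hfe, conj_pow, hD.z2]; group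
    have hsq' : t' * f * (t' * f) = 1 := by rw [← pow_two]; exact hsq
    have ht2F : t' ^ 2 ∈ soc G := by
      have h1 : t' ^ 2 = (t' * f * (t' * f)) * (f⁻¹ * (t'⁻¹ * f⁻¹ * t'⁻¹⁻¹)) := by
        rw [pow_two]; group
      rw [h1, hsq', one_mul]
      exact mul_mem (inv_mem hf) (hFn.conj_mem _ (inv_mem hf) t'⁻¹)
    have ht2 : t' ^ 2 = 1 := by
      refine hno2k _ ht2F 2 ?_
      rw [← pow_mul]
      exact hD.pow_eight ht'
    rcases hD.inv t' ht' ht2 with h | h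
    · exfalso
      rw [h, one_mul] at hsq hfe
      have hf1 := hno2 f hf hsq
      rw [hf1] at hfe
      apply hD.z1
      have h3 : z = g⁻¹ * (g * z * g⁻¹) * g := by group
      rw [h3, hfe]; group
    · exact ⟨f, hf, by rw [hfe, h]⟩
  let K₀ : Subgroup G := invSub hFc z
  haveI hK₀n : K₀.Normal := invSub_normal hFc hzconj
  have hK₀F : K₀ ≤ soc G := fun x hx => hx.1
  -- involutions
  have hinvol : ∀ y : G, y ^ 2 = 1 → y ≠ 1 → ∃ f ∈ K₀, y = z * f := by
    intro y hy hy1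
    obtain ⟨g, hg⟩ := exists_conj_le_sylow T (isPGroup_zpowers_of_pow hy)
    have h1 : g * y * g⁻¹ ∈ (T : Subgroup G) := hg ⟨y, mem_zpowers y, rfl⟩
    have h2 : (g * y * g⁻¹) ^ 2 = 1 := by rw [conj_pow, hy]; group
    have h3 : g * y * g⁻¹ ≠ 1 := by
      intro h
      apply hy1
      have h4 : y = g⁻¹ * (g * y * g⁻¹) * g := by group
      rw [h4, h]; group
    have h4 : g * y * g⁻¹ = z := by
      rcases hD.inv _ h1 h2 with h | h
      · exact absurd h h3
      · exact h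
    obtain ⟨f, hf, hfe⟩ := hzconj g⁻¹
    have h5 : y = z * f := by
      rw [← hfe, ← h4]; group
    refine ⟨f, ⟨hf, ?_⟩, h5⟩
    rw [h5, pow_two] at hy
    have h6 : z * f * z * f = 1 := by
      have e1 : z * f * z * f = z * f * (z * f) := by group
      rw [e1]; exact hy
    calc z * f * z⁻¹ = z * f * z := by rw [hzinv]
      _ = (z * f * z * f) * f⁻¹ := by group
      _ = f⁻¹ := by rw [h6, one_mul]
  -- the normal subgroup
  let K : Subgroup G := K₀ ⊔ zpowers z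
  have hKn : K.Normal := by
    constructor
    intro x hx g
    have hle : K ≤ K.comap (MulAut.conj g).toMonoidHom := by
      apply sup_le
      · intro k hk
        exact Subgroup.mem_sup_left (hK₀n.conj_mem k hk g)
      · rw [Subgroup.zpowers_le]
        show g * z * g⁻¹ ∈ K
        obtain ⟨f, hf, hfe⟩ := hinvol (g * z * g⁻¹) (by rw [conj_pow, hD.z2]; group) (by
          intro h
          apply hD.z1
          have h3 : z = g⁻¹ * (g * z * g⁻¹) * g := by group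
          rw [h3, h]; group)
        rw [hfe]
        exact mul_mem (Subgroup.mem_sup_right (mem_zpowers z)) (Subgroup.mem_sup_left hf)
    exact hle hx
  have hK1 : K ≠ ⊥ := by
    intro h
    have : z ∈ K := Subgroup.mem_sup_right (mem_zpowers z)
    rw [h, Subgroup.mem_bot] at this
    exact hD.z1 this
  let E : Subgroup G := D ⊔ K₀
  have hEF : E ≤ soc G := sup_le hDF hK₀F
  have hnormE : ∀ h ∈ normalizer (D : Set G), h ∈ normalizer (E : Set G) := by
    intro h hh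
    rw [mem_normalizer_iff_conjS]
    show (D ⊔ K₀).map (MulAut.conj h).toMonoidHom = D ⊔ K₀
    rw [Subgroup.map_sup]
    have h1 : D.map (MulAut.conj h).toMonoidHom = D := mem_normalizer_iff_conjS.mp hh
    have h2 : K₀.map (MulAut.conj h).toMonoidHom = K₀ := conjS_normal_eq h
    rw [h1, h2]
  have hH₁E : H₁ ≤ normalizer (E : Set G) := fun h hh => hnormE h (hH₁ hh)
  have hH₂E : H₂ ≤ normalizer (E : Set G) := fun h hh => hnormE h (hH₂ hh)
  have hcop₂ : (Nat.card H₂).Coprime (Nat.card (soc G)) := hcard ▸ hcop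
  have hcopE : ∀ {H : Subgroup G}, (Nat.card H).Coprime (Nat.card (soc G)) →
      (Nat.card H).Coprime (Nat.card E) := fun h =>
    Nat.Coprime.coprime_dvd_right (Subgroup.card_dvd_of_le hEF) h
  have hY₁c := card_sup_coprime hH₁E (hcopE hcop)
  have hY₂c := card_sup_coprime hH₂E (hcopE hcop₂)
  -- `K` lies in the products
  have hKle : ∀ H : Subgroup G, 2 ∣ Nat.card H → K ≤ E ⊔ H := by
    intro H h2
    apply sup_le
    · exact (le_sup_right : K₀ ≤ E).trans le_sup_left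
    · rw [Subgroup.zpowers_le]
      obtain ⟨⟨y, hy⟩, hyo⟩ := exists_prime_orderOf_dvd_card' 2 h2
      have hyo' : orderOf y = 2 := by rw [← Subgroup.orderOf_mk y hy]; exact hyo
      have hy2 : y ^ 2 = 1 := by rw [← hyo']; exact pow_orderOf_eq_one y
      have hy1 : y ≠ 1 := by
        rintro rfl
        rw [orderOf_one] at hyo'
        omega
      obtain ⟨f, hf, hfe⟩ := hinvol y hy2 hy1
      have h3 : z = y * f⁻¹ := by rw [hfe]; group
      rw [h3]
      exact mul_mem (Subgroup.mem_sup_right hy)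
        (Subgroup.mem_sup_left ((le_sup_right : K₀ ≤ E) (inv_mem hf)))
  obtain ⟨g₁, hg₁⟩ := hIH K hKn hK1 (E ⊔ H₁) (E ⊔ H₂) (hKle H₁ heven) (hKle H₂ (hcard ▸ heven))
    (by rw [hY₁c, hY₂c, hcard])
  -- `E` is recovered
  have hYF : ∀ H : Subgroup G, H ≤ normalizer (E : Set G) → (Nat.card H).Coprime (Nat.card (soc G)) →
      (E ⊔ H) ⊓ soc G = E := by
    intro H hH hc
    apply le_antisymm
    · intro x hx
      obtain ⟨hx1, hx2⟩ := Subgroup.mem_inf.mp hx
      have hm : x ∈ ((E ⊔ H : Subgroup G) : Set G) := hx1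
      rw [Subgroup.coe_mul_of_right_le_normalizer_left _ _ hH, Set.mem_mul] at hm
      obtain ⟨a, ha, b, hb, rfl⟩ := hm
      have hbF : b ∈ soc G := by
        have h3 : b = a⁻¹ * (a * b) := by group
        rw [h3]
        exact mul_mem (inv_mem (hEF ha)) hx2
      have hb1 : b ∈ H ⊓ soc G := Subgroup.mem_inf.mpr ⟨hb, hbF⟩
      rw [Subgroup.inf_eq_bot_of_coprime hc, Subgroup.mem_bot] at hb1
      rw [hb1, mul_one]
      exact ha
    · exact le_inf le_sup_left hEF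
  have hEg : conjS g₁ E = E := by
    have h1 : conjS g₁ ((E ⊔ H₁) ⊓ soc G) = (E ⊔ H₂) ⊓ soc G := by
      rw [conjS_inf, ← hg₁, conjS_normal_eq]
    rw [hYF H₁ hH₁E hcop, hYF H₂ hH₂E hcop₂] at h1
    exact h1
  -- `g₁` normalizes `D`
  have hg₁D : ∀ x ∈ D, g₁ * x * g₁⁻¹ ∈ D := by
    intro x hx
    apply mem_of_primary_parts (D.comap (MulAut.conj g₁).toMonoidHom) x
    intro y hyz r k hr hyk
    have hyD : y ∈ D := (Subgroup.zpowers_le.mpr hx) hyz
    show g₁ * y * g₁⁻¹ ∈ D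
    by_cases hy1 : y = 1
    · rw [hy1]; simp
    haveI : Fact r.Prime := ⟨hr⟩
    obtain ⟨M, hM, hyM, hMexp, hall⟩ := soc_elem hB hs hnp r (hDF hyD) k hyk hy1
    haveI hMn : M.Normal := hM.1
    by_cases hMK : M ≤ K₀
    · have hWM : D ⊓ M = M := by
        refine line_trick hB hs hnp hD hconj hM hMexp (fun x hx => (hMK hx).2) hno2 inf_le_right ?_ ?_
        · intro h
          have : y ∈ D ⊓ M := Subgroup.mem_inf.mpr ⟨hyD, hyM⟩
          rw [h, Subgroup.mem_bot] at this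
          exact hy1 this
        · intro t ht x hx
          obtain ⟨hx1, hx2⟩ := Subgroup.mem_inf.mp hx
          exact Subgroup.mem_inf.mpr ⟨(Subgroup.mem_normalizer_iff.mp (hTD ht) x).mp hx1,
            hMn.conj_mem x hx2 t⟩
      have hMD : M ≤ D := inf_eq_right.mp hWM
      exact hMD (hMn.conj_mem y hyM g₁)
    · have hinfK : M ⊓ K₀ = ⊥ := by
        rcases hM.2.2 (M ⊓ K₀) inferInstance inf_le_left with h | h
        · exact h
        · exact absurd (inf_eq_left.mp h) hMK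
      have hy₁E : g₁ * y * g₁⁻¹ ∈ E := by
        rw [← hEg]
        exact ⟨y, (le_sup_left : D ≤ E) hyD, rfl⟩
      obtain ⟨d, hd, k', hk', hdk⟩ := (Subgroup.mem_sup_of_normal_right).mp hy₁E
      have hy₁r : (g₁ * y * g₁⁻¹) ^ r = 1 := by rw [conj_pow, hMexp y hyM]; group
      have hcopo : Nat.Coprime (orderOf k') r := by
        by_contra hnc
        have hrd : r ∣ orderOf k' := by
          by_contra hnd
          exact hnc ((Nat.Prime.coprime_iff_not_dvd hr).mpr hnd).symm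
        obtain ⟨s, hs⟩ := hrd
        have hko : orderOf (k' ^ s) = r := by
          have hspos : s ≠ 0 := by
            rintro rfl
            rw [mul_zero] at hs
            exact (orderOf_pos k').ne' hs
          rw [orderOf_pow_of_dvd hspos ⟨r, by rw [hs, mul_comm]⟩, hs]
          exact Nat.mul_div_cancel _ (Nat.pos_of_ne_zero hspos)
        have hk'2 : (k' ^ s) ^ r = 1 := by
          rw [← hko]; exact pow_orderOf_eq_one _
        have h3 : k' ^ s ∈ M := by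
          have h4 := hall (zpowers (k' ^ s)) (isPGroup_zpowers_of_pow hk'2)
          exact h4 (mem_zpowers _)
        have h5 : k' ^ s ∈ M ⊓ K₀ := Subgroup.mem_inf.mpr ⟨h3, pow_mem hk' s⟩
        rw [hinfK, Subgroup.mem_bot] at h5
        rw [h5, orderOf_one] at hko
        exact hr.one_lt.ne hko
      obtain ⟨n, hn⟩ := Nat.exists_mul_mod_eq_one_of_coprime hcopo hr.one_lt
      have hcomm : Commute d k' := hcomF (hDF hd) (hK₀F hk')
      have h3 : (g₁ * y * g₁⁻¹) ^ orderOf k' = d ^ orderOf k' := by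
        rw [← hdk, hcomm.mul_pow, pow_orderOf_eq_one, mul_one]
      have h4 : g₁ * y * g₁⁻¹ = ((g₁ * y * g₁⁻¹) ^ orderOf k') ^ n := by
        rw [← pow_mul, pow_eq_pow_mod _ hy₁r, hn.2, pow_one]
      rw [h4, h3]
      exact pow_mem (pow_mem hd _) _
  have hg₁N : g₁ ∈ normalizer (D : Set G) := Cfsg.Agent.Lib.Hall.mem_normalizer_of_conj_le hg₁D
  -- Hall conjugacy
  have hle1 : conjS g₁ H₁ ≤ E ⊔ H₂ := by
    rw [hg₁]
    exact conjS_mono g₁ le_sup_right
  obtain ⟨c₃, hc₃, hc₃e⟩ := hall_conj_in (T := E ⊔ H₂) (X := conjS g₁ H₁) (Y := H₂) hle1 le_sup_right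
    (Nat.card H₂) (Nat.card E) (by rw [hY₂c, mul_comm]) (hcopE hcop₂) (by rw [card_conjS, hcard]) rfl
  have hm : c₃⁻¹ ∈ ((E ⊔ H₂ : Subgroup G) : Set G) := inv_mem hc₃
  rw [Subgroup.coe_mul_of_right_le_normalizer_left _ _ hH₂E, Set.mem_mul] at hm
  obtain ⟨a, ha, b, hb, hab⟩ := hm
  have hc₃' : c₃ = b⁻¹ * a⁻¹ := by
    have h1 : c₃ = (a * b)⁻¹ := by rw [hab, inv_inv]
    rw [h1]; group
  have haF : a⁻¹ ∈ soc G := inv_mem (hEF ha)
  have hcN : a⁻¹ ∈ normalizer (D : Set G) := by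
    apply Cfsg.Agent.Lib.Hall.mem_normalizer_of_conj_le
    intro x hx
    have h1 : a⁻¹ * x = x * a⁻¹ := hcomF haF (hDF hx)
    have h2 : a⁻¹ * x * a⁻¹⁻¹ = x := by rw [h1]; group
    rw [h2]; exact hx
  refine ⟨a⁻¹ * g₁, mul_mem hcN hg₁N, ?_⟩
  have h5 : conjS b H₂ = H₂ := conjS_eq_of_mem hb
  rw [conjS_mul]
  rw [hc₃', conjS_mul] at hc₃e
  have h6 := congrArg (conjS b) hc₃e
  rw [h5, conjS_conjS_inv] at h6
  exact h6

end

end Cfsg.Agent.Lib.PGroup.ConjAb
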