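import Mathlib
import Cfsg.Agent.Lib.PGroup.ConjAbK

/-!
# In a solvable group whose abelian subgroups of equal order are conjugate, all subgroups of equal
order are conjugate
-/

set_option autoImplicit false

namespace Cfsg.Agent.Lib.PGroup.ConjAb

open Subgroup Cfsg.Agent.Lib.Techniques

universe u

variable {G : Type u} [Group G]

/-- Conjugacy inside a subgroup with a Z-group section. -/
theorem conj_in_sub [Finite G] (hs : Group.IsSolvable G) {N T₀ H₁ H₂ : Subgroup G} (hT₀N : T₀ ≤ N)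
    (hT₀n : N ≤ normalizer (T₀ : Set G)) (hH₁ : H₁ ≤ N) (hH₂ : H₂ ≤ N)
    (hcard : Nat.card H₁ = Nat.card H₂) (hcop : (Nat.card H₁).Coprime (Nat.card T₀))
    (hz : ∀ (r : ℕ) [Fact r.Prime] (S : Subgroup G), S ≤ N → IsPGroup r S → IsCyclic S ∨ S ≤ T₀) :
    ∃ c ∈ N, H₂ = conjS c H₁ := by
  classical
  let T' : Subgroup N := T₀.subgroupOf N
  haveI hT'n : T'.Normal := Subgroup.normal_subgroupOf_iff_le_normalizer hT₀N |>.mpr hT₀n
  have eT : Nat.card T' = Nat.card T₀ := Nat.card_congr (Subgroup.subgroupOfEquivOfLe hT₀N).toEquiv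
  have e1 : Nat.card (H₁.subgroupOf N) = Nat.card H₁ :=
    Nat.card_congr (Subgroup.subgroupOfEquivOfLe hH₁).toEquiv
  have e2 : Nat.card (H₂.subgroupOf N) = Nat.card H₂ :=
    Nat.card_congr (Subgroup.subgroupOfEquivOfLe hH₂).toEquiv
  haveI hZ : IsZGroup (N ⧸ T') := by
    apply isZGroup_quot_of_lift
    intro r _ S
    have hS' : IsPGroup r ((S : Subgroup N).map N.subtype) := S.isPGroup'.map _
    rcases hz r _ (Subgroup.map_subtype_le _) hS' with h | h
    · left
      exact isCyclic_of_injective ((S : Subgroup N).equivMapOfInjective N.subtype N.subtype_injective).toMonoidHom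
        ((S : Subgroup N).equivMapOfInjective N.subtype N.subtype_injective).injective
    · right
      intro x hx
      exact h ⟨x, hx, rfl⟩
  obtain ⟨g, hg⟩ := conj_of_zquot T' (H₁.subgroupOf N) (H₂.subgroupOf N) (by rw [e1, e2, hcard])
    (by rw [e1, eT]; exact hcop)
  refine ⟨g, g.2, ?_⟩
  ext x
  constructor
  · intro hx
    have h1 : (⟨x, hH₂ hx⟩ : N) ∈ H₂.subgroupOf N := hx
    rw [hg] at h1
    obtain ⟨y, hy, hye⟩ := h1
    refine ⟨y, hy, ?_⟩
    exact congrArg Subtype.val hye
  · rintro ⟨y, hy, rfl⟩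
    have h1 : (⟨y, hH₁ hy⟩ : N) ∈ H₁.subgroupOf N := hy
    have h2 : MulAut.conj g (⟨y, hH₁ hy⟩ : N) ∈ H₂.subgroupOf N := by
      rw [hg]
      exact ⟨_, h1, rfl⟩
    exact h2

section

variable [Finite G] (hB : HB G) (hs : Group.IsSolvable G)
  (hnp : ∀ M : Subgroup G, IsMinN M → ¬ (Nat.card M).Prime)
  (hIH : ∀ K : Subgroup G, K.Normal → K ≠ ⊥ → ∀ A B : Subgroup G, K ≤ A → K ≤ B →
    Nat.card A = Nat.card B → ∃ g : G, B = conjS g A)

include hB hs hnp hIH

/-- The conjugating element inside the normalizer of the part in the socle. -/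
theorem conj_in_N {D H₁ H₂ : Subgroup G} (hDF : D ≤ soc G) (hH₁ : H₁ ≤ normalizer (D : Set G))
    (hH₂ : H₂ ≤ normalizer (D : Set G)) (hcard : Nat.card H₁ = Nat.card H₂)
    (hcop : (Nat.card H₁).Coprime (Nat.card (soc G))) :
    ∃ c ∈ normalizer (D : Set G), H₂ = conjS c H₁ := by
  classical
  haveI : Fact (Nat.Prime 2) := ⟨Nat.prime_two⟩
  haveI hFn : (soc G).Normal := soc_normal
  have hFc : IsMulCommutative (soc G) := soc_comm hB hs hnp
  have hFN : soc G ≤ normalizer (D : Set G) := by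
    intro a ha
    apply Cfsg.Agent.Lib.Hall.mem_normalizer_of_conj_le
    intro x hx
    have h1 : a * x = x * a := comm_of_isMulCommutative hFc ha (hDF hx)
    have h2 : a * x * a⁻¹ = x := by rw [h1]; group
    rw [h2]; exact hx
  by_cases hT : ∃ T : Subgroup G, T ≤ normalizer (D : Set G) ∧ IsPGroup 2 T ∧ ¬ T ≤ soc G ∧ ¬ IsCyclic T
  · obtain ⟨T, hTN, hT2, hTF, hTc⟩ := hT
    rcases sylow_cases_two hB hs hnp hT2 with h | h | ⟨P, hP, he⟩
    · exact absurd h hTF
    · exact absurd h hTc
    subst hP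
    by_cases heven : 2 ∣ Nat.card H₁
    · exact q8_step hB hs hnp hIH P he hTF hDF hTN hH₁ hH₂ hcard hcop heven
    · -- odd case
      have hconj := q8_conj_data hB hs hnp P he hTF
      let W : Subgroup G := (P : Subgroup G) ⊔ soc G
      have hWn : W.Normal := by
        constructor
        intro x hx g
        have hle : W ≤ W.comap (MulAut.conj g).toMonoidHom := by
          apply sup_le
          · intro t ht
            obtain ⟨t', ht', f, hf, hfe⟩ := hconj g t ht
            show g * t * g⁻¹ ∈ W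
            rw [hfe]
            exact mul_mem (Subgroup.mem_sup_left ht') (Subgroup.mem_sup_right hf)
          · intro f hf
            exact Subgroup.mem_sup_right (hFn.conj_mem f hf g)
        exact hle hx
      have hWcop : (Nat.card H₁).Coprime (Nat.card W) := by
        have h1 := Cfsg.Agent.Lib.PSolv.card_sup_mul_card_inf (P : Subgroup G) (soc G)
        have h2 : Nat.card W ∣ Nat.card (P : Subgroup G) * Nat.card (soc G) := by
          rw [← h1]; exact Dvd.intro _ rfl
        refine Nat.Coprime.coprime_dvd_right h2 (Nat.Coprime.mul_right ?_ hcop)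
        obtain ⟨k, hk⟩ := IsPGroup.iff_card.mp P.isPGroup'
        rw [hk]
        exact Nat.Coprime.pow_right k ((Nat.Prime.coprime_iff_not_dvd Nat.prime_two).mpr heven).symm
      refine conj_in_sub hs (T₀ := W) (sup_le hTN hFN) ?_ hH₁ hH₂ hcard hWcop ?_
      · intro x _
        rw [Subgroup.normalizer_eq_top_iff.mpr hWn]
        trivial
      · intro r _ S hSN hSp
        by_cases hr : r = 2
        · subst hr
          right
          obtain ⟨g, hg⟩ := exists_conj_le_sylow P hSp
          intro x hx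
          have h1 : g * x * g⁻¹ ∈ W := Subgroup.mem_sup_left (hg ⟨x, hx, rfl⟩)
          have h2 := hWn.conj_mem _ h1 g⁻¹
          have e : g⁻¹ * (g * x * g⁻¹) * g⁻¹⁻¹ = x := by group
          rwa [e] at h2
        · rcases sylow_cases_odd hB hs hnp r hr hSp with h | h
          · exact Or.inr (h.trans le_sup_right)
          · exact Or.inl h
  · push Not at hT
    refine conj_in_sub hs (T₀ := soc G) hFN ?_ hH₁ hH₂ hcard hcop ?_
    · intro x _
      rw [Subgroup.normalizer_eq_top_iff.mpr hFn]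
      trivial
    · intro r _ S hSN hSp
      by_cases hr : r = 2
      · subst hr
        by_cases h : S ≤ soc G
        · exact Or.inr h
        · exact Or.inl (hT S hSN hSp h)
      · rcases sylow_cases_odd hB hs hnp r hr hSp with h | h
        · exact Or.inr h
        · exact Or.inl h

/-- **The main step**, when no minimal normal subgroup has prime order. -/
theorem main_socle (A B : Subgroup G) (h : Nat.card A = Nat.card B) : ∃ g : G, B = conjS g A := by
  classical
  haveI hFn : (soc G).Normal := soc_normal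
  have hFc : IsMulCommutative (soc G) := soc_comm hB hs hnp
  have hcopF := soc_coprime hB hs hnp
  have hdecomp : ∀ X : Subgroup G, ∃ H : Subgroup G, H ≤ X ∧ (X ⊓ soc G) ⊔ H = X ∧
      Nat.card (X ⊓ soc G : Subgroup G) * Nat.card H = Nat.card X ∧ Nat.card H ∣ (soc G).index := by
    intro X
    have hrel : (X ⊓ soc G).relIndex X = (soc G).relIndex X := by
      rw [Subgroup.inf_relIndex_left]
    have hnorm : X ≤ normalizer ((X ⊓ soc G : Subgroup G) : Set G) := by
      intro a ha
      apply Cfsg.Agent.Lib.Hall.mem_normalizer_of_conj_le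
      intro x hx
      obtain ⟨hx1, hx2⟩ := Subgroup.mem_inf.mp hx
      exact Subgroup.mem_inf.mpr ⟨mul_mem (mul_mem ha hx1) (inv_mem ha), hFn.conj_mem x hx2 a⟩
    have hdvd : (soc G).relIndex X ∣ (soc G).index := Subgroup.relIndex_dvd_index_of_normal _ _
    obtain ⟨H, hH, hHsup, hHcard, -⟩ := exists_complement_in (A := X) (W := X ⊓ soc G) inf_le_left hnorm (by
      rw [hrel]
      exact Nat.Coprime.coprime_dvd_left (Subgroup.card_dvd_of_le inf_le_right)
        (Nat.Coprime.coprime_dvd_right hdvd hcopF))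
    refine ⟨H, hH, hHsup, hHcard, ?_⟩
    have h1 := Cfsg.Agent.Lib.PSolv.card_inf_mul_relIndex (X ⊓ soc G) X
    have h2 : (X ⊓ soc G : Subgroup G) ⊓ X = X ⊓ soc G := inf_eq_left.mpr inf_le_left
    rw [h2, ← hHcard, hrel] at h1
    have hpos : 0 < Nat.card (X ⊓ soc G : Subgroup G) := Nat.card_pos
    have h3 := Nat.eq_of_mul_eq_mul_left hpos h1
    rw [← h3]
    exact hdvd
  obtain ⟨H_A, hHA, hAsup, hAcard, hAdvd⟩ := hdecomp A
  obtain ⟨H_B, hHB, hBsup, hBcard, hBdvd⟩ := hdecomp B
  obtain ⟨h1, h2⟩ := card_eq_of_mul_eq_of_coprime (Subgroup.card_dvd_of_le inf_le_right)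
    (Subgroup.card_dvd_of_le inf_le_right) hAdvd hBdvd hcopF (by rw [hAcard, hBcard, h]) Nat.card_pos
  have habX : ∀ X : Subgroup G, IsMulCommutative (X ⊓ soc G : Subgroup G) := by
    intro X
    refine isMulCommutative_of_comm ?_
    intro a ha b hb
    exact comm_of_isMulCommutative hFc (Subgroup.mem_inf.mp ha).2 (Subgroup.mem_inf.mp hb).2
  obtain ⟨g₀, hg₀⟩ := hB (A ⊓ soc G) (B ⊓ soc G) (habX A) (habX B) h1
  have hnormX : ∀ X : Subgroup G, X ≤ normalizer ((X ⊓ soc G : Subgroup G) : Set G) := by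
    intro X a ha
    apply Cfsg.Agent.Lib.Hall.mem_normalizer_of_conj_le
    intro x hx
    obtain ⟨hx1, hx2⟩ := Subgroup.mem_inf.mp hx
    exact Subgroup.mem_inf.mpr ⟨mul_mem (mul_mem ha hx1) (inv_mem ha), hFn.conj_mem x hx2 a⟩
  have hH₁N : conjS g₀ H_A ≤ normalizer ((B ⊓ soc G : Subgroup G) : Set G) := by
    rintro _ ⟨x, hx, rfl⟩
    rw [mem_normalizer_iff_conjS]
    show conjS (g₀ * x * g₀⁻¹) _ = _
    have hxn : conjS x (A ⊓ soc G) = A ⊓ soc G := mem_normalizer_iff_conjS.mp (hnormX A (hHA hx))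
    have e : conjS (g₀ * x * g₀⁻¹) (B ⊓ soc G) = conjS g₀ (conjS x (conjS g₀⁻¹ (B ⊓ soc G))) := by
      rw [← conjS_mul, ← conjS_mul]
    rw [e]
    have hg₀' : B ⊓ soc G = conjS g₀ (A ⊓ soc G) := hg₀
    rw [hg₀', conjS_inv_conjS, hxn]
  have hH₂N : H_B ≤ normalizer ((B ⊓ soc G : Subgroup G) : Set G) := hHB.trans (hnormX B)
  have hcopH : (Nat.card (conjS g₀ H_A)).Coprime (Nat.card (soc G)) := by
    rw [card_conjS]
    exact Nat.Coprime.coprime_dvd_left hAdvd hcopF.symm
  obtain ⟨c, hcN, hc⟩ := conj_in_N hB hs hnp hIH (D := B ⊓ soc G) inf_le_right hH₁N hH₂N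
    (by rw [card_conjS, h2]) hcopH
  refine ⟨c * g₀, ?_⟩
  rw [conjS_mul]
  nth_rewrite 1 [← hAsup]
  show B = conjS c (((A ⊓ soc G) ⊔ H_A).map (MulAut.conj g₀).toMonoidHom)
  rw [Subgroup.map_sup]
  show B = ((conjS g₀ (A ⊓ soc G)) ⊔ conjS g₀ H_A).map (MulAut.conj c).toMonoidHom
  rw [Subgroup.map_sup]
  have h3 : (conjS g₀ (A ⊓ soc G)).map (MulAut.conj c).toMonoidHom = B ⊓ soc G := by
    have h4 : conjS g₀ (A ⊓ soc G) = B ⊓ soc G := hg₀.symm
    rw [h4]
    exact mem_normalizer_iff_conjS.mp hcN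
  rw [h3]
  have h5 : (conjS g₀ H_A).map (MulAut.conj c).toMonoidHom = H_B := hc.symm
  rw [h5, hBsup]

end

section

variable [Finite G]

/-- The case of a minimal normal subgroup of prime order. -/
theorem step_prime (hB : HB G) (hs : Group.IsSolvable G) {M : Subgroup G} (hM : IsMinN M)
    (hp : (Nat.card M).Prime)
    (hIH : ∀ A B : Subgroup G, M ≤ A → M ≤ B → Nat.card A = Nat.card B → ∃ g : G, B = conjS g A)
    (A B : Subgroup G) (h : Nat.card A = Nat.card B) : ∃ g : G, B = conjS g A := by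
  classical
  obtain ⟨q, hq⟩ : ∃ q, q = Nat.card M := ⟨_, rfl⟩
  rw [← hq] at hp
  haveI : Fact q.Prime := ⟨hp⟩
  haveI hMn : M.Normal := hM.1
  obtain ⟨⟨w, hwM⟩, hw1⟩ := Subgroup.ne_bot_iff_exists_ne_one.mp hM.2.1
  have hw1' : w ≠ 1 := fun h => hw1 (Subtype.ext h)
  have hwo : orderOf w = q := by
    have h1 : orderOf w ∣ Nat.card M := Subgroup.orderOf_dvd_natCard M hwM
    rw [← hq] at h1
    rcases (Nat.dvd_prime hp).mp h1 with h2 | h2
    · exact absurd (orderOf_eq_one_iff.mp h2) hw1'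
    · exact h2
  have hle : ∀ X : Subgroup G, q ∣ Nat.card X → M ≤ X := by
    intro X hX
    obtain ⟨⟨x, hxX⟩, hxo⟩ := exists_prime_orderOf_dvd_card' q hX
    have hxo' : orderOf x = q := by rw [← Subgroup.orderOf_mk x hxX]; exact hxo
    have hxM : x ∈ M := mem_of_orderOf_eq hB hwM (by rw [hwo, hxo'])
    have h1 : zpowers x = M := by
      apply Subgroup.eq_of_le_of_card_ge ((Subgroup.zpowers_le).mpr hxM)
      rw [Nat.card_zpowers, hxo', hq]
    rw [← h1, Subgroup.zpowers_le]
    exact hxX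
  by_cases hd : q ∣ Nat.card A
  · exact hIH A B (hle A hd) (hle B (h ▸ hd)) h
  · have hd' : ¬ q ∣ Nat.card B := h ▸ hd
    have hcop : ∀ X : Subgroup G, ¬ q ∣ Nat.card X → (Nat.card X).Coprime (Nat.card M) := by
      intro X hX
      rw [← hq]
      exact ((Nat.Prime.coprime_iff_not_dvd hp).mpr hX).symm
    have hsup : ∀ X : Subgroup G, ¬ q ∣ Nat.card X →
        Nat.card (X ⊔ M : Subgroup G) = Nat.card X * Nat.card M := by
      intro X hX
      have h1 := Cfsg.Agent.Lib.PSolv.card_sup_mul_card_inf X M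
      rw [Subgroup.inf_eq_bot_of_coprime (hcop X hX), Subgroup.card_bot, mul_one] at h1
      exact h1
    obtain ⟨g, hg⟩ := hIH (A ⊔ M) (B ⊔ M) le_sup_right le_sup_right (by
      rw [hsup A hd, hsup B hd', h])
    have hle2 : conjS g A ≤ B ⊔ M := by
      rw [hg]
      exact conjS_mono g le_sup_left
    obtain ⟨c, -, hc⟩ := hall_conj_in (T := B ⊔ M) (X := conjS g A) (Y := B) hle2 le_sup_left
      (Nat.card B) (Nat.card M) (hsup B hd') (hcop B hd') (by rw [card_conjS, h]) rfl
    refine ⟨c * g, ?_⟩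
    rw [conjS_mul]
    exact hc

/-- **All subgroups of equal order are conjugate.** -/
theorem all_conj (hB : HB G) (hs : Group.IsSolvable G) (A B : Subgroup G)
    (h : Nat.card A = Nat.card B) : ∃ g : G, B = A.map (MulAut.conj g).toMonoidHom := by
  classical
  induction hn : Nat.card G using Nat.strong_induction_on generalizing G with
  | _ n ih =>
  subst hn
  have hlift : ∀ K : Subgroup G, K.Normal → K ≠ ⊥ → ∀ A B : Subgroup G, K ≤ A → K ≤ B →
      Nat.card A = Nat.card B → ∃ g : G, B = conjS g A := by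
    intro K hK hK1 A B hA hB' hc
    haveI := hK
    let π : G →* G ⧸ K := QuotientGroup.mk' K
    have hπ : Function.Surjective π := QuotientGroup.mk'_surjective K
    have hker : π.ker = K := QuotientGroup.ker_mk' K
    have hlt : Nat.card (G ⧸ K) < Nat.card G := by
      have h1 := Subgroup.card_mul_index K
      have h2 : 1 < Nat.card K := by
        rw [Subgroup.one_lt_card_iff_ne_bot]; exact hK1
      have h3 : Nat.card (G ⧸ K) = K.index := rfl
      rw [h3, ← h1]
      have h4 : 0 < K.index := Nat.pos_of_ne_zero Subgroup.index_ne_zero_of_finite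
      nlinarith
    have hcom : ∀ X : Subgroup G, K ≤ X → (X.map π).comap π = X := by
      intro X hX
      apply Subgroup.comap_map_eq_self
      rw [hker]; exact hX
    have hcardmap : ∀ X : Subgroup G, K ≤ X → Nat.card X = Nat.card K * Nat.card (X.map π) := by
      intro X hX
      have h1 := Cfsg.Agent.Lib.Core.card_comap_of_surjective π hπ (X.map π)
      rw [hcom X hX, hker] at h1
      exact h1
    have hmapc : Nat.card (A.map π) = Nat.card (B.map π) := by
      have hpos : 0 < Nat.card K := Nat.card_pos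
      apply Nat.eq_of_mul_eq_mul_left hpos
      rw [← hcardmap A hA, ← hcardmap B hB', hc]
    obtain ⟨g', hg'⟩ := ih _ hlt (hb_quotient hB hs K) inferInstance (A.map π) (B.map π) hmapc rfl
    obtain ⟨g, rfl⟩ := hπ g'
    refine ⟨g, ?_⟩
    ext x
    rw [mem_conjS]
    have h1 : x ∈ B ↔ π x ∈ B.map π := by
      conv_lhs => rw [← hcom B hB']
      rfl
    have h2 : g⁻¹ * x * g ∈ A ↔ π (g⁻¹ * x * g) ∈ A.map π := by
      conv_lhs => rw [← hcom A hA]
      rfl
    rw [h1, h2, hg', mem_conj_map, map_mul, map_mul, map_inv]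
  by_cases hp : ∃ M : Subgroup G, IsMinN M ∧ (Nat.card M).Prime
  · obtain ⟨M, hM, hMp⟩ := hp
    exact step_prime hB hs hM hMp (hlift M hM.1 hM.2.1) A B h
  · push Not at hp
    exact main_socle hB hs hp hlift A B h

end

end Cfsg.Agent.Lib.PGroup.ConjAb
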