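import Mathlib
import Cfsg.Prelude.Def_HallClasses
import Cfsg.Agent.Lib.Techniques.SylowIn

/-! Sets of primes `π` for which every finite group has a Hall `π`-subgroup. -/

set_option autoImplicit false

namespace Cfsg.Agent.Lib.PGroup.HallEx

open Cfsg Cfsg.Agent.Lib.Techniques Equiv.Perm MulAction

section General
variable {G : Type*} [Group G] [Finite G]

/-- A `p`-subgroup is conjugate into any subgroup of index prime to `p`. -/
theorem exists_conj_le_of_not_dvd {p : ℕ} [hp : Fact p.Prime] (H : Subgroup G) (hH : ¬ p ∣ H.index)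
    (X : Subgroup G) (hX : IsPGroup p X) : ∃ g : G, conjS g X ≤ H := by
  obtain ⟨T, hT⟩ := exists_sylowIn (p := p) H
  have hT2 : ¬ p ∣ T.index := by
    rw [← Subgroup.relIndex_mul_index hT.1]
    intro hd
    rcases hp.out.dvd_mul.mp hd with h | h
    · exact hT.2.2 h
    · exact hH h
  have hTs : SylowIn p T ⊤ := ⟨le_top, hT.2.1, by rwa [Subgroup.relIndex_top_right]⟩
  obtain ⟨g, -, hg⟩ := hTs.exists_conj_le le_top hX
  exact ⟨g, hg.trans hT.1⟩

/-- An element of order `p` is conjugate into any subgroup of index prime to `p`. -/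
theorem exists_conj_mem {p : ℕ} [hp : Fact p.Prime] (H : Subgroup G) (hH : ¬ p ∣ H.index) (c : G)
    (hc : orderOf c = p) : ∃ g : G, g * c * g⁻¹ ∈ H := by
  have hX : IsPGroup p (Subgroup.zpowers c) :=
    IsPGroup.of_card (n := 1) (by rw [Nat.card_zpowers, hc, pow_one])
  obtain ⟨g, hg⟩ := exists_conj_le_of_not_dvd H hH _ hX
  exact ⟨g, hg (conj_mem_conjS (Subgroup.mem_zpowers c))⟩

/-- The maximal-`π`-subgroup property implies the existence of Hall subgroups. -/
theorem isEPi_of_isDPi {π : Set ℕ} (h : IsDPiGroup π G) : IsEPiGroup π G := by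
  classical
  have hbot : IsPiSubgroup π (⊥ : Subgroup G) := by
    intro p hp hd
    rw [Subgroup.card_bot] at hd
    exact absurd (Nat.dvd_one.mp hd) hp.ne_one
  obtain ⟨H, -, hH⟩ := (Set.toFinite {K : Subgroup G | IsPiSubgroup π K}).exists_le_maximal hbot
  have hHmax : Maximal (IsPiSubgroup π) H := hH
  refine ⟨H, hHmax.prop, ?_⟩
  intro s hs hsπ hd
  haveI : Fact s.Prime := ⟨hs⟩
  obtain ⟨P⟩ : Nonempty (Sylow s G) := inferInstance
  have hPπ : IsPiSubgroup π (P : Subgroup G) := by
    intro t ht htd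
    obtain ⟨n, hn⟩ := IsPGroup.iff_card.mp P.isPGroup'
    rw [hn] at htd
    have := (Nat.prime_dvd_prime_iff_eq ht hs).mp (ht.dvd_of_dvd_pow htd)
    rwa [this]
  obtain ⟨M, hPM, hM⟩ := (Set.toFinite {K : Subgroup G | IsPiSubgroup π K}).exists_le_maximal hPπ
  have hMmax : Maximal (IsPiSubgroup π) M := hM
  obtain ⟨g, hg⟩ := h M H hMmax hHmax
  -- `P ^ g ≤ H`
  have hle : conjS g (P : Subgroup G) ≤ H := by
    rw [hg]
    exact conjS_mono g hPM
  have hi : ¬ s ∣ (conjS g (P : Subgroup G)).index := by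
    have e : (conjS g (P : Subgroup G)).index = (P : Subgroup G).index := by
      apply Subgroup.index_map_of_bijective
      exact (MulAut.conj g).bijective
    rw [e]
    exact P.not_dvd_index
  apply hi
  rw [← Subgroup.relIndex_mul_index hle]
  exact Dvd.dvd.mul_left hd _

end General

/-- The positive direction. -/
theorem pos_direction {π : Set ℕ}
    (hπ : (∀ p q : ℕ, p.Prime → q.Prime → p ∈ π → q ∈ π → p = q) ∨ ∀ p : ℕ, p.Prime → p ∈ π)
    (G : Type) [Group G] [Finite G] : IsEPiGroup π G ∧ IsDPiGroup π G := by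
  classical
  rcases hπ with h1 | h2
  · by_cases hex : ∃ p, p.Prime ∧ p ∈ π
    · obtain ⟨p, hp, hpπ⟩ := hex
      haveI : Fact p.Prime := ⟨hp⟩
      have hiff : ∀ K : Subgroup G, IsPiSubgroup π K ↔ IsPGroup p K := by
        intro K
        constructor
        · intro h
          have h3 : ∀ q, q.Prime → q ∣ Nat.card K → q = p := fun q hq hd => h1 q p hq hp (h q hq hd) hpπ
          have h4 := Nat.eq_prime_pow_of_unique_prime_dvd (n := Nat.card K) Nat.card_pos.ne' (fun {d} hd hd2 => h3 d hd hd2)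
          exact IsPGroup.of_card h4
        · intro h q hq hd
          obtain ⟨n, hn⟩ := IsPGroup.iff_card.mp h
          rw [hn] at hd
          rw [(Nat.prime_dvd_prime_iff_eq hq hp).mp (hq.dvd_of_dvd_pow hd)]
          exact hpπ
      constructor
      · obtain ⟨P⟩ : Nonempty (Sylow p G) := inferInstance
        refine ⟨P, (hiff _).mpr P.isPGroup', ?_⟩
        intro q hq hqπ
        rw [h1 q p hq hp hqπ hpπ]
        exact P.not_dvd_index
      · intro H K hH hK
        have hsyl : ∀ M : Subgroup G, Maximal (IsPiSubgroup π) M → ∃ S : Sylow p G, (S : Subgroup G) = M := by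
          intro M hM
          refine ⟨⟨M, (hiff M).mp hM.prop, ?_⟩, rfl⟩
          intro Q hQ hMQ
          exact le_antisymm (hM.le_of_ge ((hiff Q).mpr hQ) hMQ) hMQ
        obtain ⟨S, rfl⟩ := hsyl H hH
        obtain ⟨T, rfl⟩ := hsyl K hK
        obtain ⟨g, hg⟩ := MulAction.exists_smul_eq G S T
        refine ⟨g, ?_⟩
        rw [← hg]
        rfl
    · push Not at hex
      have hiff : ∀ K : Subgroup G, IsPiSubgroup π K ↔ K = ⊥ := by
        intro K
        constructor
        · intro h
          apply Subgroup.eq_bot_of_card_eq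
          by_contra hne
          obtain ⟨q, hq, hd⟩ := Nat.exists_prime_and_dvd hne
          exact hex q hq (h q hq hd)
        · rintro rfl q hq hd
          rw [Subgroup.card_bot] at hd
          exact absurd (Nat.dvd_one.mp hd) hq.ne_one
      constructor
      · refine ⟨⊥, (hiff _).mpr rfl, ?_⟩
        intro q hq hqπ
        exact absurd hqπ (hex q hq)
      · intro H K hH hK
        refine ⟨1, ?_⟩
        rw [(hiff H).mp hH.prop, (hiff K).mp hK.prop]
        simp
  · have hall : ∀ K : Subgroup G, IsPiSubgroup π K := fun K q hq _ => h2 q hq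
    constructor
    · refine ⟨⊤, hall _, ?_⟩
      intro q hq _
      rw [Subgroup.index_top]
      exact fun hd => hq.one_lt.ne' (Nat.dvd_one.mp hd)
    · intro H K hH hK
      have e : ∀ M : Subgroup G, Maximal (IsPiSubgroup π) M → M = ⊤ := fun M hM =>
        le_antisymm le_top (hM.le_of_ge (hall ⊤) le_top)
      refine ⟨1, ?_⟩
      rw [e H hH, e K hK]
      simp

section Perm

variable {q : ℕ}

/-- A cycle of given length. -/
theorem exists_cycle {n p : ℕ} (hp : 2 ≤ p) (hpn : p ≤ n) :
    ∃ c : Equiv.Perm (Fin n), c.IsCycle ∧ c.support.card = p := by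
  classical
  let l := (List.finRange n).take p
  have hnd : l.Nodup := (List.nodup_finRange n).sublist (List.take_sublist _ _)
  have hlen : l.length = p := by simp [l, hpn]
  refine ⟨l.formPerm, List.isCycle_formPerm hnd (by omega), ?_⟩
  rw [List.support_formPerm_of_nodup _ hnd (by
    intro x hx
    rw [hx] at hlen
    simp at hlen
    omega)]
  rw [List.toFinset_card_of_nodup hnd, hlen]

/-- A subgroup containing a Sylow `q`-subgroup of `S_q` is primitive. -/
theorem prim_of_index (hq : q.Prime) (H : Subgroup (Equiv.Perm (Fin q))) (hH : ¬ q ∣ H.index) :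
    IsPreprimitive H (Fin q) := by
  classical
  haveI : Fact q.Prime := ⟨hq⟩
  have h1 : q ∣ Nat.card H := by
    have h2 : q ∣ Nat.card H * H.index := by
      rw [Subgroup.card_mul_index, Nat.card_perm, Nat.card_eq_fintype_card, Fintype.card_fin]
      exact hq.dvd_factorial.mpr le_rfl
    exact (hq.dvd_mul.mp h2).resolve_right hH
  obtain ⟨x, hx⟩ := exists_prime_orderOf_dvd_card' q h1
  have hx' : orderOf (x : Equiv.Perm (Fin q)) = q := by rw [Subgroup.orderOf_coe, hx]
  have hcyc : (x : Equiv.Perm (Fin q)).IsCycle :=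
    isCycle_of_prime_order'' (by simpa using hq) (by simpa using hx')
  have hsupp : (x : Equiv.Perm (Fin q)).support = Finset.univ :=
    Finset.eq_univ_of_card _ (by rw [← hcyc.orderOf, hx']; simp)
  have hmoved : ∀ a, (x : Equiv.Perm (Fin q)) a ≠ a := by
    intro a
    have : a ∈ (x : Equiv.Perm (Fin q)).support := by rw [hsupp]; exact Finset.mem_univ _
    exact Equiv.Perm.mem_support.mp this
  haveI : IsPretransitive H (Fin q) := by
    refine ⟨fun a b => ?_⟩
    obtain ⟨i, hi⟩ := hcyc.sameCycle (hmoved a) (hmoved b)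
    exact ⟨x ^ i, by
      show ((x ^ i : H) : Equiv.Perm (Fin q)) a = b
      rw [Subgroup.coe_zpow]
      exact hi⟩
  exact IsPreprimitive.of_prime_card (by simpa using hq)

/-- Case of odd primes. -/
theorem no_hall_odd {π : Set ℕ} {p : ℕ} (hp : p.Prime) (hq : q.Prime) (hpq : p + 2 ≤ q) (hpπ : p ∈ π)
    (hqπ : q ∈ π) (h2 : 2 ∉ π) : ¬ IsEPiGroup π (Equiv.Perm (Fin q)) := by
  classical
  rintro ⟨H, hH1, hH2⟩
  haveI : Fact p.Prime := ⟨hp⟩
  have hprim := prim_of_index hq H (hH2 q hq hqπ)
  obtain ⟨c, hc, hcs⟩ := exists_cycle (n := q) hp.two_le (by omega)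
  have hco : orderOf c = p := by rw [hc.orderOf, hcs]
  obtain ⟨g, hg⟩ := exists_conj_mem H (hH2 p hp hpπ) c hco
  have hc' : (g * c * g⁻¹).IsCycle := hc.conj
  have hcs' : (g * c * g⁻¹).support.card = p := by rw [Equiv.Perm.card_support_conj, hcs]
  have htr := Equiv.Perm.isPretransitive_of_isCycle_mem (G := H) hc' hg
  have hcompl : Set.ncard (((g * c * g⁻¹).support : Set (Fin q))ᶜ) = (q - p - 1) + 1 := by
    have h3 := Set.ncard_add_ncard_compl ((g * c * g⁻¹).support : Set (Fin q))
    rw [Set.ncard_coe_finset, hcs', Nat.card_eq_fintype_card, Fintype.card_fin] at h3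
    omega
  have h4 : IsMultiplyPretransitive H (Fin q) 2 :=
    hprim.is_two_pretransitive hcompl (by
      rw [Nat.card_eq_fintype_card, Fintype.card_fin]
      have := hp.two_le
      omega) htr
  rw [is_two_pretransitive_iff] at h4
  have hq2 : 2 ≤ q := hq.two_le
  have hab : (⟨0, by omega⟩ : Fin q) ≠ ⟨1, by omega⟩ := by simp
  obtain ⟨h, ha, hb⟩ := h4 hab hab.symm
  apply h2
  apply hH1 2 Nat.prime_two
  refine (?_ : 2 ∣ orderOf h).trans (orderOf_dvd_natCard h)
  by_contra hodd
  obtain ⟨k, hk⟩ := Nat.odd_iff.mpr (Nat.two_dvd_ne_zero.mp hodd)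
  have h5 : h ^ (2 * (k + 1)) = h := by
    have : 2 * (k + 1) = orderOf h + 1 := by omega
    rw [this, pow_succ, pow_orderOf_eq_one, one_mul]
  have h6 : (h ^ 2) • (⟨0, by omega⟩ : Fin q) = ⟨0, by omega⟩ := by
    rw [pow_two, mul_smul, ha, hb]
  have h7 : ((h ^ 2) ^ (k + 1)) • (⟨0, by omega⟩ : Fin q) = ⟨0, by omega⟩ := by
    induction k + 1 with
    | zero => simp
    | succ n ih => rw [pow_succ, mul_smul, h6, ih]
  rw [← pow_mul, h5, ha] at h7
  exact hab h7.symm

/-- Case `2 ∈ π`, with a prime of `π` above a prime not in `π`. -/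
theorem no_hall_swap {π : Set ℕ} {r : ℕ} (hr : r.Prime) (hrπ : r ∉ π) (hq : q.Prime) (hrq : r < q)
    (hqπ : q ∈ π) (h2 : 2 ∈ π) : ¬ IsEPiGroup π (Equiv.Perm (Fin q)) := by
  classical
  rintro ⟨H, hH1, hH2⟩
  haveI : Fact (Nat.Prime 2) := ⟨Nat.prime_two⟩
  have hprim := prim_of_index hq H (hH2 q hq hqπ)
  have hq2 : 2 ≤ q := hq.two_le
  have hab : (⟨0, by omega⟩ : Fin q) ≠ ⟨1, by omega⟩ := by simp
  have hsw : orderOf (Equiv.swap (⟨0, by omega⟩ : Fin q) ⟨1, by omega⟩) = 2 :=
    Equiv.Perm.IsSwap.orderOf ⟨_, _, hab, rfl⟩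
  obtain ⟨g, hg⟩ := exists_conj_mem H (hH2 2 Nat.prime_two h2) _ hsw
  have hisswap : Equiv.Perm.IsSwap (g * Equiv.swap (⟨0, by omega⟩ : Fin q) ⟨1, by omega⟩ * g⁻¹) :=
    ⟨g ⟨0, by omega⟩, g ⟨1, by omega⟩, fun h => hab (g.injective h),
      (Equiv.swap_apply_apply g _ _).symm⟩
  have htop := Equiv.Perm.subgroup_eq_top_of_isPreprimitive_of_isSwap_mem hprim _ hisswap hg
  apply hrπ
  apply hH1 r hr
  rw [htop, Subgroup.card_top, Nat.card_perm, Nat.card_eq_fintype_card, Fintype.card_fin]
  exact hr.dvd_factorial.mpr hrq.le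

/-- Case of an interval of primes. -/
theorem no_hall_interval {π : Set ℕ} {r : ℕ} (hr : r.Prime) (hr5 : 5 ≤ r) (hrπ : r ∉ π)
    (hlow : ∀ s : ℕ, s.Prime → s < r → s ∈ π) : ¬ IsEPiGroup π (Equiv.Perm (Fin (r + 1))) := by
  classical
  rintro ⟨H, hH1, hH2⟩
  have hcard : Nat.card (Equiv.Perm (Fin (r + 1))) = (r + 1).factorial := by
    rw [Nat.card_perm, Nat.card_eq_fintype_card, Fintype.card_fin]
  have hrodd : r % 2 = 1 := by
    rcases hr.eq_two_or_odd with h | h
    · omega
    · exact h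
  -- the index is `r`
  have hidx0 : H.index ≠ 0 := Subgroup.index_ne_zero_of_finite
  have hmul : Nat.card H * H.index = (r + 1).factorial := by rw [Subgroup.card_mul_index, hcard]
  have hprimeidx : ∀ s, s.Prime → s ∣ H.index → s = r := by
    intro s hs hd
    have h1 : s ∉ π := fun h => hH2 s hs h hd
    have h2 : s ≤ r + 1 := by
      have : s ∣ (r + 1).factorial := hd.trans (Dvd.intro_left _ hmul)
      exact hs.dvd_factorial.mp this
    have h3 : ¬ s < r := fun h => h1 (hlow s hs h)
    by_contra hne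
    have h4 : s = r + 1 := by omega
    rcases hs.eq_two_or_odd with h5 | h5 <;> omega
  have hpow := Nat.eq_prime_pow_of_unique_prime_dvd hidx0 (fun {d} hd hd2 => hprimeidx d hd hd2)
  set a := (H.index.primeFactorsList).length
  have hrH : ¬ r ∣ Nat.card H := fun h => hrπ (hH1 r hr h)
  have hrd : r ∣ H.index := by
    have h1 : r ∣ Nat.card H * H.index := by
      rw [hmul]
      exact hr.dvd_factorial.mpr (by omega)
    exact (hr.dvd_mul.mp h1).resolve_left hrH
  have ha1 : a ≠ 0 := by
    intro h0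
    rw [h0, pow_zero] at hpow
    rw [hpow] at hrd
    exact hr.one_lt.ne' (Nat.dvd_one.mp hrd)
  have ha2 : a < 2 := by
    by_contra hcon
    have h1 : r ^ 2 ∣ H.index := by
      rw [hpow]
      exact pow_dvd_pow _ (by omega)
    have h2 : r ^ 2 ∣ (r + 1).factorial := h1.trans (Dvd.intro_left _ hmul)
    rw [Nat.factorial_succ, show r = (r - 1) + 1 by omega, Nat.factorial_succ, show r - 1 + 1 = r by omega,
      pow_two] at h2
    have h3 : r * r ∣ r * ((r + 1) * (r - 1).factorial) := by
      convert h2 using 1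
      ring
    have h4 : r ∣ (r + 1) * (r - 1).factorial := Nat.dvd_of_mul_dvd_mul_left hr.pos h3
    rcases hr.dvd_mul.mp h4 with h5 | h5
    · have h6 : r ∣ 1 := by
        have := (Nat.dvd_add_right (dvd_refl r)).mp h5
        exact this
      exact hr.one_lt.ne' (Nat.dvd_one.mp h6)
    · have := hr.dvd_factorial.mp h5
      omega
  have hidx : H.index = r := by
    have : a = 1 := by omega
    rw [hpow, this, pow_one]
  -- the action on the cosets
  haveI : Nontrivial (Fin (r + 1)) := Fin.nontrivial_iff_two_le.mpr (by omega)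
  haveI hsimple : IsSimpleGroup (alternatingGroup (Fin (r + 1))) :=
    alternatingGroup.isSimpleGroup (by simp; omega)
  let φ : alternatingGroup (Fin (r + 1)) →* Equiv.Perm (Equiv.Perm (Fin (r + 1)) ⧸ H) :=
    (MulAction.toPermHom (Equiv.Perm (Fin (r + 1))) (Equiv.Perm (Fin (r + 1)) ⧸ H)).comp
      (alternatingGroup (Fin (r + 1))).subtype
  rcases (φ.normal_ker).eq_bot_or_eq_top with hk | hk
  · -- faithful
    have hinj : Function.Injective φ := (MonoidHom.ker_eq_bot_iff φ).mp hk
    have h1 := Nat.card_le_card_of_injective φ hinj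
    have h2 : Nat.card (Equiv.Perm (Equiv.Perm (Fin (r + 1)) ⧸ H)) = r.factorial := by
      rw [Nat.card_perm]
      congr 1
    have h3 : 2 * Nat.card (alternatingGroup (Fin (r + 1))) = (r + 1).factorial := by
      rw [two_mul_nat_card_alternatingGroup, Nat.card_perm]
      simp
    rw [h2] at h1
    rw [Nat.factorial_succ] at h3
    have h4 : 0 < r.factorial := Nat.factorial_pos r
    nlinarith
  · -- trivial action
    have hle : alternatingGroup (Fin (r + 1)) ≤ H := by
      intro x hx
      have h1 : (⟨x, hx⟩ : alternatingGroup (Fin (r + 1))) ∈ φ.ker := by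
        rw [hk]; trivial
      have h2 : φ ⟨x, hx⟩ = 1 := h1
      have h3 : (φ ⟨x, hx⟩) ((1 : Equiv.Perm (Fin (r + 1))) : Equiv.Perm (Fin (r + 1)) ⧸ H) =
          ((1 : Equiv.Perm (Fin (r + 1))) : Equiv.Perm (Fin (r + 1)) ⧸ H) := by
        rw [h2]; rfl
      have h4 : x • ((1 : Equiv.Perm (Fin (r + 1))) : Equiv.Perm (Fin (r + 1)) ⧸ H) =
          ((1 : Equiv.Perm (Fin (r + 1))) : Equiv.Perm (Fin (r + 1)) ⧸ H) := h3
      have h5 := (MulAction.Quotient.smul_mk H x 1).symm.trans h4
      have h6 := QuotientGroup.eq.mp h5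
      simpa using h6
    have h7 := Subgroup.index_dvd_of_le hle
    rw [alternatingGroup.index_eq_two, hidx] at h7
    have := Nat.le_of_dvd (by norm_num) h7
    omega

end Perm

/-- The main theorem. -/
theorem main (π : Set ℕ) :
    ((∀ (G : Type) [Group G] [Finite G], IsEPiGroup π G) ↔
      ((∀ p q : ℕ, p.Prime → q.Prime → p ∈ π → q ∈ π → p = q) ∨ ∀ p : ℕ, p.Prime → p ∈ π)) ∧
    ((∀ (G : Type) [Group G] [Finite G], IsDPiGroup π G) ↔
      ((∀ p q : ℕ, p.Prime → q.Prime → p ∈ π → q ∈ π → p = q) ∨ ∀ p : ℕ, p.Prime → p ∈ π)) := by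
  classical
  have key : (∀ (G : Type) [Group G] [Finite G], IsEPiGroup π G) →
      ((∀ p q : ℕ, p.Prime → q.Prime → p ∈ π → q ∈ π → p = q) ∨ ∀ p : ℕ, p.Prime → p ∈ π) := by
    intro hE
    by_contra hcon
    push Not at hcon
    obtain ⟨⟨p, q, hp, hq, hpπ, hqπ, hpq⟩, hr⟩ := hcon
    by_cases h2 : 2 ∈ π
    · have hexr : ∃ r, r.Prime ∧ r ∉ π := hr
      let r := Nat.find hexr
      have hrs : r.Prime ∧ r ∉ π := Nat.find_spec hexr
      have hmin : ∀ s, s < r → ¬ (s.Prime ∧ s ∉ π) := fun s hs => Nat.find_min hexr hs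
      by_cases hab : ∃ t, t.Prime ∧ t ∈ π ∧ r < t
      · obtain ⟨t, ht, htπ, hrt⟩ := hab
        exact no_hall_swap hrs.1 hrs.2 ht hrt htπ h2 (hE _)
      · push Not at hab
        have hlow : ∀ s : ℕ, s.Prime → s < r → s ∈ π := by
          intro s hs hsr
          by_contra hns
          exact hmin s hsr ⟨hs, hns⟩
        have hlt : ∀ t, t.Prime → t ∈ π → t < r := by
          intro t ht htπ
          have h3 := hab t ht htπ
          have h4 : t ≠ r := fun h => hrs.2 (h ▸ htπ)
          omega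
        have hpr := hlt p hp hpπ
        have hqr := hlt q hq hqπ
        have h2le := hp.two_le
        have h2le' := hq.two_le
        have hr5 : 5 ≤ r := by
          by_contra hlt5
          have h6 : r ≤ 4 := by omega
          have hr3 : 3 ≤ r := by omega
          interval_cases hrv : r
          · -- r = 3
            omega
          · exact absurd hrs.1 (by norm_num)
        exact no_hall_interval hrs.1 hr5 hrs.2 hlow (hE _)
    · have hp2 : p ≠ 2 := fun h => h2 (h ▸ hpπ)
      have hq2 : q ≠ 2 := fun h => h2 (h ▸ hqπ)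
      have hpo : p % 2 = 1 := (hp.eq_two_or_odd).resolve_left hp2
      have hqo : q % 2 = 1 := (hq.eq_two_or_odd).resolve_left hq2
      rcases lt_or_gt_of_ne hpq with hlt | hlt
      · exact no_hall_odd hp hq (by omega) hpπ hqπ h2 (hE _)
      · exact no_hall_odd hq hp (by omega) hqπ hpπ h2 (hE _)
  refine ⟨⟨key, fun h G _ _ => (pos_direction h G).1⟩, ⟨fun h => key (fun G _ _ => isEPi_of_isDPi (h G)),
    fun h G _ _ => (pos_direction h G).2⟩⟩

end Cfsg.Agent.Lib.PGroup.HallEx
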