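import Mathlib
import Cfsg.Agent.Lib.Core.Basic
import Cfsg.Agent.Lib.Block.Jordan
import Cfsg.Agent.Lib.PGroup.MaxNormal
import Cfsg.Agent.Lib.PGroup.Engel
import Cfsg.Agent.S0199

/-!
# The hypercenter via two-generator nilpotent subgroups
-/

set_option autoImplicit false

namespace Cfsg.Agent.Lib.PGroup

open Cfsg Cfsg.Agent.Lib.Core Subgroup

universe u

/-- An element whose two-generator subgroups are all nilpotent and which is nontrivial gives a
nontrivial central element. -/
theorem exists_central_of_two_gen {G : Type u} [Group G] [Finite G] (g : G) (hg1 : g ≠ 1)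
    (hg : ∀ x : G, Group.IsNilpotent ↥(closure ({x, g} : Set G))) : center G ≠ ⊥ := by
  classical
  have hord1 : orderOf g ≠ 1 := fun e => hg1 (orderOf_eq_one_iff.mp e)
  obtain ⟨p, hpp, hpd⟩ := Nat.exists_prime_and_dvd hord1
  haveI : Fact p.Prime := ⟨hpp⟩
  obtain ⟨a, hag, hao⟩ : ∃ a, a ∈ zpowers g ∧ orderOf a = p :=
    ⟨g ^ (orderOf g / p), npow_mem_zpowers _ _, orderOf_pow_orderOf_div (orderOf_pos g).ne' hpd⟩
  have ha1 : a ≠ 1 := by
    intro e
    rw [e, orderOf_one] at hao
    exact hpp.one_lt.ne hao
  have haS : ∀ x : G, Group.IsNilpotent ↥(closure ({x, a} : Set G)) := by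
    intro x
    refine isNilpotent_of_le ?_ (hg x)
    rw [closure_le]
    rintro y (rfl | rfl)
    · exact subset_closure (Set.mem_insert _ _)
    · have hgK : g ∈ closure ({x, g} : Set G) := subset_closure (Set.mem_insert_of_mem _ rfl)
      exact (zpowers_le.mpr hgK) hag
  have hconjS : ∀ u x : G, Group.IsNilpotent ↥(closure ({x, u * a * u⁻¹} : Set G)) := by
    intro u x
    have hK : Group.IsNilpotent ↥((closure ({u⁻¹ * x * u, a} : Set G)).map (MulAut.conj u).toMonoidHom) := by
      haveI := haS (u⁻¹ * x * u)
      exact isNilpotent_of_injective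
        (Subgroup.equivMapOfInjective _ _ (MulEquiv.injective (MulAut.conj u))).symm.toMonoidHom
        (MulEquiv.injective _)
    refine isNilpotent_of_le ?_ hK
    rw [closure_le]
    rintro y (rfl | rfl)
    · refine ⟨u⁻¹ * y * u, subset_closure (Set.mem_insert _ _), ?_⟩
      show u * (u⁻¹ * y * u) * u⁻¹ = y
      group
    · exact ⟨a, subset_closure (Set.mem_insert_of_mem _ rfl), rfl⟩
  -- p-elements
  have hapg : IsPGroup p (zpowers a) := IsPGroup.of_card (n := 1) (by rw [Nat.card_zpowers, hao, pow_one])
  -- the normal p-subgroup from Baer-Suzuki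
  have hBS : ∀ u : G, IsPGroup p ↥(zpowers a ⊔ (zpowers a).map (MulAut.conj u).toMonoidHom) := by
    intro u
    set K := closure ({u, a} : Set G) with hK
    haveI hKn : Group.IsNilpotent K := haS u
    have hau : a ∈ K := subset_closure (Set.mem_insert_of_mem _ rfl)
    have huK : u ∈ K := subset_closure (Set.mem_insert _ _)
    have hb : u * a * u⁻¹ ∈ K := K.mul_mem (K.mul_mem huK hau) (K.inv_mem huK)
    have hmem : ∀ (y : K), (y : G) ^ p = 1 → (y : G) ∈ (pCore p K).map K.subtype := by
      intro y hy
      have hy' : y ^ p = 1 := Subtype.ext (by simpa using hy)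
      by_cases hy1 : y = 1
      · rw [hy1]; exact one_mem _
      have hord : orderOf y = p := orderOf_eq_prime hy' hy1
      have hzp : IsPGroup p (zpowers y) := IsPGroup.of_card (n := 1) (by rw [Nat.card_zpowers, hord, pow_one])
      have h1 : zpowers y ≤ pCore p K :=
        Cfsg.Agent.Lib.Core.subnormal_pgroup_le_pCore p _ (Cfsg.Agent.S0064.result.mp hKn _) hzp
      exact ⟨y, h1 (mem_zpowers y), rfl⟩
    have hpc : IsPGroup p ↥((pCore p K).map K.subtype) := (pCore_isPGroup p K).map K.subtype
    refine hpc.to_le (sup_le ?_ ?_)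
    · rw [zpowers_le]
      exact hmem ⟨a, hau⟩ (by rw [← hao]; exact pow_orderOf_eq_one a)
    · rw [Subgroup.map_le_iff_le_comap, zpowers_le]
      refine hmem ⟨u * a * u⁻¹, hb⟩ ?_
      show (u * a * u⁻¹) ^ p = 1
      rw [conj_pow, ← hao, pow_orderOf_eq_one]
      group
  obtain ⟨N, hNn, hNp, hXN⟩ := Cfsg.Agent.S0199.result (zpowers a) hapg hBS
  set V := normalClosure ({a} : Set G) with hV
  have haV : a ∈ V := subset_normalClosure (Set.mem_singleton a)
  have hVN : V ≤ N := normalClosure_le_normal (by
    intro y hy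
    have hya : y = a := hy
    rw [hya]
    exact hXN (mem_zpowers a))
  have hVp : IsPGroup p V := hNp.to_le hVN
  let P : Sylow p G := Classical.choice Sylow.nonempty
  have hVP : V ≤ (P : Subgroup G) := hVp.le_sylow_of_normal P
  haveI hPn : Group.IsNilpotent (P : Subgroup G) := P.2.isNilpotent
  have hVne : V.subgroupOf (P : Subgroup G) ≠ ⊥ := by
    intro h
    have : (⟨a, hVP haV⟩ : (P : Subgroup G)) ∈ V.subgroupOf (P : Subgroup G) := haV
    rw [h, Subgroup.mem_bot] at this
    exact ha1 (congrArg Subtype.val this)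
  have hinf := normal_inf_center_ne_bot (V.subgroupOf (P : Subgroup G)) hVne
  obtain ⟨z, hz, hz1⟩ : ∃ z : (P : Subgroup G),
      z ∈ V.subgroupOf (P : Subgroup G) ⊓ center (P : Subgroup G) ∧ z ≠ 1 := by
    obtain ⟨z, hz⟩ := Subgroup.ne_bot_iff_exists_ne_one.mp hinf
    exact ⟨z.1, z.2, fun e => hz (Subtype.ext e)⟩
  obtain ⟨hzV, hzc⟩ := Subgroup.mem_inf.mp hz
  have hzV' : (z : G) ∈ V := hzV
  have hz1' : (z : G) ≠ 1 := fun e => hz1 (Subtype.ext e)
  set D := centralizer ({(z : G)} : Set G) with hD
  have hPD : (P : Subgroup G) ≤ D := by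
    intro y hy
    rw [hD, Subgroup.mem_centralizer_singleton_iff]
    have := (Subgroup.mem_center_iff.mp hzc) ⟨y, hy⟩
    have h2 := congrArg Subtype.val this
    exact h2
  -- p'-elements commute with `z`
  have hp' : ∀ y : G, (orderOf y).Coprime p → y ∈ D := by
    intro y hy
    have hVc : V ≤ centralizer ({y} : Set G) := by
      rw [hV, normalClosure, closure_le]
      intro b hb
      obtain ⟨b0, hb0, hbc⟩ := Group.mem_conjugatesOfSet_iff.mp hb
      have hb0' : b0 = a := hb0
      subst hb0'
      obtain ⟨u, rfl⟩ := isConj_iff.mp hbc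
      show _ ∈ centralizer ({y} : Set G)
      rw [Subgroup.mem_centralizer_singleton_iff]
      set K := closure ({y, u * b0 * u⁻¹} : Set G) with hK
      haveI hKn : Group.IsNilpotent K := hconjS u y
      have hyK : y ∈ K := subset_closure (Set.mem_insert _ _)
      have hbK : u * b0 * u⁻¹ ∈ K := subset_closure (Set.mem_insert_of_mem _ rfl)
      have hordb : orderOf (u * b0 * u⁻¹) = p := by
        have := MulEquiv.orderOf_eq (MulAut.conj u) b0
        rw [hao] at this
        exact this
      have hpb : IsPGroup p (zpowers (⟨u * b0 * u⁻¹, hbK⟩ : K)) := by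
        apply IsPGroup.of_card (n := 1)
        rw [Nat.card_zpowers, Subgroup.orderOf_mk, hordb, pow_one]
      have hyc : (orderOf (⟨y, hyK⟩ : K)).Coprime p := by
        rw [Subgroup.orderOf_mk]; exact hy
      have hcomm := commute_of_nilpotent_of_coprime hpb hyc
      have := congrArg Subtype.val hcomm.eq
      exact this
    have := hVc hzV'
    rw [Subgroup.mem_centralizer_singleton_iff] at this
    rw [hD, Subgroup.mem_centralizer_singleton_iff]
    exact this.symm
  -- the subgroup generated by `p'`-elements
  set K0 := normalClosure {y : G | (orderOf y).Coprime p} with hK0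
  have hK0D : K0 ≤ D := by
    rw [hK0, normalClosure, closure_le]
    intro b hb
    obtain ⟨b0, hb0, hbc⟩ := Group.mem_conjugatesOfSet_iff.mp hb
    obtain ⟨u, rfl⟩ := isConj_iff.mp hbc
    apply hp'
    have := MulEquiv.orderOf_eq (MulAut.conj u) b0
    have e : orderOf (u * b0 * u⁻¹) = orderOf b0 := this
    rw [e]
    exact hb0
  have hK0p : IsPGroup p (G ⧸ K0) := by
    intro x
    obtain ⟨x, rfl⟩ := QuotientGroup.mk_surjective x
    obtain ⟨a', b', hab, hcomm, ⟨k, hk⟩, hb', -, -⟩ := Cfsg.Agent.Lib.Block.exists_jordan (p := p) x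
    refine ⟨k, ?_⟩
    rw [← QuotientGroup.mk_pow, QuotientGroup.eq_one_iff, ← hab, hcomm.mul_pow, ← hk,
      pow_orderOf_eq_one, one_mul]
    apply pow_mem
    apply subset_normalClosure
    exact (Nat.Prime.coprime_iff_not_dvd hpp).mpr hb' |>.symm
  obtain ⟨m, hm⟩ := IsPGroup.iff_card.mp hK0p
  have hDidx : D.index = 1 := by
    have h1 : D.index ∣ K0.index := Subgroup.index_dvd_of_le hK0D
    have hK0idx : K0.index = p ^ m := by rw [Subgroup.index_eq_card, hm]
    rw [hK0idx] at h1
    obtain ⟨j, _, hj⟩ := (Nat.dvd_prime_pow hpp).mp h1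
    rcases j with _ | j
    · simpa using hj
    · exfalso
      have h2 : D.index ∣ (P : Subgroup G).index := Subgroup.index_dvd_of_le hPD
      apply P.not_dvd_index
      refine dvd_trans ?_ h2
      rw [hj, pow_succ]
      exact Dvd.intro_left _ rfl
  have hDtop : D = ⊤ := Subgroup.index_eq_one.mp hDidx
  intro hZ
  apply hz1'
  have hzc' : (z : G) ∈ center G := by
    rw [Subgroup.mem_center_iff]
    intro y
    have : y ∈ D := by rw [hDtop]; trivial
    rw [hD, Subgroup.mem_centralizer_singleton_iff] at this
    exact this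
  rw [hZ] at hzc'
  exact Subgroup.mem_bot.mp hzc'

/-- Elements all of whose two-generator subgroups are nilpotent are hypercentral. -/
theorem exists_mem_upperCentralSeries_of_two_gen : ∀ (n : ℕ) (G : Type u) [Group G] [Finite G],
    Nat.card G = n → ∀ g : G, (∀ x : G, Group.IsNilpotent ↥(closure ({x, g} : Set G))) →
      ∃ k, g ∈ Subgroup.upperCentralSeries G k := by
  intro n
  induction n using Nat.strong_induction_on with
  | _ n IH =>
  intro G _ _ hn g hg
  classical
  by_cases hZ : center G = ⊥
  · by_cases hg1 : g = 1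
    · exact ⟨0, by rw [hg1]; exact one_mem _⟩
    · exact absurd hZ (exists_central_of_two_gen g hg1 hg)
  · set π := QuotientGroup.mk' (center G) with hπ
    have hπs : Function.Surjective π := QuotientGroup.mk'_surjective _
    have hlt : Nat.card (G ⧸ center G) < n := by
      have h1 := Subgroup.card_eq_card_quotient_mul_card_subgroup (center G)
      have h2 : 1 < Nat.card (center G) := by
        have hne : Nontrivial (center G) := (Subgroup.nontrivial_iff_ne_bot _).mpr hZ
        exact Finite.one_lt_card
      have h3 : 0 < Nat.card (G ⧸ center G) := Nat.card_pos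
      rw [← hn, h1]
      nlinarith
    obtain ⟨k, hk⟩ := IH _ hlt (G ⧸ center G) rfl (π g) (by
      intro xq
      obtain ⟨x, rfl⟩ := hπs xq
      have e : closure ({π x, π g} : Set (G ⧸ center G)) = (closure ({x, g} : Set G)).map π := by
        rw [MonoidHom.map_closure, Set.image_pair]
      rw [e]
      haveI := hg x
      exact nilpotent_of_surjective (π.subgroupMap (closure ({x, g} : Set G)))
        (MonoidHom.subgroupMap_surjective _ _))
    have key : ∀ (k : ℕ) (y : G), π y ∈ Subgroup.upperCentralSeries (G ⧸ center G) k →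
        y ∈ Subgroup.upperCentralSeries G (k + 1) := by
      intro k
      induction k with
      | zero =>
        intro y hy
        rw [zero_add, Subgroup.upperCentralSeries_one]
        have h1 : π y = 1 := hy
        exact (QuotientGroup.eq_one_iff y).mp h1
      | succ k ih =>
        intro y hy
        rw [Subgroup.mem_upperCentralSeries_succ_iff]
        intro h
        apply ih
        have := Subgroup.mem_upperCentralSeries_succ_iff.mp hy (π h)
        simpa [map_mul, map_inv] using this
    exact ⟨k + 1, key k g hk⟩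

/-- Hypercentral elements generate nilpotent subgroups with anything. -/
theorem isNilpotent_closure_pair_of_mem_upperCentralSeries {G : Type*} [Group G] (g x : G) (n : ℕ)
    (hg : g ∈ Subgroup.upperCentralSeries G n) : Group.IsNilpotent ↥(closure ({x, g} : Set G)) := by
  classical
  set H := closure ({x, g} : Set G) with hH
  have hxH : x ∈ H := subset_closure (Set.mem_insert _ _)
  have hgH : g ∈ H := subset_closure (Set.mem_insert_of_mem _ rfl)
  have key : ∀ (n : ℕ) (y : G) (hy : y ∈ H), y ∈ Subgroup.upperCentralSeries G n →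
      (⟨y, hy⟩ : H) ∈ Subgroup.upperCentralSeries H n := by
    intro n
    induction n with
    | zero =>
      intro y hy h0
      have : y = 1 := h0
      subst this
      exact one_mem _
    | succ n ih =>
      intro y hy h
      rw [Subgroup.mem_upperCentralSeries_succ_iff]
      intro h'
      have h1 := Subgroup.mem_upperCentralSeries_succ_iff.mp h h'.1
      exact ih _ _ h1
  set U := Subgroup.upperCentralSeries H n with hU
  have hUn : U.Normal := by rw [hU]; infer_instance
  set x' : H := ⟨x, hxH⟩ with hx'
  set g' : H := ⟨g, hgH⟩ with hg'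
  have hg'U : g' ∈ U := key n g hgH hg
  have hgen : closure (((↑) : H → G) ⁻¹' ({x, g} : Set G)) = ⊤ := closure_closure_coe_preimage
  set π := QuotientGroup.mk' U with hπ
  have hcomm : ∀ h : H, x' * h * x'⁻¹ * h⁻¹ ∈ U := by
    have hC : closure (((↑) : H → G) ⁻¹' ({x, g} : Set G)) ≤
        (centralizer ({π x'} : Set (H ⧸ U))).comap π := by
      rw [closure_le]
      rintro y (hy | hy)
      · have hy' : y = x' := Subtype.ext hy
        subst hy'
        show π _ ∈ centralizer _
        rw [Subgroup.mem_centralizer_singleton_iff]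
      · have hy' : y = g' := Subtype.ext hy
        subst hy'
        show π _ ∈ centralizer _
        rw [Subgroup.mem_centralizer_singleton_iff]
        have : π g' = 1 := (QuotientGroup.eq_one_iff g').mpr hg'U
        rw [this, one_mul, mul_one]
    rw [hgen] at hC
    intro h
    have h1 : π h ∈ centralizer ({π x'} : Set (H ⧸ U)) := hC (Subgroup.mem_top h)
    rw [Subgroup.mem_centralizer_singleton_iff] at h1
    rw [← QuotientGroup.eq_one_iff]
    show π _ = 1
    rw [map_mul, map_mul, map_mul, map_inv, map_inv, ← h1]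
    group
  refine ⟨⟨n + 1, ?_⟩⟩
  rw [eq_top_iff, ← hgen, closure_le]
  rintro y (hy | hy)
  · have hy' : y = x' := Subtype.ext hy
    subst hy'
    exact Subgroup.mem_upperCentralSeries_succ_iff.mpr hcomm
  · have hy' : y = g' := Subtype.ext hy
    subst hy'
    exact Subgroup.upperCentralSeries_mono _ (Nat.le_succ n) hg'U

end Cfsg.Agent.Lib.PGroup
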