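import Mathlib

/-!
# Fixed-point-free involutory automorphisms
-/

set_option autoImplicit false

namespace Cfsg.Agent.Lib.PGroup

variable {X : Type*} [Group X] [Finite X]

/-- A fixed-point-free involutory endomorphism of a finite group inverts it. -/
theorem inverts_of_fixedPointFree (τ : X →* X) (h2 : ∀ x, τ (τ x) = x) (hf : ∀ x, τ x = x → x = 1) :
    ∀ x, τ x = x⁻¹ := by
  have hinj : Function.Injective (fun a : X => a⁻¹ * τ a) := by
    intro a b hab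
    have hab' : a⁻¹ * τ a = b⁻¹ * τ b := hab
    have h1 : τ (b * a⁻¹) = b * a⁻¹ := by
      rw [map_mul, map_inv]
      have e : b * (a⁻¹ * τ a) * (τ a)⁻¹ = b * (b⁻¹ * τ b) * (τ a)⁻¹ := by rw [hab']
      have e1 : b * (a⁻¹ * τ a) * (τ a)⁻¹ = b * a⁻¹ := by group
      have e2 : b * (b⁻¹ * τ b) * (τ a)⁻¹ = τ b * (τ a)⁻¹ := by group
      rw [← e2, ← e, e1]
    have h3 := hf _ h1
    rw [mul_inv_eq_one] at h3
    exact h3.symm
  intro x
  obtain ⟨a, rfl⟩ := Finite.surjective_of_injective hinj x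
  show τ (a⁻¹ * τ a) = (a⁻¹ * τ a)⁻¹
  rw [map_mul, map_inv, h2]
  group

theorem comm_of_fixedPointFree (τ : X →* X) (h2 : ∀ x, τ (τ x) = x) (hf : ∀ x, τ x = x → x = 1)
    (x y : X) : x * y = y * x := by
  have h := inverts_of_fixedPointFree τ h2 hf
  have h1 : τ (x⁻¹ * y⁻¹) = x * y := by
    rw [map_mul, h, h, inv_inv, inv_inv]
  have h3 : τ (x⁻¹ * y⁻¹) = (x⁻¹ * y⁻¹)⁻¹ := h _
  rw [h1] at h3
  rw [h3]
  group

theorem not_two_dvd_card_of_fixedPointFree (τ : X →* X) (h2 : ∀ x, τ (τ x) = x)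
    (hf : ∀ x, τ x = x → x = 1) : ¬ 2 ∣ Nat.card X := by
  intro hd
  obtain ⟨x, hx⟩ := exists_prime_orderOf_dvd_card' 2 hd
  have h1 : x * x = 1 := by
    rw [← sq, ← hx, pow_orderOf_eq_one]
  have h3 : x⁻¹ = x := inv_eq_of_mul_eq_one_left h1
  have h4 := inverts_of_fixedPointFree τ h2 hf x
  rw [h3] at h4
  have h5 := hf x h4
  rw [h5, orderOf_one] at hx
  omega

end Cfsg.Agent.Lib.PGroup
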