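import Mathlib
import Cfsg.Agent.Lib.Transfer.Frobenius
import Cfsg.Agent.Lib.Transfer.Comp
import Cfsg.Agent.Lib.Coprime.SZ
import Cfsg.Agent.Lib.Core.MinNormal
import Cfsg.Agent.Lib.Core.MinNormal2
import Cfsg.Agent.Lib.PGroup.Basic
import Cfsg.Agent.Lib.PGroup.Sylow

/-!
# Counting conjugacy classes of `p`-elements

If `G` has no normal `p`-complement then `2 k₂(G) ≤ |P|` for `p = 2` and
`2 p k_p(G) ≤ (p + 1) |P|` for odd `p`.
-/

set_option autoImplicit false

namespace Cfsg.Agent.Lib.PGroup.KClasses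

open Cfsg

universe u

section Count

theorem mul_ncard_image_le {α β : Type*} [Finite α] (A : Set α) (f : α → β) (m : ℕ)
    (h : ∀ a ∈ A, m ≤ (A ∩ f ⁻¹' {f a}).ncard) : m * (f '' A).ncard ≤ A.ncard := by
  classical
  haveI := Fintype.ofFinite α
  set A' : Finset α := A.toFinset with hA'
  have hAe : A = (A' : Set α) := by simp [hA']
  have h1 : (f '' A).ncard = (A'.image f).card := by
    rw [hAe, ← Finset.coe_image, Set.ncard_coe_finset]
  have h2 : A.ncard = A'.card := by rw [hAe, Set.ncard_coe_finset]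
  rw [h1, h2, Finset.card_eq_sum_card_image f A']
  have h3 := Finset.card_nsmul_le_sum (A'.image f) (fun b => (A'.filter (fun x => f x = b)).card) m ?_
  · simpa [mul_comm] using h3
  · intro b hb
    obtain ⟨a, ha, rfl⟩ := Finset.mem_image.mp hb
    have h4 := h a (by simpa [hA'] using ha)
    have h5 : (A ∩ f ⁻¹' {f a}) = ((A'.filter (fun x => f x = f a) : Finset α) : Set α) := by
      ext x
      simp [hA']
    rwa [h5, Set.ncard_coe_finset] at h4

variable {G : Type u} [Group G]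

/-- The orbit of `a` under conjugation by the subgroup `H`. -/
def conjOrb (H : Subgroup G) (a : G) : Set G := Set.range (fun h : H => (h : G) * a * (h : G)⁻¹)

theorem conjOrb_ncard_dvd [Finite G] (H : Subgroup G) (a : G) :
    (conjOrb H a).ncard ∣ Nat.card H := by
  letI : MulAction H G := MulAction.compHom G ((MulAut.conj : G →* MulAut G).comp H.subtype)
  have h : conjOrb H a = MulAction.orbit H a := rfl
  rw [h, ← MulAction.index_stabilizer]
  exact Subgroup.index_dvd_card _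

theorem mem_conjOrb_self (H : Subgroup G) (a : G) : a ∈ conjOrb H a :=
  ⟨1, by simp⟩

theorem conjOrb_ncard_ne_one [Finite G] {H : Subgroup G} {a : G} {h : G} (hh : h ∈ H)
    (hne : h * a * h⁻¹ ≠ a) : (conjOrb H a).ncard ≠ 1 := by
  intro h1
  obtain ⟨c, hc⟩ := Set.ncard_eq_one.mp h1
  have h2 : a ∈ conjOrb H a := mem_conjOrb_self H a
  have h3 : h * a * h⁻¹ ∈ conjOrb H a := ⟨⟨h, hh⟩, rfl⟩
  rw [hc, Set.mem_singleton_iff] at h2 h3
  exact hne (h3.trans h2.symm)

theorem conjOrb_ncard_pos [Finite G] (H : Subgroup G) (a : G) : 0 < (conjOrb H a).ncard :=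
  (Set.ncard_pos (Set.toFinite _)).mpr ⟨a, mem_conjOrb_self H a⟩

/-- For a `p`-group `H`, nontrivial orbits have at least `p` elements. -/
theorem le_conjOrb_of_isPGroup [Finite G] {p : ℕ} [hp : Fact p.Prime] {H : Subgroup G} (hH : IsPGroup p H)
    {a : G} {h : G} (hh : h ∈ H) (hne : h * a * h⁻¹ ≠ a) : p ≤ (conjOrb H a).ncard := by
  obtain ⟨k, hk⟩ := IsPGroup.iff_card.mp hH
  have h1 := conjOrb_ncard_dvd H a
  rw [hk] at h1
  obtain ⟨j, -, hj⟩ := (Nat.dvd_prime_pow hp.out).mp h1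
  have h2 := conjOrb_ncard_ne_one hh hne
  rw [hj] at h2 ⊢
  have hj0 : j ≠ 0 := by
    rintro rfl
    simp at h2
  exact Nat.le_self_pow hj0 p

/-- Nontrivial orbits have at least `2` elements, and at least `3` when `H` has odd order. -/
theorem two_le_conjOrb [Finite G] {H : Subgroup G} {a : G} {h : G} (hh : h ∈ H)
    (hne : h * a * h⁻¹ ≠ a) : 2 ≤ (conjOrb H a).ncard := by
  have h1 := conjOrb_ncard_pos H a
  have h2 := conjOrb_ncard_ne_one hh hne
  omega

theorem three_le_conjOrb [Finite G] {H : Subgroup G} (hodd : Nat.Coprime (Nat.card H) 2) {a : G} {h : G} (hh : h ∈ H)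
    (hne : h * a * h⁻¹ ≠ a) : 3 ≤ (conjOrb H a).ncard := by
  have h1 := two_le_conjOrb hh hne
  have h2 := conjOrb_ncard_dvd H a
  have h3 : Nat.Coprime (conjOrb H a).ncard 2 := Nat.Coprime.coprime_dvd_left h2 hodd
  have h4 : (conjOrb H a).ncard ≠ 2 := by
    intro h5
    rw [h5] at h3
    simp at h3
  omega

/-- The number of conjugacy classes of `G` meeting the set `A`. -/
noncomputable def tc (A : Set G) : ℕ := (ConjClasses.mk '' A).ncard

theorem tc_union_le [Finite G] (A B : Set G) : tc (A ∪ B) ≤ tc A + tc B := by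
  unfold tc
  rw [Set.image_union]
  exact Set.ncard_union_le _ _

theorem tc_mono [Finite G] {A B : Set G} (h : A ⊆ B) : tc A ≤ tc B := by
  unfold tc
  exact Set.ncard_le_ncard (Set.image_mono h) (Set.toFinite _)

theorem tc_le_ncard [Finite G] (A : Set G) : tc A ≤ A.ncard :=
  Set.ncard_image_le (Set.toFinite _)

theorem tc_iUnion_le [Finite G] {ι : Type*} [Fintype ι] (A : ι → Set G) :
    tc (⋃ i, A i) ≤ ∑ i, tc (A i) := by
  classical
  have key : ∀ s : Finset ι, tc (⋃ i ∈ s, A i) ≤ ∑ i ∈ s, tc (A i) := by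
    intro s
    induction s using Finset.induction_on with
    | empty => simp [tc]
    | insert i s hi ih =>
      rw [Finset.sum_insert hi, Finset.set_biUnion_insert]
      exact (tc_union_le _ _).trans (by omega)
  simpa using key Finset.univ

/-- If a subgroup `H` preserves `A` by conjugation and all orbits on `A` have at least `m` elements,
then `A` meets at most `|A| / m` classes. -/
theorem mul_tc_le [Finite G] (H : Subgroup G) (A : Set G) (m : ℕ)
    (hA : ∀ a ∈ A, ∀ h ∈ H, h * a * h⁻¹ ∈ A) (hm : ∀ a ∈ A, m ≤ (conjOrb H a).ncard) :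
    m * tc A ≤ A.ncard := by
  apply mul_ncard_image_le
  intro a ha
  refine (hm a ha).trans (Set.ncard_le_ncard ?_ (Set.toFinite _))
  rintro _ ⟨h, rfl⟩
  refine ⟨hA a ha h h.2, ?_⟩
  simp only [Set.mem_preimage, Set.mem_singleton_iff]
  rw [ConjClasses.mk_eq_mk_iff_isConj]
  exact (isConj_iff.mpr ⟨(h : G), rfl⟩).symm

end Count

section PElements

variable {G : Type u} [Group G] {p : ℕ}

/-- The `p`-elements. -/
def Pel (p : ℕ) (x : G) : Prop := ∃ k : ℕ, orderOf x = p ^ k

theorem pel_conj {x : G} (hx : Pel p x) (g : G) : Pel p (g * x * g⁻¹) := by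
  obtain ⟨k, hk⟩ := hx
  refine ⟨k, ?_⟩
  have h1 : orderOf (g * x * g⁻¹) = orderOf x := by
    simpa using MulEquiv.orderOf_eq (MulAut.conj g) x
  rw [h1, hk]

theorem pel_map [hp : Fact p.Prime] {H : Type*} [Group H] (f : G →* H) {x : G} (hx : Pel p x) : Pel p (f x) := by
  obtain ⟨k, hk⟩ := hx
  have h1 : orderOf (f x) ∣ p ^ k := hk ▸ orderOf_map_dvd f x
  obtain ⟨j, -, hj⟩ := (Nat.dvd_prime_pow hp.out).mp h1
  exact ⟨j, hj⟩

theorem pel_of_mem [hp : Fact p.Prime] [Finite G] {Q : Subgroup G} (hQ : IsPGroup p Q) {x : G} (hx : x ∈ Q) : Pel p x := by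
  obtain ⟨k, hk⟩ := hQ ⟨x, hx⟩
  have h1 : x ^ p ^ k = 1 := congrArg Subtype.val hk
  obtain ⟨j, -, hj⟩ := (Nat.dvd_prime_pow hp.out).mp (orderOf_dvd_of_pow_eq_one h1)
  exact ⟨j, hj⟩

theorem isPGroup_zpowers_of_pel [hp : Fact p.Prime] [Finite G] {x : G} (hx : Pel p x) : IsPGroup p (Subgroup.zpowers x) := by
  obtain ⟨k, hk⟩ := hx
  rw [IsPGroup.iff_card, Nat.card_zpowers, hk]
  exact ⟨k, rfl⟩

theorem eq_one_of_pel_of_coprime {x : G} (hx : Pel p x) {n : ℕ} (hn : x ^ n = 1) (hc : Nat.Coprime n p) : x = 1 := by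
  obtain ⟨k, hk⟩ := hx
  have h1 := orderOf_dvd_of_pow_eq_one hn
  rw [hk] at h1
  have h2 : Nat.Coprime (p ^ k) n := Nat.Coprime.pow_left k hc.symm
  exact orderOf_eq_one_iff.mp (hk.trans (Nat.eq_one_of_dvd_coprimes h2 dvd_rfl h1))

/-- The classes of `p`-elements. -/
abbrev PC (p : ℕ) (G : Type u) [Group G] : Type u :=
  {c : ConjClasses G // ∀ x ∈ c.carrier, ∃ k : ℕ, orderOf x = p ^ k}

/-- The number of classes of `p`-elements. -/
noncomputable abbrev kp (p : ℕ) (G : Type u) [Group G] : ℕ := Nat.card (PC p G)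

theorem mem_PC_mk {x : G} (hx : Pel p x) : ∀ y ∈ (ConjClasses.mk x).carrier, ∃ k : ℕ, orderOf y = p ^ k := by
  intro y hy
  have h1 : ConjClasses.mk y = ConjClasses.mk x := ConjClasses.mem_carrier_iff_mk_eq.mp hy
  rw [ConjClasses.mk_eq_mk_iff_isConj] at h1
  obtain ⟨g, hg⟩ := isConj_iff.mp h1.symm
  rw [← hg]
  exact pel_conj hx g

theorem exists_conj_mem_sylow [hp : Fact p.Prime] [Finite G] (P : Sylow p G) {x : G} (hx : Pel p x) :
    ∃ g : G, g * x * g⁻¹ ∈ (P : Subgroup G) := by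
  obtain ⟨Q, hQ⟩ := (isPGroup_zpowers_of_pel hx).exists_le_sylow
  obtain ⟨g, rfl⟩ := MulAction.exists_smul_eq G Q P
  refine ⟨g, ?_⟩
  have h1 : x ∈ (Q : Subgroup G) := hQ (Subgroup.mem_zpowers x)
  have h2 : g * x * g⁻¹ ∈ ((g • Q : Sylow p G) : Subgroup G) := by
    rw [Sylow.coe_subgroup_smul]
    exact ⟨x, h1, rfl⟩
  exact h2

theorem PC_exists_rep (c : PC p G) : ∃ x : G, Pel p x ∧ ConjClasses.mk x = c.1 := by
  obtain ⟨x, hx⟩ := ConjClasses.mk_surjective c.1
  refine ⟨x, c.2 x ?_, hx⟩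
  rw [← hx]
  exact ConjClasses.mem_carrier_mk

/-- Every class of `p`-elements meets a given Sylow subgroup. -/
theorem kp_le_tc [hp : Fact p.Prime] [Finite G] (P : Sylow p G) : kp p G ≤ tc ((P : Subgroup G) : Set G) := by
  unfold tc
  rw [← Nat.card_coe_set_eq]
  have key : ∀ c : PC p G, c.1 ∈ ConjClasses.mk '' ((P : Subgroup G) : Set G) := by
    intro c
    obtain ⟨x, hx, hc⟩ := PC_exists_rep c
    obtain ⟨g, hg⟩ := exists_conj_mem_sylow P hx
    refine ⟨_, hg, ?_⟩
    rw [← hc, ConjClasses.mk_eq_mk_iff_isConj]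
    exact (isConj_iff.mpr ⟨g, rfl⟩).symm
  exact Nat.card_le_card_of_injective (fun c => (⟨c.1, key c⟩ : ConjClasses.mk '' ((P : Subgroup G) : Set G)))
    (fun c d h => by
      have h' : c.1 = d.1 := congrArg (fun w : ConjClasses.mk '' ((P : Subgroup G) : Set G) => w.1) h
      exact Subtype.ext h')

/-- Classes of `G` meeting a set of `p`-elements of a subgroup `L`. -/
theorem tc_le_kp_of_subgroup [hp : Fact p.Prime] [Finite G] (L : Subgroup G) {A : Set G} (hA : A ⊆ L)
    (hAp : ∀ a ∈ A, Pel p a) : tc A ≤ kp p L := by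
  let g : PC p L → ConjClasses G := fun c => ConjClasses.map L.subtype c.1
  have h1 : ConjClasses.mk '' A ⊆ Set.range g := by
    rintro _ ⟨a, ha, rfl⟩
    have hp' : Pel p (⟨a, hA ha⟩ : L) := by
      obtain ⟨k, hk⟩ := hAp a ha
      refine ⟨k, ?_⟩
      rw [Subgroup.orderOf_mk, hk]
    exact ⟨⟨ConjClasses.mk (⟨a, hA ha⟩ : L), mem_PC_mk hp'⟩, rfl⟩
  refine (Set.ncard_le_ncard h1 (Set.toFinite _)).trans ?_
  rw [← Set.image_univ]
  refine (Set.ncard_image_le (Set.toFinite _)).trans ?_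
  rw [Set.ncard_univ]

/-- The map on classes of `p`-elements induced by a homomorphism. -/
def mapPC [hp : Fact p.Prime] {H : Type u} [Group H] (f : G →* H) (c : PC p G) : PC p H :=
  ⟨ConjClasses.map f c.1, by
    obtain ⟨x, hx, hc⟩ := PC_exists_rep c
    have h1 : ConjClasses.map f c.1 = ConjClasses.mk (f x) := by
      rw [← hc]; rfl
    rw [h1]
    exact mem_PC_mk (pel_map f hx)⟩

/-- Over a class of the quotient there are at most `|M|` classes. -/
theorem kp_le_kp_quot_mul [hp : Fact p.Prime] [Finite G] (M : Subgroup G) [hM : M.Normal] :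
    kp p G ≤ kp p (G ⧸ M) * Nat.card M := by
  classical
  let π := QuotientGroup.mk' M
  let F : PC p G → PC p (G ⧸ M) := mapPC π
  have hrep : ∀ d : PC p (G ⧸ M), ∃ x : G, ConjClasses.mk (π x) = d.1 := by
    intro d
    obtain ⟨y, hy⟩ := ConjClasses.mk_surjective d.1
    obtain ⟨x, rfl⟩ := QuotientGroup.mk'_surjective M y
    exact ⟨x, hy⟩
  choose x hx using hrep
  have hm : ∀ c : PC p G, ∃ m : M, ConjClasses.mk (x (F c) * m) = c.1 := by
    intro c
    obtain ⟨y, hy, hc⟩ := PC_exists_rep c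
    have h1 : ConjClasses.mk (π y) = ConjClasses.mk (π (x (F c))) := by
      rw [hx]
      show _ = ConjClasses.map π c.1
      rw [← hc]; rfl
    rw [ConjClasses.mk_eq_mk_iff_isConj] at h1
    obtain ⟨g', hg'⟩ := isConj_iff.mp h1
    obtain ⟨g, rfl⟩ := QuotientGroup.mk'_surjective M g'
    have h2 : π (g * y * g⁻¹) = π (x (F c)) := by
      rw [map_mul, map_mul, map_inv]; exact hg'
    have h3 : (x (F c))⁻¹ * (g * y * g⁻¹) ∈ M := by
      have h4 := h2.symm
      exact QuotientGroup.eq.mp h4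
    refine ⟨⟨_, h3⟩, ?_⟩
    simp only [mul_inv_cancel_left]
    rw [← hc, ConjClasses.mk_eq_mk_iff_isConj]
    exact (isConj_iff.mpr ⟨g, rfl⟩).symm
  choose m hm using hm
  rw [← Nat.card_prod]
  refine Nat.card_le_card_of_injective (fun c => (F c, m c)) ?_
  intro c d h
  have h1 : F c = F d := congrArg Prod.fst h
  have h2 : m c = m d := congrArg Prod.snd h
  apply Subtype.ext
  rw [← hm c, ← hm d, h1, h2]

/-- Two `p`-elements congruent modulo a normal `p'`-subgroup are conjugate. -/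
theorem isConj_of_mk_eq [hp : Fact p.Prime] [Finite G] (N : Subgroup G) [hN : N.Normal]
    (hc : Nat.Coprime (Nat.card N) p) {x y : G} (hx : Pel p x) (hy : Pel p y)
    (hxy : x⁻¹ * y ∈ N) : IsConj x y := by
  let H : Subgroup G := N ⊔ Subgroup.zpowers x
  have hxH : x ∈ H := Subgroup.mem_sup_right (Subgroup.mem_zpowers x)
  have hyH : y ∈ H := by
    have : y = x * (x⁻¹ * y) := by group
    rw [this]
    exact mul_mem hxH (Subgroup.mem_sup_left hxy)
  have hx' : Pel p (⟨x, hxH⟩ : H) := by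
    obtain ⟨k, hk⟩ := hx
    exact ⟨k, by rw [Subgroup.orderOf_mk, hk]⟩
  have hy' : Pel p (⟨y, hyH⟩ : H) := by
    obtain ⟨k, hk⟩ := hy
    exact ⟨k, by rw [Subgroup.orderOf_mk, hk]⟩
  obtain ⟨S, hS⟩ := (isPGroup_zpowers_of_pel hx').exists_le_sylow
  obtain ⟨h, hh⟩ := exists_conj_mem_sylow S hy'
  have hxS : (⟨x, hxH⟩ : H) ∈ (S : Subgroup H) := hS (Subgroup.mem_zpowers _)
  set z : H := h * ⟨y, hyH⟩ * h⁻¹ with hz
  have h1 : (⟨x, hxH⟩ : H)⁻¹ * z ∈ (S : Subgroup H) := mul_mem (inv_mem hxS) hh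
  have h2 : x⁻¹ * (z : G) ∈ N := by
    obtain ⟨n, hn, w, hw, hnw⟩ := Subgroup.mem_sup_of_normal_left.mp h.2
    obtain ⟨i, hi⟩ := Subgroup.mem_zpowers_iff.mp hw
    subst hi
    have e : (z : G) = (h : G) * y * (h : G)⁻¹ := rfl
    rw [e, ← hnw]
    -- compute modulo `N`
    have e2 : (QuotientGroup.mk (x⁻¹ * ((n * x ^ i) * y * (n * x ^ i)⁻¹)) : G ⧸ N) = 1 := by
      have hnq : (QuotientGroup.mk n : G ⧸ N) = 1 := (QuotientGroup.eq_one_iff n).mpr hn
      have hyq : (QuotientGroup.mk y : G ⧸ N) = QuotientGroup.mk x := (QuotientGroup.eq.mpr hxy).symm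
      simp only [QuotientGroup.mk_mul, QuotientGroup.mk_inv, QuotientGroup.mk_zpow, hnq, hyq]
      simp only [one_mul, mul_inv_rev, inv_one, mul_one]
      have : (↑x : G ⧸ N) ^ i * ↑x * ((↑x : G ⧸ N) ^ i)⁻¹ = ↑x := by
        rw [(Commute.refl (↑x : G ⧸ N)).zpow_left i |>.eq]
        simp
      rw [this]
      simp
    exact (QuotientGroup.eq_one_iff _).mp e2
  have h3 : (⟨x, hxH⟩ : H)⁻¹ * z = 1 := by
    have h4 : Pel p ((⟨x, hxH⟩ : H)⁻¹ * z) := pel_of_mem S.isPGroup' h1
    have h5 : ((⟨x, hxH⟩ : H)⁻¹ * z) ^ Nat.card N = 1 := by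
      apply Subtype.ext
      have h6 : (x⁻¹ * (z : G)) ^ Nat.card N = 1 := by
        have := pow_card_eq_one' (G := N) (x := ⟨_, h2⟩)
        exact congrArg Subtype.val this
      simpa using h6
    exact eq_one_of_pel_of_coprime h4 h5 hc
  have h4 : x = h * y * (h : G)⁻¹ := by
    have := inv_mul_eq_one.mp h3
    exact congrArg Subtype.val this
  exact (isConj_iff.mpr ⟨(h : G), h4.symm⟩).symm

/-- Passing to the quotient by a normal `p'`-subgroup does not lose classes of `p`-elements. -/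
theorem kp_le_kp_quot [hp : Fact p.Prime] [Finite G] (N : Subgroup G) [hN : N.Normal]
    (hc : Nat.Coprime (Nat.card N) p) : kp p G ≤ kp p (G ⧸ N) := by
  refine Nat.card_le_card_of_injective (mapPC (QuotientGroup.mk' N)) ?_
  intro c d h
  obtain ⟨x, hx, hcx⟩ := PC_exists_rep c
  obtain ⟨y, hy, hdy⟩ := PC_exists_rep d
  have h1 : ConjClasses.map (QuotientGroup.mk' N) c.1 = ConjClasses.map (QuotientGroup.mk' N) d.1 :=
    congrArg Subtype.val h
  rw [← hcx, ← hdy] at h1
  have h2 : ConjClasses.mk (QuotientGroup.mk' N x) = ConjClasses.mk (QuotientGroup.mk' N y) := h1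
  rw [ConjClasses.mk_eq_mk_iff_isConj] at h2
  obtain ⟨g', hg'⟩ := isConj_iff.mp h2
  obtain ⟨g, rfl⟩ := QuotientGroup.mk'_surjective N g'
  have h3 : QuotientGroup.mk' N (g * x * g⁻¹) = QuotientGroup.mk' N y := by
    rw [map_mul, map_mul, map_inv]; exact hg'
  have h4 : (g * x * g⁻¹)⁻¹ * y ∈ N := QuotientGroup.eq.mp h3
  have h5 := isConj_of_mk_eq N hc (pel_conj hx g) hy h4
  apply Subtype.ext
  rw [← hcx, ← hdy, ConjClasses.mk_eq_mk_iff_isConj]
  exact (isConj_iff.mpr ⟨g, rfl⟩).trans h5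

end PElements

section Steps

variable {G : Type u} [Group G] [Finite G] {p : ℕ} [hp : Fact p.Prime]

/-- The count in the case of a proper subgroup `L` containing `Z(P)`. -/
theorem step_subgroup {a b : ℕ} (hab : a ≤ p * b) (P : Sylow p G) (L : Subgroup G)
    (hZ : ∀ z ∈ (P : Subgroup G), (∀ y ∈ (P : Subgroup G), y * z * y⁻¹ = z) → z ∈ L)
    (hk : a * kp p L ≤ b * Nat.card ((P : Subgroup G) ⊓ L : Subgroup G)) :
    a * tc ((P : Subgroup G) : Set G) ≤ b * Nat.card (P : Subgroup G) := by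
  classical
  set B : Set G := (((P : Subgroup G) ⊓ L : Subgroup G) : Set G) with hB
  set A : Set G := {x | x ∈ (P : Subgroup G) ∧ ConjClasses.mk x ∉ ConjClasses.mk '' B} with hA
  have h1 : tc ((P : Subgroup G) : Set G) ≤ tc B + tc A := by
    refine le_trans ?_ (Set.ncard_union_le _ _)
    refine Set.ncard_le_ncard ?_ (Set.toFinite _)
    rintro _ ⟨x, hx, rfl⟩
    by_cases h : ConjClasses.mk x ∈ ConjClasses.mk '' B
    · exact Or.inl h
    · exact Or.inr ⟨x, ⟨hx, h⟩, rfl⟩
  have h2 : tc B ≤ kp p L :=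
    tc_le_kp_of_subgroup L (fun x hx => hx.2) (fun x hx => pel_of_mem P.isPGroup' hx.1)
  have h3 : p * tc A ≤ A.ncard := by
    apply mul_tc_le (P : Subgroup G) A p
    · rintro x ⟨hx1, hx2⟩ h hh
      refine ⟨mul_mem (mul_mem hh hx1) (inv_mem hh), ?_⟩
      have : ConjClasses.mk (h * x * h⁻¹) = ConjClasses.mk x := by
        rw [ConjClasses.mk_eq_mk_iff_isConj]
        exact (isConj_iff.mpr ⟨h, rfl⟩).symm
      rwa [this]
    · rintro x ⟨hx1, hx2⟩
      have hxL : x ∉ L := fun hL => hx2 ⟨x, ⟨hx1, hL⟩, rfl⟩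
      have : ¬ ∀ y ∈ (P : Subgroup G), y * x * y⁻¹ = x := fun h => hxL (hZ x hx1 h)
      push Not at this
      obtain ⟨y, hy, hne⟩ := this
      exact le_conjOrb_of_isPGroup P.isPGroup' hy hne
  have h4 : A.ncard + B.ncard ≤ Nat.card (P : Subgroup G) := by
    have hd : Disjoint A B := by
      rw [Set.disjoint_left]
      rintro x ⟨-, hx⟩ hxB
      exact hx ⟨x, hxB, rfl⟩
    rw [← Set.ncard_union_eq hd (Set.toFinite _) (Set.toFinite _)]
    have h6 : Nat.card (P : Subgroup G) = ((P : Subgroup G) : Set G).ncard := by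
      rw [← Nat.card_coe_set_eq]; rfl
    rw [h6]
    refine Set.ncard_le_ncard ?_ (Set.toFinite _)
    rintro x (hx | hx)
    · exact hx.1
    · exact hx.1
  have h5 : B.ncard = Nat.card ((P : Subgroup G) ⊓ L : Subgroup G) := by
    rw [hB, ← Nat.card_coe_set_eq]; rfl
  rw [← h5] at hk
  calc a * tc ((P : Subgroup G) : Set G) ≤ a * (tc B + tc A) := Nat.mul_le_mul_left _ h1
    _ = a * tc B + a * tc A := by ring
    _ ≤ a * kp p L + (p * b) * tc A := by
        exact add_le_add (Nat.mul_le_mul_left _ h2) (Nat.mul_le_mul_right _ hab)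
    _ ≤ b * B.ncard + b * (p * tc A) := by
        refine add_le_add hk (le_of_eq (by ring))
    _ ≤ b * B.ncard + b * A.ncard := by
        exact add_le_add_right (Nat.mul_le_mul_left _ h3) _
    _ = b * (A.ncard + B.ncard) := by ring
    _ ≤ _ := Nat.mul_le_mul_left _ h4

/-- A coset, as a set. -/
def cos (x : G) (M : Subgroup G) : Set G := (fun m => x * m) '' (M : Set G)

omit [Finite G] in
theorem ncard_cos (x : G) (M : Subgroup G) : (cos x M).ncard = Nat.card M := by
  rw [cos, Set.ncard_image_of_injective _ (mul_right_injective x), ← Nat.card_coe_set_eq]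
  rfl

/-- Cosets of an abelian normal `p`-subgroup not centralized by their representative. -/
theorem coset_noncentral (M : Subgroup G) [hM : M.Normal] (hMp : IsPGroup p M)
    (hMc : ∀ x ∈ M, ∀ y ∈ M, x * y = y * x) {x m : G} (hm : m ∈ M) (hx : m * x * m⁻¹ ≠ x) :
    p * tc (cos x M) ≤ Nat.card M := by
  rw [← ncard_cos x M]
  apply mul_tc_le M (cos x M) p
  · rintro _ ⟨m₀, hm₀, rfl⟩ h hh
    refine ⟨x⁻¹ * h * x * m₀ * h⁻¹, ?_, by group⟩
    refine mul_mem (mul_mem ?_ hm₀) (inv_mem hh)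
    have := hM.conj_mem h hh x⁻¹
    simpa [mul_assoc] using this
  · rintro _ ⟨m₀, hm₀, rfl⟩
    refine le_conjOrb_of_isPGroup hMp hm ?_
    intro h
    apply hx
    have e : m * (x * m₀) * m⁻¹ = m * x * m⁻¹ * m₀ := by
      have : m₀ * m⁻¹ = m⁻¹ * m₀ := hMc _ hm₀ _ (inv_mem hm)
      calc m * (x * m₀) * m⁻¹ = m * x * (m₀ * m⁻¹) := by group
        _ = m * x * (m⁻¹ * m₀) := by rw [this]
        _ = _ := by group
    rw [e] at h
    exact mul_right_cancel h

/-- The commutator computation for central cosets. -/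
theorem conj_mem_cos_of_central {M K : Subgroup G} [hM : M.Normal] [hK : K.Normal]
    (hMc : ∀ x ∈ M, ∀ y ∈ M, x * y = y * x)
    (hCK : ∀ k ∈ K, (∀ m ∈ M, k * m = m * k) → k ∈ M) {x : G} (hx : ∀ m ∈ M, m * x * m⁻¹ = x)
    {a r : G} (ha : a ∈ cos x M) (hr : r ∈ K) : r * a * r⁻¹ ∈ cos x M := by
  obtain ⟨m₀, hm₀, rfl⟩ := ha
  have hxc : ∀ m ∈ M, x * m = m * x := by
    intro m hm
    have := hx m hm
    rw [mul_inv_eq_iff_eq_mul] at this
    exact this.symm
  set a := x * m₀ with ha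
  have hac : ∀ m ∈ M, a * m = m * a := by
    intro m hm
    rw [ha, mul_assoc, hMc _ hm₀ _ hm, ← mul_assoc, hxc m hm, mul_assoc]
  have hk : a⁻¹ * r * a * r⁻¹ ∈ M := by
    apply hCK
    · refine mul_mem ?_ (inv_mem hr)
      have := hK.conj_mem r hr a⁻¹
      simpa [mul_assoc] using this
    · intro m hm
      set m' := r⁻¹ * m * r with hm'
      have hm'M : m' ∈ M := by
        have := hM.conj_mem m hm r⁻¹
        simpa [hm'] using this
      have e1 : r⁻¹ * m = m' * r⁻¹ := by rw [hm']; group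
      have e2 : r * m' = m * r := by rw [hm']; group
      have e3 : a⁻¹ * m = m * a⁻¹ := (Commute.inv_left (show Commute a m from hac m hm)).eq
      calc a⁻¹ * r * a * r⁻¹ * m = a⁻¹ * r * a * (r⁻¹ * m) := by group
        _ = a⁻¹ * r * (a * m') * r⁻¹ := by rw [e1]; group
        _ = a⁻¹ * (r * m') * a * r⁻¹ := by rw [hac m' hm'M]; group
        _ = (a⁻¹ * m) * r * a * r⁻¹ := by rw [e2]; group
        _ = m * (a⁻¹ * r * a * r⁻¹) := by rw [e3]; group
  refine ⟨m₀ * (a⁻¹ * r * a * r⁻¹)⁻¹ ⁻¹, mul_mem hm₀ (by simpa using hk), ?_⟩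
  simp only [inv_inv]
  show x * (m₀ * (a⁻¹ * r * a * r⁻¹)) = _
  rw [← mul_assoc, ← ha]
  group

/-- The counting constants. -/
def abA (p : ℕ) : ℕ := if p = 2 then 2 else 2 * p

/-- The counting constants. -/
def abB (p : ℕ) : ℕ := if p = 2 then 1 else p + 1

omit hp in
theorem abA_le (p : ℕ) : abA p ≤ p * abB p := by
  unfold abA abB
  split_ifs with h
  · subst h; norm_num
  · rcases Nat.eq_zero_or_pos p with rfl | hp0
    · simp
    · calc 2 * p = p * 2 := by ring
        _ ≤ p * (p + 1) := Nat.mul_le_mul_left _ (by omega)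

/-- Cosets of `M` whose representative centralizes `M`: `R` acts on them with at most one fixed point. -/
theorem coset_central {M K R : Subgroup G} [hM : M.Normal] [hK : K.Normal]
    (hMc : ∀ x ∈ M, ∀ y ∈ M, x * y = y * x) (hRK : R ≤ K)
    (hCK : ∀ k ∈ K, (∀ m ∈ M, k * m = m * k) → k ∈ M)
    (hCR : ∀ m ∈ M, (∀ r ∈ R, r * m * r⁻¹ = m) → m = 1) {q : ℕ}
    (hq : ∀ a : G, ∀ r ∈ R, r * a * r⁻¹ ≠ a → q ≤ (conjOrb R a).ncard)
    {x : G} (hx : ∀ m ∈ M, m * x * m⁻¹ = x) :
    ∃ t f, tc (cos x M) ≤ t + f ∧ f ≤ 1 ∧ q * t + f ≤ Nat.card M := by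
  classical
  set F : Set G := {a | a ∈ cos x M ∧ ∀ r ∈ R, r * a * r⁻¹ = a} with hF
  set A : Set G := cos x M \ F with hA
  have hU : cos x M = A ∪ F := by
    rw [hA, Set.diff_union_self]
    exact (Set.union_eq_self_of_subset_right (fun a ha => ha.1)).symm
  have hd : Disjoint A F := Set.disjoint_sdiff_left
  refine ⟨tc A, F.ncard, ?_, ?_, ?_⟩
  · conv_lhs => rw [hU]
    exact (tc_union_le _ _).trans (add_le_add_right (tc_le_ncard F) _)
  · rw [Set.ncard_le_one_iff (Set.toFinite _)]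
    rintro a b ⟨⟨m₁, hm₁, rfl⟩, ha⟩ ⟨⟨m₂, hm₂, rfl⟩, hb⟩
    have h1 : m₁⁻¹ * m₂ = 1 := by
      apply hCR _ (mul_mem (inv_mem hm₁) hm₂)
      intro r hr
      have e : r * (m₁⁻¹ * m₂) * r⁻¹ = (r * (x * m₁) * r⁻¹)⁻¹ * (r * (x * m₂) * r⁻¹) := by group
      rw [e, ha r hr, hb r hr]
      group
    have h2 : m₁ = m₂ := inv_mul_eq_one.mp h1
    rw [h2]
  · have h1 : q * tc A ≤ A.ncard := by
      apply mul_tc_le R A q
      · rintro a ⟨ha1, ha2⟩ r hr
        refine ⟨conj_mem_cos_of_central hMc hCK hx ha1 (hRK hr), ?_⟩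
        rintro ⟨-, h3⟩
        apply ha2
        refine ⟨ha1, fun s hs => ?_⟩
        have h4 := h3 (r * s * r⁻¹) (mul_mem (mul_mem hr hs) (inv_mem hr))
        have e : r * s * r⁻¹ * (r * a * r⁻¹) * (r * s * r⁻¹)⁻¹ = r * (s * a * s⁻¹) * r⁻¹ := by group
        rw [e] at h4
        exact mul_left_cancel (mul_right_cancel h4)
      · rintro a ⟨ha1, ha2⟩
        have : ¬ ∀ r ∈ R, r * a * r⁻¹ = a := fun h => ha2 ⟨ha1, h⟩
        push Not at this
        obtain ⟨r, hr, hne⟩ := this
        exact hq a r hr hne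
    have h2 : A.ncard + F.ncard = Nat.card M := by
      rw [← Set.ncard_union_eq hd (Set.toFinite _) (Set.toFinite _), ← hU, ncard_cos]
    omega

/-- `|M| ≠ 2`, under the hypothesis on fixed points. -/
theorem card_ne_two_of_fixed {M R : Subgroup G} [hM : M.Normal] (hMne : M ≠ ⊥)
    (hCR : ∀ m ∈ M, (∀ r ∈ R, r * m * r⁻¹ = m) → m = 1) : Nat.card M ≠ 2 := by
  intro h2
  obtain ⟨m, hm, hm1⟩ := (Subgroup.ne_bot_iff_exists_ne_one (H := M)).mp hMne |>.imp
    (fun y hy => hy) |> fun ⟨y, hy⟩ => (⟨y.1, y.2, fun h => hy (Subtype.ext h)⟩ : ∃ m : G, m ∈ M ∧ m ≠ 1)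
  obtain ⟨y, -, huniq⟩ := (Nat.card_eq_two_iff' (1 : M)).mp h2
  apply hm1
  apply hCR m hm
  intro r _
  have h3 : (⟨m, hm⟩ : M) = y := huniq _ (fun h => hm1 (congrArg Subtype.val h))
  have h4 : (⟨r * m * r⁻¹, hM.conj_mem m hm r⟩ : M) = y := by
    apply huniq
    intro h
    have h5 : r * m * r⁻¹ = 1 := congrArg Subtype.val h
    apply hm1
    have : m = r⁻¹ * (r * m * r⁻¹) * r := by group
    rw [this, h5]; group
  exact congrArg Subtype.val (h4.trans h3.symm)

/-- The bound on a single coset. -/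
theorem coset_bound {M K R : Subgroup G} [hM : M.Normal] [hK : K.Normal]
    (hMp : IsPGroup p M) (hMne : M ≠ ⊥)
    (hMc : ∀ x ∈ M, ∀ y ∈ M, x * y = y * x) (hRK : R ≤ K)
    (hCK : ∀ k ∈ K, (∀ m ∈ M, k * m = m * k) → k ∈ M)
    (hCR : ∀ m ∈ M, (∀ r ∈ R, r * m * r⁻¹ = m) → m = 1)
    (hRc : Nat.Coprime (Nat.card R) p) (x : G) :
    abA p * tc (cos x M) ≤ abB p * Nat.card M := by
  by_cases hx : ∀ m ∈ M, m * x * m⁻¹ = x
  · have hne1 : Nat.card M ≠ 1 := by
      intro h
      exact hMne (Subgroup.eq_bot_of_card_eq M h)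
    obtain ⟨k, hk⟩ := IsPGroup.iff_card.mp hMp
    by_cases h2 : p = 2
    · subst h2
      have h4 : 4 ≤ Nat.card M := by
        have h5 := card_ne_two_of_fixed hMne hCR
        rw [hk] at hne1 h5 ⊢
        rcases k with _ | _ | k
        · simp at hne1
        · simp at h5
        · have : 2 ^ (k + 1 + 1) = 4 * 2 ^ k := by ring
          rw [this]
          have : 0 < 2 ^ k := by positivity
          omega
      obtain ⟨t, f, h1, h2, h3⟩ := coset_central hMc hRK hCK hCR (q := 3)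
        (fun a r hr hne => three_le_conjOrb hRc hr hne) hx
      simp only [abA, abB, if_true]
      omega
    · have h4 : p ≤ Nat.card M := by
        rw [hk] at hne1 ⊢
        have hk0 : k ≠ 0 := by
          rintro rfl
          simp at hne1
        exact Nat.le_self_pow hk0 p
      obtain ⟨t, f, h1, h3, h5⟩ := coset_central hMc hRK hCK hCR (q := 2)
        (fun a r hr hne => two_le_conjOrb hr hne) hx
      simp only [abA, abB, if_neg h2]
      have h6 : tc (cos x M) ≤ t + f := h1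
      have h7 : f = 0 ∨ f = 1 := by omega
      set m := Nat.card M
      calc 2 * p * tc (cos x M) ≤ 2 * p * (t + f) := Nat.mul_le_mul_left _ h6
        _ ≤ (p + 1) * m := by
          rcases h7 with rfl | rfl
          · nlinarith
          · nlinarith
  · push Not at hx
    obtain ⟨m, hm, hne⟩ := hx
    have h1 := coset_noncentral M hMp hMc hm hne
    calc abA p * tc (cos x M) ≤ (p * abB p) * tc (cos x M) := Nat.mul_le_mul_right _ (abA_le p)
      _ = abB p * (p * tc (cos x M)) := by ring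
      _ ≤ _ := Nat.mul_le_mul_left _ h1

/-- The bound in the main case. -/
theorem step_complement (P : Sylow p G) {M K R : Subgroup G} [hM : M.Normal] [hK : K.Normal]
    (hMP : M ≤ (P : Subgroup G)) (hMne : M ≠ ⊥)
    (hMc : ∀ x ∈ M, ∀ y ∈ M, x * y = y * x) (hRK : R ≤ K)
    (hCK : ∀ k ∈ K, (∀ m ∈ M, k * m = m * k) → k ∈ M)
    (hCR : ∀ m ∈ M, (∀ r ∈ R, r * m * r⁻¹ = m) → m = 1)
    (hRc : Nat.Coprime (Nat.card R) p) :
    abA p * tc ((P : Subgroup G) : Set G) ≤ abB p * Nat.card (P : Subgroup G) := by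
  classical
  have hMp : IsPGroup p M := P.isPGroup'.to_le hMP
  let M' : Subgroup (P : Subgroup G) := M.subgroupOf (P : Subgroup G)
  haveI : Fintype ((P : Subgroup G) ⧸ M') := Fintype.ofFinite _
  let r : ((P : Subgroup G) ⧸ M') → G := fun q => ((Quotient.out q : (P : Subgroup G)) : G)
  have hcov : ((P : Subgroup G) : Set G) ⊆ ⋃ q, cos (r q) M := by
    intro y hy
    refine Set.mem_iUnion.mpr ⟨((⟨y, hy⟩ : (P : Subgroup G)) : (P : Subgroup G) ⧸ M'), ?_⟩
    set q : (P : Subgroup G) ⧸ M' := ((⟨y, hy⟩ : (P : Subgroup G)) : (P : Subgroup G) ⧸ M') with hq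
    have h1 : (Quotient.out q : (P : Subgroup G))⁻¹ * ⟨y, hy⟩ ∈ M' := by
      rw [← QuotientGroup.eq, QuotientGroup.out_eq']
    refine ⟨(r q)⁻¹ * y, ?_, by simp⟩
    exact h1
  have h1 : tc ((P : Subgroup G) : Set G) ≤ ∑ q, tc (cos (r q) M) :=
    (tc_mono hcov).trans (tc_iUnion_le _)
  have hcard : Nat.card (P : Subgroup G) = Fintype.card ((P : Subgroup G) ⧸ M') * Nat.card M := by
    have h2 := Subgroup.card_eq_card_quotient_mul_card_subgroup M'
    rw [Nat.card_eq_fintype_card (α := (P : Subgroup G) ⧸ M')] at h2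
    rwa [show Nat.card M' = Nat.card M from Cfsg.Agent.Lib.Coprime.card_subgroupOf_of_le hMP] at h2
  calc abA p * tc ((P : Subgroup G) : Set G) ≤ abA p * ∑ q, tc (cos (r q) M) := Nat.mul_le_mul_left _ h1
    _ = ∑ q, abA p * tc (cos (r q) M) := Finset.mul_sum _ _ _
    _ ≤ ∑ _q : (P : Subgroup G) ⧸ M', abB p * Nat.card M :=
        Finset.sum_le_sum (fun q _ => coset_bound hMp hMne hMc hRK hCK hCR hRc (r q))
    _ = abB p * Nat.card (P : Subgroup G) := by
        rw [Finset.sum_const, Finset.card_univ, hcard, smul_eq_mul]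
        ring

/-- Complements of `M` in `K` are conjugate under `M`. -/
theorem conj_complement {M K R : Subgroup G} [hM : M.Normal] [hK : K.Normal] (hMK : M ≤ K) (hRK : R ≤ K)
    (hMp : IsPGroup p M) (hRc : Nat.Coprime (Nat.card R) p)
    (hcard : Nat.card M * Nat.card R = Nat.card K) (g : G) :
    ∃ k ∈ M, ∀ r ∈ R, ∃ r' ∈ R, k * r * k⁻¹ = g * r' * g⁻¹ := by
  let R' : Subgroup G := R.map (MulAut.conj g).toMonoidHom
  have hR'K : R' ≤ K := by
    rintro _ ⟨r, hr, rfl⟩
    exact hK.conj_mem r (hRK hr) g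
  have hcardR' : Nat.card R' = Nat.card R := Cfsg.Agent.Lib.Coprime.card_map_conj R g
  have c1 : Nat.card (M.subgroupOf K) = Nat.card M := Cfsg.Agent.Lib.Coprime.card_subgroupOf_of_le hMK
  have c2 : Nat.card (R.subgroupOf K) = Nat.card R := Cfsg.Agent.Lib.Coprime.card_subgroupOf_of_le hRK
  have c3 : Nat.card (R'.subgroupOf K) = Nat.card R := by
    rw [Cfsg.Agent.Lib.Coprime.card_subgroupOf_of_le hR'K, hcardR']
  have hcop : Nat.Coprime (Nat.card M) (Nat.card R) := by
    obtain ⟨j, hj⟩ := IsPGroup.iff_card.mp hMp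
    rw [hj]
    exact Nat.Coprime.pow_left j hRc.symm
  have hC1 : Subgroup.IsComplement' (M.subgroupOf K) (R.subgroupOf K) := by
    apply Subgroup.isComplement'_of_coprime
    · rw [c1, c2, hcard]
    · rwa [c1, c2]
  have hC2 : Subgroup.IsComplement' (M.subgroupOf K) (R'.subgroupOf K) := by
    apply Subgroup.isComplement'_of_coprime
    · rw [c1, c3, hcard]
    · rwa [c1, c3]
  haveI : (M.subgroupOf K).Normal := inferInstance
  have hsol : Group.IsSolvable (M.subgroupOf K) := by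
    have h1 : IsPGroup p (M.subgroupOf K) := by
      rw [IsPGroup.iff_card, c1]
      exact IsPGroup.iff_card.mp hMp
    haveI := h1.isNilpotent
    infer_instance
  obtain ⟨k, hk, hk2⟩ := Cfsg.Agent.Lib.Coprime.complement_conj (by rwa [c1, c2]) hC1 hC2 (Or.inl hsol)
  refine ⟨k, hk, fun r hr => ?_⟩
  have h1 : (MulAut.conj k).toMonoidHom ⟨r, hRK hr⟩ ∈ R'.subgroupOf K := by
    rw [hk2]
    exact ⟨⟨r, hRK hr⟩, hr, rfl⟩
  obtain ⟨r', hr', he⟩ := h1
  exact ⟨r', hr', he.symm⟩

/-- The structure of the extension `K = M ⋊ R`. -/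
theorem key_structure {M K R : Subgroup G} [hM : M.Normal] [hK : K.Normal]
    (hMmin : ∀ N : Subgroup G, N.Normal → N ≤ M → N = ⊥ ∨ N = M)
    (hMc : ∀ x ∈ M, ∀ y ∈ M, x * y = y * x) (hMp : IsPGroup p M)
    (hO : ∀ N : Subgroup G, N.Normal → Nat.Coprime (Nat.card N) p → N = ⊥)
    (hMK : M ≤ K) (hRK : R ≤ K) (hRc : Nat.Coprime (Nat.card R) p)
    (hcard : Nat.card M * Nat.card R = Nat.card K)
    (hdec : ∀ k ∈ K, ∃ m ∈ M, ∃ r ∈ R, k = m * r) (hne : R ≠ ⊥) :
    (∀ k ∈ K, (∀ m ∈ M, k * m = m * k) → k ∈ M) ∧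
      ∀ m ∈ M, (∀ r ∈ R, r * m * r⁻¹ = m) → m = 1 := by
  have hinf : ∀ x, x ∈ M → x ∈ R → x = 1 := by
    intro x hx hxR
    have h1 : x ^ Nat.card R = 1 := by
      have := pow_card_eq_one' (G := R) (x := ⟨x, hxR⟩)
      exact congrArg Subtype.val this
    exact eq_one_of_pel_of_coprime (pel_of_mem hMp hx) h1 hRc
  have hCK : ∀ k ∈ K, (∀ m ∈ M, k * m = m * k) → k ∈ M := by
    -- the elements of `R` centralizing `M` form a normal subgroup of `G`
    let R₀ : Subgroup G := R ⊓ Subgroup.centralizer (M : Set G)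
    have hR₀n : R₀.Normal := by
      constructor
      rintro x ⟨hxR, hxC⟩ g
      have hyK : g * x * g⁻¹ ∈ K := hK.conj_mem x (hRK hxR) g
      obtain ⟨m, hm, r, hr, he⟩ := hdec _ hyK
      have hyC : ∀ z ∈ M, z * (g * x * g⁻¹) = (g * x * g⁻¹) * z := by
        intro z hz
        have h1 : g⁻¹ * z * g ∈ M := by simpa using hM.conj_mem z hz g⁻¹
        have h2 := Subgroup.mem_centralizer_iff.mp hxC _ h1
        calc z * (g * x * g⁻¹) = g * ((g⁻¹ * z * g) * x) * g⁻¹ := by group
          _ = g * (x * (g⁻¹ * z * g)) * g⁻¹ := by rw [h2]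
          _ = _ := by group
      have hrC : ∀ z ∈ M, z * r = r * z := by
        intro z hz
        have h1 : r = m⁻¹ * (g * x * g⁻¹) := by rw [he]; group
        rw [h1]
        calc z * (m⁻¹ * (g * x * g⁻¹)) = (z * m⁻¹) * (g * x * g⁻¹) := by group
          _ = (m⁻¹ * z) * (g * x * g⁻¹) := by rw [hMc z hz _ (inv_mem hm)]
          _ = m⁻¹ * (z * (g * x * g⁻¹)) := by group
          _ = m⁻¹ * ((g * x * g⁻¹) * z) := by rw [hyC z hz]
          _ = _ := by group
      have hcomm : Commute m r := (hrC m hm)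
      have hpow : (g * x * g⁻¹) ^ Nat.card R = 1 := by
        have h1 : x ^ Nat.card R = 1 := by
          have := pow_card_eq_one' (G := R) (x := ⟨x, hxR⟩)
          exact congrArg Subtype.val this
        rw [conj_pow, h1]; group
      have hr1 : r ^ Nat.card R = 1 := by
        have := pow_card_eq_one' (G := R) (x := ⟨r, hr⟩)
        exact congrArg Subtype.val this
      have hm1 : m ^ Nat.card R = 1 := by
        rw [he, hcomm.mul_pow, hr1, mul_one] at hpow
        exact hpow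
      have hm2 : m = 1 := eq_one_of_pel_of_coprime (pel_of_mem hMp hm) hm1 hRc
      rw [he, hm2, one_mul]
      refine ⟨hr, Subgroup.mem_centralizer_iff.mpr ?_⟩
      intro z hz
      exact hrC z hz
    have hR₀ : R₀ = ⊥ := by
      apply hO R₀ hR₀n
      exact Nat.Coprime.coprime_dvd_left (Subgroup.card_dvd_of_le inf_le_left) hRc
    intro k hk hkC
    obtain ⟨m, hm, r, hr, he⟩ := hdec k hk
    have hrC : r ∈ R₀ := by
      refine ⟨hr, Subgroup.mem_centralizer_iff.mpr ?_⟩
      intro z hz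
      have h1 : r = m⁻¹ * k := by rw [he]; group
      rw [h1]
      calc z * (m⁻¹ * k) = (z * m⁻¹) * k := by group
        _ = (m⁻¹ * z) * k := by rw [hMc z hz _ (inv_mem hm)]
        _ = m⁻¹ * (z * k) := by group
        _ = m⁻¹ * (k * z) := by rw [hkC z hz]
        _ = _ := by group
    rw [hR₀, Subgroup.mem_bot] at hrC
    rw [he, hrC, mul_one]
    exact hm
  refine ⟨hCK, ?_⟩
  let C₀ : Subgroup G := M ⊓ Subgroup.centralizer (R : Set G)
  have hC₀n : C₀.Normal := by
    constructor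
    rintro c ⟨hcM, hcC⟩ g
    refine ⟨hM.conj_mem c hcM g, Subgroup.mem_centralizer_iff.mpr ?_⟩
    obtain ⟨k, hk, hkr⟩ := conj_complement hMK hRK hMp hRc hcard g
    intro r hr
    obtain ⟨r', hr', he⟩ := hkr r hr
    have h1 := Subgroup.mem_centralizer_iff.mp hcC r' hr'
    set y := g * c * g⁻¹ with hy
    have hyM : y ∈ M := hM.conj_mem c hcM g
    have h2 : (g * r' * g⁻¹) * y = y * (g * r' * g⁻¹) := by
      rw [hy]
      calc g * r' * g⁻¹ * (g * c * g⁻¹) = g * (r' * c) * g⁻¹ := by group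
        _ = g * (c * r') * g⁻¹ := by rw [h1]
        _ = _ := by group
    have hrr : r = k⁻¹ * (g * r' * g⁻¹) * k := by rw [← he]; group
    rw [hrr]
    have hk1 : k * y = y * k := hMc k hk y hyM
    have hk2 : k⁻¹ * y = y * k⁻¹ := hMc _ (inv_mem hk) y hyM
    calc k⁻¹ * (g * r' * g⁻¹) * k * y = k⁻¹ * (g * r' * g⁻¹) * (k * y) := by group
      _ = k⁻¹ * ((g * r' * g⁻¹) * y) * k := by rw [hk1]; group
      _ = (k⁻¹ * y) * (g * r' * g⁻¹) * k := by rw [h2]; group
      _ = _ := by rw [hk2]; group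
  intro m hm hmC
  have hmC₀ : m ∈ C₀ := by
    refine ⟨hm, Subgroup.mem_centralizer_iff.mpr ?_⟩
    intro r hr
    have := hmC r hr
    rw [mul_inv_eq_iff_eq_mul] at this
    exact this
  rcases hMmin C₀ hC₀n inf_le_left with h | h
  · rw [h, Subgroup.mem_bot] at hmC₀
    exact hmC₀
  · -- `R` centralizes `M`
    exfalso
    apply hne
    rw [eq_bot_iff]
    intro r hr
    have hrM : r ∈ M := by
      apply hCK r (hRK hr)
      intro z hz
      have h1 : z ∈ C₀ := by rw [h]; exact hz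
      exact (Subgroup.mem_centralizer_iff.mp h1.2 r hr)
    exact hinf r hrM hr

end Steps

section Main

/-- The `p`-part of the order. -/
noncomputable abbrev pPart (p : ℕ) (G : Type u) [Group G] : ℕ := p ^ (Nat.card G).factorization p

variable {G : Type u} [Group G] [Finite G] {p : ℕ} [hp : Fact p.Prime]

theorem card_sylow_eq_pPart (P : Sylow p G) : Nat.card (P : Subgroup G) = pPart p G :=
  P.card_eq_multiplicity

theorem pPart_quot_coprime (N : Subgroup G) [hN : N.Normal] (h : Nat.Coprime (Nat.card N) p) :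
    pPart p (G ⧸ N) = pPart p G := by
  have h2 : Nat.card G = Nat.card (G ⧸ N) * Nat.card N :=
    Subgroup.card_eq_card_quotient_mul_card_subgroup N
  have hnd : ¬ p ∣ Nat.card N := by
    intro hd
    exact hp.out.one_lt.ne' (Nat.eq_one_of_dvd_coprimes h hd dvd_rfl)
  unfold pPart
  rw [h2, Nat.factorization_mul Nat.card_pos.ne' Nat.card_pos.ne', Finsupp.add_apply,
    Nat.factorization_eq_zero_of_not_dvd hnd, add_zero]

theorem pPart_quot_pgroup (M : Subgroup G) [hM : M.Normal] (h : IsPGroup p M) :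
    pPart p G = pPart p (G ⧸ M) * Nat.card M := by
  have h2 : Nat.card G = Nat.card (G ⧸ M) * Nat.card M :=
    Subgroup.card_eq_card_quotient_mul_card_subgroup M
  obtain ⟨k, hk⟩ := IsPGroup.iff_card.mp h
  unfold pPart
  rw [h2, hk, Nat.factorization_mul Nat.card_pos.ne' (pow_ne_zero _ hp.out.ne_zero), Finsupp.add_apply,
    Nat.Prime.factorization_pow hp.out, Finsupp.single_eq_same, pow_add]

theorem exists_bad_subgroup (h : ¬ HasNormalPComplement p G) :
    ∃ Q : Subgroup G, IsPGroup p Q ∧ Q ≠ ⊥ ∧ ¬ HasNormalPComplement p (Subgroup.normalizer (Q : Set G)) := by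
  obtain ⟨P₀⟩ : Nonempty (Sylow p G) := inferInstance
  by_contra hcon
  push Not at hcon
  apply h
  have hF : Cfsg.Agent.Lib.Transfer.FrobeniusHyp p (P₀ : Subgroup G) := by
    intro Q hQ g hg hgc
    by_cases hQ1 : Q = ⊥
    · subst hQ1
      refine Subgroup.mem_centralizer_iff.mpr ?_
      intro x hx
      have hx1 : x = 1 := hx
      simp [hx1]
    · have hbad := hcon Q (P₀.isPGroup'.to_le hQ) hQ1
      let L := Subgroup.normalizer (Q : Set G)
      have hQL : Q ≤ L := Subgroup.le_normalizer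
      haveI hn : (Q.subgroupOf L).Normal := (Subgroup.normal_subgroupOf_iff_le_normalizer hQL).mpr le_rfl
      have hQ'p : IsPGroup p (Q.subgroupOf L) := by
        rw [IsPGroup.iff_card, Cfsg.Agent.Lib.Coprime.card_subgroupOf_of_le hQL]
        exact IsPGroup.iff_card.mp (P₀.isPGroup'.to_le hQ)
      refine Subgroup.mem_centralizer_iff.mpr ?_
      intro x hx
      have h1 := Cfsg.Agent.Lib.Transfer.commute_of_normal_pgroup hbad hQ'p
        (g := ⟨g, hg⟩) (by rwa [Subgroup.orderOf_mk]) (x := ⟨x, hQL hx⟩) hx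
      exact (congrArg Subtype.val h1).symm
  obtain ⟨N, hN, hc⟩ := Cfsg.Agent.Lib.Transfer.frobenius P₀ hF
  exact ⟨P₀, N, hN, hc⟩

theorem lift_complement (N : Subgroup G) [hN : N.Normal] (hc : Nat.Coprime (Nat.card N) p)
    (h : HasNormalPComplement p (G ⧸ N)) : HasNormalPComplement p G := by
  obtain ⟨P, K, hK, hcK⟩ := h
  haveI := hK
  let π := QuotientGroup.mk' N
  haveI hcn : (K.comap π).Normal := hK.comap π
  refine Cfsg.Agent.Lib.Transfer.hasNormalPComplement_of_normal (K.comap π) ?_ ?_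
  · rw [Cfsg.Agent.Lib.Core.card_comap_of_surjective π (QuotientGroup.mk'_surjective N), QuotientGroup.ker_mk']
    exact Nat.Coprime.mul_left hc (Cfsg.Agent.Lib.Transfer.complement_card_coprime hcK)
  · intro q
    obtain ⟨g, rfl⟩ := QuotientGroup.mk_surjective q
    obtain ⟨k, hk⟩ := Cfsg.Agent.Lib.Transfer.complement_quotient_isPGroup hcK
      ((π g : G ⧸ N) : (G ⧸ N) ⧸ K)
    refine ⟨k, ?_⟩
    rw [← QuotientGroup.mk_pow, QuotientGroup.eq_one_iff] at hk ⊢
    rw [Subgroup.mem_comap, map_pow]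
    exact hk

theorem card_quot_lt (N : Subgroup G) [hN : N.Normal] (hN1 : N ≠ ⊥) : Nat.card (G ⧸ N) < Nat.card G := by
  have h2 : Nat.card G = Nat.card (G ⧸ N) * Nat.card N :=
    Subgroup.card_eq_card_quotient_mul_card_subgroup N
  have h3 : 1 < Nat.card N := by
    have h4 : Nat.card N ≠ 1 := fun h => hN1 (Subgroup.eq_bot_of_card_eq N h)
    have h5 : 0 < Nat.card N := Nat.card_pos
    omega
  rw [h2]
  exact lt_mul_of_one_lt_right Nat.card_pos h3

theorem comm_of_minimal_normal_pgroup (M : Subgroup G) [hM : M.Normal] (hMp : IsPGroup p M) (hM1 : M ≠ ⊥)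
    (hmin : ∀ N : Subgroup G, N.Normal → N ≤ M → N = ⊥ ∨ N = M) :
    ∀ x ∈ M, ∀ y ∈ M, x * y = y * x := by
  have hZn : ((Subgroup.center M).map M.subtype).Normal :=
    Cfsg.Agent.Lib.Core.normal_map_of_characteristic M (Subgroup.center M)
  haveI : Nontrivial M := (Subgroup.nontrivial_iff_ne_bot M).mpr hM1
  haveI := hMp.center_nontrivial
  have hZ1 : (Subgroup.center M).map M.subtype ≠ ⊥ := by
    intro h
    rw [Subgroup.map_eq_bot_iff_of_injective _ M.subtype_injective] at h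
    exact (Subgroup.nontrivial_iff_ne_bot _).mp inferInstance h
  have hZ : (Subgroup.center M).map M.subtype = M := by
    rcases hmin _ hZn (Subgroup.map_subtype_le _) with h | h
    · exact absurd h hZ1
    · exact h
  intro x hx y hy
  have hx' : x ∈ (Subgroup.center M).map M.subtype := by rw [hZ]; exact hx
  obtain ⟨x', hx'2, rfl⟩ := hx'
  have := Subgroup.mem_center_iff.mp hx'2 ⟨y, hy⟩
  exact (congrArg Subtype.val this).symm

/-- **Main counting theorem.**  If `G` has no normal `p`-complement then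
`2 k₂(G) ≤ |G|₂` for `p = 2` and `2 p k_p(G) ≤ (p + 1) |G|_p` for `p` odd. -/
theorem main_bound {p : ℕ} [hp : Fact p.Prime] : ∀ (n : ℕ) (G : Type u) [Group G] [Finite G], Nat.card G = n →
    ¬ HasNormalPComplement p G → abA p * kp p G ≤ abB p * pPart p G := by
  intro n
  induction n using Nat.strong_induction_on with
  | _ n ih =>
  intro G _ _ hn hG
  subst hn
  by_cases hOex : ∃ N : Subgroup G, N.Normal ∧ N ≠ ⊥ ∧ Nat.Coprime (Nat.card N) p
  · obtain ⟨N, hNn, hN1, hNc⟩ := hOex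
    haveI := hNn
    have hnot : ¬ HasNormalPComplement p (G ⧸ N) := fun h => hG (lift_complement N hNc h)
    have h1 := ih _ (card_quot_lt N hN1) (G ⧸ N) rfl hnot
    have h2 := kp_le_kp_quot (p := p) N hNc
    rw [pPart_quot_coprime N hNc] at h1
    exact (Nat.mul_le_mul_left _ h2).trans h1
  have hO : ∀ N : Subgroup G, N.Normal → Nat.Coprime (Nat.card N) p → N = ⊥ := by
    intro N hN hc
    by_contra h1
    exact hOex ⟨N, hN, h1, hc⟩
  obtain ⟨Q, hQp, hQ1, hQbad⟩ := exists_bad_subgroup hG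
  by_cases hL : Subgroup.normalizer (Q : Set G) = ⊤
  swap
  · -- `Q` is not normal: use the normalizer
    set L := Subgroup.normalizer (Q : Set G) with hLdef
    obtain ⟨S⟩ : Nonempty (Sylow p L) := inferInstance
    have hS' : IsPGroup p ((S : Subgroup L).map L.subtype) := S.2.map _
    obtain ⟨P, hP⟩ := hS'.exists_le_sylow
    have hlt : Nat.card L < Nat.card G := by
      have h1 := Cfsg.Agent.Lib.PGroup.card_lt_card_of_lt (lt_top_iff_ne_top.mpr hL)
      rwa [Subgroup.card_top] at h1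
    have h1 := ih _ hlt L rfl hQbad
    have h2 : pPart p L ≤ Nat.card ((P : Subgroup G) ⊓ L : Subgroup G) := by
      rw [← card_sylow_eq_pPart S]
      have h3 : Nat.card (S : Subgroup L) = Nat.card ((S : Subgroup L).map L.subtype) :=
        (Subgroup.card_map_of_injective L.subtype_injective).symm
      rw [h3]
      exact Subgroup.card_le_of_le (le_inf hP (Subgroup.map_subtype_le _))
    have hQL : Q ≤ L := Subgroup.le_normalizer
    haveI hQn' : (Q.subgroupOf L).Normal := (Subgroup.normal_subgroupOf_iff_le_normalizer hQL).mpr le_rfl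
    have hQ'p : IsPGroup p (Q.subgroupOf L) := by
      rw [IsPGroup.iff_card, Cfsg.Agent.Lib.Coprime.card_subgroupOf_of_le hQL]
      exact IsPGroup.iff_card.mp hQp
    have hQS : Q.subgroupOf L ≤ (S : Subgroup L) :=
      (Cfsg.Agent.Lib.Core.le_pCore hQn' hQ'p).trans (Cfsg.Agent.Lib.Core.pCore_le_sylow S)
    have hQP : Q ≤ (P : Subgroup G) := by
      intro x hx
      apply hP
      exact ⟨⟨x, hQL hx⟩, hQS hx, rfl⟩
    have hZ : ∀ z ∈ (P : Subgroup G), (∀ y ∈ (P : Subgroup G), y * z * y⁻¹ = z) → z ∈ L := by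
      intro z _ hz
      rw [hLdef, Subgroup.mem_normalizer_iff]
      intro y
      have hc : ∀ y ∈ (P : Subgroup G), y * z = z * y := by
        intro y hy
        have := hz y hy
        rwa [mul_inv_eq_iff_eq_mul] at this
      constructor
      · intro hy
        have e : z * y * z⁻¹ = y := by
          rw [← hc y (hQP hy)]; group
        rw [e]; exact hy
      · intro hy
        have hyQ : z * y * z⁻¹ ∈ Q := hy
        have hyP := hQP hyQ
        have h5 : z * y * z⁻¹ = y := by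
          have h6 := hc _ hyP
          have h8 : z * y = z * (z * y * z⁻¹) := by rw [← h6]; group
          exact (mul_left_cancel h8).symm
        rwa [h5] at hyQ
    have h3 := step_subgroup (abA_le p) P L hZ (h1.trans (Nat.mul_le_mul_left _ h2))
    rw [card_sylow_eq_pPart P] at h3
    exact (Nat.mul_le_mul_left _ (kp_le_tc P)).trans h3
  -- `Q` is normal
  haveI hQn : Q.Normal := Subgroup.normalizer_eq_top_iff.mp hL
  obtain ⟨M, hMn, hM1, hMQ, hMmin⟩ := Cfsg.Agent.Lib.Core.exists_minimal_normal_le hQn hQ1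
  haveI := hMn
  have hMp : IsPGroup p M := hQp.to_le hMQ
  have hMc := comm_of_minimal_normal_pgroup M hMp hM1 hMmin
  by_cases hquo : HasNormalPComplement p (G ⧸ M)
  swap
  · have h1 := ih _ (card_quot_lt M hM1) (G ⧸ M) rfl hquo
    have h2 := kp_le_kp_quot_mul (p := p) M
    rw [pPart_quot_pgroup M hMp]
    calc abA p * kp p G ≤ abA p * (kp p (G ⧸ M) * Nat.card M) := Nat.mul_le_mul_left _ h2
      _ = (abA p * kp p (G ⧸ M)) * Nat.card M := by ring
      _ ≤ (abB p * pPart p (G ⧸ M)) * Nat.card M := Nat.mul_le_mul_right _ h1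
      _ = _ := by ring
  -- main case
  obtain ⟨Pb, Nb, hNb, hc⟩ := hquo
  haveI := hNb
  let π := QuotientGroup.mk' M
  let K : Subgroup G := Nb.comap π
  haveI hKn : K.Normal := hNb.comap π
  have hMK : M ≤ K := by
    intro x hx
    have : π x = 1 := (QuotientGroup.eq_one_iff x).mpr hx
    change π x ∈ Nb
    rw [this]
    exact one_mem _
  have hcardK : Nat.card K = Nat.card M * Nat.card Nb := by
    have := Cfsg.Agent.Lib.Core.card_comap_of_surjective π (QuotientGroup.mk'_surjective M) Nb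
    rwa [QuotientGroup.ker_mk'] at this
  have hNbc : Nat.Coprime (Nat.card Nb) p := Cfsg.Agent.Lib.Transfer.complement_card_coprime hc
  let M' : Subgroup K := M.subgroupOf K
  haveI hM'n : M'.Normal := inferInstance
  have hcM' : Nat.card M' = Nat.card M := Cfsg.Agent.Lib.Coprime.card_subgroupOf_of_le hMK
  have hindex : M'.index = Nat.card Nb := by
    have h1 := M'.card_mul_index
    rw [hcM', hcardK] at h1
    exact Nat.eq_of_mul_eq_mul_left Nat.card_pos h1
  obtain ⟨j, hj⟩ := IsPGroup.iff_card.mp hMp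
  have hcop : Nat.Coprime (Nat.card M') M'.index := by
    rw [hcM', hindex, hj]
    exact Nat.Coprime.pow_left j hNbc.symm
  obtain ⟨R', hR'⟩ := Subgroup.exists_right_complement'_of_coprime hcop
  let R : Subgroup G := R'.map K.subtype
  have hcR : Nat.card R = Nat.card R' := Subgroup.card_map_of_injective K.subtype_injective
  have hcR2 : Nat.card R' = Nat.card Nb := by
    have h1 := hR'.card_mul
    rw [hcM', hcardK] at h1
    exact Nat.eq_of_mul_eq_mul_left Nat.card_pos h1
  have hRK : R ≤ K := Subgroup.map_subtype_le _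
  have hRc : Nat.Coprime (Nat.card R) p := by rw [hcR, hcR2]; exact hNbc
  have hcard : Nat.card M * Nat.card R = Nat.card K := by rw [hcR, hcR2, hcardK]
  have hdec : ∀ k ∈ K, ∃ m ∈ M, ∃ r ∈ R, k = m * r := by
    intro k hk
    have h1 : (⟨k, hk⟩ : K) ∈ M' ⊔ R' := by rw [hR'.sup_eq_top]; trivial
    obtain ⟨n, hn, r, hr, he⟩ := Subgroup.mem_sup_of_normal_left.mp h1
    refine ⟨n, hn, r, ⟨r, hr, rfl⟩, ?_⟩
    exact (congrArg Subtype.val he).symm
  have hne : R ≠ ⊥ := by
    intro hR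
    have h1 : Nat.card Nb = 1 := by
      rw [← hcR2, ← hcR, hR]
      exact Subgroup.card_bot
    have h2 := hc.card_mul
    rw [h1, one_mul, card_sylow_eq_pPart Pb] at h2
    have h3 : IsPGroup p G := by
      apply IsPGroup.of_card (n := (Nat.card (G ⧸ M)).factorization p + j)
      have h4 := Subgroup.card_eq_card_quotient_mul_card_subgroup M
      rw [h4, hj, pow_add, show p ^ (Nat.card (G ⧸ M)).factorization p = Nat.card (G ⧸ M) from h2]
    haveI := h3.isNilpotent
    exact hG (Cfsg.Agent.Lib.Transfer.hasNormalPComplement_of_isNilpotent inferInstance)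
  obtain ⟨hCK, hCR⟩ := key_structure hMmin hMc hMp hO hMK hRK hRc hcard hdec hne
  obtain ⟨P⟩ : Nonempty (Sylow p G) := inferInstance
  have hMP : M ≤ (P : Subgroup G) :=
    (Cfsg.Agent.Lib.Core.le_pCore hMn hMp).trans (Cfsg.Agent.Lib.Core.pCore_le_sylow P)
  have h3 := step_complement P hMP hM1 hMc hRK hCK hCR hRc
  rw [card_sylow_eq_pPart P] at h3
  exact (Nat.mul_le_mul_left _ (kp_le_tc P)).trans h3

end Main

section Consequences

variable {G : Type u} [Group G] [Finite G] {p : ℕ} [hp : Fact p.Prime]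

theorem kp_le_card_conjClasses (P : Sylow p G) : kp p G ≤ Nat.card (ConjClasses (P : Subgroup G)) := by
  refine (kp_le_tc P).trans ?_
  unfold tc
  have h1 : ConjClasses.mk '' ((P : Subgroup G) : Set G) ⊆
      Set.range (ConjClasses.map (P : Subgroup G).subtype) := by
    rintro _ ⟨x, hx, rfl⟩
    exact ⟨ConjClasses.mk (⟨x, hx⟩ : (P : Subgroup G)), rfl⟩
  refine (Set.ncard_le_ncard h1 (Set.toFinite _)).trans ?_
  rw [← Set.image_univ]
  refine (Set.ncard_image_le (Set.toFinite _)).trans ?_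
  rw [Set.ncard_univ]

theorem card_conjClasses_le_kp (P : Sylow p G) (h : HasNormalPComplement p G) :
    Nat.card (ConjClasses (P : Subgroup G)) ≤ kp p G := by
  obtain ⟨P₁, N, hN, hc₁⟩ := h
  haveI := hN
  have hcop := Cfsg.Agent.Lib.Transfer.complement_card_coprime hc₁
  have hcard : Nat.card (P : Subgroup G) = Nat.card (P₁ : Subgroup G) := by
    rw [card_sylow_eq_pPart, card_sylow_eq_pPart]
  have hc : N.IsComplement' (P : Subgroup G) := by
    apply Subgroup.isComplement'_of_coprime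
    · rw [hcard]; exact hc₁.card_mul
    · rw [card_sylow_eq_pPart]
      exact Nat.Coprime.pow_right _ hcop
  have hel : ∀ x : (P : Subgroup G), Pel p (x : G) := fun x => pel_of_mem P.isPGroup' x.2
  have hmem : ∀ c : ConjClasses (P : Subgroup G), ∀ x ∈ (ConjClasses.map (P : Subgroup G).subtype c).carrier,
      ∃ k : ℕ, orderOf x = p ^ k := by
    intro c
    obtain ⟨x, rfl⟩ := ConjClasses.mk_surjective c
    exact mem_PC_mk (hel x)
  refine Nat.card_le_card_of_injective
    (fun c => (⟨ConjClasses.map (P : Subgroup G).subtype c, hmem c⟩ : PC p G)) ?_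
  intro c d he
  obtain ⟨x, rfl⟩ := ConjClasses.mk_surjective c
  obtain ⟨y, rfl⟩ := ConjClasses.mk_surjective d
  have h1 : ConjClasses.mk (x : G) = ConjClasses.mk (y : G) :=
    congrArg (fun w : PC p G => w.1) he
  rw [ConjClasses.mk_eq_mk_iff_isConj] at h1
  obtain ⟨g, hg⟩ := isConj_iff.mp h1
  have hgs : g ∈ N ⊔ (P : Subgroup G) := by rw [hc.sup_eq_top]; trivial
  obtain ⟨n, hn, s, hs, rfl⟩ := Subgroup.mem_sup_of_normal_left.mp hgs
  set z := s * (x : G) * s⁻¹ with hz
  have hzP : z ∈ (P : Subgroup G) := mul_mem (mul_mem hs x.2) (inv_mem hs)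
  have hy : (y : G) = n * z * n⁻¹ := by rw [← hg, hz]; group
  have h2 : (y : G) * z⁻¹ ∈ N ⊓ (P : Subgroup G) := by
    refine Subgroup.mem_inf.mpr ⟨?_, ?_⟩
    · have e : (y : G) * z⁻¹ = n * (z * n⁻¹ * z⁻¹) := by rw [hy]; group
      rw [e]
      exact mul_mem hn (hN.conj_mem _ (inv_mem hn) z)
    · exact mul_mem y.2 (inv_mem hzP)
  rw [disjoint_iff.mp hc.disjoint, Subgroup.mem_bot] at h2
  have h3 : (y : G) = z := mul_inv_eq_one.mp h2
  rw [ConjClasses.mk_eq_mk_iff_isConj]
  refine isConj_iff.mpr ⟨⟨s, hs⟩, ?_⟩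
  apply Subtype.ext
  exact (h3.symm.trans rfl).symm ▸ rfl

/-- Commuting-probability bound for non-abelian `p`-groups. -/
theorem nonabelian_bound {Q : Type u} [Group Q] [Finite Q] (hQ : IsPGroup p Q)
    (hn : ∃ x y : Q, x * y ≠ y * x) :
    2 * p * Nat.card (ConjClasses Q) ≤ (p + 1) * Nat.card Q := by
  classical
  set Z : Subgroup Q := Subgroup.center Q with hZ
  have hindex : p ^ 2 ∣ Z.index := by
    obtain ⟨k, hk⟩ := IsPGroup.iff_card.mp (hQ.to_quotient Z)
    have h1 : Z.index = Nat.card (Q ⧸ Z) := rfl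
    rw [h1, hk]
    have hnc : ¬ IsCyclic (Q ⧸ Z) := by
      intro hcyc
      obtain ⟨x, y, hxy⟩ := hn
      letI := commGroupOfCyclicCenterQuotient (G := Q) (G' := Q ⧸ Z) (QuotientGroup.mk' Z) (by simp [hZ])
      exact hxy (mul_comm x y)
    have hk2 : 2 ≤ k := by
      by_contra hlt
      apply hnc
      have hk' : k = 0 ∨ k = 1 := by omega
      rcases hk' with rfl | rfl
      · have : Nat.card (Q ⧸ Z) = 1 := by simpa using hk
        haveI : Subsingleton (Q ⧸ Z) := (Nat.card_eq_one_iff_unique.mp this).1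
        exact isCyclic_of_subsingleton
      · have : Nat.card (Q ⧸ Z) = p := by simpa using hk
        exact isCyclic_of_prime_card this
    exact pow_dvd_pow p hk2
  have hle : p ^ 2 * Nat.card Z ≤ Nat.card Q := by
    have h1 := Z.card_mul_index
    rw [← h1, mul_comm (p ^ 2)]
    exact Nat.mul_le_mul_left _ (Nat.le_of_dvd (Nat.pos_of_ne_zero Subgroup.index_ne_zero_of_finite) hindex)
  -- count
  set A : Set Q := (Z : Set Q)ᶜ with hA
  have hcC : Nat.card (ConjClasses Q) = tc (Set.univ : Set Q) := by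
    unfold tc
    rw [Set.image_univ, ConjClasses.mk_surjective.range_eq, Set.ncard_univ]
  have h1 : tc (Set.univ : Set Q) ≤ tc (Z : Set Q) + tc A := by
    rw [← Set.union_compl_self (Z : Set Q)]
    exact tc_union_le _ _
  have h2 : tc (Z : Set Q) ≤ Nat.card Z := by
    refine (tc_le_ncard _).trans (le_of_eq ?_)
    rw [← Nat.card_coe_set_eq]; rfl
  have h3 : p * tc A ≤ A.ncard := by
    apply mul_tc_le (⊤ : Subgroup Q) A p
    · intro a ha h _ hc
      apply ha
      have hc2 : h * a * h⁻¹ ∈ Subgroup.center Q := hc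
      have : a = h⁻¹ * (h * a * h⁻¹) * h := by group
      rw [this]
      have h5 := Subgroup.Normal.conj_mem (inferInstance : (Subgroup.center Q).Normal) _ hc2 h⁻¹
      simpa using h5
    · intro a ha
      have : ¬ ∀ h : Q, h * a * h⁻¹ = a := by
        intro hall
        apply ha
        refine Subgroup.mem_center_iff.mpr fun g => ?_
        have := hall g
        rwa [mul_inv_eq_iff_eq_mul] at this
      push Not at this
      obtain ⟨h, hne⟩ := this
      have hT : IsPGroup p (⊤ : Subgroup Q) := hQ.to_subgroup ⊤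
      exact le_conjOrb_of_isPGroup hT (Subgroup.mem_top h) hne
  have h4 : A.ncard + Nat.card Z = Nat.card Q := by
    have h5 : (Z : Set Q).ncard = Nat.card Z := by
      rw [← Nat.card_coe_set_eq]; rfl
    rw [← h5, add_comm]
    exact Set.ncard_add_ncard_compl _
  rw [hcC]
  have hp2 : 2 ≤ p := hp.out.two_le
  set k := tc (Set.univ : Set Q)
  set z := Nat.card Z
  set n := Nat.card Q
  set t := tc A
  set u := tc (Z : Set Q)
  set a := A.ncard
  have h6 : 2 * p * k ≤ 2 * p * (z + t) := Nat.mul_le_mul_left _ (h1.trans (add_le_add_left h2 _))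
  have h7 : 2 * (p * t) ≤ 2 * a := Nat.mul_le_mul_left _ h3
  have hzA : z ≤ a := by
    have h8 : 4 * z ≤ n := by
      refine le_trans (Nat.mul_le_mul_right _ ?_) hle
      nlinarith
    omega
  have h9 : p * z + a ≤ p * a + z := by
    obtain ⟨q, hq⟩ := Nat.exists_eq_add_of_le (show 1 ≤ p by omega)
    rw [hq]
    nlinarith [Nat.mul_le_mul_left q hzA]
  rw [← h4]
  nlinarith

end Consequences

end Cfsg.Agent.Lib.PGroup.KClasses
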