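import Mathlib
import Cfsg.Agent.Lib.PGroup.KClasses
import Cfsg.Prelude.Def_OddOrderLocal

/-!
# Counting classes of `π`-elements

`k_π(G) ≤ k_r(G) ∏_{s ∈ π, s ≠ r} |G|_s`.
-/

set_option autoImplicit false

namespace Cfsg.Agent.Lib.PGroup.KClasses

open Cfsg

universe u

section

variable {G : Type u} [Group G]

/-- The classes of `σ`-elements. -/
abbrev CS (σ : Finset ℕ) (G : Type u) [Group G] : Type u :=
  {c : ConjClasses G // ∀ x ∈ c.carrier, ∀ r : ℕ, r.Prime → r ∣ orderOf x → r ∈ σ}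

/-- The number of classes of `σ`-elements. -/
noncomputable abbrev kS (σ : Finset ℕ) (G : Type u) [Group G] : ℕ := Nat.card (CS σ G)

/-- The `r`-part and `r'`-part of an element. -/
theorem exists_part (x : G) [Finite G] {r : ℕ} (hr : r.Prime) :
    ∃ y z : G, x = y * z ∧ y * z = z * y ∧ (∃ k : ℕ, orderOf y = r ^ k) ∧ Nat.Coprime (orderOf z) r ∧
      orderOf z ∣ orderOf x := by
  set n := orderOf x with hn
  have hn0 : n ≠ 0 := (orderOf_pos x).ne'
  set a := n.factorization r with ha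
  set m := n / r ^ a with hm
  have hnm : r ^ a * m = n := Nat.ordProj_mul_ordCompl_eq_self n r
  have hcop : Nat.Coprime (r ^ a) m := Nat.Coprime.pow_left a (Nat.coprime_ordCompl hr hn0)
  obtain ⟨u, v, huv⟩ : IsCoprime ((r ^ a : ℕ) : ℤ) (m : ℤ) := Nat.isCoprime_iff_coprime.mpr hcop
  have hxn : x ^ n = 1 := pow_orderOf_eq_one x
  have e : x = x ^ (v * (m : ℤ)) * x ^ (u * ((r ^ a : ℕ) : ℤ)) := by
    rw [← zpow_add, add_comm]
    have : u * ((r ^ a : ℕ) : ℤ) + v * (m : ℤ) = 1 := huv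
    rw [this, zpow_one]
  refine ⟨x ^ (v * (m : ℤ)), x ^ (u * ((r ^ a : ℕ) : ℤ)), e, ?_, ?_, ?_, ?_⟩
  · exact (Commute.refl x).zpow_zpow _ _
  · have h1 : (x ^ (v * (m : ℤ))) ^ (r ^ a) = 1 := by
      rw [← zpow_natCast, ← zpow_mul]
      have : v * (m : ℤ) * ((r ^ a : ℕ) : ℤ) = v * (n : ℤ) := by
        rw [← hnm]; push_cast; ring
      rw [this, mul_comm, zpow_mul, zpow_natCast, hxn, one_zpow]
    obtain ⟨j, -, hj⟩ := (Nat.dvd_prime_pow hr).mp (orderOf_dvd_of_pow_eq_one h1)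
    exact ⟨j, hj⟩
  · have h1 : (x ^ (u * ((r ^ a : ℕ) : ℤ))) ^ m = 1 := by
      rw [← zpow_natCast, ← zpow_mul]
      have : u * ((r ^ a : ℕ) : ℤ) * (m : ℤ) = u * (n : ℤ) := by
        rw [← hnm]; push_cast; ring
      rw [this, mul_comm, zpow_mul, zpow_natCast, hxn, one_zpow]
    exact Nat.Coprime.coprime_dvd_left (orderOf_dvd_of_pow_eq_one h1) (Nat.coprime_ordCompl hr hn0).symm
  · have h1 : (x ^ (u * ((r ^ a : ℕ) : ℤ))) ^ n = 1 := by
      rw [← zpow_natCast, ← zpow_mul, mul_comm, zpow_mul, zpow_natCast, hxn, one_zpow]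
    exact orderOf_dvd_of_pow_eq_one h1

theorem mem_CS_mk {σ : Finset ℕ} {x : G} (hx : ∀ r : ℕ, r.Prime → r ∣ orderOf x → r ∈ σ) :
    ∀ y ∈ (ConjClasses.mk x).carrier, ∀ r : ℕ, r.Prime → r ∣ orderOf y → r ∈ σ := by
  intro y hy r hr hd
  have h1 : ConjClasses.mk y = ConjClasses.mk x := ConjClasses.mem_carrier_iff_mk_eq.mp hy
  rw [ConjClasses.mk_eq_mk_iff_isConj] at h1
  obtain ⟨g, hg⟩ := isConj_iff.mp h1
  have h2 : orderOf (g * y * g⁻¹) = orderOf y := by
    simpa using MulEquiv.orderOf_eq (MulAut.conj g) y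
  rw [hg] at h2
  rw [← h2] at hd
  exact hx r hr hd

/-- Centralizer of an element, as a subgroup. -/
abbrev CC (y : G) : Subgroup G := Subgroup.centralizer ({y} : Set G)

theorem mem_CC {y z : G} : z ∈ CC y ↔ z * y = y * z := by
  rw [Subgroup.mem_centralizer_singleton_iff]

/-- The recursion: a `τ`-class with `τ = {r} ∪ σ` is determined by the class of its `r`-part and a
class of `σ`-elements in the centralizer. -/
theorem kS_insert_le [Finite G] {r : ℕ} [hr : Fact r.Prime] {σ : Finset ℕ} (hrσ : r ∉ σ) (B : ℕ)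
    (hB : ∀ y : G, kS σ (CC y) ≤ B) : kS (insert r σ) G ≤ kp r G * B := by
  classical
  haveI : Fintype (PC r G) := Fintype.ofFinite _
  have hrep : ∀ d : PC r G, ∃ y : G, ConjClasses.mk y = d.1 := fun d => ConjClasses.mk_surjective d.1
  choose Y hY using hrep
  let Sg := Σ d : PC r G, CS σ (CC (Y d))
  have hcardSg : Nat.card Sg ≤ kp r G * B := by
    rw [Nat.card_sigma]
    calc ∑ d : PC r G, Nat.card (CS σ (CC (Y d))) ≤ ∑ _d : PC r G, B :=
          Finset.sum_le_sum (fun d _ => hB (Y d))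
      _ = kp r G * B := by
          rw [Finset.sum_const, Finset.card_univ, smul_eq_mul]
          show _ = Nat.card (PC r G) * B
          rw [Nat.card_eq_fintype_card]
  let build : Sg → ConjClasses G := fun s => ConjClasses.mk (Y s.1 * ((Quotient.out s.2.1 : CC (Y s.1)) : G))
  have hsurj : ∀ c : CS (insert r σ) G, ∃ s : Sg, build s = c.1 := by
    intro c
    obtain ⟨x, hx⟩ := ConjClasses.mk_surjective c.1
    have hxm : x ∈ c.1.carrier := by rw [← hx]; exact ConjClasses.mem_carrier_mk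
    have hxπ := c.2 x hxm
    obtain ⟨y, z, e, hcomm, hy, hzc, hzd⟩ := exists_part x hr.out
    have hyP : Pel r y := hy
    let d : PC r G := ⟨ConjClasses.mk y, mem_PC_mk hyP⟩
    have h1 : ConjClasses.mk (Y d) = ConjClasses.mk y := hY d
    rw [ConjClasses.mk_eq_mk_iff_isConj] at h1
    obtain ⟨g, hg⟩ := isConj_iff.mp h1.symm
    -- `g * y * g⁻¹ = Y d`
    set z' := g * z * g⁻¹ with hz'
    have hz'C : z' ∈ CC (Y d) := by
      rw [mem_CC, ← hg, hz']
      calc g * z * g⁻¹ * (g * y * g⁻¹) = g * (z * y) * g⁻¹ := by group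
        _ = g * (y * z) * g⁻¹ := by rw [hcomm]
        _ = _ := by group
    have hz'o : orderOf z' = orderOf z := by
      simpa [hz'] using MulEquiv.orderOf_eq (MulAut.conj g) z
    have hz'σ : ∀ q : ℕ, q.Prime → q ∣ orderOf (⟨z', hz'C⟩ : CC (Y d)) → q ∈ σ := by
      intro q hq hd
      rw [Subgroup.orderOf_mk, hz'o] at hd
      have hq2 := hxπ q hq (hd.trans hzd)
      rcases Finset.mem_insert.mp hq2 with h | h
      · subst h
        exfalso
        have := Nat.eq_one_of_dvd_coprimes hzc hd dvd_rfl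
        exact hq.one_lt.ne' this
      · exact h
    let e' : CS σ (CC (Y d)) := ⟨ConjClasses.mk (⟨z', hz'C⟩ : CC (Y d)), mem_CS_mk hz'σ⟩
    refine ⟨⟨d, e'⟩, ?_⟩
    show ConjClasses.mk (Y d * ((Quotient.out e'.1 : CC (Y d)) : G)) = c.1
    have h2 : ConjClasses.mk (Quotient.out e'.1 : CC (Y d)) = ConjClasses.mk (⟨z', hz'C⟩ : CC (Y d)) :=
      Quotient.out_eq _
    rw [ConjClasses.mk_eq_mk_iff_isConj] at h2
    obtain ⟨h, hh⟩ := isConj_iff.mp h2
    rw [← hx, ConjClasses.mk_eq_mk_iff_isConj]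
    have h3 : (h : G) * (Quotient.out e'.1 : CC (Y d)) * (h : G)⁻¹ = z' := congrArg Subtype.val hh
    have h4 : (h : G) * Y d = Y d * h := mem_CC.mp h.2
    set w := ((Quotient.out e'.1 : CC (Y d)) : G) with hw
    have h5 : Y d * z' = g * x * g⁻¹ := by
      rw [← hg, hz', e]; group
    have h6 : (h : G) * (Y d * w) * (h : G)⁻¹ = Y d * z' := by
      rw [← h3]
      calc (h : G) * (Y d * w) * (h : G)⁻¹ = ((h : G) * Y d) * w * (h : G)⁻¹ := by group
        _ = (Y d * h) * w * (h : G)⁻¹ := by rw [h4]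
        _ = _ := by group
    rw [h5] at h6
    have h7 : IsConj (Y d * w) (g * x * g⁻¹) := isConj_iff.mpr ⟨h, h6⟩
    exact h7.trans (isConj_iff.mpr ⟨g, rfl⟩).symm
  choose f hf using hsurj
  have hinj : Function.Injective f := by
    intro c d h
    apply Subtype.ext
    rw [← hf c, ← hf d, h]
  exact (Nat.card_le_card_of_injective f hinj).trans hcardSg

theorem kS_empty_le (H : Type u) [Group H] : kS ∅ H ≤ 1 := by
  haveI : Subsingleton (CS ∅ H) := by
    constructor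
    have key : ∀ c : CS ∅ H, c.1 = ConjClasses.mk 1 := by
      intro c
      obtain ⟨x, hx⟩ := ConjClasses.mk_surjective c.1
      have hxm : x ∈ c.1.carrier := by rw [← hx]; exact ConjClasses.mem_carrier_mk
      have h1 : orderOf x = 1 := by
        by_contra hne
        obtain ⟨q, hq, hd⟩ := Nat.exists_prime_and_dvd hne
        have := c.2 x hxm q hq hd
        simp at this
      rw [← hx, orderOf_eq_one_iff.mp h1]
    intro a b
    exact Subtype.ext ((key a).trans (key b).symm)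
  exact Finite.card_le_one_iff_subsingleton.mpr inferInstance

variable {p : ℕ}

theorem kp_le_pPart [Finite G] [hp : Fact p.Prime] : kp p G ≤ pPart p G := by
  obtain ⟨P⟩ : Nonempty (Sylow p G) := inferInstance
  refine (kp_le_tc P).trans ((tc_le_ncard _).trans (le_of_eq ?_))
  rw [← card_sylow_eq_pPart P, ← Nat.card_coe_set_eq]
  rfl

theorem pPart_subgroup_le [Finite G] (hp : p.Prime) (H : Subgroup G) : pPart p H ≤ pPart p G := by
  apply Nat.pow_le_pow_right hp.pos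
  have h1 : Nat.card H ∣ Nat.card G := Subgroup.card_subgroup_dvd_card H
  exact (Nat.factorization_le_iff_dvd Nat.card_pos.ne' Nat.card_pos.ne').mpr h1 p

/-- `k_σ(G) ≤ ∏_{s ∈ σ} |G|_s`. -/
theorem kS_le_prod (σ : Finset ℕ) : (∀ s ∈ σ, s.Prime) → ∀ (H : Type u) [Group H] [Finite H],
    kS σ H ≤ ∏ s ∈ σ, pPart s H := by
  induction σ using Finset.induction_on with
  | empty =>
    intro _ H _ _
    simpa using kS_empty_le H
  | insert r σ hr ih =>
    intro hσ H _ _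
    haveI : Fact r.Prime := ⟨hσ r (Finset.mem_insert_self r σ)⟩
    have hσ' : ∀ s ∈ σ, s.Prime := fun s hs => hσ s (Finset.mem_insert_of_mem hs)
    rw [Finset.prod_insert hr]
    have h1 := kS_insert_le (G := H) hr (∏ s ∈ σ, pPart s H) (fun y => by
      refine (ih hσ' (CC y)).trans ?_
      exact Finset.prod_le_prod' (fun s hs => pPart_subgroup_le (hσ' s hs) (CC y)))
    exact h1.trans (Nat.mul_le_mul_right _ kp_le_pPart)

/-- `k_π(G) ≤ k_r(G) ∏_{s ∈ π, s ≠ r} |G|_s`. -/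
theorem kS_le_kp_mul [Finite G] (π : Finset ℕ) (hπ : ∀ s ∈ π, s.Prime) {r : ℕ} (hr : r ∈ π) :
    kS π G ≤ kp r G * ∏ s ∈ π.erase r, pPart s G := by
  haveI : Fact r.Prime := ⟨hπ r hr⟩
  have hσ' : ∀ s ∈ π.erase r, s.Prime := fun s hs => hπ s (Finset.mem_of_mem_erase hs)
  have h1 := kS_insert_le (G := G) (σ := π.erase r) (r := r) (Finset.notMem_erase r π)
    (∏ s ∈ π.erase r, pPart s G) (fun y => by
      refine (kS_le_prod _ hσ' (CC y)).trans ?_
      exact Finset.prod_le_prod' (fun s hs => pPart_subgroup_le (hσ' s hs) (CC y)))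
  rwa [Finset.insert_erase hr] at h1

/-- If `k_π(G)` is large then so is `k_r(G)`. -/
theorem lt_of_prod_lt [Finite G] (π : Finset ℕ) (hπ : ∀ s ∈ π, s.Prime) {r : ℕ} (hr : r ∈ π) {a b : ℕ}
    (h : a * ∏ s ∈ π, pPart s G < b * kS π G) : a * pPart r G < b * kp r G := by
  have h1 := kS_le_kp_mul (G := G) π hπ hr
  rw [← Finset.mul_prod_erase π _ hr] at h
  set B := ∏ s ∈ π.erase r, pPart s G with hB
  have hBpos : 0 < B := Finset.prod_pos (fun s hs => pow_pos (hπ s (Finset.mem_of_mem_erase hs)).pos _)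
  have h2 : a * (pPart r G * B) < b * (kp r G * B) := lt_of_lt_of_le h (Nat.mul_le_mul_left _ h1)
  have h3 : (a * pPart r G) * B < (b * kp r G) * B := by
    calc (a * pPart r G) * B = a * (pPart r G * B) := by ring
      _ < b * (kp r G * B) := h2
      _ = _ := by ring
  exact Nat.lt_of_mul_lt_mul_right h3

end

section Hall

variable {G : Type u} [Group G] [Finite G]

/-- Intersection of normal complements. -/
noncomputable def infN (σ : Finset ℕ) (Nr : ℕ → Subgroup G) : Subgroup G := ⨅ s ∈ σ, Nr s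

theorem mem_infN {σ : Finset ℕ} {Nr : ℕ → Subgroup G} {x : G} : x ∈ infN σ Nr ↔ ∀ s ∈ σ, x ∈ Nr s := by
  simp [infN, Subgroup.mem_iInf]

theorem infN_normal {σ : Finset ℕ} {Nr : ℕ → Subgroup G} (hn : ∀ s ∈ σ, (Nr s).Normal) : (infN σ Nr).Normal := by
  constructor
  intro x hx g
  rw [mem_infN] at hx ⊢
  intro s hs
  exact (hn s hs).conj_mem x (hx s hs) g

theorem infN_not_dvd {σ : Finset ℕ} {Nr : ℕ → Subgroup G}
    (hc : ∀ s ∈ σ, Nat.Coprime (Nat.card (Nr s)) s) (hσ : ∀ s ∈ σ, s.Prime) :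
    ∀ r : ℕ, r.Prime → r ∣ Nat.card (infN σ Nr) → r ∉ σ := by
  intro r hr hd hrσ
  have hle : infN σ Nr ≤ Nr r := fun x hx => mem_infN.mp hx r hrσ
  have h1 := hd.trans (Subgroup.card_dvd_of_le hle)
  exact hr.one_lt.ne' (Nat.eq_one_of_dvd_coprimes (hc r hrσ) h1 dvd_rfl)

theorem infN_index {σ : Finset ℕ} {Nr : ℕ → Subgroup G} (hn : ∀ s ∈ σ, (Nr s).Normal)
    (hq : ∀ s ∈ σ, ∀ x : G, ∃ k : ℕ, x ^ s ^ k ∈ Nr s) (hσ : ∀ s ∈ σ, s.Prime) :
    ∀ r : ℕ, r.Prime → r ∣ (infN σ Nr).index → r ∈ σ := by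
  intro r hr hd
  by_contra hrσ
  haveI := infN_normal hn
  haveI : Fact r.Prime := ⟨hr⟩
  have hd' : r ∣ Nat.card (G ⧸ infN σ Nr) := hd
  obtain ⟨y, hy⟩ := exists_prime_orderOf_dvd_card' r hd'
  obtain ⟨x, rfl⟩ := QuotientGroup.mk_surjective y
  have h1 : x ^ r ∈ infN σ Nr := by
    have : ((x : G ⧸ infN σ Nr)) ^ r = 1 := by rw [← hy]; exact pow_orderOf_eq_one _
    rw [← QuotientGroup.mk_pow, QuotientGroup.eq_one_iff] at this
    exact this
  have h2 : x ∈ infN σ Nr := by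
    rw [mem_infN]
    intro s hs
    obtain ⟨k, hk⟩ := hq s hs x
    have h3 : x ^ r ∈ Nr s := mem_infN.mp h1 s hs
    have hcop : Nat.Coprime r (s ^ k) := by
      apply Nat.Coprime.pow_right
      rw [Nat.coprime_primes hr (hσ s hs)]
      rintro rfl
      exact hrσ hs
    obtain ⟨u, v, huv⟩ : IsCoprime (r : ℤ) ((s ^ k : ℕ) : ℤ) := Nat.isCoprime_iff_coprime.mpr hcop
    have e : x = (x ^ r) ^ u * (x ^ (s ^ k)) ^ v := by
      have h6 : u * (r : ℤ) + v * ((s ^ k : ℕ) : ℤ) = 1 := huv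
      calc x = x ^ (u * (r : ℤ) + v * ((s ^ k : ℕ) : ℤ)) := by rw [h6, zpow_one]
        _ = _ := by
          rw [zpow_add, mul_comm u, mul_comm v, zpow_mul, zpow_mul, zpow_natCast, zpow_natCast]
    rw [e]
    exact mul_mem (zpow_mem h3 u) (zpow_mem hk v)
  have h5 : (x : G ⧸ infN σ Nr) = 1 := (QuotientGroup.eq_one_iff x).mpr h2
  rw [h5, orderOf_one] at hy
  exact hr.one_lt.ne hy

/-- The Hall subgroup attached to a family of normal complements. -/
theorem exists_hall {σ : Finset ℕ} {Nr : ℕ → Subgroup G} (hn : ∀ s ∈ σ, (Nr s).Normal)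
    (hc : ∀ s ∈ σ, Nat.Coprime (Nat.card (Nr s)) s)
    (hq : ∀ s ∈ σ, ∀ x : G, ∃ k : ℕ, x ^ s ^ k ∈ Nr s) (hσ : ∀ s ∈ σ, s.Prime) :
    ∃ H : Subgroup G, Cfsg.IsPiHall (σ : Set ℕ) H ∧
      ((∀ s ∈ σ, ∀ x y : G, x * y * x⁻¹ * y⁻¹ ∈ Nr s) → IsMulCommutative H) := by
  haveI := infN_normal hn
  have h1 := infN_not_dvd hc hσ
  have h2 := infN_index hn hq hσ
  have hcop : Nat.Coprime (Nat.card (infN σ Nr)) (infN σ Nr).index := by
    apply Nat.Coprime.symm
    apply Nat.coprime_of_dvd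
    intro r hr hd1 hd2
    exact h1 r hr hd2 (h2 r hr hd1)
  obtain ⟨H, hH⟩ := Subgroup.exists_right_complement'_of_coprime hcop
  refine ⟨H, ⟨?_, ?_⟩, ?_⟩
  · intro r hr hd
    have : (infN σ Nr).index = Nat.card H := hH.symm.index_eq_card
    rw [← this] at hd
    exact h2 r hr hd
  · intro r hr hrσ hd
    have : H.index = Nat.card (infN σ Nr) := hH.index_eq_card
    rw [this] at hd
    exact h1 r hr hd hrσ
  · intro hcomm
    refine ⟨⟨fun a b => ?_⟩⟩
    have h3 : (a : G) * b * (a : G)⁻¹ * (b : G)⁻¹ ∈ infN σ Nr :=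
      mem_infN.mpr (fun s hs => hcomm s hs a b)
    have h4 : (a : G) * b * (a : G)⁻¹ * (b : G)⁻¹ ∈ H :=
      mul_mem (mul_mem (mul_mem a.2 b.2) (inv_mem a.2)) (inv_mem b.2)
    have h5 := Subgroup.disjoint_def.mp hH.disjoint h3 h4
    apply Subtype.ext
    show (a : G) * b = b * a
    have h6 : (a : G) * b * (a : G)⁻¹ = b := mul_inv_eq_one.mp h5
    rw [mul_inv_eq_iff_eq_mul] at h6
    exact h6

theorem comm_mem_of_complement {s : ℕ} [hs : Fact s.Prime] {N : Subgroup G} [hN : N.Normal] {P : Sylow s G}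
    (hc : N.IsComplement' (P : Subgroup G)) (hab : IsMulCommutative (P : Subgroup G)) (x y : G) :
    x * y * x⁻¹ * y⁻¹ ∈ N := by
  have hx : x ∈ N ⊔ (P : Subgroup G) := by rw [hc.sup_eq_top]; trivial
  have hy : y ∈ N ⊔ (P : Subgroup G) := by rw [hc.sup_eq_top]; trivial
  obtain ⟨n₁, hn₁, p₁, hp₁, rfl⟩ := Subgroup.mem_sup_of_normal_left.mp hx
  obtain ⟨n₂, hn₂, p₂, hp₂, rfl⟩ := Subgroup.mem_sup_of_normal_left.mp hy
  have hcomm : p₁ * p₂ = p₂ * p₁ := by
    have := hab.is_comm.comm ⟨p₁, hp₁⟩ ⟨p₂, hp₂⟩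
    exact congrArg Subtype.val this
  rw [← QuotientGroup.eq_one_iff]
  have h1 : (QuotientGroup.mk n₁ : G ⧸ N) = 1 := (QuotientGroup.eq_one_iff n₁).mpr hn₁
  have h2 : (QuotientGroup.mk n₂ : G ⧸ N) = 1 := (QuotientGroup.eq_one_iff n₂).mpr hn₂
  simp only [QuotientGroup.mk_mul, QuotientGroup.mk_inv, mul_inv_rev, h1, h2, one_mul, inv_one, mul_one]
  have h3 : (p₁ : G ⧸ N) * (p₂ : G ⧸ N) = (p₂ : G ⧸ N) * (p₁ : G ⧸ N) := by
    rw [← QuotientGroup.mk_mul, hcomm, QuotientGroup.mk_mul]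
  rw [h3]
  group

/-- Data extraction from normal complements. -/
theorem exists_family {σ : Finset ℕ} (hσ : ∀ s ∈ σ, s.Prime)
    (h : ∀ s ∈ σ, HasNormalPComplement s G) :
    ∃ (Nr : ℕ → Subgroup G) (Pr : ∀ s : ℕ, s ∈ σ → Subgroup G),
      (∀ s ∈ σ, (Nr s).Normal) ∧ (∀ s ∈ σ, Nat.Coprime (Nat.card (Nr s)) s) ∧
      (∀ s ∈ σ, ∀ x : G, ∃ k : ℕ, x ^ s ^ k ∈ Nr s) ∧
      (∀ s (hs : s ∈ σ), ∃ P : Sylow s G, (P : Subgroup G) = Pr s hs ∧ (Nr s).IsComplement' (P : Subgroup G)) := by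
  classical
  have key : ∀ s : ℕ, ∃ N : Subgroup G, ∃ Q : (s ∈ σ) → Subgroup G,
      ∀ hs : s ∈ σ, N.Normal ∧ Nat.Coprime (Nat.card N) s ∧ (∀ x : G, ∃ k : ℕ, x ^ s ^ k ∈ N) ∧
        ∃ P : Sylow s G, (P : Subgroup G) = Q hs ∧ N.IsComplement' (P : Subgroup G) := by
    intro s
    by_cases hs : s ∈ σ
    · haveI : Fact s.Prime := ⟨hσ s hs⟩
      obtain ⟨P, N, hN, hc⟩ := h s hs
      haveI := hN
      refine ⟨N, fun _ => (P : Subgroup G), fun _ => ⟨hN, Cfsg.Agent.Lib.Transfer.complement_card_coprime hc, ?_, P, rfl, hc⟩⟩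
      intro x
      obtain ⟨k, hk⟩ := Cfsg.Agent.Lib.Transfer.complement_quotient_isPGroup hc (x : G ⧸ N)
      refine ⟨k, ?_⟩
      rw [← QuotientGroup.mk_pow, QuotientGroup.eq_one_iff] at hk
      exact hk
    · exact ⟨⊥, fun _ => ⊥, fun h' => absurd h' hs⟩
  choose Nr Pr hall using key
  exact ⟨Nr, Pr, fun s hs => (hall s hs).1, fun s hs => (hall s hs).2.1, fun s hs => (hall s hs).2.2.1,
    fun s hs => (hall s hs).2.2.2⟩

end Hall

end Cfsg.Agent.Lib.PGroup.KClasses
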