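import Mathlib
import Cfsg.Agent.Lib.PGroup.KSet
import Cfsg.Agent.Lib.Transfer.Conj
import Cfsg.Agent.Lib.PSolv.Basic

/-!
# Classes of `{2, r}`-elements in `2`-nilpotent groups
-/

set_option autoImplicit false

namespace Cfsg.Agent.Lib.PGroup.KClasses

open Cfsg

universe u

section

variable {G : Type u} [Group G] [Finite G]

/-- The recursion in sum form. -/
theorem kS_insert_sum_le {r : ℕ} [hr : Fact r.Prime] [Fintype (PC r G)] {σ : Finset ℕ} (hrσ : r ∉ σ)
    (Y : PC r G → G) (hY : ∀ d : PC r G, ConjClasses.mk (Y d) = d.1) :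
    kS (insert r σ) G ≤ ∑ d : PC r G, kS σ (CC (Y d)) := by
  classical
  let Sg := Σ d : PC r G, CS σ (CC (Y d))
  have hcardSg : Nat.card Sg = ∑ d : PC r G, kS σ (CC (Y d)) := Nat.card_sigma
  let build : Sg → ConjClasses G := fun s => ConjClasses.mk (Y s.1 * ((Quotient.out s.2.1 : CC (Y s.1)) : G))
  have hsurj : ∀ c : CS (insert r σ) G, ∃ s : Sg, build s = c.1 := by
    intro c
    obtain ⟨x, hx⟩ := ConjClasses.mk_surjective c.1
    have hxm : x ∈ c.1.carrier := by rw [← hx]; exact ConjClasses.mem_carrier_mk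
    have hxπ := c.2 x hxm
    obtain ⟨y, z, e, hcomm, hy, hzc, hzd⟩ := exists_part x hr.out
    have hyP : Pel r y := hy
    let d : PC r G := ⟨ConjClasses.mk y, mem_PC_mk hyP⟩
    have h1 : ConjClasses.mk (Y d) = ConjClasses.mk y := hY d
    rw [ConjClasses.mk_eq_mk_iff_isConj] at h1
    obtain ⟨g, hg⟩ := isConj_iff.mp h1.symm
    set z' := g * z * g⁻¹ with hz'
    have hz'C : z' ∈ CC (Y d) := by
      rw [mem_CC, ← hg, hz']
      calc g * z * g⁻¹ * (g * y * g⁻¹) = g * (z * y) * g⁻¹ := by group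
        _ = g * (y * z) * g⁻¹ := by rw [hcomm]
        _ = _ := by group
    have hz'o : orderOf z' = orderOf z := by
      simpa [hz'] using MulEquiv.orderOf_eq (MulAut.conj g) z
    have hz'σ : ∀ q : ℕ, q.Prime → q ∣ orderOf (⟨z', hz'C⟩ : CC (Y d)) → q ∈ σ := by
      intro q hq hd
      rw [Subgroup.orderOf_mk, hz'o] at hd
      have hq2 := hxπ q hq (hd.trans hzd)
      rcases Finset.mem_insert.mp hq2 with h | h
      · subst h
        exfalso
        have := Nat.eq_one_of_dvd_coprimes hzc hd dvd_rfl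
        exact hq.one_lt.ne' this
      · exact h
    let e' : CS σ (CC (Y d)) := ⟨ConjClasses.mk (⟨z', hz'C⟩ : CC (Y d)), mem_CS_mk hz'σ⟩
    refine ⟨⟨d, e'⟩, ?_⟩
    show ConjClasses.mk (Y d * ((Quotient.out e'.1 : CC (Y d)) : G)) = c.1
    have h2 : ConjClasses.mk (Quotient.out e'.1 : CC (Y d)) = ConjClasses.mk (⟨z', hz'C⟩ : CC (Y d)) :=
      Quotient.out_eq _
    rw [ConjClasses.mk_eq_mk_iff_isConj] at h2
    obtain ⟨h, hh⟩ := isConj_iff.mp h2
    rw [← hx, ConjClasses.mk_eq_mk_iff_isConj]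
    have h3 : (h : G) * (Quotient.out e'.1 : CC (Y d)) * (h : G)⁻¹ = z' := congrArg Subtype.val hh
    have h4 : (h : G) * Y d = Y d * h := mem_CC.mp h.2
    set w := ((Quotient.out e'.1 : CC (Y d)) : G) with hw
    have h5 : Y d * z' = g * x * g⁻¹ := by
      rw [← hg, hz', e]; group
    have h6 : (h : G) * (Y d * w) * (h : G)⁻¹ = Y d * z' := by
      rw [← h3]
      calc (h : G) * (Y d * w) * (h : G)⁻¹ = ((h : G) * Y d) * w * (h : G)⁻¹ := by group
        _ = (Y d * h) * w * (h : G)⁻¹ := by rw [h4]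
        _ = _ := by group
    rw [h5] at h6
    have h7 : IsConj (Y d * w) (g * x * g⁻¹) := isConj_iff.mpr ⟨h, h6⟩
    exact h7.trans (isConj_iff.mpr ⟨g, rfl⟩).symm
  choose f hf using hsurj
  have hinj : Function.Injective f := by
    intro c d h
    apply Subtype.ext
    rw [← hf c, ← hf d, h]
  rw [← hcardSg]
  exact Nat.card_le_card_of_injective f hinj

theorem pPart_eq_of_not_dvd_index {q : ℕ} (H : Subgroup G) (h : ¬ q ∣ H.index) :
    pPart q H = pPart q G := by
  have h1 := H.card_mul_index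
  unfold pPart
  rw [← h1, Nat.factorization_mul Nat.card_pos.ne' Subgroup.index_ne_zero_of_finite, Finsupp.add_apply,
    Nat.factorization_eq_zero_of_not_dvd h, add_zero]

theorem card_CC_conj (g y : G) : Nat.card (CC (g * y * g⁻¹)) = Nat.card (CC y) := by
  have h1 : CC (g * y * g⁻¹) = (CC y).map (MulAut.conj g).toMonoidHom := by
    ext x
    constructor
    · intro hx
      refine ⟨g⁻¹ * x * g, ?_, by simp [mul_assoc]⟩
      have hx2 := mem_CC.mp hx
      refine mem_CC.mpr ?_
      have : x * (g * y * g⁻¹) = (g * y * g⁻¹) * x := hx2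
      calc g⁻¹ * x * g * y = g⁻¹ * (x * (g * y * g⁻¹)) * g := by group
        _ = g⁻¹ * ((g * y * g⁻¹) * x) * g := by rw [this]
        _ = _ := by group
    · rintro ⟨w, hw, rfl⟩
      have hw2 := mem_CC.mp hw
      refine mem_CC.mpr ?_
      show g * w * g⁻¹ * (g * y * g⁻¹) = g * y * g⁻¹ * (g * w * g⁻¹)
      calc g * w * g⁻¹ * (g * y * g⁻¹) = g * (w * y) * g⁻¹ := by group
        _ = g * (y * w) * g⁻¹ := by rw [hw2]
        _ = _ := by group
  rw [h1]
  exact Cfsg.Agent.Lib.Coprime.card_map_conj _ g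

/-- The `2`-part of the centralizer of the representatives of a class. -/
noncomputable def VV (c : ConjClasses G) : ℕ := pPart 2 (CC (Quotient.out c : G))

theorem VV_mk (y : G) : VV (ConjClasses.mk y) = pPart 2 (CC y) := by
  have h1 : ConjClasses.mk (Quotient.out (ConjClasses.mk y) : G) = ConjClasses.mk y := Quotient.out_eq _
  rw [ConjClasses.mk_eq_mk_iff_isConj] at h1
  obtain ⟨g, hg⟩ := isConj_iff.mp h1.symm
  unfold VV pPart
  rw [← hg, card_CC_conj]

/-- The orbit count for a subgroup `L`. -/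
theorem conjOrb_ncard_mul (L : Subgroup G) (y : G) :
    (conjOrb L y).ncard * Nat.card ((CC y).subgroupOf L) = Nat.card L := by
  letI : MulAction L G := MulAction.compHom G ((MulAut.conj : G →* MulAut G).comp L.subtype)
  have h : conjOrb L y = MulAction.orbit L y := rfl
  have h2 : MulAction.stabilizer L y = (CC y).subgroupOf L := by
    ext x
    rw [MulAction.mem_stabilizer_iff, Subgroup.mem_subgroupOf, mem_CC]
    show (x : G) * y * (x : G)⁻¹ = y ↔ _
    rw [mul_inv_eq_iff_eq_mul]
  rw [h, ← MulAction.index_stabilizer, h2, mul_comm]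
  exact Subgroup.card_mul_index _

end

section Frattini

variable {G : Type u} [Group G] [Finite G] {r : ℕ} [hr : Fact r.Prime]

/-- The `2`-part of `C_G(y)` agrees with that of `C_L(y)`, for `L = N_G(P)`. -/
theorem pPart_CC_eq (P : Sylow r G) (hab : IsMulCommutative (P : Subgroup G)) (N : Subgroup G) [hN : N.Normal]
    (hNodd : ¬ 2 ∣ Nat.card N) (hPN : (P : Subgroup G) ≤ N) {y : G} (hy : y ∈ (P : Subgroup G)) :
    pPart 2 (CC y) = pPart 2 ((CC y).subgroupOf (Subgroup.normalizer ((P : Subgroup G) : Set G))) := by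
  set L := Subgroup.normalizer ((P : Subgroup G) : Set G) with hL
  have hPC : (P : Subgroup G) ≤ CC y := by
    intro x hx
    rw [mem_CC]
    have := hab.is_comm.comm ⟨x, hx⟩ ⟨y, hy⟩
    exact congrArg Subtype.val this
  let S : Sylow r (CC y) := P.subtype hPC
  have hS : (S : Subgroup (CC y)) = (P : Subgroup G).subgroupOf (CC y) := P.coe_subtype hPC
  let B : Subgroup (CC y) := N.subgroupOf (CC y)
  haveI : B.Normal := inferInstance
  have hSB : (S : Subgroup (CC y)) ≤ B := by
    rw [hS]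
    intro x hx
    exact hPN hx
  have h1 := S.normalizer_sup_eq_top' hSB
  have h2 := Cfsg.Agent.Lib.PSolv.index_dvd_card_of_sup_eq_top _ B h1
  have hBodd : ¬ 2 ∣ Nat.card B := fun h =>
    hNodd (h.trans (Cfsg.Agent.Lib.Transfer.card_subgroupOf_dvd N (CC y)))
  have h3 : ¬ 2 ∣ (Subgroup.normalizer ((S : Subgroup (CC y)) : Set (CC y))).index := fun h => hBodd (h.trans h2)
  rw [← pPart_eq_of_not_dvd_index _ h3]
  -- compare the two subgroups
  have h4 : Nat.card (Subgroup.normalizer ((S : Subgroup (CC y)) : Set (CC y))) =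
      Nat.card ((CC y).subgroupOf L) := by
    have e1 : Subgroup.normalizer ((S : Subgroup (CC y)) : Set (CC y)) = L.subgroupOf (CC y) := by
      ext x
      rw [Subgroup.mem_subgroupOf, hL, Subgroup.mem_normalizer_iff, Subgroup.mem_normalizer_iff, hS]
      constructor
      · intro hx z
        constructor
        · intro hz
          have hzC := hPC hz
          have := (hx ⟨z, hzC⟩).mp hz
          exact this
        · intro hz
          have h5 := hPC hz
          have hzC : z ∈ CC y := by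
            have : z = (x : G)⁻¹ * ((x : G) * z * (x : G)⁻¹) * x := by group
            rw [this]
            exact mul_mem (mul_mem (inv_mem x.2) h5) x.2
          exact (hx ⟨z, hzC⟩).mpr hz
      · intro hx z
        exact hx z
    have e2 : ∀ A B : Subgroup G, Nat.card (A.subgroupOf B) = Nat.card (B.subgroupOf A) := by
      intro A B
      have h6 : Nat.card (A.subgroupOf B) = Nat.card (A ⊓ B : Subgroup G) := by
        rw [← Subgroup.subgroupOf_map_subtype]
        exact (Subgroup.card_map_of_injective B.subtype_injective).symm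
      have h7 : Nat.card (B.subgroupOf A) = Nat.card (B ⊓ A : Subgroup G) := by
        rw [← Subgroup.subgroupOf_map_subtype]
        exact (Subgroup.card_map_of_injective A.subtype_injective).symm
      rw [h6, h7, inf_comm]
    rw [e1]
    exact e2 L (CC y)
  unfold pPart
  rw [h4]

end Frattini

section Orbits

variable {G : Type u} [Group G] [Finite G] {r : ℕ} [hr : Fact r.Prime]

theorem S_normalizer_sup (P : Sylow r G) {N : Subgroup G} [hN : N.Normal] (hPN : (P : Subgroup G) ≤ N) :
    Subgroup.normalizer ((P : Subgroup G) : Set G) ⊔ N = ⊤ :=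
  P.normalizer_sup_eq_top' hPN

/-- The relation between the centralizer and the orbit. -/
theorem val_mul (P : Sylow r G) (hab : IsMulCommutative (P : Subgroup G)) (N : Subgroup G) [hN : N.Normal]
    (hNodd : ¬ 2 ∣ Nat.card N) (hPN : (P : Subgroup G) ≤ N) {y : G} (hy : y ∈ (P : Subgroup G)) :
    pPart 2 (CC y) *
      2 ^ (conjOrb (Subgroup.normalizer ((P : Subgroup G) : Set G)) y).ncard.factorization 2 = pPart 2 G := by
  set L := Subgroup.normalizer ((P : Subgroup G) : Set G) with hL
  have h1 := S_normalizer_sup P hPN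
  have h2 := Cfsg.Agent.Lib.PSolv.index_dvd_card_of_sup_eq_top L N h1
  have h3 : ¬ 2 ∣ L.index := fun h => hNodd (h.trans h2)
  rw [← pPart_eq_of_not_dvd_index L h3, pPart_CC_eq P hab N hNodd hPN hy, ← hL]
  have h4 := conjOrb_ncard_mul L y
  have hn0 : (conjOrb L y).ncard ≠ 0 := (conjOrb_ncard_pos L y).ne'
  show 2 ^ (Nat.card ((CC y).subgroupOf L)).factorization 2 * 2 ^ (conjOrb L y).ncard.factorization 2 =
    2 ^ (Nat.card L).factorization 2
  rw [← h4, Nat.factorization_mul hn0 Nat.card_pos.ne', Finsupp.add_apply, pow_add, mul_comm]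

theorem three_le_two_pow_mul {n : ℕ} (hn : 2 ≤ n) : 3 ≤ 2 ^ n.factorization 2 * n := by
  by_cases h : n.factorization 2 = 0
  · rw [h, pow_zero, one_mul]
    have h2 : n ≠ 2 := by
      rintro rfl
      rw [Nat.Prime.factorization_self Nat.prime_two] at h
      exact one_ne_zero h
    omega
  · have h3 : 2 ≤ 2 ^ n.factorization 2 := Nat.le_self_pow h 2
    nlinarith

/-- A consequence of the order coprimality of `N_G(P)/C_G(P)`. -/
theorem eq_one_of_conj_eq_mul (P : Sylow r G) (hab : IsMulCommutative (P : Subgroup G)) {h z f : G}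
    (hh : h ∈ Subgroup.normalizer ((P : Subgroup G) : Set G)) (hz : z ∈ (P : Subgroup G))
    (hf : f ∈ (P : Subgroup G)) (hfh : h * f * h⁻¹ = f) (he : h * z * h⁻¹ = z * f) : f = 1 := by
  set L := Subgroup.normalizer ((P : Subgroup G) : Set G) with hL
  let Cc : Subgroup L := (Subgroup.centralizer ((P : Subgroup G) : Set G)).subgroupOf L
  haveI hCn : Cc.Normal := by
    constructor
    rintro ⟨a, ha⟩ hna ⟨g, hg⟩
    rw [Subgroup.mem_subgroupOf] at hna ⊢
    refine Subgroup.mem_centralizer_iff.mpr fun w hw => ?_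
    have hw2 : g⁻¹ * w * g ∈ (P : Subgroup G) := by
      have := (Subgroup.mem_normalizer_iff.mp (inv_mem hg) w).mp hw
      simpa using this
    have h3 := Subgroup.mem_centralizer_iff.mp hna _ hw2
    show w * (g * a * g⁻¹) = (g * a * g⁻¹) * w
    calc w * (g * a * g⁻¹) = g * ((g⁻¹ * w * g) * a) * g⁻¹ := by group
      _ = g * (a * (g⁻¹ * w * g)) * g⁻¹ := by rw [h3]
      _ = _ := by group
  set m := Cc.index with hm
  have hmC : (⟨h, hh⟩ : L) ^ m ∈ Cc := Subgroup.pow_index_mem Cc _
  have hmr : Nat.Coprime m r := by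
    apply Nat.Coprime.symm
    rw [Nat.Prime.coprime_iff_not_dvd hr.out]
    intro hd
    have hPL : (P : Subgroup G) ≤ L := Subgroup.le_normalizer
    have h4 : (P : Subgroup G).subgroupOf L ≤ Cc := by
      intro x hx
      rw [Subgroup.mem_subgroupOf]
      refine Subgroup.mem_centralizer_iff.mpr fun w hw => ?_
      have := hab.is_comm.comm ⟨w, hw⟩ ⟨x, hx⟩
      exact congrArg Subtype.val this
    have h5 := Subgroup.index_dvd_of_le h4
    have h6 : r ∣ ((P : Subgroup G).subgroupOf L).index := hd.trans h5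
    have h7 : ((P : Subgroup G).subgroupOf L).index ∣ (P : Subgroup G).index := by
      have h8 := Subgroup.relIndex_mul_index hPL
      exact ⟨L.index, h8.symm⟩
    exact P.not_dvd_index (h6.trans h7)
  have hpow : ∀ k : ℕ, h ^ k * z * (h ^ k)⁻¹ = z * f ^ k := by
    intro k
    induction k with
    | zero => simp
    | succ k ih =>
      have hfk : h * f ^ k * h⁻¹ = f ^ k := by rw [← conj_pow, hfh]
      calc h ^ (k + 1) * z * (h ^ (k + 1))⁻¹ = h * (h ^ k * z * (h ^ k)⁻¹) * h⁻¹ := by
            rw [pow_succ' h k]; group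
        _ = h * (z * f ^ k) * h⁻¹ := by rw [ih]
        _ = (h * z * h⁻¹) * (h * f ^ k * h⁻¹) := by group
        _ = z * f * f ^ k := by rw [he, hfk]
        _ = _ := by rw [pow_succ' f k]; group
  have h9 : h ^ m ∈ Subgroup.centralizer ((P : Subgroup G) : Set G) := by
    have := hmC
    rw [Subgroup.mem_subgroupOf] at this
    simpa using this
  have h10 : h ^ m * z * (h ^ m)⁻¹ = z := by
    have := Subgroup.mem_centralizer_iff.mp h9 z hz
    rw [← this]; group
  have h11 : z * f ^ m = z := by rw [← hpow m, h10]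
  have h12 : f ^ m = 1 := by simpa using h11
  exact eq_one_of_pel_of_coprime (pel_of_mem P.isPGroup' hf) h12 hmr

end Orbits

section Sum

variable {G : Type u} [Group G] [Finite G] {r : ℕ} [hr : Fact r.Prime]

/-- Weighted fibre counting. -/
theorem weighted_fiber {α β : Type*} [DecidableEq β] (s : Finset α) (t : Finset β) (f : α → β)
    (hf : ∀ a ∈ s, f a ∈ t) (v : β → ℕ) (m B : ℕ)
    (h : ∀ b ∈ t, m * v b ≤ B * (s.filter (fun a => f a = b)).card) :
    m * ∑ b ∈ t, v b ≤ B * s.card := by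
  rw [Finset.card_eq_sum_card_fiberwise hf, Finset.mul_sum, Finset.mul_sum]
  exact Finset.sum_le_sum h

/-- The fixed points of `N_G(P)` in `P`. -/
def FF (P : Sylow r G) : Subgroup G :=
  (P : Subgroup G) ⊓ Subgroup.centralizer ((Subgroup.normalizer ((P : Subgroup G) : Set G) : Subgroup G) : Set G)

theorem mem_FF {P : Sylow r G} {y : G} : y ∈ FF P ↔ y ∈ (P : Subgroup G) ∧
    ∀ g ∈ Subgroup.normalizer ((P : Subgroup G) : Set G), g * y * g⁻¹ = y := by
  unfold FF
  rw [Subgroup.mem_inf, Subgroup.mem_centralizer_iff]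
  refine and_congr_right fun _ => forall₂_congr fun g _ => ?_
  rw [mul_inv_eq_iff_eq_mul]

/-- When the index of the fixed points is `3`, the orbits outside have size at most `2`. -/
theorem orbit_le_two (P : Sylow r G) (hab : IsMulCommutative (P : Subgroup G))
    (h3 : ((FF P).subgroupOf (P : Subgroup G)).index = 3) {y : G} (hy : y ∈ (P : Subgroup G)) (hyF : y ∉ FF P) :
    (conjOrb (Subgroup.normalizer ((P : Subgroup G) : Set G)) y).ncard ≤ 2 := by
  classical
  set L := Subgroup.normalizer ((P : Subgroup G) : Set G) with hL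
  let H : Subgroup (P : Subgroup G) := (FF P).subgroupOf (P : Subgroup G)
  have hcardQ : Nat.card ((P : Subgroup G) ⧸ H) = 3 := h3
  let φ : G → (P : Subgroup G) ⧸ H := fun z => if hz : z ∈ (P : Subgroup G) then (QuotientGroup.mk ⟨z, hz⟩) else 1
  have hOP : ∀ z ∈ conjOrb L y, z ∈ (P : Subgroup G) := by
    rintro _ ⟨⟨g, hg⟩, rfl⟩
    exact (Subgroup.mem_normalizer_iff.mp hg y).mp hy
  have hmaps : ∀ z ∈ conjOrb L y, φ z ∈ ({1}ᶜ : Set ((P : Subgroup G) ⧸ H)) := by
    intro z hz
    have hzP := hOP z hz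
    simp only [φ, dif_pos hzP, Set.mem_compl_iff, Set.mem_singleton_iff]
    rw [QuotientGroup.eq_one_iff, Subgroup.mem_subgroupOf]
    intro hzF
    obtain ⟨⟨g, hg⟩, rfl⟩ := hz
    apply hyF
    have h5 := (mem_FF.mp hzF).2 g⁻¹ (inv_mem hg)
    simp only at h5
    have h6 : y = g⁻¹ * (g * y * g⁻¹) * g⁻¹⁻¹ := by group
    rw [h6, h5]
    exact hzF
  have hinj : Set.InjOn φ (conjOrb L y) := by
    intro z hz z' hz' he
    have hzP := hOP z hz
    have hz'P := hOP z' hz'
    simp only [φ, dif_pos hzP, dif_pos hz'P] at he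
    rw [QuotientGroup.eq, Subgroup.mem_subgroupOf] at he
    have hfF : z⁻¹ * z' ∈ FF P := he
    obtain ⟨⟨g, hg⟩, rfl⟩ := hz
    obtain ⟨⟨g', hg'⟩, rfl⟩ := hz'
    simp only at hfF hzP hz'P ⊢
    set z := g * y * g⁻¹ with hzd
    set z' := g' * y * g'⁻¹ with hzd'
    have hhL : g' * g⁻¹ ∈ L := mul_mem hg' (inv_mem hg)
    have hfix := (mem_FF.mp hfF).2 _ hhL
    have he2 : (g' * g⁻¹) * z * (g' * g⁻¹)⁻¹ = z * (z⁻¹ * z') := by
      rw [hzd, hzd']; group
    have h1 := eq_one_of_conj_eq_mul P hab hhL hzP (mem_FF.mp hfF).1 hfix he2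
    exact inv_mul_eq_one.mp h1
  refine (Set.ncard_le_ncard_of_injOn φ hmaps hinj (Set.toFinite _)).trans ?_
  have h7 := Set.ncard_add_ncard_compl ({1} : Set ((P : Subgroup G) ⧸ H))
  rw [Set.ncard_singleton, hcardQ] at h7
  omega

/-- **The count.**  In a `2`-nilpotent group, if `N_G(P)` does not centralize the abelian Sylow subgroup
`P`, the sum of the `2`-parts of the centralizers over the `r`-classes is at most `|G|₂ |P| / 2`. -/
theorem sum_bound (hr2 : r ≠ 2) [Fintype (PC r G)] (P : Sylow r G) (hab : IsMulCommutative (P : Subgroup G))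
    (N : Subgroup G) [hN : N.Normal] (hNodd : ¬ 2 ∣ Nat.card N) (hPN : (P : Subgroup G) ≤ N)
    (hne : ∃ y ∈ (P : Subgroup G), y ∉ FF P) :
    2 * ∑ d : PC r G, VV d.1 ≤ pPart 2 G * Nat.card (P : Subgroup G) := by
  classical
  haveI := Fintype.ofFinite G
  haveI := Fintype.ofFinite (ConjClasses G)
  set L := Subgroup.normalizer ((P : Subgroup G) : Set G) with hL
  set T := pPart 2 G with hT
  let mk : G → ConjClasses G := ConjClasses.mk
  have hFP : FF P ≤ (P : Subgroup G) := inf_le_left
  let Fs : Finset G := ((FF P : Subgroup G) : Set G).toFinset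
  have hFs : ∀ x, x ∈ Fs ↔ x ∈ FF P := by intro x; simp [Fs]
  let t₁ : Finset (ConjClasses G) := Fs.image mk
  let As : Finset G := ({z | z ∈ (P : Subgroup G) ∧ mk z ∉ t₁} : Set G).toFinset
  have hAs : ∀ x, x ∈ As ↔ x ∈ (P : Subgroup G) ∧ mk x ∉ t₁ := by intro x; simp [As]
  let t₂ : Finset (ConjClasses G) := As.image mk
  -- the covering
  have hcover : ∀ d : PC r G, d.1 ∈ t₁ ∪ t₂ := by
    intro d
    obtain ⟨x, hx, hc⟩ := PC_exists_rep d
    obtain ⟨g, hg⟩ := exists_conj_mem_sylow P hx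
    have h1 : d.1 = mk (g * x * g⁻¹) := by
      rw [← hc]
      show ConjClasses.mk x = ConjClasses.mk _
      rw [ConjClasses.mk_eq_mk_iff_isConj]
      exact (isConj_iff.mpr ⟨g, rfl⟩)
    by_cases h2 : mk (g * x * g⁻¹) ∈ t₁
    · rw [h1]; exact Finset.mem_union_left _ h2
    · rw [h1]
      exact Finset.mem_union_right _ (Finset.mem_image_of_mem _ ((hAs _).mpr ⟨hg, h2⟩))
  have hVT : ∀ c : ConjClasses G, VV c ≤ T := by
    intro c
    exact pPart_subgroup_le Nat.prime_two _
  have hs1 : ∑ d : PC r G, VV d.1 ≤ ∑ c ∈ t₁ ∪ t₂, VV c := by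
    have h1 : ∑ d : PC r G, VV d.1 = ∑ c ∈ (Finset.univ : Finset (PC r G)).image Subtype.val, VV c := by
      rw [Finset.sum_image (fun a _ b _ h => Subtype.ext h)]
    rw [h1]
    apply Finset.sum_le_sum_of_subset
    intro c hc
    obtain ⟨d, -, rfl⟩ := Finset.mem_image.mp hc
    exact hcover d
  have hs2 : ∑ c ∈ t₁ ∪ t₂, VV c ≤ ∑ c ∈ t₁, VV c + ∑ c ∈ t₂, VV c := by
    rw [← Finset.sum_union_inter]
    exact Nat.le_add_right _ _
  have hs3 : ∑ c ∈ t₁, VV c ≤ T * Fs.card := by
    calc ∑ c ∈ t₁, VV c ≤ t₁.card • T := Finset.sum_le_card_nsmul _ _ _ (fun c _ => hVT c)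
      _ = T * t₁.card := by rw [smul_eq_mul, mul_comm]
      _ ≤ T * Fs.card := Nat.mul_le_mul_left _ Finset.card_image_le
  -- fibres
  have hfib : ∀ m : ℕ, (∀ y ∈ (P : Subgroup G), y ∉ FF P → m * pPart 2 (CC y) ≤ T * (conjOrb L y).ncard) →
      m * ∑ c ∈ t₂, VV c ≤ T * As.card := by
    intro m hm
    apply weighted_fiber As t₂ mk (fun a ha => Finset.mem_image_of_mem _ ha)
    intro c hc
    obtain ⟨z, hz, rfl⟩ := Finset.mem_image.mp hc
    obtain ⟨hzP, hzt⟩ := (hAs z).mp hz
    have hzF : z ∉ FF P := fun h => hzt (Finset.mem_image_of_mem _ ((hFs z).mpr h))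
    rw [show VV (mk z) = pPart 2 (CC z) from VV_mk z]
    refine (hm z hzP hzF).trans (Nat.mul_le_mul_left _ ?_)
    rw [← Set.ncard_coe_finset]
    refine Set.ncard_le_ncard ?_ (Set.toFinite _)
    rintro _ ⟨⟨g, hg⟩, rfl⟩
    have hmk : mk (g * z * g⁻¹) = mk z := by
      show ConjClasses.mk _ = ConjClasses.mk _
      rw [ConjClasses.mk_eq_mk_iff_isConj]
      exact (isConj_iff.mpr ⟨g, rfl⟩).symm
    simp only [Finset.coe_filter, Set.mem_setOf_eq]
    refine ⟨(hAs _).mpr ⟨(Subgroup.mem_normalizer_iff.mp hg z).mp hzP, ?_⟩, hmk⟩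
    rw [hmk]
    exact hzt
  have hcards : As.card + Fs.card ≤ Nat.card (P : Subgroup G) := by
    have hd : Disjoint As Fs := by
      rw [Finset.disjoint_left]
      intro x hx hxF
      exact ((hAs x).mp hx).2 (Finset.mem_image_of_mem _ hxF)
    rw [← Finset.card_union_of_disjoint hd, ← Set.ncard_coe_finset]
    have h6 : Nat.card (P : Subgroup G) = ((P : Subgroup G) : Set G).ncard := by
      rw [← Nat.card_coe_set_eq]; rfl
    rw [h6]
    refine Set.ncard_le_ncard ?_ (Set.toFinite _)
    intro x hx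
    rcases Finset.mem_union.mp (Finset.mem_coe.mp hx) with h | h
    · exact ((hAs x).mp h).1
    · exact hFP ((hFs x).mp h)
  have hFcard : Fs.card = Nat.card (FF P) := by
    rw [← Set.ncard_coe_finset]
    have : (Fs : Set G) = ((FF P : Subgroup G) : Set G) := by
      ext x; simp [hFs]
    rw [this, ← Nat.card_coe_set_eq]; rfl
  -- the index
  set k := ((FF P).subgroupOf (P : Subgroup G)).index with hk
  have hPk : Nat.card (FF P) * k = Nat.card (P : Subgroup G) := by
    have h7 := ((FF P).subgroupOf (P : Subgroup G)).card_mul_index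
    rwa [Cfsg.Agent.Lib.Coprime.card_subgroupOf_of_le hFP] at h7
  obtain ⟨y₀, hy₀, hy₀F⟩ := hne
  have hk1 : k ≠ 1 := by
    intro h1
    apply hy₀F
    have h8 := Subgroup.index_eq_one.mp h1
    have : (⟨y₀, hy₀⟩ : (P : Subgroup G)) ∈ (FF P).subgroupOf (P : Subgroup G) := by rw [h8]; trivial
    exact this
  have hkr : ∃ j, k = r ^ j := by
    obtain ⟨n, hn⟩ := IsPGroup.iff_card.mp P.isPGroup'
    have h9 : k ∣ r ^ n := by rw [← hn, ← hPk]; exact dvd_mul_left _ _
    obtain ⟨j, -, hj⟩ := (Nat.dvd_prime_pow hr.out).mp h9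
    exact ⟨j, hj⟩
  have hk3 : 3 ≤ k := by
    obtain ⟨j, hj⟩ := hkr
    have hj0 : j ≠ 0 := by
      rintro rfl
      exact hk1 (by simpa using hj)
    have hr3 : 3 ≤ r := by
      have := hr.out.two_le
      omega
    rw [hj]
    exact hr3.trans (Nat.le_self_pow hj0 r)
  have hval := fun y (hy : y ∈ (P : Subgroup G)) => val_mul P hab N hNodd hPN hy
  have hn2 : ∀ y ∈ (P : Subgroup G), y ∉ FF P → 2 ≤ (conjOrb L y).ncard := by
    intro y hy hyF
    have : ¬ ∀ g ∈ L, g * y * g⁻¹ = y := fun h => hyF (mem_FF.mpr ⟨hy, h⟩)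
    push Not at this
    obtain ⟨g, hg, hne⟩ := this
    exact two_le_conjOrb hg hne
  have hsplit : 2 * ∑ d : PC r G, VV d.1 ≤ 2 * (T * Fs.card + ∑ c ∈ t₂, VV c) := by
    apply Nat.mul_le_mul_left
    exact hs1.trans (hs2.trans (by omega))
  set S₂ := ∑ c ∈ t₂, VV c with hS₂
  have e1 : T * As.card + T * Fs.card ≤ T * Nat.card (P : Subgroup G) := by
    rw [← Nat.mul_add]
    exact Nat.mul_le_mul_left _ hcards
  by_cases h3 : k = 3
  · have h4 : 4 * S₂ ≤ T * As.card := by
      apply hfib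
      intro y hy hyF
      have h5 := hn2 y hy hyF
      have h6 := orbit_le_two P hab h3 hy hyF
      have h7 : (conjOrb L y).ncard = 2 := le_antisymm h6 h5
      have h8 := hval y hy
      rw [← hL, h7, Nat.Prime.factorization_self Nat.prime_two, pow_one] at h8
      rw [h7]
      omega
    have e2 : T * Nat.card (P : Subgroup G) = 3 * (T * Fs.card) := by
      rw [hFcard, ← hPk, h3]; ring
    omega
  · have h4 : 3 * S₂ ≤ T * As.card := by
      apply hfib
      intro y hy hyF
      have h5 := three_le_two_pow_mul (hn2 y hy hyF)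
      have h8 := hval y hy
      rw [← hL] at h8
      calc 3 * pPart 2 (CC y) ≤ (2 ^ (conjOrb L y).ncard.factorization 2 * (conjOrb L y).ncard) * pPart 2 (CC y) :=
            Nat.mul_le_mul_right _ h5
        _ = T * (conjOrb L y).ncard := by rw [hT, ← h8]; ring
    have e2 : 4 * (T * Fs.card) ≤ T * Nat.card (P : Subgroup G) := by
      rw [hFcard, ← hPk]
      have : 4 ≤ k := by omega
      calc 4 * (T * Nat.card (FF P)) = T * Nat.card (FF P) * 4 := by ring
        _ ≤ T * Nat.card (FF P) * k := Nat.mul_le_mul_left _ this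
        _ = _ := by ring
    omega

end Sum

section Final

variable {G : Type u} [Group G] [Finite G] {r : ℕ} [hr : Fact r.Prime]

/-- Commuting-probability bound for non-abelian `p`-groups, `p` odd. -/
theorem nonabelian_bound_odd {Q : Type u} [Group Q] [Finite Q] (hQ : IsPGroup r Q) (hr2 : r ≠ 2)
    (hn : ∃ x y : Q, x * y ≠ y * x) :
    2 * Nat.card (ConjClasses Q) ≤ Nat.card Q := by
  classical
  set Z : Subgroup Q := Subgroup.center Q with hZ
  have hindex : r ^ 2 ∣ Z.index := by
    obtain ⟨k, hk⟩ := IsPGroup.iff_card.mp (hQ.to_quotient Z)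
    have h1 : Z.index = Nat.card (Q ⧸ Z) := rfl
    rw [h1, hk]
    have hnc : ¬ IsCyclic (Q ⧸ Z) := by
      intro hcyc
      obtain ⟨x, y, hxy⟩ := hn
      letI := commGroupOfCyclicCenterQuotient (G := Q) (G' := Q ⧸ Z) (QuotientGroup.mk' Z) (by simp [hZ])
      exact hxy (mul_comm x y)
    have hk2 : 2 ≤ k := by
      by_contra hlt
      apply hnc
      have hk' : k = 0 ∨ k = 1 := by omega
      rcases hk' with rfl | rfl
      · have : Nat.card (Q ⧸ Z) = 1 := by simpa using hk
        haveI : Subsingleton (Q ⧸ Z) := (Nat.card_eq_one_iff_unique.mp this).1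
        exact isCyclic_of_subsingleton
      · have : Nat.card (Q ⧸ Z) = r := by simpa using hk
        exact isCyclic_of_prime_card this
    exact pow_dvd_pow r hk2
  have hle : r ^ 2 * Nat.card Z ≤ Nat.card Q := by
    have h1 := Z.card_mul_index
    rw [← h1, mul_comm (r ^ 2)]
    exact Nat.mul_le_mul_left _ (Nat.le_of_dvd (Nat.pos_of_ne_zero Subgroup.index_ne_zero_of_finite) hindex)
  set A : Set Q := (Z : Set Q)ᶜ with hA
  have hcC : Nat.card (ConjClasses Q) = tc (Set.univ : Set Q) := by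
    unfold tc
    rw [Set.image_univ, ConjClasses.mk_surjective.range_eq, Set.ncard_univ]
  have h1 : tc (Set.univ : Set Q) ≤ tc (Z : Set Q) + tc A := by
    rw [← Set.union_compl_self (Z : Set Q)]
    exact tc_union_le _ _
  have h2 : tc (Z : Set Q) ≤ Nat.card Z := by
    refine (tc_le_ncard _).trans (le_of_eq ?_)
    rw [← Nat.card_coe_set_eq]; rfl
  have h3 : r * tc A ≤ A.ncard := by
    apply mul_tc_le (⊤ : Subgroup Q) A r
    · intro a ha h _ hc
      apply ha
      have hc2 : h * a * h⁻¹ ∈ Subgroup.center Q := hc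
      have : a = h⁻¹ * (h * a * h⁻¹) * h := by group
      rw [this]
      have h5 := Subgroup.Normal.conj_mem (inferInstance : (Subgroup.center Q).Normal) _ hc2 h⁻¹
      simpa using h5
    · intro a ha
      have : ¬ ∀ h : Q, h * a * h⁻¹ = a := by
        intro hall
        apply ha
        refine Subgroup.mem_center_iff.mpr fun g => ?_
        have := hall g
        rwa [mul_inv_eq_iff_eq_mul] at this
      push Not at this
      obtain ⟨h, hne⟩ := this
      have hT : IsPGroup r (⊤ : Subgroup Q) := hQ.to_subgroup ⊤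
      exact le_conjOrb_of_isPGroup hT (Subgroup.mem_top h) hne
  have h4 : A.ncard + Nat.card Z = Nat.card Q := by
    have h5 : (Z : Set Q).ncard = Nat.card Z := by
      rw [← Nat.card_coe_set_eq]; rfl
    rw [← h5, add_comm]
    exact Set.ncard_add_ncard_compl _
  rw [hcC]
  have hp3 : 3 ≤ r := by
    have := hr.out.two_le
    omega
  set k := tc (Set.univ : Set Q)
  set z := Nat.card Z
  set n := Nat.card Q
  set t := tc A
  set u := tc (Z : Set Q)
  set a := A.ncard
  have h6 : k ≤ z + t := h1.trans (add_le_add_left h2 _)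
  have h8 : 9 * z ≤ n := by
    refine le_trans (Nat.mul_le_mul_right _ ?_) hle
    nlinarith
  have hza : 8 * z ≤ a := by omega
  have h9 : r * z + 2 * a ≤ r * a := by
    obtain ⟨q, hq⟩ := Nat.exists_eq_add_of_le hp3
    rw [hq]
    nlinarith [Nat.mul_le_mul_left (q + 1) hza]
  have h10 : r * (2 * k) ≤ r * n := by
    calc r * (2 * k) ≤ r * (2 * (z + t)) := Nat.mul_le_mul_left _ (Nat.mul_le_mul_left _ h6)
      _ = 2 * (r * z) + 2 * (r * t) := by ring
      _ ≤ 2 * (r * z) + 2 * a := by
          have := Nat.mul_le_mul_left 2 h3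
          omega
      _ ≤ r * z + r * a := by omega
      _ = r * n := by rw [← h4]; ring
  exact Nat.le_of_mul_le_mul_left h10 (by omega)

/-- The final count. -/
theorem kS_le_sum_mul (π : Finset ℕ) (hπ : ∀ s ∈ π, s.Prime) (hrπ : r ∈ π) (hr2 : r ≠ 2) (h2 : 2 ∈ π)
    [Fintype (PC r G)] :
    kS π G ≤ (∑ d : PC r G, VV d.1) * ∏ s ∈ (π.erase r).erase 2, pPart s G := by
  haveI : Fact (2 : ℕ).Prime := ⟨Nat.prime_two⟩
  have h1 := kS_insert_sum_le (G := G) (r := r) (σ := π.erase r) (Finset.notMem_erase r π)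
    (fun d => (Quotient.out d.1 : G)) (fun d => Quotient.out_eq _)
  rw [Finset.insert_erase hrπ] at h1
  refine h1.trans ?_
  rw [Finset.sum_mul]
  refine Finset.sum_le_sum fun d _ => ?_
  have hσ : ∀ s ∈ π.erase r, s.Prime := fun s hs => hπ s (Finset.mem_of_mem_erase hs)
  have h2' : 2 ∈ π.erase r := Finset.mem_erase.mpr ⟨fun h => hr2 h.symm, h2⟩
  refine (kS_le_kp_mul (G := CC (Quotient.out d.1 : G)) (π.erase r) hσ h2').trans ?_
  refine Nat.mul_le_mul kp_le_pPart ?_
  refine Finset.prod_le_prod' fun s hs => ?_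
  exact pPart_subgroup_le (hσ s (Finset.mem_of_mem_erase hs)) _

end Final

end Cfsg.Agent.Lib.PGroup.KClasses
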