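import Mathlib
import Cfsg.Agent.Lib.Transfer.Comp
import Cfsg.Agent.Lib.Core.Basic
import Cfsg.Agent.Lib.PGroup.Sylow

/-!
An abstract exclusion lemma for groups with trivial centre in which the centralizers of the
non-identity elements behave like self-normalizing maximal subgroups.
-/

namespace Cfsg.Agent.Lib.PGroup.MaxCent

open Subgroup Cfsg.Agent.Lib.Core Cfsg.Agent.Lib.PGroup

variable {H : Type*} [Group H]

/-- The abstract hypotheses. -/
structure Hyp (H : Type*) [Group H] : Prop where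
  ne_top : ∀ x : H, x ≠ 1 → centralizer ({x} : Set H) ≠ ⊤
  P1 : ∀ x y : H, x ≠ 1 → y ≠ 1 → x * y = y * x → (orderOf x).Coprime (orderOf y) →
    centralizer ({x} : Set H) = centralizer ({y} : Set H)
  P2 : ∀ (x : H) (k : ℕ), x ^ k ≠ 1 → centralizer ({x} : Set H) = centralizer ({x ^ k} : Set H)
  P3 : ∀ x : H, x ≠ 1 → normalizer (centralizer ({x} : Set H) : Set H) ≤ centralizer ({x} : Set H)
  P4 : ∀ (x : H) (K : Subgroup H), x ≠ 1 → K.Characteristic → K ≠ ⊤ →
    ¬ centralizer ({x} : Set H) ≤ K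

theorem mem_normalizer_of_centralizer_conj {g z : H}
    (h : centralizer ({g * z * g⁻¹} : Set H) = centralizer ({z} : Set H)) :
    g ∈ normalizer (centralizer ({z} : Set H) : Set H) := by
  rw [Subgroup.mem_normalizer_iff]
  intro y
  constructor
  · intro hy
    show g * y * g⁻¹ ∈ centralizer ({z} : Set H)
    rw [← h, Subgroup.mem_centralizer_singleton_iff]
    have hy' : y * z = z * y := Subgroup.mem_centralizer_singleton_iff.mp hy
    calc g * y * g⁻¹ * (g * z * g⁻¹) = g * (y * z) * g⁻¹ := by group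
      _ = g * (z * y) * g⁻¹ := by rw [hy']
      _ = g * z * g⁻¹ * (g * y * g⁻¹) := by group
  · intro hy
    have hy2 : g * y * g⁻¹ ∈ centralizer ({g * z * g⁻¹} : Set H) := by rw [h]; exact hy
    have hy' := Subgroup.mem_centralizer_singleton_iff.mp hy2
    rw [Subgroup.mem_centralizer_singleton_iff]
    have h3 : g * (y * z) * g⁻¹ = g * (z * y) * g⁻¹ := by
      calc g * (y * z) * g⁻¹ = g * y * g⁻¹ * (g * z * g⁻¹) := by group
        _ = g * z * g⁻¹ * (g * y * g⁻¹) := hy'
        _ = g * (z * y) * g⁻¹ := by group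
    exact mul_left_cancel (mul_right_cancel h3)

theorem centralizer_conj_eq {g z : H} :
    ∀ y, y ∈ centralizer ({g * z * g⁻¹} : Set H) ↔ g⁻¹ * y * g ∈ centralizer ({z} : Set H) := by
  intro y
  rw [Subgroup.mem_centralizer_singleton_iff, Subgroup.mem_centralizer_singleton_iff]
  constructor
  · intro h
    have h3 : g⁻¹ * (y * (g * z * g⁻¹)) * g = g⁻¹ * (g * z * g⁻¹ * y) * g := by rw [h]
    calc g⁻¹ * y * g * z = g⁻¹ * (y * (g * z * g⁻¹)) * g := by group
      _ = g⁻¹ * (g * z * g⁻¹ * y) * g := h3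
      _ = z * (g⁻¹ * y * g) := by group
  · intro h
    have h3 : g * (g⁻¹ * y * g * z) * g⁻¹ = g * (z * (g⁻¹ * y * g)) * g⁻¹ := by rw [h]
    calc y * (g * z * g⁻¹) = g * (g⁻¹ * y * g * z) * g⁻¹ := by group
      _ = g * (z * (g⁻¹ * y * g)) * g⁻¹ := h3
      _ = g * z * g⁻¹ * y := by group

variable [Finite H]

/-- Subgroups of order prime to `r` lie in the `r'`-core when a normal `r`-complement exists. -/
theorem le_core_of_complement {r : ℕ} [Fact r.Prime] (hc : HasNormalPComplement r H)
    (S : Subgroup H) (hS : ¬ r ∣ Nat.card S) : S ≤ pPrimeCore r H := by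
  have hr : r.Prime := Fact.out
  obtain ⟨P, N, hN, hNP⟩ := hc
  haveI := hN
  have h1 : N ≤ pPrimeCore r H :=
    le_pPrimeCore hN (Cfsg.Agent.Lib.Transfer.complement_card_coprime hNP)
  refine le_trans ?_ h1
  have hq : IsPGroup r (H ⧸ N) := Cfsg.Agent.Lib.Transfer.complement_quotient_isPGroup hNP
  intro s hs
  obtain ⟨k, hk⟩ := hq (QuotientGroup.mk s)
  have h2 : (QuotientGroup.mk s : H ⧸ N) ^ Nat.card S = 1 := by
    have h4 : s ^ Nat.card S = 1 :=
      orderOf_dvd_iff_pow_eq_one.mp (Subgroup.orderOf_dvd_natCard S hs)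
    rw [← QuotientGroup.mk_pow, h4]; rfl
  have hcop : (r ^ k).Coprime (Nat.card S) :=
    Nat.Coprime.pow_left k ((Nat.Prime.coprime_iff_not_dvd hr).mpr hS)
  have h5 : (QuotientGroup.mk s : H ⧸ N) = 1 := by
    have := pow_gcd_eq_one.mpr ⟨hk, h2⟩
    rwa [hcop.gcd_eq_one, pow_one] at this
  exact (QuotientGroup.eq_one_iff s).mp h5

theorem core_ne_top {r : ℕ} (hr : r.Prime) (hd : r ∣ Nat.card H) : pPrimeCore r H ≠ ⊤ := by
  intro h
  have h1 := pPrimeCore_coprime r H
  rw [h, Subgroup.card_top] at h1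
  exact hr.one_lt.ne' (Nat.eq_one_of_dvd_coprimes h1.symm (dvd_refl r) hd)

/-- Key step: the centralizer of a `p`-element is a `p`-group. -/
theorem not_dvd_of_pelement (hS : Hyp H) {x : H} (hx : x ≠ 1) {p k : ℕ} (hp : p.Prime)
    (hk : x ^ (p ^ k) = 1) {r : ℕ} (hr : r.Prime) (hrp : r ≠ p) :
    ¬ r ∣ Nat.card (centralizer ({x} : Set H)) := by
  classical
  intro hdvd
  haveI : Fact r.Prime := ⟨hr⟩
  have hcop : ∀ v : H, v ≠ 1 → (∃ m, v ^ r ^ m = 1) → v * x = x * v →
      centralizer ({v} : Set H) = centralizer ({x} : Set H) := by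
    rintro v hv ⟨m, hm⟩ hvx
    refine (hS.P1 x v hx hv hvx.symm ?_).symm
    exact Nat.Coprime.coprime_dvd_left (orderOf_dvd_of_pow_eq_one hk)
      (Nat.Coprime.coprime_dvd_right (orderOf_dvd_of_pow_eq_one hm)
        (Nat.coprime_pow_primes k m hp hr hrp.symm))
  obtain ⟨u', hu'⟩ := exists_prime_orderOf_dvd_card' r hdvd
  obtain ⟨u, hu⟩ : ∃ u : H, u = (u' : H) := ⟨_, rfl⟩
  have huM : u ∈ centralizer ({x} : Set H) := hu ▸ u'.2
  have huord : orderOf u = r := by rw [hu, Subgroup.orderOf_coe, hu']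
  have hu1 : u ≠ 1 := by
    intro h; rw [h, orderOf_one] at huord; exact hr.one_lt.ne huord
  have hux : u * x = x * u := Subgroup.mem_centralizer_singleton_iff.mp huM
  have hupow : u ^ r ^ 1 = 1 := by rw [pow_one, ← huord]; exact pow_orderOf_eq_one u
  have hCu : centralizer ({u} : Set H) = centralizer ({x} : Set H) := hcop u hu1 ⟨1, hupow⟩ hux
  -- a Sylow `r`-subgroup containing `u`
  have hzp : IsPGroup r (zpowers u) := by
    apply IsPGroup.of_card (n := 1)
    rw [Nat.card_zpowers, huord, pow_one]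
  obtain ⟨R, hR⟩ := hzp.exists_le_sylow
  have huR : u ∈ (R : Subgroup H) := hR (mem_zpowers u)
  haveI hRnt : Nontrivial (R : Subgroup H) :=
    ⟨⟨⟨u, huR⟩, 1, fun h => hu1 (congrArg Subtype.val h)⟩⟩
  -- a central element of the Sylow subgroup
  haveI := R.isPGroup'.center_nontrivial
  obtain ⟨z', hz'⟩ := exists_ne (1 : center (R : Subgroup H))
  obtain ⟨z, hz⟩ : ∃ z : H, z = ((z' : (R : Subgroup H)) : H) := ⟨_, rfl⟩
  have hzR : z ∈ (R : Subgroup H) := hz ▸ (z' : (R : Subgroup H)).2
  have hzcent : ∀ v ∈ (R : Subgroup H), v * z = z * v := by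
    intro v hv
    have := (Subgroup.mem_center_iff.mp z'.2) ⟨v, hv⟩
    have h0 : v * ((z' : (R : Subgroup H)) : H) = ((z' : (R : Subgroup H)) : H) * v :=
      congrArg Subtype.val this
    rw [hz]; exact h0
  have hz1 : z ≠ 1 := by
    intro h
    apply hz'
    apply Subtype.ext
    apply Subtype.ext
    simpa [← hz] using h
  have helt : ∀ v ∈ (R : Subgroup H), ∃ m, v ^ r ^ m = 1 := by
    intro v hv
    obtain ⟨m, hm⟩ := R.isPGroup' ⟨v, hv⟩
    refine ⟨m, ?_⟩
    have := congrArg Subtype.val hm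
    simpa using this
  -- `z` commutes with `x`
  have hzM : z ∈ centralizer ({x} : Set H) := by
    rw [← hCu, Subgroup.mem_centralizer_singleton_iff]
    exact (hzcent u huR).symm
  have hCz : centralizer ({z} : Set H) = centralizer ({x} : Set H) :=
    hcop z hz1 (helt z hzR) (Subgroup.mem_centralizer_singleton_iff.mp hzM)
  have hRM : (R : Subgroup H) ≤ centralizer ({x} : Set H) := by
    intro v hv
    rw [← hCz, Subgroup.mem_centralizer_singleton_iff]
    exact hzcent v hv
  have hCv : ∀ v ∈ (R : Subgroup H), v ≠ 1 →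
      centralizer ({v} : Set H) = centralizer ({x} : Set H) := by
    intro v hv hv1
    exact hcop v hv1 (helt v hv) (Subgroup.mem_centralizer_singleton_iff.mp (hRM hv))
  -- Burnside
  have hNC : normalizer ((R : Subgroup H) : Set H) ≤ centralizer ((R : Subgroup H) : Set H) := by
    intro g hg
    have hgz : g * z * g⁻¹ ∈ (R : Subgroup H) := (Subgroup.mem_normalizer_iff.mp hg z).mp hzR
    have hgz1 : g * z * g⁻¹ ≠ 1 := by
      intro h
      apply hz1
      have : g⁻¹ * (g * z * g⁻¹) * g = z := by group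
      rw [← this, h]; group
    have h1 : centralizer ({g * z * g⁻¹} : Set H) = centralizer ({z} : Set H) :=
      (hCv _ hgz hgz1).trans hCz.symm
    have h2 : g ∈ centralizer ({z} : Set H) :=
      hS.P3 z hz1 (mem_normalizer_of_centralizer_conj h1)
    rw [hCz] at h2
    rw [Subgroup.mem_centralizer_iff]
    intro v hv
    by_cases hv1 : v = 1
    · rw [hv1]; group
    · have h3 : g ∈ centralizer ({v} : Set H) := by rw [hCv v hv hv1]; exact h2
      exact (Subgroup.mem_centralizer_singleton_iff.mp h3).symm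
  have hB : HasNormalPComplement r H := Cfsg.Agent.Lib.Transfer.hasNormalPComplement_of_burnside R hNC
  have hrH : r ∣ Nat.card H :=
    hdvd.trans (Subgroup.card_subgroup_dvd_card _)
  have hctop := core_ne_top (H := H) hr hrH
  -- every prime fails to divide the index of `M`
  have hidx : ∀ q : ℕ, q.Prime → ¬ q ∣ (centralizer ({x} : Set H)).index := by
    intro q hq hqd
    haveI : Fact q.Prime := ⟨hq⟩
    by_cases hqr : q = r
    · subst hqr
      have h1 : (centralizer ({x} : Set H)).index ∣ (R : Subgroup H).index :=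
        Subgroup.index_dvd_of_le hRM
      exact R.not_dvd_index (hqd.trans h1)
    · have hqH : q ∣ Nat.card H := by
        rw [← Subgroup.index_mul_card (centralizer ({x} : Set H))]
        exact hqd.mul_right _
      obtain ⟨Q⟩ : Nonempty (Sylow q H) := inferInstance
      haveI hQnt : Nontrivial (Q : Subgroup H) := by
        rw [Subgroup.nontrivial_iff_ne_bot]
        exact Q.ne_bot_of_dvd_card hqH
      haveI := Q.isPGroup'.center_nontrivial
      obtain ⟨w', hw'⟩ := exists_ne (1 : center (Q : Subgroup H))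
      obtain ⟨w, hw⟩ : ∃ w : H, w = ((w' : (Q : Subgroup H)) : H) := ⟨_, rfl⟩
      have hwQ : w ∈ (Q : Subgroup H) := hw ▸ (w' : (Q : Subgroup H)).2
      have hwcent : ∀ v ∈ (Q : Subgroup H), v * w = w * v := by
        intro v hv
        have := (Subgroup.mem_center_iff.mp w'.2) ⟨v, hv⟩
        have h0 : v * ((w' : (Q : Subgroup H)) : H) = ((w' : (Q : Subgroup H)) : H) * v :=
          congrArg Subtype.val this
        rw [hw]; exact h0
      have hw1 : w ≠ 1 := by
        intro h
        apply hw'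
        apply Subtype.ext
        apply Subtype.ext
        simpa [← hw] using h
      have hQM' : (Q : Subgroup H) ≤ centralizer ({w} : Set H) := by
        intro v hv
        rw [Subgroup.mem_centralizer_singleton_iff]
        exact hwcent v hv
      by_cases hrM' : r ∣ Nat.card (centralizer ({w} : Set H))
      · obtain ⟨a', ha'⟩ := exists_prime_orderOf_dvd_card' r hrM'
        obtain ⟨a, ha⟩ : ∃ a : H, a = (a' : H) := ⟨_, rfl⟩
        have haM : a ∈ centralizer ({w} : Set H) := ha ▸ a'.2
        have haord : orderOf a = r := by rw [ha, Subgroup.orderOf_coe, ha']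
        have ha1 : a ≠ 1 := by
          intro h; rw [h, orderOf_one] at haord; exact hr.one_lt.ne haord
        obtain ⟨m, hm⟩ : ∃ m, w ^ q ^ m = 1 := by
          obtain ⟨m, hm⟩ := Q.isPGroup' ⟨w, hwQ⟩
          refine ⟨m, ?_⟩
          have := congrArg Subtype.val hm
          simpa using this
        have hca : centralizer ({w} : Set H) = centralizer ({a} : Set H) := by
          refine hS.P1 w a hw1 ha1 (Subgroup.mem_centralizer_singleton_iff.mp haM).symm ?_
          rw [haord]
          exact Nat.Coprime.coprime_dvd_left (orderOf_dvd_of_pow_eq_one hm)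
            (Nat.Coprime.pow_left m ((Nat.coprime_primes hq hr).mpr hqr))
        -- `a` is conjugate into `R`
        have hap : IsPGroup r (zpowers a) := by
          apply IsPGroup.of_card (n := 1)
          rw [Nat.card_zpowers, haord, pow_one]
        obtain ⟨R', hR'⟩ := hap.exists_le_sylow
        obtain ⟨g, hg⟩ := MulAction.exists_smul_eq H R R'
        have haR' : a ∈ (R' : Subgroup H) := hR' (mem_zpowers a)
        have haR'2 : a ∈ (g • R : Sylow r H) := by rw [hg]; exact haR'
        have hv : g⁻¹ * a * g ∈ (R : Subgroup H) := by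
          rw [Sylow.smul_def] at haR'2
          have h5 := (Subgroup.mem_smul_pointwise_iff_exists _ _ _).mp haR'2
          obtain ⟨b, hb, hb2⟩ := h5
          have : g⁻¹ * a * g = b := by
            rw [← hb2]
            simp [MulAut.smul_def]
            group
          rw [this]; exact hb
        have hv1 : g⁻¹ * a * g ≠ 1 := by
          intro h
          apply ha1
          have : a = g * (g⁻¹ * a * g) * g⁻¹ := by group
          rw [this, h]; group
        have hCg : centralizer ({g⁻¹ * a * g} : Set H) = centralizer ({x} : Set H) :=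
          hCv _ hv hv1
        -- hence `Q` lies in a conjugate of `M`
        have hQconj : ((Q : Subgroup H).map (MulAut.conj g⁻¹).toMonoidHom) ≤
            centralizer ({x} : Set H) := by
          rintro _ ⟨v, hv, rfl⟩
          have h1 : v ∈ centralizer ({a} : Set H) := by rw [← hca]; exact hQM' hv
          rw [← hCg]
          have h2 := (centralizer_conj_eq (g := g⁻¹) (z := a) (y := g⁻¹ * v * g⁻¹⁻¹))
          have h3 : g⁻¹⁻¹ * (g⁻¹ * v * g⁻¹⁻¹) * g⁻¹ = v := by group
          have h4 : g⁻¹ * a * g⁻¹⁻¹ = g⁻¹ * a * g := by group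
          rw [h3, h4] at h2
          exact h2.mpr h1
        have hidx2 : (centralizer ({x} : Set H)).index ∣ (Q : Subgroup H).index := by
          have h1 := Subgroup.index_dvd_of_le hQconj
          rwa [Subgroup.index_map_of_bijective (MulAut.conj g⁻¹).bijective] at h1
        exact Q.not_dvd_index (hqd.trans hidx2)
      · have hle : centralizer ({w} : Set H) ≤ pPrimeCore r H :=
          le_core_of_complement hB _ hrM'
        exact hS.P4 w _ hw1 inferInstance hctop hle
  have hidx1 : (centralizer ({x} : Set H)).index = 1 := by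
    by_contra hne
    obtain ⟨q, hq, hqd⟩ := Nat.exists_prime_and_dvd hne
    exact hidx q hq hqd
  rw [Subgroup.index_eq_one] at hidx1
  exact hS.ne_top x hx hidx1

theorem isPGroup_of_pelement (hS : Hyp H) {x : H} (hx : x ≠ 1) {p k : ℕ} (hp : p.Prime)
    (hk : x ^ (p ^ k) = 1) : IsPGroup p (centralizer ({x} : Set H)) := by
  apply IsPGroup.of_card (n := (Nat.card (centralizer ({x} : Set H))).primeFactorsList.length)
  apply Nat.eq_prime_pow_of_unique_prime_dvd Nat.card_pos.ne'
  intro d hd hdd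
  by_contra hne
  exact not_dvd_of_pelement hS hx hp hk hd hne hdd

/-- Every non-identity element has a Sylow subgroup as its centralizer. -/
theorem exists_sylow_eq (hS : Hyp H) {x : H} (hx : x ≠ 1) :
    ∃ (p : ℕ) (_ : Fact p.Prime) (P : Sylow p H), centralizer ({x} : Set H) = (P : Subgroup H) := by
  have hord : orderOf x ≠ 1 := by rwa [Ne, orderOf_eq_one_iff]
  obtain ⟨p, hp, hpd⟩ := Nat.exists_prime_and_dvd hord
  haveI : Fact p.Prime := ⟨hp⟩
  obtain ⟨m, hm⟩ : ∃ m, m = orderOf x / p := ⟨_, rfl⟩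
  have hy : (x ^ m) ^ p = 1 := by
    rw [← pow_mul, hm, Nat.div_mul_cancel hpd, pow_orderOf_eq_one]
  have hy1 : x ^ m ≠ 1 := by
    intro h
    have h1 : orderOf x ∣ m := orderOf_dvd_of_pow_eq_one h
    have h2 : 0 < orderOf x := orderOf_pos x
    have h3 : m < orderOf x := by
      rw [hm]; exact Nat.div_lt_self h2 hp.one_lt
    have h4 : 0 < m := by
      rw [hm]; exact Nat.div_pos (Nat.le_of_dvd h2 hpd) hp.pos
    exact absurd (Nat.le_of_dvd h4 h1) (not_le.mpr h3)
  have hC : centralizer ({x} : Set H) = centralizer ({x ^ m} : Set H) := hS.P2 x m hy1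
  have hpg : IsPGroup p (centralizer ({x} : Set H)) := by
    rw [hC]
    exact isPGroup_of_pelement hS hy1 hp (k := 1) (by rwa [pow_one])
  obtain ⟨P, hP⟩ := hpg.exists_le_sylow
  refine ⟨p, inferInstance, P, ?_⟩
  by_contra hne
  obtain ⟨g, hgP, hg, hgN⟩ := exists_mem_normalizer_of_lt P.isPGroup' (lt_of_le_of_ne hP hne)
  exact hg (hS.P3 x hx hgN)

/-- A central element of a Sylow subgroup has this Sylow subgroup as its centralizer. -/
theorem centralizer_eq_sylow (hS : Hyp H) {p : ℕ} [Fact p.Prime] (P : Sylow p H) {z : H}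
    (hz : z ∈ (P : Subgroup H)) (hz1 : z ≠ 1) (hc : ∀ v ∈ (P : Subgroup H), v * z = z * v) :
    centralizer ({z} : Set H) = (P : Subgroup H) := by
  obtain ⟨k, hk⟩ : ∃ k, z ^ p ^ k = 1 := by
    obtain ⟨m, hm⟩ := P.isPGroup' ⟨z, hz⟩
    refine ⟨m, ?_⟩
    have := congrArg Subtype.val hm
    simpa using this
  have h1 := isPGroup_of_pelement hS hz1 (Fact.out) hk
  have hle : (P : Subgroup H) ≤ centralizer ({z} : Set H) := by
    intro v hv
    rw [Subgroup.mem_centralizer_singleton_iff]
    exact hc v hv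
  exact P.is_maximal' h1 hle

theorem exists_central_ne_one {p : ℕ} [Fact p.Prime] (P : Sylow p H) (hd : p ∣ Nat.card H) :
    ∃ z ∈ (P : Subgroup H), z ≠ 1 ∧ ∀ v ∈ (P : Subgroup H), v * z = z * v := by
  haveI hQnt : Nontrivial (P : Subgroup H) := by
    rw [Subgroup.nontrivial_iff_ne_bot]
    exact P.ne_bot_of_dvd_card hd
  haveI := P.isPGroup'.center_nontrivial
  obtain ⟨w', hw'⟩ := exists_ne (1 : center (P : Subgroup H))
  refine ⟨((w' : (P : Subgroup H)) : H), (w' : (P : Subgroup H)).2, ?_, ?_⟩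
  · intro h
    apply hw'
    apply Subtype.ext
    apply Subtype.ext
    simpa using h
  · intro v hv
    have := (Subgroup.mem_center_iff.mp w'.2) ⟨v, hv⟩
    exact congrArg Subtype.val this

theorem exists_other_prime (hS : Hyp H) [Nontrivial H] {p : ℕ} (hp : p.Prime) :
    ∃ q : ℕ, q.Prime ∧ q ≠ p ∧ q ∣ Nat.card H := by
  by_contra hcon
  push Not at hcon
  haveI : Fact p.Prime := ⟨hp⟩
  have h1 : IsPGroup p H := by
    apply IsPGroup.of_card (n := (Nat.card H).primeFactorsList.length)
    apply Nat.eq_prime_pow_of_unique_prime_dvd Nat.card_pos.ne'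
    intro d hd hdd
    by_contra hne
    exact hcon d hd hne hdd
  haveI := h1.center_nontrivial
  obtain ⟨w, hw⟩ := exists_ne (1 : center H)
  have hw1 : (w : H) ≠ 1 := fun h => hw (Subtype.ext h)
  apply hS.ne_top _ hw1
  rw [eq_top_iff]
  intro g _
  rw [Subgroup.mem_centralizer_singleton_iff]
  exact (Subgroup.mem_center_iff.mp w.2 g)

/-- Every Sylow subgroup for a prime dividing the group order is non-abelian. -/
theorem sylow_not_comm (hS : Hyp H) [Nontrivial H] {p : ℕ} [Fact p.Prime] (P : Sylow p H)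
    (hd : p ∣ Nat.card H) : ¬ ∀ a ∈ (P : Subgroup H), ∀ b ∈ (P : Subgroup H), a * b = b * a := by
  intro hcomm
  have hp : p.Prime := Fact.out
  obtain ⟨z, hzP, hz1, hzc⟩ := exists_central_ne_one P hd
  have hC := centralizer_eq_sylow hS P hzP hz1 hzc
  have hNC : normalizer ((P : Subgroup H) : Set H) ≤ centralizer ((P : Subgroup H) : Set H) := by
    intro g hg
    rw [← hC] at hg
    have h2 := hS.P3 z hz1 hg
    rw [hC] at h2
    rw [Subgroup.mem_centralizer_iff]
    intro v hv
    exact hcomm v hv g h2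
  have hB : HasNormalPComplement p H := Cfsg.Agent.Lib.Transfer.hasNormalPComplement_of_burnside P hNC
  obtain ⟨q, hq, hqp, hqd⟩ := exists_other_prime hS hp
  haveI : Fact q.Prime := ⟨hq⟩
  obtain ⟨Q⟩ : Nonempty (Sylow q H) := inferInstance
  obtain ⟨w, hwQ, hw1, hwc⟩ := exists_central_ne_one Q hqd
  have hCw := centralizer_eq_sylow hS Q hwQ hw1 hwc
  have hnd : ¬ p ∣ Nat.card (Q : Subgroup H) := by
    obtain ⟨k, hk⟩ := IsPGroup.iff_card.mp Q.isPGroup'
    rw [hk]
    intro h
    exact hqp ((Nat.prime_dvd_prime_iff_eq hp hq).mp (hp.dvd_of_dvd_pow h)).symm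
  have hle : (Q : Subgroup H) ≤ pPrimeCore p H := le_core_of_complement hB _ hnd
  rw [← hCw] at hle
  exact hS.P4 w _ hw1 inferInstance (core_ne_top hp hd) hle

/-- A non-abelian `p`-group has centre of index at least `p²`. -/
theorem card_center_mul_sq_le {A : Type*} [Group A] [Finite A] {p : ℕ} (hp : p.Prime)
    (hA : IsPGroup p A) (hna : ¬ ∀ a b : A, a * b = b * a) :
    Nat.card (center A) * p ^ 2 ≤ Nat.card A := by
  haveI : Fact p.Prime := ⟨hp⟩
  rw [← Subgroup.card_mul_index (center A)]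
  apply Nat.mul_le_mul_left
  obtain ⟨n, hn⟩ := IsPGroup.iff_card.mp hA
  have hdvd : (center A).index ∣ p ^ n := by
    rw [← hn]; exact Subgroup.index_dvd_card _
  obtain ⟨m, -, hm⟩ := (Nat.dvd_prime_pow hp).mp hdvd
  rw [hm]
  apply Nat.pow_le_pow_right hp.pos
  by_contra hlt
  have hm01 : m = 0 ∨ m = 1 := by omega
  rcases hm01 with rfl | rfl
  · rw [pow_zero, Subgroup.index_eq_one] at hm
    apply hna
    intro a b
    have : a ∈ center A := by rw [hm]; trivial
    exact (Subgroup.mem_center_iff.mp this b).symm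
  · rw [pow_one] at hm
    have hcard : Nat.card (A ⧸ center A) = p := hm
    haveI : IsCyclic (A ⧸ center A) := isCyclic_of_prime_card hcard
    apply hna
    intro a b
    exact (commutative_of_cyclic_center_quotient (QuotientGroup.mk' (center A))
      (by rw [QuotientGroup.ker_mk'])) a b

/-- The abstract exclusion. -/
theorem false_of_hyp (hS : Hyp H) [Nontrivial H] : False := by
  classical
  haveI : Fintype H := Fintype.ofFinite H
  obtain ⟨π, hπ⟩ : ∃ π, π = (Nat.card H).primeFactors := ⟨_, rfl⟩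
  have hne : ∀ p, Nonempty (Sylow p H) := fun p => inferInstance
  let Pf : ∀ p, Sylow p H := fun p => Classical.choice (hne p)
  let F : ∀ p, (H ⧸ (Pf p : Subgroup H)) × center (Pf p : Subgroup H) → H :=
    fun p c => c.1.out * (((c.2 : (Pf p : Subgroup H))) : H) * c.1.out⁻¹
  have hcover : ∀ x : H, x ≠ 1 → ∃ p ∈ π, x ∈ Set.range (F p) := by
    intro x hx
    obtain ⟨p, hf, P, hP⟩ := exists_sylow_eq hS hx
    have hxP : x ∈ (P : Subgroup H) := by
      rw [← hP, Subgroup.mem_centralizer_singleton_iff]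
    have hpd : p ∣ Nat.card H := by
      have h1 : Nat.card (P : Subgroup H) ≠ 1 := by
        intro h
        have := Subgroup.eq_bot_of_card_eq _ h
        rw [this] at hxP
        exact hx (Subgroup.mem_bot.mp hxP)
      obtain ⟨k, hk⟩ := IsPGroup.iff_card.mp P.isPGroup'
      have hk0 : k ≠ 0 := by
        rintro rfl
        exact h1 (by simpa using hk)
      have h2 : p ∣ Nat.card (P : Subgroup H) := by
        rw [hk]; exact dvd_pow_self p hk0
      exact h2.trans (Subgroup.card_subgroup_dvd_card _)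
    refine ⟨p, ?_, ?_⟩
    · rw [hπ, Nat.mem_primeFactors]
      exact ⟨Fact.out, hpd, Nat.card_pos.ne'⟩
    · obtain ⟨g, hg⟩ := MulAction.exists_smul_eq H (Pf p) P
      have hz : g⁻¹ * x * g ∈ (Pf p : Subgroup H) := by
        have hxP2 : x ∈ (g • Pf p : Sylow p H) := by rw [hg]; exact hxP
        rw [Sylow.smul_def] at hxP2
        obtain ⟨b, hb, hb2⟩ := (Subgroup.mem_smul_pointwise_iff_exists _ _ _).mp hxP2
        have : g⁻¹ * x * g = b := by
          rw [← hb2]
          simp [MulAut.smul_def]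
          group
        rw [this]; exact hb
      have hzc : ((⟨g⁻¹ * x * g, hz⟩ : (Pf p : Subgroup H))) ∈ center (Pf p : Subgroup H) := by
        rw [Subgroup.mem_center_iff]
        rintro ⟨v, hv⟩
        apply Subtype.ext
        show v * (g⁻¹ * x * g) = g⁻¹ * x * g * v
        have hv2 : g * v * g⁻¹ ∈ (P : Subgroup H) := by
          rw [← hg, Sylow.smul_def]
          exact (Subgroup.mem_smul_pointwise_iff_exists _ _ _).mpr ⟨v, hv, by simp [MulAut.smul_def]⟩
        have hv3 : g * v * g⁻¹ ∈ centralizer ({x} : Set H) := by rw [hP]; exact hv2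
        have hv4 := Subgroup.mem_centralizer_singleton_iff.mp hv3
        have h3 : g⁻¹ * (g * v * g⁻¹ * x) * g = g⁻¹ * (x * (g * v * g⁻¹)) * g := by rw [hv4]
        calc v * (g⁻¹ * x * g) = g⁻¹ * (g * v * g⁻¹ * x) * g := by group
          _ = g⁻¹ * (x * (g * v * g⁻¹)) * g := h3
          _ = g⁻¹ * x * g * v := by group
      refine ⟨(QuotientGroup.mk g, ⟨_, hzc⟩), ?_⟩
      obtain ⟨u, hu⟩ := QuotientGroup.mk_out_eq_mul (Pf p : Subgroup H) g
      show (QuotientGroup.mk g : H ⧸ (Pf p : Subgroup H)).out * (g⁻¹ * x * g) *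
        (QuotientGroup.mk g : H ⧸ (Pf p : Subgroup H)).out⁻¹ = x
      rw [hu]
      have hcomm : (u : H) * (g⁻¹ * x * g) = (g⁻¹ * x * g) * (u : H) := by
        have := (Subgroup.mem_center_iff.mp hzc) u
        have h0 : (u : H) * (g⁻¹ * x * g) = (g⁻¹ * x * g) * (u : H) := congrArg Subtype.val this
        exact h0
      calc g * (u : H) * (g⁻¹ * x * g) * (g * (u : H))⁻¹
          = g * ((u : H) * (g⁻¹ * x * g)) * (u : H)⁻¹ * g⁻¹ := by group
        _ = g * ((g⁻¹ * x * g) * (u : H)) * (u : H)⁻¹ * g⁻¹ := by rw [hcomm]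
        _ = x := by group
  -- the count
  have hcard : ∀ p ∈ π, Nat.card (Set.range (F p)) * p ^ 2 ≤ Nat.card H := by
    intro p hp
    rw [hπ, Nat.mem_primeFactors] at hp
    haveI : Fact p.Prime := ⟨hp.1⟩
    have h1 : Nat.card (Set.range (F p)) ≤
        Nat.card ((H ⧸ (Pf p : Subgroup H)) × center (Pf p : Subgroup H)) :=
      Finite.card_range_le (F p)
    rw [Nat.card_prod] at h1
    have h2 := card_center_mul_sq_le hp.1 (Pf p).isPGroup' (by
      intro hc
      apply sylow_not_comm hS (Pf p) hp.2.1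
      intro a ha b hb
      exact congrArg Subtype.val (hc ⟨a, ha⟩ ⟨b, hb⟩))
    have h3 : Nat.card (H ⧸ (Pf p : Subgroup H)) * Nat.card (Pf p : Subgroup H) = Nat.card H :=
      Subgroup.index_mul_card _
    calc Nat.card (Set.range (F p)) * p ^ 2
        ≤ Nat.card (H ⧸ (Pf p : Subgroup H)) * Nat.card (center (Pf p : Subgroup H)) * p ^ 2 :=
          Nat.mul_le_mul_right _ h1
      _ = Nat.card (H ⧸ (Pf p : Subgroup H)) * (Nat.card (center (Pf p : Subgroup H)) * p ^ 2) := by
          ring
      _ ≤ Nat.card (H ⧸ (Pf p : Subgroup H)) * Nat.card (Pf p : Subgroup H) :=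
          Nat.mul_le_mul_left _ h2
      _ = Nat.card H := h3
  -- now cover
  obtain ⟨n, hn⟩ : ∃ n, n = Nat.card H := ⟨_, rfl⟩
  have hn2 : 1 < n := by rw [hn]; exact Finite.one_lt_card
  have hsub : (Finset.univ : Finset H) ⊆ π.biUnion (fun p => (Set.range (F p)).toFinset) ∪ {1} := by
    intro x _
    by_cases hx : x = 1
    · simp [hx]
    · obtain ⟨p, hp, hxp⟩ := hcover x hx
      apply Finset.mem_union_left
      rw [Finset.mem_biUnion]
      exact ⟨p, hp, by simpa using hxp⟩
  have hπ1 : π.Nonempty := by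
    rw [hπ, Nat.nonempty_primeFactors, ← hn]; exact hn2
  -- `1` is also covered: enlarge
  have h1cov : (1 : H) ∈ π.biUnion (fun p => (Set.range (F p)).toFinset) := by
    obtain ⟨p, hp⟩ := hπ1
    rw [Finset.mem_biUnion]
    refine ⟨p, hp, ?_⟩
    rw [Set.mem_toFinset]
    refine ⟨(QuotientGroup.mk 1, 1), ?_⟩
    simp [F]
  have hsub2 : (Finset.univ : Finset H) ⊆ π.biUnion (fun p => (Set.range (F p)).toFinset) := by
    intro x hx
    have := hsub hx
    rw [Finset.mem_union, Finset.mem_singleton] at this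
    rcases this with h | h
    · exact h
    · rw [h]; exact h1cov
  have hle1 : n ≤ ∑ p ∈ π, Nat.card (Set.range (F p)) := by
    calc n = (Finset.univ : Finset H).card := by
          rw [hn, Nat.card_eq_fintype_card]; rfl
      _ ≤ (π.biUnion (fun p => (Set.range (F p)).toFinset)).card := Finset.card_le_card hsub2
      _ ≤ ∑ p ∈ π, ((Set.range (F p)).toFinset).card := Finset.card_biUnion_le
      _ = ∑ p ∈ π, Nat.card (Set.range (F p)) := by
          apply Finset.sum_congr rfl
          intro p _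
          rw [Set.toFinset_card, Nat.card_eq_fintype_card]
  have hq1 : ((n : ℕ) : ℚ) ≤ ∑ p ∈ π, (n : ℚ) * ((p : ℚ) ^ 2)⁻¹ := by
    have h1 : ((n : ℕ) : ℚ) ≤ ∑ p ∈ π, (Nat.card (Set.range (F p)) : ℚ) := by
      exact_mod_cast hle1
    refine h1.trans (Finset.sum_le_sum ?_)
    intro p hp
    have hp2 : (p : ℚ) ≠ 0 := by
      rw [hπ, Nat.mem_primeFactors] at hp
      exact_mod_cast hp.1.ne_zero
    have hpos : (0 : ℚ) < (p : ℚ) ^ 2 := by positivity
    have h3 := hcard p hp
    rw [← hn] at h3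
    have h4 : (Nat.card (Set.range (F p)) : ℚ) * (p : ℚ) ^ 2 ≤ (n : ℚ) := by exact_mod_cast h3
    rw [← div_eq_mul_inv, le_div_iff₀ hpos]
    exact h4
  rw [← Finset.mul_sum] at hq1
  have hsum : ∑ p ∈ π, ((p : ℚ) ^ 2)⁻¹ < 1 := by
    have hs1 : π ⊆ Finset.Ioc 1 n := by
      intro p hp
      rw [hπ, Nat.mem_primeFactors] at hp
      rw [Finset.mem_Ioc]
      refine ⟨hp.1.one_lt, ?_⟩
      rw [hn]
      exact Nat.le_of_dvd Nat.card_pos hp.2.1
    have hs2 : ∑ p ∈ π, ((p : ℚ) ^ 2)⁻¹ ≤ ∑ p ∈ Finset.Ioc 1 n, ((p : ℚ) ^ 2)⁻¹ :=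
      Finset.sum_le_sum_of_subset_of_nonneg hs1 (fun _ _ _ => by positivity)
    have hs3 := sum_Ioc_inv_sq_le_sub (α := ℚ) (k := 1) (n := n) one_ne_zero hn2.le
    have hs4 : (0 : ℚ) < (n : ℚ)⁻¹ := by
      have : (0 : ℚ) < n := by exact_mod_cast (by omega : 0 < n)
      positivity
    have hs5 : ((1 : ℕ) : ℚ)⁻¹ = 1 := by norm_num
    rw [hs5] at hs3
    linarith
  have hnpos : (0 : ℚ) < n := by exact_mod_cast (by omega : 0 < n)
  have : (n : ℚ) * ∑ p ∈ π, ((p : ℚ) ^ 2)⁻¹ < (n : ℚ) * 1 := mul_lt_mul_of_pos_left hsum hnpos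
  linarith

end Cfsg.Agent.Lib.PGroup.MaxCent
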