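import Mathlib
import Cfsg.Agent.Lib.PGroup.MaxCentA

/-!
Groups `A` with a group `G` acting so that all inner automorphisms are induced and the stabilizers
of the non-central elements are maximal: basic facts and the case of a nontrivial central quotient.
-/

namespace Cfsg.Agent.Lib.PGroup.MaxCent

open Subgroup
open scoped commutatorElement

variable {A G : Type*} [Group A] [Group G]

/-- The stabilizer of an element of `A` in `G`. -/
def St (φ : G →* MulAut A) (x : A) : Subgroup G where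
  carrier := {g | φ g x = x}
  mul_mem' := by
    intro a b ha hb
    show φ (a * b) x = x
    have ha' : φ a x = x := ha
    have hb' : φ b x = x := hb
    rw [map_mul, MulAut.mul_apply, hb', ha']
  one_mem' := by
    show φ 1 x = x
    rw [map_one, MulAut.one_apply]
  inv_mem' := by
    intro a ha
    show φ a⁻¹ x = x
    have ha' : φ a x = x := ha
    have h2 : (φ a)⁻¹ (φ a x) = x := MulAut.inv_apply_self _ (φ a) x
    rw [ha'] at h2
    rw [map_inv]
    exact h2

theorem mem_St {φ : G →* MulAut A} {x : A} {g : G} : g ∈ St φ x ↔ φ g x = x := Iff.rfl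

/-- The standing hypotheses. -/
structure Act (φ : G →* MulAut A) : Prop where
  inn : ∀ a : A, ∃ g : G, φ g = MulAut.conj a
  co : ∀ x : A, x ∉ center A → IsCoatom (St φ x)

/-- `K` is invariant under the action. -/
def Inv (φ : G →* MulAut A) (K : Subgroup A) : Prop := ∀ g : G, ∀ k ∈ K, φ g k ∈ K

variable {φ : G →* MulAut A}

theorem mem_St_of_inn {g : G} {a x : A} (hg : φ g = MulAut.conj a) :
    g ∈ St φ x ↔ a ∈ centralizer ({x} : Set A) := by
  rw [mem_St, hg, MulAut.conj_apply, Subgroup.mem_centralizer_singleton_iff]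
  constructor
  · intro h
    calc a * x = a * x * a⁻¹ * a := by group
      _ = x * a := by rw [h]
  · intro h
    rw [h]; group

theorem St_eq_of_le (h : Act φ) {x y : A} (hx : x ∉ center A) (hy : y ∉ center A)
    (hle : St φ x ≤ St φ y) : St φ x = St φ y := by
  by_contra hne
  exact (h.co y hy).1 ((h.co x hx).2 _ (lt_of_le_of_ne hle hne))

theorem D_eq_of_St_eq (h : Act φ) {x y : A} (e : St φ x = St φ y) :
    centralizer ({x} : Set A) = centralizer ({y} : Set A) := by
  ext a
  obtain ⟨g, hg⟩ := h.inn a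
  rw [← mem_St_of_inn hg, ← mem_St_of_inn hg, e]

theorem St_le_of_mem_zpowers {x y : A} (hy : y ∈ zpowers x) : St φ x ≤ St φ y := by
  intro g hg
  obtain ⟨n, rfl⟩ := hy
  have hg' : φ g x = x := hg
  show φ g (x ^ n) = x ^ n
  rw [map_zpow, hg']

theorem St_le_of_pow {x : A} (n : ℕ) : St φ x ≤ St φ (x ^ n) :=
  St_le_of_mem_zpowers (npow_mem_zpowers x n)

theorem St_preserves_D {x a : A} {g : G} (hg : g ∈ St φ x) (ha : a ∈ centralizer ({x} : Set A)) :
    φ g a ∈ centralizer ({x} : Set A) := by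
  have hg' : φ g x = x := hg
  rw [Subgroup.mem_centralizer_singleton_iff] at ha ⊢
  calc φ g a * x = φ g a * φ g x := by rw [hg']
    _ = φ g (a * x) := (map_mul _ _ _).symm
    _ = φ g (x * a) := by rw [ha]
    _ = φ g x * φ g a := map_mul _ _ _
    _ = x * φ g a := by rw [hg']

theorem inv_center : Inv φ (center A) := by
  intro g k hk
  rw [Subgroup.mem_center_iff] at hk ⊢
  intro b
  have h1 := hk ((φ g)⁻¹ b)
  have h2 := congrArg (φ g) h1
  rw [map_mul, map_mul, MulAut.apply_inv_self] at h2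
  exact h2

theorem inv_inf {K L : Subgroup A} (hK : Inv φ K) (hL : Inv φ L) : Inv φ (K ⊓ L) := by
  intro g k hk
  exact Subgroup.mem_inf.mpr ⟨hK g k (Subgroup.mem_inf.mp hk).1, hL g k (Subgroup.mem_inf.mp hk).2⟩

theorem inv_apply_mem {K : Subgroup A} (hK : Inv φ K) (g : G) {k : A} (hk : k ∈ K) :
    (φ g)⁻¹ k ∈ K := by
  have := hK g⁻¹ k hk
  rwa [map_inv] at this

theorem normal_of_inv (h : Act φ) {U : Subgroup A} (hU : Inv φ U) : U.Normal := by
  refine ⟨fun u hu a => ?_⟩
  obtain ⟨g, hg⟩ := h.inn a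
  have := hU g u hu
  rwa [hg, MulAut.conj_apply] at this

/-- The coatom principle. -/
theorem inv_of_not_mem (h : Act φ) (U : Subgroup A) {x : A} (hx : x ∉ center A)
    (hSt : ∀ g ∈ St φ x, ∀ u ∈ U, φ g u ∈ U) (a : A) (ha : a ∉ centralizer ({x} : Set A))
    (hn : ∀ u ∈ U, a * u * a⁻¹ ∈ U ∧ a⁻¹ * u * a ∈ U) : Inv φ U := by
  let NN : Subgroup G :=
    { carrier := {g | ∀ u ∈ U, φ g u ∈ U ∧ (φ g)⁻¹ u ∈ U}
      mul_mem' := by
        intro g₁ g₂ h₁ h₂ u hu
        constructor
        · rw [map_mul, MulAut.mul_apply]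
          exact (h₁ _ (h₂ u hu).1).1
        · rw [map_mul, mul_inv_rev, MulAut.mul_apply]
          exact (h₂ _ (h₁ u hu).2).2
      one_mem' := by
        intro u hu
        simpa using hu
      inv_mem' := by
        intro g₁ h₁ u hu
        rw [map_inv, inv_inv]
        exact ⟨(h₁ u hu).2, (h₁ u hu).1⟩ }
  have hle : St φ x ≤ NN := by
    intro g hg u hu
    refine ⟨hSt g hg u hu, ?_⟩
    have := hSt g⁻¹ (inv_mem hg) u hu
    rwa [map_inv] at this
  obtain ⟨ga, hga⟩ := h.inn a
  have hmem : ga ∈ NN := by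
    intro u hu
    rw [hga, MulAut.conj_apply, MulAut.conj_inv_apply]
    exact hn u hu
  have hnot : ga ∉ St φ x := by
    rw [mem_St_of_inn hga]; exact ha
  have hlt : St φ x < NN := lt_of_le_of_ne hle (fun e => hnot (e ▸ hmem))
  have htop : NN = ⊤ := (h.co x hx).2 _ hlt
  intro g u hu
  have : g ∈ NN := by rw [htop]; trivial
  exact (this u hu).1

theorem exists_not_mem_D {x : A} (hx : x ∉ center A) : ∃ a : A, a ∉ centralizer ({x} : Set A) := by
  rw [Subgroup.mem_center_iff] at hx
  push Not at hx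
  obtain ⟨a, ha⟩ := hx
  exact ⟨a, fun h => ha (Subgroup.mem_centralizer_singleton_iff.mp h)⟩

theorem inv_of_normal (h : Act φ) {x : A} (hx : x ∉ center A)
    (hn : (centralizer ({x} : Set A)).Normal) : Inv φ (centralizer ({x} : Set A)) := by
  obtain ⟨a, ha⟩ := exists_not_mem_D hx
  refine inv_of_not_mem h _ hx (fun g hg u hu => St_preserves_D hg hu) a ha (fun u hu => ⟨?_, ?_⟩)
  · exact hn.conj_mem u hu a
  · have := hn.conj_mem u hu a⁻¹
    rwa [inv_inv] at this

/-- The dichotomy for invariant subgroups. -/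
theorem dichotomy (h : Act φ) {K : Subgroup A} (hK : Inv φ K) {x : A} (hx : x ∉ center A) :
    K ≤ centralizer ({x} : Set A) ∨ ∀ a : A, ∃ d ∈ centralizer ({x} : Set A), ∃ k ∈ K, a = d * k := by
  let L : Subgroup G :=
    { carrier := {g | ∃ k ∈ K, φ g = MulAut.conj k}
      mul_mem' := by
        rintro g₁ g₂ ⟨k₁, hk₁, e₁⟩ ⟨k₂, hk₂, e₂⟩
        exact ⟨k₁ * k₂, mul_mem hk₁ hk₂, by rw [map_mul, map_mul, e₁, e₂]⟩
      one_mem' := ⟨1, one_mem _, by rw [map_one, map_one]⟩
      inv_mem' := by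
        rintro g₁ ⟨k₁, hk₁, e₁⟩
        exact ⟨k₁⁻¹, inv_mem hk₁, by rw [map_inv, map_inv, e₁]⟩ }
  have hLn : L.Normal := by
    refine ⟨?_⟩
    rintro l ⟨k, hk, e⟩ g
    refine ⟨φ g k, hK g k hk, ?_⟩
    ext u
    rw [map_mul, map_mul, map_inv, e, MulAut.mul_apply, MulAut.mul_apply, MulAut.conj_apply,
      MulAut.conj_apply, map_mul, map_mul, MulAut.apply_inv_self, map_inv]
  by_cases hL : L ≤ St φ x
  · left
    intro k hk
    obtain ⟨g, hg⟩ := h.inn k
    rw [← mem_St_of_inn hg]
    exact hL ⟨k, hk, hg⟩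
  · right
    intro a
    have hlt : St φ x < St φ x ⊔ L := by
      refine lt_of_le_of_ne le_sup_left (fun e => hL ?_)
      rw [e]; exact le_sup_right
    have htop : St φ x ⊔ L = ⊤ := (h.co x hx).2 _ hlt
    obtain ⟨g, hg⟩ := h.inn a
    have hgm : g ∈ St φ x ⊔ L := by rw [htop]; trivial
    obtain ⟨s, hs, l, ⟨k, hk, hl⟩, hsl⟩ := (Subgroup.mem_sup_of_normal_right).mp hgm
    refine ⟨a * k⁻¹, ?_, k, hk, by group⟩
    have hs' : φ s = MulAut.conj (a * k⁻¹) := by
      have h1 : φ s * φ l = MulAut.conj a := by rw [← map_mul, hsl, hg]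
      rw [hl] at h1
      rw [map_mul, map_inv, ← h1]
      group
    have hs2 := hs
    rw [mem_St_of_inn hs'] at hs2
    exact hs2

theorem eq_top_of_inv_of_ge (h : Act φ) {K : Subgroup A} (hK : Inv φ K) {x : A}
    (hx : x ∉ center A) (hle : centralizer ({x} : Set A) ≤ K)
    (hn : ¬ K ≤ centralizer ({x} : Set A)) : K = ⊤ := by
  rcases dichotomy h hK hx with h1 | h1
  · exact absurd h1 hn
  · rw [eq_top_iff]
    intro a _
    obtain ⟨d, hd, k, hk, rfl⟩ := h1 a
    exact mul_mem (hle hd) hk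

/-- Commuting elements of coprime order have the same stabilizer. -/
theorem St_eq_of_coprime (h : Act φ) {x y : A} (hx : x ∉ center A) (hy : y ∉ center A)
    (hc : x * y = y * x) (hcop : (orderOf x).Coprime (orderOf y)) : St φ x = St φ y := by
  have hcomm : Commute x y := hc
  obtain ⟨k, hk1, hk2⟩ := Nat.chineseRemainder hcop 1 0
  obtain ⟨l, hl1, hl2⟩ := Nat.chineseRemainder hcop 0 1
  have e1 : (x * y) ^ k = x := by
    rw [hcomm.mul_pow, pow_eq_pow_iff_modEq.mpr hk1, pow_one, pow_eq_pow_iff_modEq.mpr hk2, pow_zero,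
      mul_one]
  have e2 : (x * y) ^ l = y := by
    rw [hcomm.mul_pow, pow_eq_pow_iff_modEq.mpr hl1, pow_zero, pow_eq_pow_iff_modEq.mpr hl2, pow_one,
      one_mul]
  have hxy : x * y ∉ center A := by
    intro hm
    apply hx
    rw [← e1]
    exact pow_mem hm k
  have h1 : St φ (x * y) = St φ x :=
    St_eq_of_le h hxy hx (by have := St_le_of_pow (φ := φ) (x := x * y) k; rwa [e1] at this)
  have h2 : St φ (x * y) = St φ y :=
    St_eq_of_le h hxy hy (by have := St_le_of_pow (φ := φ) (x := x * y) l; rwa [e2] at this)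
  exact h1.symm.trans h2

/-- Conjugation by an element which commutes with `x` modulo the centre preserves `C(x)`. -/
theorem conj_mem_D_of_comm_central {x z u : A} (hc : ⁅x, z⁆ ∈ center A) (hu : u * x = x * u) :
    (z * u * z⁻¹) * x = x * (z * u * z⁻¹) := by
  obtain ⟨c, hcd⟩ : ∃ c, c = ⁅x, z⁆ := ⟨_, rfl⟩
  have hcc : ∀ w, w * c = c * w := by
    intro w; rw [hcd]; exact Subgroup.mem_center_iff.mp hc w
  have h1 : z⁻¹ * x * z = c * x := by
    have h2 : x * z = c * (z * x) := by
      rw [hcd, commutatorElement_def]; group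
    calc z⁻¹ * x * z = z⁻¹ * (x * z) := by group
      _ = z⁻¹ * (c * (z * x)) := by rw [h2]
      _ = (z⁻¹ * c) * (z * x) := by group
      _ = (c * z⁻¹) * (z * x) := by rw [hcc z⁻¹]
      _ = c * x := by group
  have h3 : x = z * (c * x) * z⁻¹ := by rw [← h1]; group
  have h4 : z * (c * x) * z⁻¹ * (z * u * z⁻¹) = z * u * z⁻¹ * (z * (c * x) * z⁻¹) := by
    have : c * x * u = u * (c * x) := by
      calc c * x * u = c * (x * u) := by group
        _ = c * (u * x) := by rw [hu]
        _ = (c * u) * x := by group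
        _ = (u * c) * x := by rw [hcc u]
        _ = u * (c * x) := by group
    calc z * (c * x) * z⁻¹ * (z * u * z⁻¹) = z * (c * x * u) * z⁻¹ := by group
      _ = z * (u * (c * x)) * z⁻¹ := by rw [this]
      _ = z * u * z⁻¹ * (z * (c * x) * z⁻¹) := by group
  rw [← h3] at h4
  exact h4.symm

theorem comm_inv_central {x z : A} (hc : ⁅x, z⁆ ∈ center A) : ⁅x, z⁻¹⁆ ∈ center A := by
  have h1 : ⁅x, z⁻¹⁆ = z⁻¹ * ⁅x, z⁆⁻¹ * z := by
    rw [commutatorElement_def, commutatorElement_def]; group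
  have h2 : ⁅x, z⁆⁻¹ ∈ center A := inv_mem hc
  rw [h1]
  have h3 := Subgroup.mem_center_iff.mp h2 z⁻¹
  rw [h3]
  simpa using h2

/-- Elements modulo a normal subgroup with power in it. -/
def PowS (V U : Subgroup A) (r : ℕ) (hU : U.Normal) (hc : ∀ a ∈ V, ∀ b ∈ V, ⁅a, b⁆ ∈ U) : Subgroup A where
  carrier := {a | a ∈ V ∧ a ^ r ∈ U}
  mul_mem' := by
    rintro a b ⟨ha, ha2⟩ ⟨hb, hb2⟩
    refine ⟨mul_mem ha hb, ?_⟩
    haveI := hU
    have hcomm : Commute (QuotientGroup.mk a : A ⧸ U) (QuotientGroup.mk b) := by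
      have h1 : (QuotientGroup.mk ⁅a, b⁆ : A ⧸ U) = 1 := (QuotientGroup.eq_one_iff _).mpr (hc a ha b hb)
      rw [commutatorElement_def] at h1
      have h2 : (QuotientGroup.mk a : A ⧸ U) * QuotientGroup.mk b * (QuotientGroup.mk a)⁻¹ *
          (QuotientGroup.mk b)⁻¹ = 1 := h1
      have h3 := mul_inv_eq_one.mp h2
      have h4 := mul_inv_eq_iff_eq_mul.mp h3
      exact h4
    have h5 : (QuotientGroup.mk ((a * b) ^ r) : A ⧸ U) = 1 := by
      have : (QuotientGroup.mk ((a * b) ^ r) : A ⧸ U) =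
        ((QuotientGroup.mk a : A ⧸ U) * QuotientGroup.mk b) ^ r := rfl
      rw [this, hcomm.mul_pow]
      have h6 : (QuotientGroup.mk a : A ⧸ U) ^ r = 1 := by
        have : (QuotientGroup.mk (a ^ r) : A ⧸ U) = 1 := (QuotientGroup.eq_one_iff _).mpr ha2
        exact this
      have h7 : (QuotientGroup.mk b : A ⧸ U) ^ r = 1 := by
        have : (QuotientGroup.mk (b ^ r) : A ⧸ U) = 1 := (QuotientGroup.eq_one_iff _).mpr hb2
        exact this
      rw [h6, h7, one_mul]
    exact (QuotientGroup.eq_one_iff _).mp h5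
  one_mem' := ⟨one_mem _, by rw [one_pow]; exact one_mem _⟩
  inv_mem' := by
    rintro a ⟨ha, ha2⟩
    exact ⟨inv_mem ha, by rw [inv_pow]; exact inv_mem ha2⟩

theorem mem_PowS {V U : Subgroup A} {r : ℕ} {hU : U.Normal} {hc : ∀ a ∈ V, ∀ b ∈ V, ⁅a, b⁆ ∈ U}
    {a : A} : a ∈ PowS V U r hU hc ↔ a ∈ V ∧ a ^ r ∈ U := Iff.rfl

theorem inv_PowS {V U : Subgroup A} {r : ℕ} {hU : U.Normal} {hc : ∀ a ∈ V, ∀ b ∈ V, ⁅a, b⁆ ∈ U}
    (hV : Inv φ V) (hU' : Inv φ U) : Inv φ (PowS V U r hU hc) := by
  rintro g a ⟨ha, ha2⟩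
  exact ⟨hV g a ha, by rw [← map_pow]; exact hU' g _ ha2⟩

theorem inv_top : Inv φ (⊤ : Subgroup A) := fun _ _ _ => trivial

section CaseA

variable [Finite A]

/-- Case of a nontrivial centre of the central quotient: class at most two. -/
theorem class_two_of_central (h : Act φ) {z : A} (hz : z ∉ center A)
    (hza : ∀ a : A, ⁅a, z⁆ ∈ center A) : ∀ a b : A, ⁅a, b⁆ ∈ center A := by
  -- every element outside `C(z)` has an invariant normal centralizer
  have hD : ∀ x : A, x ∉ centralizer ({z} : Set A) →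
      x ∉ center A ∧ Inv φ (centralizer ({x} : Set A)) := by
    intro x hx
    have hxZ : x ∉ center A := by
      intro hm
      apply hx
      rw [Subgroup.mem_centralizer_singleton_iff]
      exact (Subgroup.mem_center_iff.mp hm z).symm
    refine ⟨hxZ, ?_⟩
    have hzx : z ∉ centralizer ({x} : Set A) := by
      intro hm
      apply hx
      rw [Subgroup.mem_centralizer_singleton_iff] at hm ⊢
      exact hm.symm
    refine inv_of_not_mem h _ hxZ (fun g hg u hu => St_preserves_D hg hu) z hzx (fun u hu => ⟨?_, ?_⟩)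
    · rw [Subgroup.mem_centralizer_singleton_iff]
      exact conj_mem_D_of_comm_central (hza x) (Subgroup.mem_centralizer_singleton_iff.mp hu)
    · rw [Subgroup.mem_centralizer_singleton_iff]
      have := conj_mem_D_of_comm_central (comm_inv_central (hza x))
        (Subgroup.mem_centralizer_singleton_iff.mp hu)
      rwa [inv_inv] at this
  have hcomm : ∀ x : A, x ∉ centralizer ({z} : Set A) → ∀ a b : A, ⁅a, b⁆ ∈ centralizer ({x} : Set A) := by
    intro x hx
    obtain ⟨hxZ, hInv⟩ := hD x hx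
    haveI hN : (centralizer ({x} : Set A)).Normal := normal_of_inv h hInv
    -- the preimage of the centre of the quotient
    let W : Subgroup A := (center (A ⧸ centralizer ({x} : Set A))).comap (QuotientGroup.mk' _)
    have hWm : ∀ w, w ∈ W ↔ ∀ a, ⁅w, a⁆ ∈ centralizer ({x} : Set A) := by
      intro w
      constructor
      · intro hw a
        have h1 : (QuotientGroup.mk w : A ⧸ centralizer ({x} : Set A)) ∈ center _ := hw
        have h2 := Subgroup.mem_center_iff.mp h1 (QuotientGroup.mk a)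
        rw [← QuotientGroup.eq_one_iff, commutatorElement_def]
        have h3 : (QuotientGroup.mk (w * a * w⁻¹ * a⁻¹) : A ⧸ centralizer ({x} : Set A)) =
            QuotientGroup.mk w * QuotientGroup.mk a * (QuotientGroup.mk w)⁻¹ * (QuotientGroup.mk a)⁻¹ := rfl
        rw [h3, ← h2]
        group
      · intro hw
        show (QuotientGroup.mk w : A ⧸ centralizer ({x} : Set A)) ∈ center _
        rw [Subgroup.mem_center_iff]
        intro q
        obtain ⟨a, rfl⟩ := QuotientGroup.mk_surjective q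
        have h1 := (QuotientGroup.eq_one_iff _).mpr (hw a)
        rw [commutatorElement_def] at h1
        have h3 : (QuotientGroup.mk (w * a * w⁻¹ * a⁻¹) : A ⧸ centralizer ({x} : Set A)) =
            QuotientGroup.mk w * QuotientGroup.mk a * (QuotientGroup.mk w)⁻¹ * (QuotientGroup.mk a)⁻¹ := rfl
        rw [h3] at h1
        have h4 := mul_inv_eq_one.mp h1
        have h5 := mul_inv_eq_iff_eq_mul.mp h4
        exact h5.symm
    have hWinv : Inv φ W := by
      intro g w hw
      rw [hWm] at hw ⊢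
      intro a
      have h1 := hInv g _ (hw ((φ g)⁻¹ a))
      rw [map_commutatorElement, MulAut.apply_inv_self] at h1
      exact h1
    have hle : centralizer ({x} : Set A) ≤ W := by
      intro d hd
      rw [hWm]
      intro a
      rw [commutatorElement_def]
      have e : d * a * d⁻¹ * a⁻¹ = d * (a * d⁻¹ * a⁻¹) := by group
      rw [e]
      exact mul_mem hd (hN.conj_mem d⁻¹ (inv_mem hd) a)
    have hnle : ¬ W ≤ centralizer ({x} : Set A) := by
      intro hle2
      have hzW : z ∈ W := by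
        rw [hWm]
        intro a
        have h1 := hza a
        have h2 : ⁅z, a⁆ ∈ center A := by
          rw [← commutatorElement_inv]
          exact inv_mem h1
        exact Subgroup.center_le_centralizer _ h2
      have hzx := hle2 hzW
      apply hx
      rw [Subgroup.mem_centralizer_singleton_iff] at hzx ⊢
      exact hzx.symm
    have htop := eq_top_of_inv_of_ge h hWinv hxZ hle hnle
    intro a b
    have : a ∈ W := by rw [htop]; trivial
    exact (hWm a).mp this b
  intro a b
  rw [Subgroup.mem_center_iff]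
  intro v
  obtain ⟨x₀, hx₀⟩ := exists_not_mem_D hz
  have hcc : ∀ x, x ∉ centralizer ({z} : Set A) → x * ⁅a, b⁆ = ⁅a, b⁆ * x := by
    intro x hx
    have := Subgroup.mem_centralizer_singleton_iff.mp (hcomm x hx a b)
    exact this.symm
  by_cases hv : v ∈ centralizer ({z} : Set A)
  · have h1 : x₀ * v ∉ centralizer ({z} : Set A) := by
      intro hm
      apply hx₀
      have := mul_mem hm (inv_mem hv)
      simpa using this
    have h2 := hcc _ h1
    have h3 := hcc _ hx₀
    have h4 : x₀ * (v * ⁅a, b⁆) = x₀ * (⁅a, b⁆ * v) := by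
      calc x₀ * (v * ⁅a, b⁆) = x₀ * v * ⁅a, b⁆ := by group
        _ = ⁅a, b⁆ * (x₀ * v) := h2
        _ = (⁅a, b⁆ * x₀) * v := by group
        _ = (x₀ * ⁅a, b⁆) * v := by rw [h3]
        _ = x₀ * (⁅a, b⁆ * v) := by group
    exact mul_left_cancel h4
  · exact hcc v hv

/-- Class two: every non-central element has a prime power in the centre. -/
theorem pow_prime_mem_center (h : Act φ) (hcl : ∀ a b : A, ⁅a, b⁆ ∈ center A) {x : A}
    (hx : x ∉ center A) : ∃ r : ℕ, r.Prime ∧ x ^ r ∈ center A := by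
  have hN : (centralizer ({x} : Set A)).Normal := by
    refine ⟨fun u hu a => ?_⟩
    rw [Subgroup.mem_centralizer_singleton_iff] at hu ⊢
    exact conj_mem_D_of_comm_central (hcl x a) hu
  have hInv := inv_of_normal h hx hN
  haveI := hN
  have hntop : centralizer ({x} : Set A) ≠ ⊤ := by
    intro e
    obtain ⟨a, ha⟩ := exists_not_mem_D hx
    apply ha
    rw [e]; trivial
  have hcard : Nat.card (A ⧸ centralizer ({x} : Set A)) ≠ 1 := by
    intro e
    apply hntop
    exact Subgroup.index_eq_one.mp e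
  obtain ⟨r, hr, hrd⟩ := Nat.exists_prime_and_dvd hcard
  haveI : Fact r.Prime := ⟨hr⟩
  obtain ⟨q, hq⟩ := exists_prime_orderOf_dvd_card' r hrd
  obtain ⟨q₀, rfl⟩ := QuotientGroup.mk_surjective q
  refine ⟨r, hr, ?_⟩
  have hcD : ∀ a ∈ (⊤ : Subgroup A), ∀ b ∈ (⊤ : Subgroup A), ⁅a, b⁆ ∈ centralizer ({x} : Set A) :=
    fun a _ b _ => Subgroup.center_le_centralizer _ (hcl a b)
  have hLinv : Inv φ (PowS (⊤ : Subgroup A) (centralizer ({x} : Set A)) r hN hcD) :=
    inv_PowS inv_top hInv
  have hle : centralizer ({x} : Set A) ≤ PowS (⊤ : Subgroup A) (centralizer ({x} : Set A)) r hN hcD :=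
    fun d hd => ⟨trivial, pow_mem hd r⟩
  have hnle : ¬ PowS (⊤ : Subgroup A) (centralizer ({x} : Set A)) r hN hcD ≤ centralizer ({x} : Set A) := by
    intro hle2
    have h1 : q₀ ∈ PowS (⊤ : Subgroup A) (centralizer ({x} : Set A)) r hN hcD := by
      refine ⟨trivial, ?_⟩
      rw [← QuotientGroup.eq_one_iff, QuotientGroup.mk_pow, ← hq]
      exact pow_orderOf_eq_one _
    have h2 := hle2 h1
    have h3 : (QuotientGroup.mk q₀ : A ⧸ centralizer ({x} : Set A)) = 1 :=
      (QuotientGroup.eq_one_iff _).mpr h2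
    rw [h3, orderOf_one] at hq
    exact hr.one_lt.ne hq
  have htop := eq_top_of_inv_of_ge h hLinv hx hle hnle
  rw [Subgroup.mem_center_iff]
  intro a
  have ham : a ∈ PowS (⊤ : Subgroup A) (centralizer ({x} : Set A)) r hN hcD := by
    rw [htop]; trivial
  have har : a ^ r * x = x * a ^ r := Subgroup.mem_centralizer_singleton_iff.mp ham.2
  obtain ⟨c, hcd⟩ : ∃ c, c = ⁅a, x⁆ := ⟨_, rfl⟩
  have hcZ : c ∈ center A := hcd ▸ hcl a x
  have hcc : ∀ w, w * c = c * w := fun w => Subgroup.mem_center_iff.mp hcZ w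
  have hax : a * x * a⁻¹ = c * x := by
    rw [hcd, commutatorElement_def]; group
  have hi : ∀ i : ℕ, a ^ i * x * (a ^ i)⁻¹ = c ^ i * x := by
    intro i
    induction i with
    | zero => simp
    | succ n ih =>
      have h1 : a ^ (n + 1) * x * (a ^ (n + 1))⁻¹ = a * (a ^ n * x * (a ^ n)⁻¹) * a⁻¹ := by
        rw [pow_succ']; group
      rw [h1, ih]
      have h2 : a * (c ^ n * x) * a⁻¹ = c ^ n * (a * x * a⁻¹) := by
        have h3 : a * c ^ n = c ^ n * a := by
          have : Commute a (c ^ n) := Commute.pow_right (hcc a) n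
          exact this
        calc a * (c ^ n * x) * a⁻¹ = (a * c ^ n) * x * a⁻¹ := by group
          _ = (c ^ n * a) * x * a⁻¹ := by rw [h3]
          _ = c ^ n * (a * x * a⁻¹) := by group
      rw [h2, hax, pow_succ]
      group
  have hcr : c ^ r = 1 := by
    have h1 := hi r
    have h2 : a ^ r * x * (a ^ r)⁻¹ = x := by rw [har]; group
    rw [h2] at h1
    have h3 : c ^ r * x = 1 * x := by rw [one_mul]; exact h1.symm
    exact mul_right_cancel h3
  have hcx : Commute c x := (hcc x).symm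
  have h1 : a * x ^ r * a⁻¹ = x ^ r := by
    rw [← conj_pow, hax, hcx.mul_pow, hcr, one_mul]
  calc a * x ^ r = a * x ^ r * a⁻¹ * a := by group
    _ = x ^ r * a := by rw [h1]

end CaseA

/-- A commutative group in which every element has a prime power equal to one has prime exponent. -/
theorem exists_prime_exponent {H : Type*} [Group H] (hc : ∀ a b : H, a * b = b * a)
    (hp : ∀ x : H, ∃ r : ℕ, r.Prime ∧ x ^ r = 1) : ∃ p : ℕ, p.Prime ∧ ∀ x : H, x ^ p = 1 := by
  by_cases hn : ∃ x : H, x ≠ 1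
  · obtain ⟨x₀, hx₀⟩ := hn
    obtain ⟨p, hp₀, hx₀p⟩ := hp x₀
    haveI : Fact p.Prime := ⟨hp₀⟩
    refine ⟨p, hp₀, ?_⟩
    intro y
    by_cases hy : y = 1
    · rw [hy, one_pow]
    obtain ⟨r, hr, hyr⟩ := hp y
    by_cases hrp : r = p
    · rw [← hrp]; exact hyr
    exfalso
    haveI : Fact r.Prime := ⟨hr⟩
    have ho1 : orderOf x₀ = p := orderOf_eq_prime hx₀p hx₀
    have ho2 : orderOf y = r := orderOf_eq_prime hyr hy
    have hcop : (orderOf x₀).Coprime (orderOf y) := by
      rw [ho1, ho2]; exact (Nat.coprime_primes hp₀ hr).mpr (Ne.symm hrp)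
    have hcm : Commute x₀ y := hc x₀ y
    have ho3 := hcm.orderOf_mul_eq_mul_orderOf_of_coprime hcop
    obtain ⟨s, hs, hxy⟩ := hp (x₀ * y)
    have hne : x₀ * y ≠ 1 := by
      intro e
      rw [e, orderOf_one, ho1, ho2] at ho3
      have : p ∣ 1 := by rw [ho3]; exact dvd_mul_right p r
      exact hp₀.one_lt.ne' (Nat.dvd_one.mp this)
    haveI : Fact s.Prime := ⟨hs⟩
    have ho4 : orderOf (x₀ * y) = s := orderOf_eq_prime hxy hne
    rw [ho4, ho1, ho2] at ho3
    rw [ho3] at hs
    exact Nat.not_prime_mul hp₀.one_lt.ne' hr.one_lt.ne' hs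
  · push Not at hn
    exact ⟨2, Nat.prime_two, fun x => by rw [hn x, one_pow]⟩

end Cfsg.Agent.Lib.PGroup.MaxCent
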