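import Mathlib
import Cfsg.Agent.Lib.PGroup.MaxCentB

/-!
The case in which no centralizer of a non-central element is normal cannot occur when the central
quotient has trivial centre.
-/

namespace Cfsg.Agent.Lib.PGroup.MaxCent

open Subgroup
open scoped commutatorElement

variable {A G : Type*} [Group A] [Group G] {φ : G →* MulAut A}

/-- A variant of the coatom principle with an element of `G`. -/
theorem inv_of_not_St (h : Act φ) (U : Subgroup A) {x : A} (hx : x ∉ center A)
    (hSt : ∀ g ∈ St φ x, ∀ u ∈ U, φ g u ∈ U) (g₀ : G) (ha : g₀ ∉ St φ x)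
    (hn : ∀ u ∈ U, φ g₀ u ∈ U ∧ (φ g₀)⁻¹ u ∈ U) : Inv φ U := by
  let NN : Subgroup G :=
    { carrier := {g | ∀ u ∈ U, φ g u ∈ U ∧ (φ g)⁻¹ u ∈ U}
      mul_mem' := by
        intro g₁ g₂ h₁ h₂ u hu
        constructor
        · rw [map_mul, MulAut.mul_apply]
          exact (h₁ _ (h₂ u hu).1).1
        · rw [map_mul, mul_inv_rev, MulAut.mul_apply]
          exact (h₂ _ (h₁ u hu).2).2
      one_mem' := by
        intro u hu
        simpa using hu
      inv_mem' := by
        intro g₁ h₁ u hu
        rw [map_inv, inv_inv]
        exact ⟨(h₁ u hu).2, (h₁ u hu).1⟩ }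
  have hle : St φ x ≤ NN := by
    intro g hg u hu
    refine ⟨hSt g hg u hu, ?_⟩
    have := hSt g⁻¹ (inv_mem hg) u hu
    rwa [map_inv] at this
  have hlt : St φ x < NN := lt_of_le_of_ne hle (fun e => ha (e ▸ hn))
  have htop : NN = ⊤ := (h.co x hx).2 _ hlt
  intro g u hu
  have : g ∈ NN := by rw [htop]; trivial
  exact (this u hu).1

theorem comm_symm_central {a x : A} (h : ⁅a, x⁆ ∈ center A) : ⁅x, a⁆ ∈ center A := by
  rw [← commutatorElement_inv]; exact inv_mem h

section CaseI

variable [Finite A]

/-- If no centralizer of a non-central element is normal and the central quotient has trivial centre,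
the central quotient satisfies the abstract hypotheses. -/
theorem hyp_quotient (h : Act φ) (hZH : ∀ z : A, z ∉ center A → ∃ a : A, ⁅a, z⁆ ∉ center A)
    (hnn : ∀ x : A, x ∉ center A → ¬ (centralizer ({x} : Set A)).Normal) :
    Hyp (A ⧸ center A) := by
  -- normalizing elements centralize
  have hk0 : ∀ x : A, x ∉ center A → ∀ a : A,
      (∀ u ∈ centralizer ({x} : Set A), a * u * a⁻¹ ∈ centralizer ({x} : Set A) ∧
        a⁻¹ * u * a ∈ centralizer ({x} : Set A)) → a ∈ centralizer ({x} : Set A) := by
    intro x hx a ha
    by_contra hcon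
    exact hnn x hx (normal_of_inv h
      (inv_of_not_mem h _ hx (fun g hg u hu => St_preserves_D hg hu) a hcon ha))
  have hk1 : ∀ x : A, x ∉ center A → ∀ a : A, ⁅a, x⁆ ∈ center A → a ∈ centralizer ({x} : Set A) := by
    intro x hx a ha
    apply hk0 x hx a
    intro u hu
    have hc1 : ⁅x, a⁆ ∈ center A := comm_symm_central ha
    constructor
    · rw [Subgroup.mem_centralizer_singleton_iff]
      exact conj_mem_D_of_comm_central hc1 (Subgroup.mem_centralizer_singleton_iff.mp hu)
    · rw [Subgroup.mem_centralizer_singleton_iff]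
      have := conj_mem_D_of_comm_central (comm_inv_central hc1)
        (Subgroup.mem_centralizer_singleton_iff.mp hu)
      rwa [inv_inv] at this
  have hk2 : ∀ x y : A, x ∉ center A → y ∉ center A →
      centralizer ({x} : Set A) = centralizer ({y} : Set A) → St φ x = St φ y := by
    intro x y hx hy e
    apply St_eq_of_le h hx hy
    intro g hg
    by_contra hcon
    apply hnn y hy
    apply normal_of_inv h
    refine inv_of_not_St h _ hy (fun g hg u hu => St_preserves_D hg hu) g hcon ?_
    intro u hu
    rw [← e] at hu ⊢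
    refine ⟨St_preserves_D hg hu, ?_⟩
    have := St_preserves_D (inv_mem hg) hu
    rwa [map_inv] at this
  have hmk : ∀ a x : A, (QuotientGroup.mk a : A ⧸ center A) ∈
      centralizer ({(QuotientGroup.mk x : A ⧸ center A)} : Set (A ⧸ center A)) ↔ ⁅a, x⁆ ∈ center A := by
    intro a x
    rw [Subgroup.mem_centralizer_singleton_iff, ← QuotientGroup.eq_one_iff, commutatorElement_def]
    have h3 : (QuotientGroup.mk (a * x * a⁻¹ * x⁻¹) : A ⧸ center A) =
        QuotientGroup.mk a * QuotientGroup.mk x * (QuotientGroup.mk a)⁻¹ * (QuotientGroup.mk x)⁻¹ := rfl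
    rw [h3]
    constructor
    · intro e
      rw [e]; group
    · intro e
      have h4 := mul_inv_eq_one.mp e
      exact mul_inv_eq_iff_eq_mul.mp h4
  have hmk2 : ∀ a x : A, x ∉ center A → ((QuotientGroup.mk a : A ⧸ center A) ∈
      centralizer ({(QuotientGroup.mk x : A ⧸ center A)} : Set (A ⧸ center A)) ↔
        a ∈ centralizer ({x} : Set A)) := by
    intro a x hx
    rw [hmk]
    constructor
    · exact hk1 x hx a
    · intro ha
      have h1 := Subgroup.mem_centralizer_singleton_iff.mp ha
      rw [commutatorElement_def, h1]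
      simp [one_mem]
  have hne : ∀ x : A, (QuotientGroup.mk x : A ⧸ center A) ≠ 1 → x ∉ center A := by
    intro x hx hm
    exact hx ((QuotientGroup.eq_one_iff x).mpr hm)
  have hext : ∀ x y : A, x ∉ center A → y ∉ center A →
      centralizer ({x} : Set A) = centralizer ({y} : Set A) →
      centralizer ({(QuotientGroup.mk x : A ⧸ center A)} : Set (A ⧸ center A)) =
        centralizer ({(QuotientGroup.mk y : A ⧸ center A)} : Set (A ⧸ center A)) := by
    intro x y hx hy e
    ext q
    obtain ⟨a, rfl⟩ := QuotientGroup.mk_surjective q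
    rw [hmk2 a x hx, hmk2 a y hy, e]
  refine ⟨?_, ?_, ?_, ?_, ?_⟩
  · -- ne_top
    intro q hq e
    obtain ⟨x, rfl⟩ := QuotientGroup.mk_surjective q
    obtain ⟨a, ha⟩ := hZH x (hne x hq)
    apply ha
    rw [← hmk, e]
    trivial
  · -- P1
    intro p q hp hq hpq hcop
    obtain ⟨x, rfl⟩ := QuotientGroup.mk_surjective p
    obtain ⟨y, rfl⟩ := QuotientGroup.mk_surjective q
    have hx := hne x hp
    have hy := hne y hq
    have hymem : y ∈ centralizer ({x} : Set A) := by
      rw [← hmk2 y x hx, Subgroup.mem_centralizer_singleton_iff]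
      exact hpq.symm
    have hcomm : Commute x y := (Subgroup.mem_centralizer_singleton_iff.mp hymem).symm
    have hcq : Commute (QuotientGroup.mk x : A ⧸ center A) (QuotientGroup.mk y) := hpq
    obtain ⟨k, hk1', hk2'⟩ := Nat.chineseRemainder hcop 1 0
    obtain ⟨l, hl1, hl2⟩ := Nat.chineseRemainder hcop 0 1
    have e1 : (QuotientGroup.mk ((x * y) ^ k) : A ⧸ center A) = QuotientGroup.mk x := by
      have : (QuotientGroup.mk ((x * y) ^ k) : A ⧸ center A) =
          ((QuotientGroup.mk x : A ⧸ center A) * QuotientGroup.mk y) ^ k := rfl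
      rw [this, hcq.mul_pow, pow_eq_pow_iff_modEq.mpr hk1', pow_one, pow_eq_pow_iff_modEq.mpr hk2',
        pow_zero, mul_one]
    have e2 : (QuotientGroup.mk ((x * y) ^ l) : A ⧸ center A) = QuotientGroup.mk y := by
      have : (QuotientGroup.mk ((x * y) ^ l) : A ⧸ center A) =
          ((QuotientGroup.mk x : A ⧸ center A) * QuotientGroup.mk y) ^ l := rfl
      rw [this, hcq.mul_pow, pow_eq_pow_iff_modEq.mpr hl1, pow_zero, pow_eq_pow_iff_modEq.mpr hl2,
        pow_one, one_mul]
    -- an element differing by a central element has the same centralizer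
    have hcen : ∀ u v : A, (QuotientGroup.mk u : A ⧸ center A) = QuotientGroup.mk v →
        centralizer ({u} : Set A) = centralizer ({v} : Set A) := by
      intro u v e
      have h0 : u⁻¹ * v ∈ center A := QuotientGroup.eq.mp e
      obtain ⟨c, hc⟩ : ∃ c, c = u⁻¹ * v := ⟨_, rfl⟩
      have hv : v = u * c := by rw [hc]; group
      have hcZ : c ∈ center A := hc ▸ h0
      have hcc : ∀ w, w * c = c * w := fun w => Subgroup.mem_center_iff.mp hcZ w
      ext w
      rw [Subgroup.mem_centralizer_singleton_iff, Subgroup.mem_centralizer_singleton_iff, hv]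
      constructor
      · intro hw
        calc w * (u * c) = (w * u) * c := by group
          _ = (u * w) * c := by rw [hw]
          _ = u * (w * c) := by group
          _ = u * (c * w) := by rw [hcc w]
          _ = u * c * w := by group
      · intro hw
        have h1 : (w * u) * c = (u * w) * c := by
          calc (w * u) * c = w * (u * c) := by group
            _ = u * c * w := hw
            _ = u * (c * w) := by group
            _ = u * (w * c) := by rw [hcc w]
            _ = (u * w) * c := by group
        exact mul_right_cancel h1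
    have hxy : x * y ∉ center A := by
      intro hm
      apply hx
      have h1 : (QuotientGroup.mk (x * y) : A ⧸ center A) = 1 := (QuotientGroup.eq_one_iff _).mpr hm
      have h2 : (QuotientGroup.mk ((x * y) ^ k) : A ⧸ center A) = 1 := by
        have : (QuotientGroup.mk ((x * y) ^ k) : A ⧸ center A) =
            (QuotientGroup.mk (x * y) : A ⧸ center A) ^ k := rfl
        rw [this, h1, one_pow]
      rw [e1] at h2
      exact (QuotientGroup.eq_one_iff _).mp h2
    have hw1 : (x * y) ^ k ∉ center A := by
      intro hm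
      apply hx
      have h2 : (QuotientGroup.mk ((x * y) ^ k) : A ⧸ center A) = 1 :=
        (QuotientGroup.eq_one_iff _).mpr hm
      rw [e1] at h2
      exact (QuotientGroup.eq_one_iff _).mp h2
    have hw2 : (x * y) ^ l ∉ center A := by
      intro hm
      apply hy
      have h2 : (QuotientGroup.mk ((x * y) ^ l) : A ⧸ center A) = 1 :=
        (QuotientGroup.eq_one_iff _).mpr hm
      rw [e2] at h2
      exact (QuotientGroup.eq_one_iff _).mp h2
    have hS1 : St φ ((x * y) ^ k) = St φ x := hk2 _ _ hw1 hx (hcen _ _ e1)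
    have hS2 : St φ ((x * y) ^ l) = St φ y := hk2 _ _ hw2 hy (hcen _ _ e2)
    have h1 : St φ (x * y) = St φ x :=
      St_eq_of_le h hxy hx (by have := St_le_of_pow (φ := φ) (x := x * y) k; rwa [hS1] at this)
    have h2 : St φ (x * y) = St φ y :=
      St_eq_of_le h hxy hy (by have := St_le_of_pow (φ := φ) (x := x * y) l; rwa [hS2] at this)
    exact hext x y hx hy (D_eq_of_St_eq h (h1.symm.trans h2))
  · -- P2
    intro p k hp
    obtain ⟨x, rfl⟩ := QuotientGroup.mk_surjective p
    have hxk : x ^ k ∉ center A := by
      apply hne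
      exact hp
    have hx : x ∉ center A := by
      intro hm
      exact hxk (pow_mem hm k)
    have e := D_eq_of_St_eq h (St_eq_of_le h hx hxk (St_le_of_pow k))
    exact hext x (x ^ k) hx hxk e
  · -- P3
    intro p hp q hq
    obtain ⟨x, rfl⟩ := QuotientGroup.mk_surjective p
    obtain ⟨a, rfl⟩ := QuotientGroup.mk_surjective q
    have hx := hne x hp
    rw [hmk2 a x hx]
    apply hk0 x hx a
    intro u hu
    have hu' : (QuotientGroup.mk u : A ⧸ center A) ∈
        centralizer ({(QuotientGroup.mk x : A ⧸ center A)} : Set (A ⧸ center A)) :=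
      (hmk2 u x hx).mpr hu
    have h1 := (Subgroup.mem_normalizer_iff.mp hq _).mp hu'
    have h2 : (QuotientGroup.mk a : A ⧸ center A)⁻¹ ∈
        normalizer (centralizer ({(QuotientGroup.mk x : A ⧸ center A)} : Set (A ⧸ center A)) :
          Set (A ⧸ center A)) := inv_mem hq
    have h3 := (Subgroup.mem_normalizer_iff.mp h2 _).mp hu'
    rw [inv_inv] at h3
    constructor
    · rw [← hmk2 _ x hx]
      exact h1
    · rw [← hmk2 _ x hx]
      exact h3
  · -- P4
    intro p K hp hK hKtop hle
    obtain ⟨x, rfl⟩ := QuotientGroup.mk_surjective p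
    have hx := hne x hp
    haveI hKn : K.Normal := Subgroup.normal_of_characteristic K
    let Kt : Subgroup A := K.comap (QuotientGroup.mk' (center A))
    have hKtmem : ∀ a, a ∈ Kt ↔ (QuotientGroup.mk a : A ⧸ center A) ∈ K := fun a => Iff.rfl
    have hKtinv : Inv φ Kt := by
      intro g k hk
      rw [hKtmem] at hk ⊢
      have hmap : (center A).map (φ g).toMonoidHom = center A := by
        ext c
        constructor
        · rintro ⟨b, hb, rfl⟩
          exact inv_center g b hb
        · intro hc
          refine ⟨(φ g)⁻¹ c, inv_apply_mem inv_center g hc, ?_⟩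
          exact MulAut.apply_inv_self _ _ _
      let σ : (A ⧸ center A) ≃* (A ⧸ center A) := QuotientGroup.congr (center A) (center A) (φ g) hmap
      have hσ : σ (QuotientGroup.mk k) = QuotientGroup.mk (φ g k) := rfl
      have hfix := hK.fixed σ
      have h1 : (QuotientGroup.mk k : A ⧸ center A) ∈ K.comap σ.toMonoidHom := by
        rw [hfix]; exact hk
      have h2 : σ (QuotientGroup.mk k) ∈ K := h1
      rwa [hσ] at h2
    have hDle : centralizer ({x} : Set A) ≤ Kt := by
      intro d hd
      rw [hKtmem]
      exact hle ((hmk2 d x hx).mpr hd)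
    rcases dichotomy h hKtinv hx with h1 | h1
    · have heq : centralizer ({x} : Set A) = Kt := le_antisymm hDle h1
      apply hnn x hx
      rw [heq]
      exact hKn.comap _
    · apply hKtop
      rw [eq_top_iff]
      intro q _
      obtain ⟨a, rfl⟩ := QuotientGroup.mk_surjective q
      obtain ⟨d, hd, k, hk, rfl⟩ := h1 a
      exact mul_mem (hDle hd) hk

/-- Consequently some centralizer of a non-central element is normal. -/
theorem exists_normal_centralizer (h : Act φ)
    (hZH : ∀ z : A, z ∉ center A → ∃ a : A, ⁅a, z⁆ ∉ center A) {z₀ : A} (hz₀ : z₀ ∉ center A) :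
    ∃ x : A, x ∉ center A ∧ (centralizer ({x} : Set A)).Normal := by
  by_contra hcon
  push Not at hcon
  have hS := hyp_quotient h hZH hcon
  haveI : Nontrivial (A ⧸ center A) :=
    ⟨⟨QuotientGroup.mk z₀, 1, fun e => hz₀ ((QuotientGroup.eq_one_iff _).mp e)⟩⟩
  exact false_of_hyp hS

end CaseI

end Cfsg.Agent.Lib.PGroup.MaxCent
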