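import Mathlib
import Cfsg.Agent.Lib.PGroup.MaxCentC
import Cfsg.Agent.Lib.Transfer.Basic
import Cfsg.Agent.Lib.OddLocal.CN4

/-!
The case in which some centralizer of a non-central element is normal: the Frobenius structure
of the central quotient.
-/

namespace Cfsg.Agent.Lib.PGroup.MaxCent

open Subgroup
open scoped commutatorElement

variable {A G : Type*} [Group A] [Group G] {φ : G →* MulAut A}

/-- The outcome. -/
structure FrobData {H : Type*} [Group H] (K Q : Subgroup H) (p q : ℕ) : Prop where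
  hp : p.Prime
  hq : q.Prime
  hpq : p ≠ q
  normal : K.Normal
  ne : K ≠ ⊥
  comm : ∀ a ∈ K, ∀ b ∈ K, a * b = b * a
  exp : ∀ a ∈ K, a ^ p = 1
  card : Nat.card Q = q
  inf : K ⊓ Q = ⊥
  sup : K ⊔ Q = ⊤
  fpf : ∀ u ∈ Q, ∀ k ∈ K, u * k = k * u → u = 1 ∨ k = 1

theorem mk_comm_iff (a x : A) : ((QuotientGroup.mk a : A ⧸ center A) * QuotientGroup.mk x =
    QuotientGroup.mk x * QuotientGroup.mk a) ↔ ⁅a, x⁆ ∈ center A := by
  rw [← QuotientGroup.eq_one_iff, commutatorElement_def]
  have h3 : (QuotientGroup.mk (a * x * a⁻¹ * x⁻¹) : A ⧸ center A) =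
      QuotientGroup.mk a * QuotientGroup.mk x * (QuotientGroup.mk a)⁻¹ * (QuotientGroup.mk x)⁻¹ := rfl
  rw [h3]
  constructor
  · intro e
    rw [e]; group
  · intro e
    have h4 := mul_inv_eq_one.mp e
    exact mul_inv_eq_iff_eq_mul.mp h4

section

variable [Finite A]

/-- A power of a non-central element which is a true `p`-element and of prime order mod the centre. -/
theorem exists_part_prime {x : A} (hx : x ∉ center A) :
    ∃ e ∈ zpowers x, ∃ p k : ℕ, p.Prime ∧ e ∉ center A ∧ e ^ (p ^ k) = 1 ∧ e ^ p ∈ center A := by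
  classical
  have hm : orderOf (QuotientGroup.mk x : A ⧸ center A) ≠ 1 := by
    rw [Ne, orderOf_eq_one_iff]
    intro e
    exact hx ((QuotientGroup.eq_one_iff _).mp e)
  obtain ⟨p, hp, hpd⟩ := Nat.exists_prime_and_dvd hm
  obtain ⟨a, b, hxab, -, ⟨k, hk⟩, hb, ha, -⟩ := Cfsg.Agent.Lib.Transfer.exists_parts hp x
  have haZ : a ∉ center A := by
    intro hZ
    have h1 : (QuotientGroup.mk x : A ⧸ center A) = QuotientGroup.mk b := by
      rw [hxab]
      have : (QuotientGroup.mk (a * b) : A ⧸ center A) = QuotientGroup.mk a * QuotientGroup.mk b := rfl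
      rw [this, (QuotientGroup.eq_one_iff _).mpr hZ, one_mul]
    have h2 : orderOf (QuotientGroup.mk x : A ⧸ center A) ∣ orderOf b := by
      rw [h1]
      apply orderOf_dvd_of_pow_eq_one
      have : (QuotientGroup.mk b : A ⧸ center A) ^ orderOf b = QuotientGroup.mk (b ^ orderOf b) := rfl
      rw [this, pow_orderOf_eq_one]; rfl
    exact (Nat.Prime.coprime_iff_not_dvd hp).mp hb.symm (hpd.trans h2)
  have hex : ∃ j, a ^ p ^ j ∈ center A := ⟨k, by rw [hk]; exact one_mem _⟩
  have hj := Nat.find_spec hex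
  have hj0 : Nat.find hex ≠ 0 := by
    intro h0
    rw [h0, pow_zero, pow_one] at hj
    exact haZ hj
  obtain ⟨j, hj1⟩ := Nat.exists_eq_succ_of_ne_zero hj0
  have hjn : a ^ p ^ j ∉ center A := Nat.find_min hex (by omega)
  refine ⟨a ^ p ^ j, pow_mem ha _, p, k, hp, hjn, ?_, ?_⟩
  · rw [← pow_mul, mul_comm, pow_mul, hk, one_pow]
  · rw [← pow_mul, ← pow_succ, ← Nat.succ_eq_add_one, ← hj1]
    exact hj

/-- The centralizer of a true `p`-element is nilpotent. -/
theorem isNilpotent_D (h : Act φ) {x : A} (hx : x ∉ center A) {p k : ℕ} (hp : p.Prime)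
    (hk : x ^ p ^ k = 1) : Group.IsNilpotent (centralizer ({x} : Set A)) := by
  haveI : Fact p.Prime := ⟨hp⟩
  have hQ : IsPGroup p ((centralizer ({x} : Set A)) ⧸ center (centralizer ({x} : Set A))) := by
    intro q
    obtain ⟨w, rfl⟩ := QuotientGroup.mk_surjective q
    obtain ⟨a, b, hab, -, ⟨j, hj⟩, hb, ha, hbz⟩ :=
      Cfsg.Agent.Lib.Transfer.exists_parts hp (w : A)
    have hbD : b ∈ centralizer ({x} : Set A) := by
      have h1 : zpowers (w : A) ≤ centralizer ({x} : Set A) := by
        rw [Subgroup.zpowers_le]; exact w.2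
      exact h1 hbz
    have haD : a ∈ centralizer ({x} : Set A) := by
      have h1 : zpowers (w : A) ≤ centralizer ({x} : Set A) := by
        rw [Subgroup.zpowers_le]; exact w.2
      exact h1 ha
    have hbc : ∀ d ∈ centralizer ({x} : Set A), d * b = b * d := by
      intro d hd
      by_cases hbZ : b ∈ center A
      · exact Subgroup.mem_center_iff.mp hbZ d
      · have hS : St φ b = St φ x := by
          apply St_eq_of_coprime h hbZ hx (Subgroup.mem_centralizer_singleton_iff.mp hbD)
          exact Nat.Coprime.coprime_dvd_right (orderOf_dvd_of_pow_eq_one hk)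
            (Nat.Coprime.pow_right k hb)
        have hDD := D_eq_of_St_eq h hS
        rw [← hDD] at hd
        exact Subgroup.mem_centralizer_singleton_iff.mp hd
    refine ⟨j, ?_⟩
    have hbcen : (⟨b, hbD⟩ : centralizer ({x} : Set A)) ∈ center (centralizer ({x} : Set A)) := by
      rw [Subgroup.mem_center_iff]
      rintro ⟨d, hd⟩
      exact Subtype.ext (hbc d hd)
    have hwe : w = ⟨a, haD⟩ * ⟨b, hbD⟩ := Subtype.ext hab
    rw [hwe]
    have h1 : (QuotientGroup.mk (⟨a, haD⟩ * ⟨b, hbD⟩ : centralizer ({x} : Set A)) :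
        (centralizer ({x} : Set A)) ⧸ center (centralizer ({x} : Set A))) =
        QuotientGroup.mk ⟨a, haD⟩ * QuotientGroup.mk ⟨b, hbD⟩ := rfl
    rw [h1, (QuotientGroup.eq_one_iff _).mpr hbcen, mul_one]
    have h2 : (⟨a, haD⟩ : centralizer ({x} : Set A)) ^ p ^ j = 1 := Subtype.ext hj
    have h3 : (QuotientGroup.mk (⟨a, haD⟩ : centralizer ({x} : Set A)) :
        (centralizer ({x} : Set A)) ⧸ center (centralizer ({x} : Set A))) ^ p ^ j =
        QuotientGroup.mk ((⟨a, haD⟩ : centralizer ({x} : Set A)) ^ p ^ j) := rfl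
    rw [h3, h2]; rfl
  haveI := hQ.isNilpotent
  exact Group.of_quotient_center_nilpotent inferInstance

end

/-- A normal subgroup of a nilpotent group not contained in another one has a non-member which is
central modulo the other one. -/
theorem exists_central_mod {B : Type*} [Group B] [Finite B] [Group.IsNilpotent B] (Y W : Subgroup B)
    [Y.Normal] [W.Normal] (hn : ¬ Y ≤ W) : ∃ t ∈ Y, t ∉ W ∧ ∀ b, ⁅t, b⁆ ∈ W := by
  have hN : Y.map (QuotientGroup.mk' W) ≠ ⊥ := by
    intro e
    apply hn
    intro t ht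
    have : QuotientGroup.mk' W t ∈ Y.map (QuotientGroup.mk' W) := ⟨t, ht, rfl⟩
    rw [e, Subgroup.mem_bot] at this
    exact (QuotientGroup.eq_one_iff t).mp this
  haveI : (Y.map (QuotientGroup.mk' W)).Normal := Subgroup.Normal.map inferInstance _ (QuotientGroup.mk'_surjective W)
  have h1 := Cfsg.Agent.Lib.Core.normal_inf_center_ne_bot _ hN
  obtain ⟨q, hq⟩ := Subgroup.ne_bot_iff_exists_ne_one.mp h1
  obtain ⟨⟨t, ht, hte⟩, hqc⟩ := Subgroup.mem_inf.mp q.2
  refine ⟨t, ht, ?_, ?_⟩
  · intro htW
    apply hq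
    apply Subtype.ext
    rw [← hte]
    exact (QuotientGroup.eq_one_iff t).mpr htW
  · intro b
    have h2 := Subgroup.mem_center_iff.mp hqc (QuotientGroup.mk b)
    rw [← hte] at h2
    rw [← QuotientGroup.eq_one_iff, commutatorElement_def]
    have h3 : (QuotientGroup.mk (t * b * t⁻¹ * b⁻¹) : B ⧸ W) =
        QuotientGroup.mk t * QuotientGroup.mk b * (QuotientGroup.mk t)⁻¹ * (QuotientGroup.mk b)⁻¹ := rfl
    rw [h3]
    have h4 : (QuotientGroup.mk' W) t * QuotientGroup.mk b = QuotientGroup.mk b * (QuotientGroup.mk' W) t := h2.symm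
    have h5 : (QuotientGroup.mk t : B ⧸ W) * QuotientGroup.mk b = QuotientGroup.mk b * QuotientGroup.mk t := h4
    rw [h5]; group

section

variable [Finite A]

/-- The key fixed point statement. -/
theorem inf_le_center (h : Act φ) (hZH : ∀ z : A, z ∉ center A → ∃ a : A, ⁅a, z⁆ ∉ center A)
    {x : A} (hx : x ∉ center A) (hinv : Inv φ (centralizer ({x} : Set A)))
    (hnil : Group.IsNilpotent (centralizer ({x} : Set A))) {y : A}
    (hy : y ∉ centralizer ({x} : Set A)) :
    centralizer ({x} : Set A) ⊓ centralizer ({y} : Set A) ≤ center A := by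
  classical
  have hZD : center A ≤ centralizer ({x} : Set A) := Subgroup.center_le_centralizer _
  have hyZ : y ∉ center A := fun hm => hy (hZD hm)
  have hxy : x ∉ centralizer ({y} : Set A) := by
    intro hm
    apply hy
    rw [Subgroup.mem_centralizer_singleton_iff] at hm ⊢
    exact hm.symm
  have hTinv : Inv φ (centralizer ({x} : Set A) ⊓ centralizer ({y} : Set A)) := by
    refine inv_of_not_mem h _ hyZ ?_ x hxy ?_
    · intro g hg u hu
      exact Subgroup.mem_inf.mpr ⟨hinv g u (Subgroup.mem_inf.mp hu).1,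
        St_preserves_D hg (Subgroup.mem_inf.mp hu).2⟩
    · intro u hu
      have hux : u * x = x * u := Subgroup.mem_centralizer_singleton_iff.mp (Subgroup.mem_inf.mp hu).1
      have e1 : x * u * x⁻¹ = u := by rw [← hux]; group
      have e2 : x⁻¹ * u * x = u := by rw [mul_assoc, hux]; group
      rw [e1, e2]
      exact ⟨hu, hu⟩
  by_contra hcon
  haveI hTn : (centralizer ({x} : Set A) ⊓ centralizer ({y} : Set A)).Normal := normal_of_inv h hTinv
  haveI hZn : (center A).Normal := inferInstance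
  haveI := hnil
  have hY : ¬ (centralizer ({x} : Set A) ⊓ centralizer ({y} : Set A)).subgroupOf (centralizer ({x} : Set A)) ≤
      (center A).subgroupOf (centralizer ({x} : Set A)) := by
    intro hle
    apply hcon
    intro t ht
    have h1 : (⟨t, (Subgroup.mem_inf.mp ht).1⟩ : centralizer ({x} : Set A)) ∈
        (centralizer ({x} : Set A) ⊓ centralizer ({y} : Set A)).subgroupOf (centralizer ({x} : Set A)) := ht
    exact hle h1
  obtain ⟨t', ht', ht'Z, ht'c⟩ := exists_central_mod _ _ hY
  have ht'T : (t' : A) ∈ centralizer ({x} : Set A) ⊓ centralizer ({y} : Set A) := ht'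
  have ht'nZ : (t' : A) ∉ center A := ht'Z
  have ht'cc : ∀ d ∈ centralizer ({x} : Set A), ⁅(t' : A), d⁆ ∈ center A := by
    intro d hd
    have := ht'c ⟨d, hd⟩
    exact this
  -- the invariant set
  let Tc : Set A := {t | t ∈ centralizer ({x} : Set A) ⊓ centralizer ({y} : Set A) ∧
    ∀ d ∈ centralizer ({x} : Set A), ⁅t, d⁆ ∈ center A}
  let W : Subgroup A := (centralizer ((QuotientGroup.mk : A → A ⧸ center A) '' Tc)).comap
    (QuotientGroup.mk' (center A))
  have hWm : ∀ w, w ∈ W ↔ ∀ t ∈ Tc, ⁅t, w⁆ ∈ center A := by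
    intro w
    constructor
    · intro hw t ht
      have h1 : (QuotientGroup.mk w : A ⧸ center A) ∈
          centralizer ((QuotientGroup.mk : A → A ⧸ center A) '' Tc) := hw
      rw [Subgroup.mem_centralizer_iff] at h1
      exact (mk_comm_iff t w).mp (h1 _ ⟨t, ht, rfl⟩)
    · intro hw
      show (QuotientGroup.mk w : A ⧸ center A) ∈
          centralizer ((QuotientGroup.mk : A → A ⧸ center A) '' Tc)
      rw [Subgroup.mem_centralizer_iff]
      rintro _ ⟨t, ht, rfl⟩
      exact (mk_comm_iff t w).mpr (hw t ht)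
  have hTcinv : ∀ g : G, ∀ t ∈ Tc, (φ g)⁻¹ t ∈ Tc := by
    intro g t ht
    refine ⟨inv_apply_mem hTinv g ht.1, ?_⟩
    intro d hd
    have h1 := ht.2 (φ g d) (hinv g d hd)
    have h2 := inv_apply_mem (φ := φ) inv_center g h1
    rw [map_commutatorElement, MulAut.inv_apply_self] at h2
    exact h2
  have hWinv : Inv φ W := by
    intro g w hw
    rw [hWm] at hw ⊢
    intro t ht
    have h1 := hw _ (hTcinv g t ht)
    have h2 := inv_center (φ := φ) g _ h1
    rw [map_commutatorElement, MulAut.apply_inv_self] at h2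
    exact h2
  have hle : centralizer ({x} : Set A) ≤ W := by
    intro d hd
    rw [hWm]
    intro t ht
    exact ht.2 d hd
  have hyW : y ∈ W := by
    rw [hWm]
    intro t ht
    have h1 : t * y = y * t := Subgroup.mem_centralizer_singleton_iff.mp (Subgroup.mem_inf.mp ht.1).2
    rw [commutatorElement_def, h1]
    simp [one_mem]
  have hnle : ¬ W ≤ centralizer ({x} : Set A) := fun hle2 => hy (hle2 hyW)
  have htop := eq_top_of_inv_of_ge h hWinv hx hle hnle
  obtain ⟨a, ha⟩ := hZH t' ht'nZ
  apply ha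
  have haW : a ∈ W := by rw [htop]; trivial
  have h1 := (hWm a).mp haW t' ⟨ht'T, ht'cc⟩
  exact comm_symm_central h1

end

end Cfsg.Agent.Lib.PGroup.MaxCent
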