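import Mathlib
import Cfsg.Agent.Lib.PGroup.MaxCentD

/-!
Assembling the Frobenius structure.
-/

namespace Cfsg.Agent.Lib.PGroup.MaxCent

open Subgroup
open scoped commutatorElement

variable {A G : Type*} [Group A] [Group G] {φ : G →* MulAut A}

theorem mem_of_pow_mem_of_pow_eq_one {U : Subgroup A} {b : A} {q n : ℕ} (h1 : b ^ q ∈ U) (h2 : b ^ n = 1)
    (hc : n.Coprime q) : b ∈ U := by
  have h3 := Nat.gcd_eq_gcd_ab q n
  rw [hc.symm.gcd_eq_one] at h3
  have h4 : b = (b ^ q) ^ (Nat.gcdA q n) * (b ^ n) ^ (Nat.gcdB q n) := by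
    rw [← zpow_natCast, ← zpow_natCast, ← zpow_mul, ← zpow_mul, ← zpow_add, ← h3]
    simp
  rw [h4, h2, one_zpow, mul_one]
  exact zpow_mem h1 _

theorem conj_pow_central {a x c : A} (hcZ : c ∈ center A) (hax : a * x * a⁻¹ = c * x) (i : ℕ) :
    a ^ i * x * (a ^ i)⁻¹ = c ^ i * x := by
  have hcc : ∀ w, w * c = c * w := fun w => Subgroup.mem_center_iff.mp hcZ w
  induction i with
  | zero => simp
  | succ n ih =>
    have h1 : a ^ (n + 1) * x * (a ^ (n + 1))⁻¹ = a * (a ^ n * x * (a ^ n)⁻¹) * a⁻¹ := by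
      rw [pow_succ']; group
    rw [h1, ih]
    have h2 : a * (c ^ n * x) * a⁻¹ = c ^ n * (a * x * a⁻¹) := by
      have h3 : a * c ^ n = c ^ n * a := by
        have : Commute a (c ^ n) := Commute.pow_right (hcc a) n
        exact this
      calc a * (c ^ n * x) * a⁻¹ = (a * c ^ n) * x * a⁻¹ := by group
        _ = (c ^ n * a) * x * a⁻¹ := by rw [h3]
        _ = c ^ n * (a * x * a⁻¹) := by group
    rw [h2, hax, pow_succ]
    group

/-- The data of the normal centralizer case. -/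
structure Setup (φ : G →* MulAut A) (x : A) (p k : ℕ) : Prop where
  h : Act φ
  hZH : ∀ z : A, z ∉ center A → ∃ a : A, ⁅a, z⁆ ∉ center A
  hxZ : x ∉ center A
  hp : p.Prime
  hxk : x ^ p ^ k = 1
  hxp : x ^ p ∈ center A
  hinv : Inv φ (centralizer ({x} : Set A))
  hT : ∀ y : A, y ∉ centralizer ({x} : Set A) →
    centralizer ({x} : Set A) ⊓ centralizer ({y} : Set A) ≤ center A

namespace Setup

variable {x : A} {p k : ℕ}

theorem hN (S : Setup φ x p k) : (centralizer ({x} : Set A)).Normal := normal_of_inv S.h S.hinv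

theorem hZD (_S : Setup φ x p k) : center A ≤ centralizer ({x} : Set A) :=
  Subgroup.center_le_centralizer _

theorem not_mem_center {y : A} (S : Setup φ x p k) (hy : y ∉ centralizer ({x} : Set A)) :
    y ∉ center A := fun hm => hy (S.hZD hm)

theorem minimal (S : Setup φ x p k) {L : Subgroup A} (hL : Inv φ L) (hZL : center A ≤ L)
    (hLD : L ≤ centralizer ({x} : Set A)) (hLn : ¬ L ≤ center A) :
    L = centralizer ({x} : Set A) := by
  obtain ⟨y, hy⟩ := exists_not_mem_D S.hxZ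
  have hT := S.hT y hy
  rcases dichotomy S.h hL (S.not_mem_center hy) with h1 | h1
  · exact absurd (fun t ht => hT (Subgroup.mem_inf.mpr ⟨hLD ht, h1 ht⟩)) hLn
  · refine le_antisymm hLD ?_
    intro d hd
    obtain ⟨c, hc, l, hl, rfl⟩ := h1 d
    have hcD : c ∈ centralizer ({x} : Set A) := by
      have := mul_mem hd (inv_mem (hLD hl))
      simpa using this
    exact mul_mem (hZL (hT (Subgroup.mem_inf.mpr ⟨hcD, hc⟩))) hl

theorem comm (S : Setup φ x p k) : ∀ a ∈ centralizer ({x} : Set A), ∀ b ∈ centralizer ({x} : Set A),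
    a * b = b * a := by
  have hLinv : Inv φ (centralizer ({x} : Set A) ⊓ centralizer ((centralizer ({x} : Set A) : Subgroup A) : Set A)) := by
    refine inv_inf S.hinv ?_
    intro g a ha
    rw [Subgroup.mem_centralizer_iff] at ha ⊢
    intro d hd
    have h1 := ha _ (inv_apply_mem S.hinv g hd)
    have h2 := congrArg (φ g) h1
    rw [map_mul, map_mul, MulAut.apply_inv_self] at h2
    exact h2
  have hZL : center A ≤ centralizer ({x} : Set A) ⊓ centralizer ((centralizer ({x} : Set A) : Subgroup A) : Set A) :=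
    le_inf S.hZD (Subgroup.center_le_centralizer _)
  have hxD : x ∈ centralizer ({x} : Set A) := by
    rw [Subgroup.mem_centralizer_singleton_iff]
  have hLn : ¬ (centralizer ({x} : Set A) ⊓ centralizer ((centralizer ({x} : Set A) : Subgroup A) : Set A)) ≤ center A := by
    intro hle
    apply S.hxZ
    apply hle
    refine Subgroup.mem_inf.mpr ⟨hxD, ?_⟩
    rw [Subgroup.mem_centralizer_iff]
    intro d hd
    exact Subgroup.mem_centralizer_singleton_iff.mp hd
  have he := S.minimal hLinv hZL inf_le_left hLn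
  intro a ha b hb
  have ha2 : a ∈ centralizer ({x} : Set A) ⊓ centralizer ((centralizer ({x} : Set A) : Subgroup A) : Set A) := by
    rw [he]; exact ha
  have h3 := (Subgroup.mem_inf.mp ha2).2
  rw [Subgroup.mem_centralizer_iff] at h3
  exact (h3 b hb).symm

theorem exp (S : Setup φ x p k) : ∀ d ∈ centralizer ({x} : Set A), d ^ p ∈ center A := by
  have hc : ∀ a ∈ centralizer ({x} : Set A), ∀ b ∈ centralizer ({x} : Set A), ⁅a, b⁆ ∈ center A := by
    intro a ha b hb
    rw [commutatorElement_def, S.comm a ha b hb]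
    simp [one_mem]
  have hLinv : Inv φ (PowS (centralizer ({x} : Set A)) (center A) p inferInstance hc) :=
    inv_PowS S.hinv inv_center
  have hZL : center A ≤ PowS (centralizer ({x} : Set A)) (center A) p inferInstance hc :=
    fun z hz => ⟨S.hZD hz, pow_mem hz p⟩
  have hLD : PowS (centralizer ({x} : Set A)) (center A) p inferInstance hc ≤ centralizer ({x} : Set A) :=
    fun z hz => hz.1
  have hLn : ¬ PowS (centralizer ({x} : Set A)) (center A) p inferInstance hc ≤ center A := by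
    intro hle
    apply S.hxZ
    apply hle
    refine ⟨?_, S.hxp⟩
    rw [Subgroup.mem_centralizer_singleton_iff]
  have he := S.minimal hLinv hZL hLD hLn
  intro d hd
  have : d ∈ PowS (centralizer ({x} : Set A)) (center A) p inferInstance hc := by
    rw [he]; exact hd
  exact this.2

theorem factor (S : Setup φ x p k) {y : A} (hy : y ∉ centralizer ({x} : Set A)) (a : A) :
    ∃ c ∈ centralizer ({y} : Set A), ∃ d ∈ centralizer ({x} : Set A), a = c * d := by
  rcases dichotomy S.h S.hinv (S.not_mem_center hy) with h1 | h1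
  · exfalso
    apply S.hxZ
    apply S.hT y hy
    have hxD : x ∈ centralizer ({x} : Set A) := by
      rw [Subgroup.mem_centralizer_singleton_iff]
    exact Subgroup.mem_inf.mpr ⟨hxD, h1 hxD⟩
  · exact h1 a

theorem quot_comm (S : Setup φ x p k) (y a : A) : ⁅y, a⁆ ∈ centralizer ({x} : Set A) := by
  have hN := S.hN
  by_cases hy : y ∈ centralizer ({x} : Set A)
  · rw [commutatorElement_def]
    have e : y * a * y⁻¹ * a⁻¹ = y * (a * y⁻¹ * a⁻¹) := by group
    rw [e]
    exact mul_mem hy (hN.conj_mem _ (inv_mem hy) a)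
  · obtain ⟨c, hc, d, hd, rfl⟩ := S.factor hy a
    have hyc : c * y = y * c := Subgroup.mem_centralizer_singleton_iff.mp hc
    have e : ⁅y, c * d⁆ = c * ((y * d * y⁻¹) * d⁻¹) * c⁻¹ := by
      rw [commutatorElement_def]
      have e1 : y * c = c * y := hyc.symm
      calc y * (c * d) * y⁻¹ * (c * d)⁻¹ = (y * c) * d * y⁻¹ * d⁻¹ * c⁻¹ := by group
        _ = (c * y) * d * y⁻¹ * d⁻¹ * c⁻¹ := by rw [e1]
        _ = c * ((y * d * y⁻¹) * d⁻¹) * c⁻¹ := by group
    rw [e]
    exact hN.conj_mem _ (mul_mem (hN.conj_mem d hd y) (inv_mem hd)) c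

theorem exists_q [Finite A] (S : Setup φ x p k) :
    ∃ q : ℕ, q.Prime ∧ q ≠ p ∧ ∀ a : A, a ^ q ∈ centralizer ({x} : Set A) := by
  have hN := S.hN
  haveI := hN
  have hntop : centralizer ({x} : Set A) ≠ ⊤ := by
    intro e
    obtain ⟨a, ha⟩ := exists_not_mem_D S.hxZ
    apply ha
    rw [e]; trivial
  have hcard : Nat.card (A ⧸ centralizer ({x} : Set A)) ≠ 1 := by
    intro e
    apply hntop
    exact Subgroup.index_eq_one.mp e
  obtain ⟨r, hr, hrd⟩ := Nat.exists_prime_and_dvd hcard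
  haveI : Fact r.Prime := ⟨hr⟩
  obtain ⟨q, hq⟩ := exists_prime_orderOf_dvd_card' r hrd
  obtain ⟨q₀, rfl⟩ := QuotientGroup.mk_surjective q
  have hcD : ∀ a ∈ (⊤ : Subgroup A), ∀ b ∈ (⊤ : Subgroup A), ⁅a, b⁆ ∈ centralizer ({x} : Set A) :=
    fun a _ b _ => S.quot_comm a b
  have hLinv : Inv φ (PowS (⊤ : Subgroup A) (centralizer ({x} : Set A)) r hN hcD) :=
    inv_PowS inv_top S.hinv
  have hle : centralizer ({x} : Set A) ≤ PowS (⊤ : Subgroup A) (centralizer ({x} : Set A)) r hN hcD :=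
    fun d hd => ⟨trivial, pow_mem hd r⟩
  have hnle : ¬ PowS (⊤ : Subgroup A) (centralizer ({x} : Set A)) r hN hcD ≤ centralizer ({x} : Set A) := by
    intro hle2
    have h1 : q₀ ∈ PowS (⊤ : Subgroup A) (centralizer ({x} : Set A)) r hN hcD := by
      refine ⟨trivial, ?_⟩
      rw [← QuotientGroup.eq_one_iff, QuotientGroup.mk_pow, ← hq]
      exact pow_orderOf_eq_one _
    have h2 := hle2 h1
    have h3 : (QuotientGroup.mk q₀ : A ⧸ centralizer ({x} : Set A)) = 1 :=
      (QuotientGroup.eq_one_iff _).mpr h2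
    rw [h3, orderOf_one] at hq
    exact hr.one_lt.ne hq
  have htop := eq_top_of_inv_of_ge S.h hLinv S.hxZ hle hnle
  have hpow : ∀ a : A, a ^ r ∈ centralizer ({x} : Set A) := by
    intro a
    have ham : a ∈ PowS (⊤ : Subgroup A) (centralizer ({x} : Set A)) r hN hcD := by
      rw [htop]; trivial
    exact ham.2
  refine ⟨r, hr, ?_, hpow⟩
  intro hrp
  subst hrp
  have hGp : IsPGroup r (A ⧸ center A) := by
    intro u
    obtain ⟨a, rfl⟩ := QuotientGroup.mk_surjective u
    refine ⟨2, ?_⟩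
    have h1 : (QuotientGroup.mk a : A ⧸ center A) ^ r ^ 2 = QuotientGroup.mk ((a ^ r) ^ r) := by
      rw [pow_two, pow_mul]; rfl
    rw [h1]
    exact (QuotientGroup.eq_one_iff _).mpr (S.exp _ (hpow a))
  haveI : Nontrivial (A ⧸ center A) :=
    ⟨⟨QuotientGroup.mk x, 1, fun e => S.hxZ ((QuotientGroup.eq_one_iff _).mp e)⟩⟩
  haveI := hGp.center_nontrivial
  obtain ⟨w, hw⟩ := exists_ne (1 : center (A ⧸ center A))
  obtain ⟨z, hz⟩ := QuotientGroup.mk_surjective (w : A ⧸ center A)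
  have hzZ : z ∉ center A := by
    intro hm
    apply hw
    apply Subtype.ext
    rw [← hz]
    exact (QuotientGroup.eq_one_iff _).mpr hm
  obtain ⟨a, ha⟩ := S.hZH z hzZ
  apply ha
  rw [← mk_comm_iff, hz]
  exact (Subgroup.mem_center_iff.mp w.2 _)

theorem fpf [Finite A] (S : Setup φ x p k) {q m : ℕ} (hq : q.Prime) (hqp : q ≠ p) {y : A}
    (hy : y ∉ centralizer ({x} : Set A)) (hym : y ^ q ^ m = 1) {c₀ : A}
    (hc₀ : c₀ ∈ centralizer ({x} : Set A)) (hcomm : ⁅c₀, y⁆ ∈ center A) : c₀ ∈ center A := by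
  have hN := S.hN
  obtain ⟨a, b, hab, hcm, ⟨j, hj⟩, hb, ha, hbz⟩ := Cfsg.Agent.Lib.Transfer.exists_parts S.hp c₀
  have hzle : zpowers c₀ ≤ centralizer ({x} : Set A) := by
    rw [Subgroup.zpowers_le]; exact hc₀
  have haD := hzle ha
  have hbD := hzle hbz
  have hbZ : b ∈ center A :=
    mem_of_pow_mem_of_pow_eq_one (S.exp b hbD) (pow_orderOf_eq_one b) hb
  have hbc : ∀ w, w * b = b * w := fun w => Subgroup.mem_center_iff.mp hbZ w
  -- commutator with the `p`-part
  have hay : ⁅a, y⁆ ∈ center A := by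
    have e : ⁅a, y⁆ = ⁅c₀, y⁆ := by
      rw [commutatorElement_def, commutatorElement_def, hab]
      calc a * y * a⁻¹ * y⁻¹ = a * y * (b * b⁻¹) * a⁻¹ * y⁻¹ := by group
        _ = a * (y * b) * b⁻¹ * a⁻¹ * y⁻¹ := by group
        _ = a * (b * y) * b⁻¹ * a⁻¹ * y⁻¹ := by rw [hbc y]
        _ = a * b * y * (a * b)⁻¹ * y⁻¹ := by group
    rw [e]; exact hcomm
  obtain ⟨c, hcd⟩ : ∃ c, c = ⁅y, a⁆ := ⟨_, rfl⟩
  have hcZ : c ∈ center A := hcd ▸ comm_symm_central hay
  have hax : y * a * y⁻¹ = c * a := by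
    rw [hcd, commutatorElement_def]; group
  have hi := conj_pow_central hcZ hax (q ^ m)
  rw [hym] at hi
  have hc1 : c ^ q ^ m = 1 := by
    have h1 : (1 : A) * a * (1 : A)⁻¹ = a := by group
    rw [h1] at hi
    have h3 : c ^ q ^ m * a = 1 * a := by rw [one_mul]; exact hi.symm
    exact mul_right_cancel h3
  have hc2 : c ^ p ^ j = 1 := by
    have h1 : c = (y * a * y⁻¹) * a⁻¹ := by rw [hax]; group
    have hD1 : y * a * y⁻¹ ∈ centralizer ({x} : Set A) := hN.conj_mem a haD y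
    have hcm2 : Commute (y * a * y⁻¹) a⁻¹ := S.comm _ hD1 _ (inv_mem haD)
    rw [h1, hcm2.mul_pow, conj_pow, hj, inv_pow, hj]
    group
  have hc3 : c = 1 := by
    have hcop : (q ^ m).Coprime (p ^ j) :=
      Nat.Coprime.pow _ _ ((Nat.coprime_primes hq S.hp).mpr hqp)
    have := pow_gcd_eq_one.mpr ⟨hc1, hc2⟩
    rwa [hcop.gcd_eq_one, pow_one] at this
  have hay2 : a * y = y * a := by
    have h1 : y * a * y⁻¹ = a := by rw [hax, hc3, one_mul]
    calc a * y = y * a * y⁻¹ * y := by rw [h1]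
      _ = y * a := by group
  have haZ : a ∈ center A :=
    S.hT y hy (Subgroup.mem_inf.mpr ⟨haD, Subgroup.mem_centralizer_singleton_iff.mpr hay2⟩)
  rw [hab]
  exact mul_mem haZ hbZ

end Setup

theorem mem_map_mk_iff {U : Subgroup A} (hZ : center A ≤ U) (u : A) :
    (QuotientGroup.mk u : A ⧸ center A) ∈ U.map (QuotientGroup.mk' (center A)) ↔ u ∈ U := by
  constructor
  · rintro ⟨v, hv, e⟩
    have h1 : v⁻¹ * u ∈ center A := QuotientGroup.eq.mp e
    have := mul_mem hv (hZ h1)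
    simpa using this
  · intro hu
    exact ⟨u, hu, rfl⟩

/-- A group of prime exponent whose structure is cyclic or quaternion has prime order. -/
theorem card_eq_of_exp {H : Type*} [Group H] [Finite H] {Q : Subgroup H} {q : ℕ} (hq : q.Prime)
    (hexp : ∀ u ∈ Q, u ^ q = 1) (hne : Q ≠ ⊥)
    (hc : IsCyclic Q ∨ (q = 2 ∧ ∃ n : ℕ, Nonempty (Q ≃* QuaternionGroup (2 ^ n)))) : Nat.card Q = q := by
  rcases hc with hc | ⟨rfl, n, ⟨e⟩⟩
  · obtain ⟨g, hg⟩ := IsCyclic.exists_generator (α := Q)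
    have h1 : orderOf g = Nat.card Q := orderOf_eq_card_of_forall_mem_zpowers hg
    have h2 : g ^ q = 1 := Subtype.ext (hexp g g.2)
    have h3 : Nat.card Q ∣ q := by
      rw [← h1]; exact orderOf_dvd_of_pow_eq_one h2
    rcases (Nat.dvd_prime hq).mp h3 with h4 | h4
    · exact absurd (Subgroup.eq_bot_of_card_eq Q h4) hne
    · exact h4
  · exfalso
    have h1 : (QuaternionGroup.xa (0 : ZMod (2 * 2 ^ n))) ^ 2 = 1 := by
      have h2 : (e.symm (QuaternionGroup.xa 0)) ^ 2 = 1 :=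
        Subtype.ext (hexp _ (e.symm (QuaternionGroup.xa 0)).2)
      have h3 := congrArg e h2
      rw [map_pow, MulEquiv.apply_symm_apply, map_one] at h3
      exact h3
    have h4 := orderOf_dvd_of_pow_eq_one h1
    rw [QuaternionGroup.orderOf_xa] at h4
    omega

/-- The Frobenius structure. -/
theorem frobData_of_normal [Finite A] (h : Act φ)
    (hZH : ∀ z : A, z ∉ center A → ∃ a : A, ⁅a, z⁆ ∉ center A) {x₀ : A} (hx₀ : x₀ ∉ center A)
    (hn : (centralizer ({x₀} : Set A)).Normal) :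
    ∃ (K Q : Subgroup (A ⧸ center A)) (p q : ℕ), FrobData K Q p q := by
  obtain ⟨x, hxz, p, k, hp, hxZ, hxk, hxp⟩ := exists_part_prime hx₀
  have hSx : St φ x₀ = St φ x := St_eq_of_le h hx₀ hxZ (St_le_of_mem_zpowers hxz)
  have hD : centralizer ({x₀} : Set A) = centralizer ({x} : Set A) := D_eq_of_St_eq h hSx
  have hnD : (centralizer ({x} : Set A)).Normal := hD ▸ hn
  have hinv := inv_of_normal h hxZ hnD
  have hnil := isNilpotent_D h hxZ hp hxk
  have S : Setup φ x p k :=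
    ⟨h, hZH, hxZ, hp, hxk, hxp, hinv, fun y hy => inf_le_center h hZH hxZ hinv hnil hy⟩
  obtain ⟨q, hq, hqp, hqa⟩ := S.exists_q
  haveI : Fact q.Prime := ⟨hq⟩
  have hcopD : ∀ b : A, (orderOf b).Coprime q → b ∈ centralizer ({x} : Set A) := fun b hb =>
    mem_of_pow_mem_of_pow_eq_one (hqa b) (pow_orderOf_eq_one b) hb
  obtain ⟨y₁, hy₁⟩ := exists_not_mem_D hxZ
  obtain ⟨y₀, b₁, hab, -, ⟨m, hm⟩, hb₁, -, -⟩ := Cfsg.Agent.Lib.Transfer.exists_parts hq y₁
  have hy₀ : y₀ ∉ centralizer ({x} : Set A) := by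
    intro hmem
    apply hy₁
    rw [hab]
    exact mul_mem hmem (hcopD b₁ hb₁)
  have hT₀ := S.hT y₀ hy₀
  have hZD := S.hZD
  have hZD' : center A ≤ centralizer ({y₀} : Set A) := Subgroup.center_le_centralizer _
  have hmemK := mem_map_mk_iff hZD
  have hmemQ := mem_map_mk_iff hZD'
  have hsurj := QuotientGroup.mk'_surjective (center A)
  have hKn : ((centralizer ({x} : Set A)).map (QuotientGroup.mk' (center A))).Normal :=
    Subgroup.Normal.map S.hN _ hsurj
  have hKne : (centralizer ({x} : Set A)).map (QuotientGroup.mk' (center A)) ≠ ⊥ := by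
    intro e
    have h1 : (QuotientGroup.mk x : A ⧸ center A) ∈
        (centralizer ({x} : Set A)).map (QuotientGroup.mk' (center A)) := by
      rw [hmemK, Subgroup.mem_centralizer_singleton_iff]
    rw [e, Subgroup.mem_bot] at h1
    exact hxZ ((QuotientGroup.eq_one_iff _).mp h1)
  have hKcomm : ∀ a ∈ (centralizer ({x} : Set A)).map (QuotientGroup.mk' (center A)),
      ∀ b ∈ (centralizer ({x} : Set A)).map (QuotientGroup.mk' (center A)), a * b = b * a := by
    rintro _ ⟨a, ha, rfl⟩ _ ⟨b, hb, rfl⟩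
    rw [← map_mul, ← map_mul, S.comm a ha b hb]
  have hfpf : ∀ u ∈ (centralizer ({y₀} : Set A)).map (QuotientGroup.mk' (center A)),
      ∀ t ∈ (centralizer ({x} : Set A)).map (QuotientGroup.mk' (center A)),
      u * t = t * u → u = 1 ∨ t = 1 := by
    rintro _ ⟨u₀, hu₀, rfl⟩ _ ⟨t₀, ht₀, rfl⟩ hut
    by_cases hu₀Z : u₀ ∈ center A
    · left
      exact (QuotientGroup.eq_one_iff _).mpr hu₀Z
    right
    obtain ⟨a', b', hab', -, ⟨m', hm'⟩, hb', ha'z, hb'z⟩ :=
      Cfsg.Agent.Lib.Transfer.exists_parts hq u₀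
    have hzle : zpowers u₀ ≤ centralizer ({y₀} : Set A) := by
      rw [Subgroup.zpowers_le]; exact hu₀
    have hb'Z : b' ∈ center A :=
      hT₀ (Subgroup.mem_inf.mpr ⟨hcopD b' hb', hzle hb'z⟩)
    have hb'c : ∀ w, w * b' = b' * w := fun w => Subgroup.mem_center_iff.mp hb'Z w
    have ha'Z : a' ∉ center A := by
      intro hmem
      apply hu₀Z
      rw [hab']
      exact mul_mem hmem hb'Z
    have ha'D : a' ∉ centralizer ({x} : Set A) := by
      intro hmem
      exact ha'Z (hT₀ (Subgroup.mem_inf.mpr ⟨hmem, hzle ha'z⟩))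
    have hcut : ⁅t₀, u₀⁆ ∈ center A := (mk_comm_iff t₀ u₀).mp hut.symm
    have hca : ⁅t₀, a'⁆ ∈ center A := by
      have e : ⁅t₀, a'⁆ = ⁅t₀, u₀⁆ := by
        rw [commutatorElement_def, commutatorElement_def, hab']
        have e0 : b' * t₀⁻¹ * b'⁻¹ = t₀⁻¹ := by rw [← hb'c]; group
        calc t₀ * a' * t₀⁻¹ * a'⁻¹ = t₀ * a' * (b' * t₀⁻¹ * b'⁻¹) * a'⁻¹ := by rw [e0]
          _ = t₀ * (a' * b') * t₀⁻¹ * (a' * b')⁻¹ := by group
      rw [e]; exact hcut
    have := S.fpf hq hqp ha'D hm' ht₀ hca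
    exact (QuotientGroup.eq_one_iff _).mpr this
  have hQexp : ∀ u ∈ (centralizer ({y₀} : Set A)).map (QuotientGroup.mk' (center A)), u ^ q = 1 := by
    rintro _ ⟨u₀, hu₀, rfl⟩
    rw [← map_pow]
    apply (QuotientGroup.eq_one_iff _).mpr
    exact hT₀ (Subgroup.mem_inf.mpr ⟨hqa u₀, pow_mem hu₀ q⟩)
  have hQne : (centralizer ({y₀} : Set A)).map (QuotientGroup.mk' (center A)) ≠ ⊥ := by
    intro e
    have h1 : (QuotientGroup.mk y₀ : A ⧸ center A) ∈
        (centralizer ({y₀} : Set A)).map (QuotientGroup.mk' (center A)) := by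
      rw [hmemQ, Subgroup.mem_centralizer_singleton_iff]
    rw [e, Subgroup.mem_bot] at h1
    exact hy₀ (hZD ((QuotientGroup.eq_one_iff _).mp h1))
  have hQp : IsPGroup q ((centralizer ({y₀} : Set A)).map (QuotientGroup.mk' (center A))) := by
    rintro ⟨u, hu⟩
    refine ⟨1, ?_⟩
    apply Subtype.ext
    show u ^ q ^ 1 = 1
    rw [pow_one]
    exact hQexp u hu
  haveI hKcm : IsMulCommutative ((centralizer ({x} : Set A)).map (QuotientGroup.mk' (center A))) :=
    ⟨⟨fun a b => Subtype.ext (hKcomm a a.2 b b.2)⟩⟩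
  have hform := Cfsg.Agent.Lib.OddLocal.sylow_form_of_fpf hQp hKne
    (by rw [Subgroup.normalizer_eq_top_iff.mpr hKn]; exact le_top) (by
      intro d hd hd1
      rw [eq_bot_iff]
      intro t ht
      obtain ⟨ht1, ht2⟩ := Subgroup.mem_inf.mp ht
      have h3 : t * d = d * t := Subgroup.mem_centralizer_singleton_iff.mp ht2
      rcases hfpf d hd t ht1 h3.symm with h4 | h4
      · exact absurd h4 hd1
      · exact Subgroup.mem_bot.mpr h4)
  have hcardQ := card_eq_of_exp hq hQexp hQne hform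
  refine ⟨_, _, p, q, ⟨hp, hq, hqp.symm, hKn, hKne, hKcomm, ?_, hcardQ, ?_, ?_, hfpf⟩⟩
  · rintro _ ⟨a, ha, rfl⟩
    rw [← map_pow]
    exact (QuotientGroup.eq_one_iff _).mpr (S.exp a ha)
  · rw [eq_bot_iff]
    rintro t ht
    obtain ⟨⟨a, ha, rfl⟩, ht2⟩ := Subgroup.mem_inf.mp ht
    have h2 : a ∈ centralizer ({y₀} : Set A) := (hmemQ a).mp ht2
    exact Subgroup.mem_bot.mpr
      ((QuotientGroup.eq_one_iff _).mpr (hT₀ (Subgroup.mem_inf.mpr ⟨ha, h2⟩)))
  · rw [eq_top_iff]
    intro t _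
    obtain ⟨a, rfl⟩ := QuotientGroup.mk_surjective t
    obtain ⟨c, hc, d, hd, rfl⟩ := S.factor hy₀ a
    show (QuotientGroup.mk c : A ⧸ center A) * QuotientGroup.mk d ∈ _
    exact mul_mem (Subgroup.mem_sup_right ((hmemQ c).mpr hc)) (Subgroup.mem_sup_left ((hmemK d).mpr hd))

end Cfsg.Agent.Lib.PGroup.MaxCent
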