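import Mathlib
import Cfsg.Agent.Lib.PGroup.MaxCentE
import Cfsg.Agent.Lib.PSolv.Basic
import Cfsg.Prelude.Def_Solvable
import Cfsg.Prelude.Def_Transfer

/-!
The main dichotomy, the Frobenius form and the minimal non-abelian form of the second alternative.
-/

namespace Cfsg.Agent.Lib.PGroup.MaxCent

open Subgroup
open scoped commutatorElement Pointwise

variable {A G : Type*} [Group A] [Group G] {φ : G →* MulAut A}

/-- The main dichotomy. -/
theorem core [Finite A] (h : Act φ) :
    (∃ p : ℕ, p.Prime ∧ (∀ a b : A ⧸ center A, a * b = b * a) ∧ ∀ u : A ⧸ center A, u ^ p = 1) ∨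
    ∃ (K Q : Subgroup (A ⧸ center A)) (p q : ℕ), FrobData K Q p q := by
  by_cases hcent : ∃ z : A, z ∉ center A ∧ ∀ a : A, ⁅a, z⁆ ∈ center A
  · left
    obtain ⟨z, hz, hza⟩ := hcent
    have hcl := class_two_of_central h hz hza
    have hc : ∀ a b : A ⧸ center A, a * b = b * a := by
      intro a b
      obtain ⟨a, rfl⟩ := QuotientGroup.mk_surjective a
      obtain ⟨b, rfl⟩ := QuotientGroup.mk_surjective b
      exact (mk_comm_iff a b).mpr (hcl a b)
    have hpr : ∀ u : A ⧸ center A, ∃ r : ℕ, r.Prime ∧ u ^ r = 1 := by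
      intro u
      obtain ⟨x, rfl⟩ := QuotientGroup.mk_surjective u
      by_cases hx : x ∈ center A
      · refine ⟨2, Nat.prime_two, ?_⟩
        rw [(QuotientGroup.eq_one_iff _).mpr hx, one_pow]
      · obtain ⟨r, hr, hxr⟩ := pow_prime_mem_center h hcl hx
        refine ⟨r, hr, ?_⟩
        have : (QuotientGroup.mk x : A ⧸ center A) ^ r = QuotientGroup.mk (x ^ r) := rfl
        rw [this]
        exact (QuotientGroup.eq_one_iff _).mpr hxr
    obtain ⟨p, hp, hexp⟩ := exists_prime_exponent hc hpr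
    exact ⟨p, hp, hc, hexp⟩
  · push Not at hcent
    by_cases hab : ∃ z₀ : A, z₀ ∉ center A
    · right
      obtain ⟨z₀, hz₀⟩ := hab
      obtain ⟨x, hx, hxn⟩ := exists_normal_centralizer h hcent hz₀
      exact frobData_of_normal h hcent hx hxn
    · left
      push Not at hab
      have h1 : ∀ u : A ⧸ center A, u = 1 := by
        intro u
        obtain ⟨x, rfl⟩ := QuotientGroup.mk_surjective u
        exact (QuotientGroup.eq_one_iff _).mpr (hab x)
      exact ⟨2, Nat.prime_two, fun a b => by rw [h1 a, h1 b], fun u => by rw [h1 u, one_pow]⟩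

section Frob

variable {H : Type*} [Group H] [Finite H] {K Q : Subgroup H} {p q : ℕ}

theorem FrobData.frobenius (d : FrobData K Q p q) :
    Cfsg.IsFrobeniusComplement Q ∧ (K : Set H) = Cfsg.frobeniusKernel Q := by
  haveI := d.normal
  have hKn := d.normal
  have hQbot : Q ≠ ⊥ := by
    intro e
    have h1 := d.card
    rw [e, Subgroup.card_bot] at h1
    exact d.hq.one_lt.ne h1
  have hKQ : ∀ t, t ∈ K → t ∈ Q → t = 1 := by
    intro t h1 h2
    have : t ∈ K ⊓ Q := Subgroup.mem_inf.mpr ⟨h1, h2⟩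
    rw [d.inf] at this
    exact Subgroup.mem_bot.mp this
  have hsup : ∀ g : H, ∃ k ∈ K, ∃ w ∈ Q, k * w = g := by
    intro g
    have : g ∈ K ⊔ Q := by rw [d.sup]; trivial
    exact Subgroup.mem_sup_of_normal_left.mp this
  refine ⟨⟨hQbot, ?_, ?_⟩, ?_⟩
  · intro e
    apply d.ne
    rw [← inf_top_eq K, ← e, d.inf]
  · intro g hg
    rw [eq_bot_iff]
    intro u hu
    obtain ⟨hu1, hu2⟩ := Subgroup.mem_inf.mp hu
    obtain ⟨v, hv, huv⟩ := (Subgroup.mem_smul_pointwise_iff_exists _ _ _).mp hu2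
    have huv' : u = g * v * g⁻¹ := by
      rw [← huv]; rfl
    rw [Subgroup.mem_bot]
    by_contra hu3
    obtain ⟨k, hk, w, hw, rfl⟩ := hsup g
    obtain ⟨v', hv'⟩ : ∃ v', v' = w * v * w⁻¹ := ⟨_, rfl⟩
    have hv'Q : v' ∈ Q := by
      rw [hv']; exact mul_mem (mul_mem hw hv) (inv_mem hw)
    have hu4 : u = k * v' * k⁻¹ := by
      rw [huv', hv']; group
    have h1 : u * v'⁻¹ ∈ K := by
      have e : u * v'⁻¹ = k * (v' * k⁻¹ * v'⁻¹) := by rw [hu4]; group
      rw [e]
      exact mul_mem hk (hKn.conj_mem _ (inv_mem hk) v')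
    have h2 : u * v'⁻¹ ∈ Q := mul_mem hu1 (inv_mem hv'Q)
    have h3 := hKQ _ h1 h2
    have h4 : u = v' := mul_inv_eq_one.mp h3
    have h5 : v' * k = k * v' := by
      have : k * v' * k⁻¹ = v' := by rw [← hu4]; exact h4
      calc v' * k = k * v' * k⁻¹ * k := by rw [this]
        _ = k * v' := by group
    rcases d.fpf v' hv'Q k hk h5 with h6 | h6
    · exact hu3 (h4.trans h6)
    · apply hg
      rw [h6, one_mul]
      exact hw
  · ext x
    constructor
    · intro hx
      by_cases hx1 : x = 1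
      · exact Or.inl hx1
      · right
        intro g hg
        obtain ⟨v, hv, hxv⟩ := (Subgroup.mem_smul_pointwise_iff_exists _ _ _).mp hg
        have hxv' : x = g * v * g⁻¹ := by
          rw [← hxv]; rfl
        have h1 : v ∈ K := by
          have := hKn.conj_mem x hx g⁻¹
          rw [hxv'] at this
          have e : g⁻¹ * (g * v * g⁻¹) * g⁻¹⁻¹ = v := by group
          rwa [e] at this
        have h2 := hKQ v h1 hv
        apply hx1
        rw [hxv', h2]; group
    · rintro (hx | hx)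
      · rw [hx]; exact one_mem _
      · by_contra hxK
        obtain ⟨k, hk, w, hw, rfl⟩ := hsup x
        have hw1 : w ≠ 1 := by
          intro e
          apply hxK
          rw [e, mul_one]; exact hk
        let f : K → K := fun k' =>
          ⟨k' * w * (k' : H)⁻¹ * w⁻¹, by
            have e : (k' : H) * w * (k' : H)⁻¹ * w⁻¹ = k' * (w * (k' : H)⁻¹ * w⁻¹) := by group
            rw [e]
            exact mul_mem k'.2 (hKn.conj_mem _ (inv_mem k'.2) w)⟩
        have hfi : Function.Injective f := by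
          intro a b hab
          have h1 : (a : H) * w * (a : H)⁻¹ * w⁻¹ = b * w * (b : H)⁻¹ * w⁻¹ := congrArg Subtype.val hab
          have h2 : (a : H) * w * (a : H)⁻¹ = b * w * (b : H)⁻¹ := mul_right_cancel h1
          have h3 : w * ((b : H)⁻¹ * a) = ((b : H)⁻¹ * a) * w := by
            have h4 : (b : H)⁻¹ * ((a : H) * w * (a : H)⁻¹) * a = (b : H)⁻¹ * (b * w * (b : H)⁻¹) * a := by
              rw [h2]
            calc w * ((b : H)⁻¹ * a) = (b : H)⁻¹ * (b * w * (b : H)⁻¹) * a := by group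
              _ = (b : H)⁻¹ * ((a : H) * w * (a : H)⁻¹) * a := h4.symm
              _ = ((b : H)⁻¹ * a) * w := by group
          rcases d.fpf w hw _ (mul_mem (inv_mem b.2) a.2) h3 with h5 | h5
          · exact absurd h5 hw1
          · have : (a : H) = b := by
              have h6 := congrArg (fun t => (b : H) * t) h5
              simpa using h6
            exact Subtype.ext this
        obtain ⟨k', hk'⟩ := (Finite.injective_iff_surjective.mp hfi) ⟨k, hk⟩
        have h1 : (k' : H) * w * (k' : H)⁻¹ * w⁻¹ = k := congrArg Subtype.val hk'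
        apply hx k'
        refine (Subgroup.mem_smul_pointwise_iff_exists _ _ _).mpr ⟨w, hw, ?_⟩
        show (k' : H) * w * (k' : H)⁻¹ = k * w
        rw [← h1]; group

/-- The second alternative of the maximal centralizer theorem when `Q` is maximal. -/
theorem FrobData.second_alt (d : FrobData K Q p q) (hco : IsCoatom Q) :
    ¬ IsMulCommutative H ∧ (∀ L : Subgroup H, L ≠ ⊤ → IsMulCommutative L) ∧
      ∃ p q a : ℕ, p.Prime ∧ q.Prime ∧ p ≠ q ∧ Nat.card H = p ^ a * q ∧
        ∀ P : Subgroup H, Nat.card P = p ^ a → P.Normal := by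
  haveI := d.normal
  have hKn := d.normal
  have hq := d.hq
  have hp := d.hp
  haveI : Fact q.Prime := ⟨hq⟩
  haveI : Fact p.Prime := ⟨hp⟩
  have hKQ : ∀ t, t ∈ K → t ∈ Q → t = 1 := by
    intro t h1 h2
    have : t ∈ K ⊓ Q := Subgroup.mem_inf.mpr ⟨h1, h2⟩
    rw [d.inf] at this
    exact Subgroup.mem_bot.mp this
  have hsup : ∀ g : H, ∃ k ∈ K, ∃ w ∈ Q, k * w = g := by
    intro g
    have : g ∈ K ⊔ Q := by rw [d.sup]; trivial
    exact Subgroup.mem_sup_of_normal_left.mp this
  have hQcyc : IsCyclic Q := isCyclic_of_prime_card d.card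
  have hQcomm : ∀ a ∈ Q, ∀ b ∈ Q, a * b = b * a := by
    intro a ha b hb
    letI := IsCyclic.commGroup (α := Q)
    have := mul_comm (⟨a, ha⟩ : Q) ⟨b, hb⟩
    exact congrArg Subtype.val this
  have hQle : ∀ L : Subgroup H, L ≤ Q → L = ⊥ ∨ L = Q := by
    intro L hL
    have h1 : Nat.card L ∣ Nat.card Q := Subgroup.card_dvd_of_le hL
    rw [d.card] at h1
    rcases (Nat.dvd_prime hq).mp h1 with h2 | h2
    · exact Or.inl (Subgroup.eq_bot_of_card_eq L h2)
    · exact Or.inr (Subgroup.eq_of_le_of_card_ge hL (by rw [h2, d.card]))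
  -- `H/K` is commutative
  have hquot : ∀ a b : H, ⁅a, b⁆ ∈ K := by
    intro a b
    obtain ⟨k₁, hk₁, w₁, hw₁, rfl⟩ := hsup a
    obtain ⟨k₂, hk₂, w₂, hw₂, rfl⟩ := hsup b
    rw [← QuotientGroup.eq_one_iff, commutatorElement_def]
    have e1 : (QuotientGroup.mk k₁ : H ⧸ K) = 1 := (QuotientGroup.eq_one_iff _).mpr hk₁
    have e2 : (QuotientGroup.mk k₂ : H ⧸ K) = 1 := (QuotientGroup.eq_one_iff _).mpr hk₂
    have h3 : (QuotientGroup.mk (k₁ * w₁ * (k₂ * w₂) * (k₁ * w₁)⁻¹ * (k₂ * w₂)⁻¹) : H ⧸ K) =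
        (QuotientGroup.mk k₁ * QuotientGroup.mk w₁) * (QuotientGroup.mk k₂ * QuotientGroup.mk w₂) *
          (QuotientGroup.mk k₁ * QuotientGroup.mk w₁)⁻¹ * (QuotientGroup.mk k₂ * QuotientGroup.mk w₂)⁻¹ := rfl
    rw [h3, e1, e2, one_mul, one_mul]
    have h4 : (QuotientGroup.mk w₁ : H ⧸ K) * QuotientGroup.mk w₂ = QuotientGroup.mk w₂ * QuotientGroup.mk w₁ := by
      have := congrArg (QuotientGroup.mk : H → H ⧸ K) (hQcomm w₁ hw₁ w₂ hw₂)
      exact this
    rw [h4]; group
  -- minimality of `K`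
  have hmin : ∀ L : Subgroup H, L.Normal → L ≤ K → L ≠ ⊥ → L = K := by
    intro L hL hLK hL1
    haveI := hL
    have hnle : ¬ L ≤ Q := by
      intro hle
      apply hL1
      rw [eq_bot_iff]
      intro t ht
      exact Subgroup.mem_bot.mpr (hKQ t (hLK ht) (hle ht))
    have hlt : Q < Q ⊔ L := lt_of_le_of_ne le_sup_left (fun e => hnle (by rw [e]; exact le_sup_right))
    have htop := hco.2 _ hlt
    refine le_antisymm hLK ?_
    intro k hk
    have hm : k ∈ Q ⊔ L := by rw [htop]; trivial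
    obtain ⟨w, hw, l, hl, rfl⟩ := Subgroup.mem_sup_of_normal_right.mp hm
    have hwK : w ∈ K := by
      have := mul_mem hk (inv_mem (hLK hl))
      simpa using this
    rw [hKQ w hwK hw, one_mul]
    exact hl
  -- `K` is maximal
  have hKco : ∀ L : Subgroup H, K < L → L = ⊤ := by
    intro L hL
    obtain ⟨l, hl, hlK⟩ := SetLike.exists_of_lt hL
    obtain ⟨k, hk, w, hw, rfl⟩ := hsup l
    have hwL : w ∈ L := by
      have := mul_mem (inv_mem (hL.le hk)) hl
      simpa using this
    have hw1 : w ≠ 1 := by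
      intro e
      apply hlK
      rw [e, mul_one]; exact hk
    have hQL : Q ≤ L := by
      rcases hQle (Q ⊓ L) inf_le_left with h1 | h1
      · exfalso
        apply hw1
        have : w ∈ Q ⊓ L := Subgroup.mem_inf.mpr ⟨hw, hwL⟩
        rw [h1] at this
        exact Subgroup.mem_bot.mp this
      · rw [← h1]; exact inf_le_right
    rw [eq_top_iff, ← d.sup]
    exact sup_le hL.le hQL
  have hKne : ∃ k ∈ K, k ≠ 1 := by
    obtain ⟨k, hk⟩ := Subgroup.ne_bot_iff_exists_ne_one.mp d.ne
    exact ⟨k, k.2, fun e => hk (Subtype.ext e)⟩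
  have hQne : ∃ u ∈ Q, u ≠ 1 := by
    have hQb : Q ≠ ⊥ := by
      intro e
      have h1 := d.card
      rw [e, Subgroup.card_bot] at h1
      exact hq.one_lt.ne h1
    obtain ⟨k, hk⟩ := Subgroup.ne_bot_iff_exists_ne_one.mp hQb
    exact ⟨k, k.2, fun e => hk (Subtype.ext e)⟩
  refine ⟨?_, ?_, ?_⟩
  · intro hcomm
    obtain ⟨k, hk, hk1⟩ := hKne
    obtain ⟨u, hu, hu1⟩ := hQne
    rcases d.fpf u hu k hk (hcomm.is_comm.comm u k) with h1 | h1
    · exact hu1 h1
    · exact hk1 h1
  · intro L hL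
    by_cases hLK : L ≤ K
    · exact ⟨⟨fun a b => Subtype.ext (d.comm a (hLK a.2) b (hLK b.2))⟩⟩
    · have hlt : K < K ⊔ L := lt_of_le_of_ne le_sup_left (fun e => hLK (by rw [e]; exact le_sup_right))
      have htop := hKco _ hlt
      have hnorm : (K ⊓ L).Normal := by
        refine ⟨?_⟩
        intro l hl g
        obtain ⟨hl1, hl2⟩ := Subgroup.mem_inf.mp hl
        have hg : g ∈ K ⊔ L := by rw [htop]; trivial
        obtain ⟨k, hk, y, hy, rfl⟩ := Subgroup.mem_sup_of_normal_left.mp hg
        have h1 : y * l * y⁻¹ ∈ K := hKn.conj_mem l hl1 y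
        have h2 : y * l * y⁻¹ ∈ L := mul_mem (mul_mem hy hl2) (inv_mem hy)
        have e : k * y * l * (k * y)⁻¹ = y * l * y⁻¹ := by
          have h3 := d.comm k hk _ h1
          calc k * y * l * (k * y)⁻¹ = (k * (y * l * y⁻¹)) * k⁻¹ := by group
            _ = ((y * l * y⁻¹) * k) * k⁻¹ := by rw [h3]
            _ = y * l * y⁻¹ := by group
        rw [e]
        exact Subgroup.mem_inf.mpr ⟨h1, h2⟩
      by_cases hbot : K ⊓ L = ⊥
      · refine ⟨⟨fun a b => Subtype.ext ?_⟩⟩
        have h1 : ⁅(a : H), (b : H)⁆ ∈ K ⊓ L := by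
          refine Subgroup.mem_inf.mpr ⟨hquot a b, ?_⟩
          rw [commutatorElement_def]
          exact mul_mem (mul_mem (mul_mem a.2 b.2) (inv_mem a.2)) (inv_mem b.2)
        rw [hbot, Subgroup.mem_bot] at h1
        exact commutatorElement_eq_one_iff_mul_comm.mp h1
      · exfalso
        have h1 := hmin _ hnorm inf_le_left hbot
        have h2 : K ≤ L := by
          rw [← h1]; exact inf_le_right
        apply hL
        rw [eq_top_iff, ← htop]
        exact sup_le h2 le_rfl
  · have hKp : IsPGroup p K := by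
      rintro ⟨k, hk⟩
      refine ⟨1, ?_⟩
      apply Subtype.ext
      show k ^ p ^ 1 = 1
      rw [pow_one]
      exact d.exp k hk
    obtain ⟨a, ha⟩ := IsPGroup.iff_card.mp hKp
    have hcard : Nat.card H = p ^ a * q := by
      have h1 := Cfsg.Agent.Lib.PSolv.card_sup_mul_card_inf Q K
      rw [sup_comm, d.sup, inf_comm, d.inf, Subgroup.card_top, Subgroup.card_bot, mul_one, d.card, ha] at h1
      rw [h1, mul_comm]
    refine ⟨p, q, a, hp, hq, d.hpq, hcard, ?_⟩
    intro P hP
    have hidx : Nat.card (H ⧸ K) = q := by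
      have h1 : Nat.card K * K.index = Nat.card H := Subgroup.card_mul_index K
      rw [ha, hcard] at h1
      exact Nat.eq_of_mul_eq_mul_left (pow_pos hp.pos a) h1
    have hle : P ≤ K := by
      intro x hx
      have h1 : x ^ p ^ a = 1 := by
        rw [← hP]
        exact orderOf_dvd_iff_pow_eq_one.mp (Subgroup.orderOf_dvd_natCard P hx)
      have h2 : (QuotientGroup.mk x : H ⧸ K) ^ q = 1 := by
        rw [← hidx]; exact pow_card_eq_one'
      have h3 : (QuotientGroup.mk x : H ⧸ K) ^ p ^ a = 1 := by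
        rw [← QuotientGroup.mk_pow, h1]; rfl
      have hcop : (p ^ a).Coprime q :=
        Nat.Coprime.pow_left a ((Nat.coprime_primes hp hq).mpr d.hpq)
      have h4 := pow_gcd_eq_one.mpr ⟨h3, h2⟩
      rw [hcop.gcd_eq_one, pow_one] at h4
      exact (QuotientGroup.eq_one_iff _).mp h4
    have he : P = K := Subgroup.eq_of_le_of_card_ge hle (by rw [ha, hP])
    rw [he]; exact hKn

end Frob

theorem act_normal {G : Type*} [Group G] (N : Subgroup G) [N.Normal]
    (h : ∀ x : G, x ∈ N → x ∉ Subgroup.centralizer (N : Set G) →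
      IsCoatom (Subgroup.centralizer ({x} : Set G))) : Act (MulAut.conjNormal (H := N)) := by
  refine ⟨fun a => ⟨a, MulAut.conjNormal_val⟩, ?_⟩
  intro x hx
  have hxc : (x : G) ∉ Subgroup.centralizer (N : Set G) := by
    intro hm
    apply hx
    rw [Subgroup.mem_center_iff]
    intro y
    exact Subtype.ext ((Subgroup.mem_centralizer_iff.mp hm) y y.2)
  have e : St (MulAut.conjNormal (H := N)) x = Subgroup.centralizer ({(x : G)} : Set G) := by
    ext g
    rw [mem_St, Subgroup.mem_centralizer_singleton_iff]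
    constructor
    · intro hg
      have h1 : g * x * g⁻¹ = x := congrArg Subtype.val hg
      calc g * x = g * x * g⁻¹ * g := by group
        _ = x * g := by rw [h1]
    · intro hg
      apply Subtype.ext
      show g * x * g⁻¹ = x
      rw [hg]; group
  rw [e]
  exact h x x.2 hxc

theorem act_top {G : Type*} [Group G]
    (h : ∀ x : G, x ∉ Subgroup.center G → IsCoatom (Subgroup.centralizer ({x} : Set G))) :
    Act (MulAut.conj (G := G)) := by
  refine ⟨fun a => ⟨a, rfl⟩, ?_⟩
  intro x hx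
  have e : St (MulAut.conj (G := G)) x = Subgroup.centralizer ({x} : Set G) := by
    ext g
    rw [mem_St_of_inn rfl]
  rw [e]
  exact h x hx

theorem coatom_of_data {G : Type*} [Group G] [Finite G]
    (h : ∀ x : G, x ∉ Subgroup.center G → IsCoatom (Subgroup.centralizer ({x} : Set G)))
    {K Q : Subgroup (G ⧸ center G)} {p q : ℕ} (d : FrobData K Q p q) : IsCoatom Q := by
  haveI := d.normal
  have hq := d.hq
  haveI : Fact q.Prime := ⟨hq⟩
  have hsup : ∀ g : G ⧸ center G, ∃ k ∈ K, ∃ w ∈ Q, k * w = g := by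
    intro g
    have : g ∈ K ⊔ Q := by rw [d.sup]; trivial
    exact Subgroup.mem_sup_of_normal_left.mp this
  have hQcyc : IsCyclic Q := isCyclic_of_prime_card d.card
  have hQcomm : ∀ a ∈ Q, ∀ b ∈ Q, a * b = b * a := by
    intro a ha b hb
    letI := IsCyclic.commGroup (α := Q)
    have := mul_comm (⟨a, ha⟩ : Q) ⟨b, hb⟩
    exact congrArg Subtype.val this
  have hQb : Q ≠ ⊥ := by
    intro e
    have h1 := d.card
    rw [e, Subgroup.card_bot] at h1
    exact hq.one_lt.ne h1
  have hQtop : Q ≠ ⊤ := by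
    intro e
    apply d.ne
    rw [← inf_top_eq K, ← e, d.inf]
  obtain ⟨u', hu'⟩ := Subgroup.ne_bot_iff_exists_ne_one.mp hQb
  obtain ⟨x, hx⟩ := QuotientGroup.mk_surjective (u' : G ⧸ center G)
  have hu1 : (QuotientGroup.mk x : G ⧸ center G) ≠ 1 := by
    rw [hx]; exact fun e => hu' (Subtype.ext e)
  have hxZ : x ∉ center G := fun hm => hu1 ((QuotientGroup.eq_one_iff _).mpr hm)
  have huQ : (QuotientGroup.mk x : G ⧸ center G) ∈ Q := by rw [hx]; exact u'.2
  have hM := h x hxZ
  have hMQ : ∀ v ∈ centralizer ({x} : Set G), (QuotientGroup.mk v : G ⧸ center G) ∈ Q := by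
    intro v hv
    obtain ⟨k, hk, w, hw, hkw⟩ := hsup (QuotientGroup.mk v)
    have h1 : (QuotientGroup.mk v : G ⧸ center G) * QuotientGroup.mk x =
        QuotientGroup.mk x * QuotientGroup.mk v :=
      congrArg (QuotientGroup.mk : G → G ⧸ center G) (Subgroup.mem_centralizer_singleton_iff.mp hv)
    rw [← hkw] at h1 ⊢
    have h2 := hQcomm w hw _ huQ
    have h3 : (QuotientGroup.mk x : G ⧸ center G) * k = k * QuotientGroup.mk x := by
      have h4 : k * (QuotientGroup.mk x : G ⧸ center G) * w = (QuotientGroup.mk x : G ⧸ center G) * k * w := by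
        calc k * (QuotientGroup.mk x : G ⧸ center G) * w = k * ((QuotientGroup.mk x : G ⧸ center G) * w) := by group
          _ = k * (w * (QuotientGroup.mk x : G ⧸ center G)) := by rw [← h2]
          _ = k * w * (QuotientGroup.mk x : G ⧸ center G) := by group
          _ = (QuotientGroup.mk x : G ⧸ center G) * (k * w) := h1
          _ = (QuotientGroup.mk x : G ⧸ center G) * k * w := by group
      exact (mul_right_cancel h4).symm
    rcases d.fpf _ huQ k hk h3 with h5 | h5
    · exact absurd h5 hu1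
    · rw [h5, one_mul]; exact hw
  refine ⟨hQtop, ?_⟩
  intro L hL
  obtain ⟨l, hl, hlQ⟩ := SetLike.exists_of_lt hL
  obtain ⟨l₀, rfl⟩ := QuotientGroup.mk_surjective l
  have hle : centralizer ({x} : Set G) ≤ L.comap (QuotientGroup.mk' (center G)) :=
    fun v hv => hL.le (hMQ v hv)
  have hne : centralizer ({x} : Set G) ≠ L.comap (QuotientGroup.mk' (center G)) := by
    intro e
    have h1 : l₀ ∈ L.comap (QuotientGroup.mk' (center G)) := hl
    rw [← e] at h1
    exact hlQ (hMQ l₀ h1)
  have htop := hM.2 _ (lt_of_le_of_ne hle hne)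
  rw [eq_top_iff]
  intro t _
  obtain ⟨t₀, rfl⟩ := QuotientGroup.mk_surjective t
  have : t₀ ∈ L.comap (QuotientGroup.mk' (center G)) := by rw [htop]; trivial
  exact this

end Cfsg.Agent.Lib.PGroup.MaxCent
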