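import Mathlib
import Cfsg.Agent.Lib.PGroup.Meta4
import Cfsg.Prelude.Def_BaumannBlocks

/-!
# Metacyclic `p`-groups for odd `p`: the final statements
-/

set_option autoImplicit false

namespace Cfsg.Agent.Lib.PGroup.Meta

open Cfsg
open scoped commutatorElement

noncomputable section

variable {p : ℕ} [hp : Fact p.Prime] {G : Type*} [Group G] {a b : G} {u m r n : ℕ}

/-- A subgroup extended by one centralizing element stays abelian. -/
theorem isMulCommutative_sup_zpowers {L : Subgroup G} (hL : IsMulCommutative L) {x : G}
    (hx : x ∈ Subgroup.centralizer (L : Set G)) :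
    IsMulCommutative ↥(Subgroup.closure ((L : Set G) ∪ {x})) := by
  have hcomm : ∀ y ∈ (L : Set G) ∪ {x}, ∀ z ∈ (L : Set G) ∪ {x}, y * z = z * y := by
    have hLc : ∀ y ∈ L, ∀ z ∈ L, y * z = z * y := fun y hy z hz =>
      congrArg Subtype.val (hL.is_comm.comm ⟨y, hy⟩ ⟨z, hz⟩)
    have hxc : ∀ y ∈ L, y * x = x * y := fun y hy => Subgroup.mem_centralizer_iff.mp hx y hy
    rintro y (hy | hy) z (hz | hz)
    · exact hLc y hy z hz
    · rw [Set.mem_singleton_iff.mp hz]
      exact hxc y hy
    · rw [Set.mem_singleton_iff.mp hy]
      exact (hxc z hz).symm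
    · rw [Set.mem_singleton_iff.mp hy, Set.mem_singleton_iff.mp hz]
  letI := Subgroup.closureCommGroupOfComm hcomm
  exact ⟨⟨fun y z => mul_comm y z⟩⟩

theorem self_centralizing_of_maximal {L : Subgroup G}
    (hL : Maximal (fun K : Subgroup G => IsMulCommutative ↥K) L) :
    Subgroup.centralizer (L : Set G) = L := by
  apply le_antisymm
  · intro x hx
    have h1 := isMulCommutative_sup_zpowers hL.prop hx
    have h2 : L ≤ Subgroup.closure ((L : Set G) ∪ {x}) :=
      le_trans (by rw [Subgroup.closure_eq]) (Subgroup.closure_mono Set.subset_union_left)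
    have h3 := hL.le_of_ge h1 h2
    exact h3 (Subgroup.subset_closure (Or.inr rfl))
  · intro x hx
    rw [Subgroup.mem_centralizer_iff]
    intro y hy
    exact congrArg Subtype.val (hL.prop.is_comm.comm ⟨y, hy⟩ ⟨x, hx⟩)

namespace MC

theorem maximal_iff [Finite G] (hodd : p ≠ 2) (h : MC p a b u m r n) (L : Subgroup G) :
    Maximal (fun K : Subgroup G => IsMulCommutative ↥K) L ↔
      Nat.card L = (commutator G).index := by
  have hsc := h.sc hodd
  constructor
  · intro hL
    have h1 := self_centralizing_of_maximal hL
    have hZ : Subgroup.center G ≤ L := by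
      rw [← h1]
      intro z hz
      rw [Subgroup.mem_centralizer_iff]
      intro y _
      exact (Subgroup.mem_center_iff.mp hz y)
    have h2 := SC.card_centralizer_mul_card_sup hodd hsc L
    rw [h1, sup_eq_left.mpr hZ] at h2
    have h3 := Subgroup.card_mul_index (commutator G)
    rw [h.card_commutator] at h3
    have h4 := hsc.card_eq
    have h5 : (commutator G).index = Nat.card (Subgroup.center G) * p ^ n := by
      have h6 : p ^ n * (commutator G).index = p ^ n * (Nat.card (Subgroup.center G) * p ^ n) := by
        rw [h3, h4, two_mul, pow_add]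
        ring
      exact Nat.eq_of_mul_eq_mul_left (pow_pos hp.out.pos n) h6
    rw [h5]
    have h7 : Nat.card L * Nat.card L =
        (Nat.card (Subgroup.center G) * p ^ n) * (Nat.card (Subgroup.center G) * p ^ n) := by
      rw [h2, h4, two_mul, pow_add]
      ring
    exact Nat.mul_self_inj.mp h7
  · intro hL
    refine ⟨(h.isMulCommutative_iff_card_le hodd L).mpr hL.le, ?_⟩
    intro K hK hLK
    have h1 := (h.isMulCommutative_iff_card_le hodd K).mp hK
    rw [← hL] at h1
    have := Subgroup.eq_of_le_of_card_ge hLK h1
    rw [this]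

/-- The centrally large computation. -/
theorem card_mul_center_nonabelian [Finite G] (hodd : p ≠ 2) (h : MC p a b u m r n) (R : Subgroup G)
    (hR : ¬ IsMulCommutative R) :
    Nat.card R * Nat.card (Subgroup.center R) = (commutator G).index ^ 2 := by
  obtain ⟨c, d, U, α, β, _, _, hL⟩ := h.exists_subgroup hodd R
  have h1 := (hL.sc hodd).card_eq
  have h2 := h.index_commutator_subgroup hodd R hR
  rw [hL.card_commutator] at h2
  have hpos : 0 < p ^ (n - (α + β)) := pow_pos hp.out.pos _
  have h3 : Nat.card (Subgroup.center R) * p ^ (n - (α + β)) = (commutator G).index := by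
    apply Nat.eq_of_mul_eq_mul_left hpos
    rw [← h2, h1, two_mul, pow_add]
    ring
  rw [h2, ← h3]
  ring

theorem card_mul_center_abelian (R : Subgroup G) (hR : IsMulCommutative R) [Finite G] :
    Nat.card R * Nat.card (Subgroup.center R) = Nat.card R ^ 2 := by
  have h1 : Subgroup.center R = ⊤ := by
    ext x
    simp only [Subgroup.mem_center_iff, Subgroup.mem_top, iff_true]
    intro y
    exact hR.is_comm.comm y x
  rw [h1, Subgroup.card_top, sq]

/-- The value and the attaining subgroups of `|R| |Z(R)|`. -/
theorem centrally_large [Finite G] (hodd : p ≠ 2) (h : MC p a b u m r n) :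
    maxCentralProduct G = (commutator G).index ^ 2 ∧
      ∀ R : Subgroup G, IsCentrallyLarge R ↔
        (¬ IsMulCommutative ↥R ∨ Maximal (fun K : Subgroup G => IsMulCommutative ↥K) R) := by
  have hup : ∀ R : Subgroup G, Nat.card R * Nat.card (Subgroup.center R) ≤
      (commutator G).index ^ 2 := by
    intro R
    by_cases hR : IsMulCommutative R
    · rw [card_mul_center_abelian R hR]
      exact Nat.pow_le_pow_left ((h.isMulCommutative_iff_card_le hodd R).mp hR) 2
    · exact (h.card_mul_center_nonabelian hodd R hR).le
  have hatt : ∃ R : Subgroup G, Nat.card R * Nat.card (Subgroup.center R) =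
      (commutator G).index ^ 2 := by
    refine ⟨⊤, ?_⟩
    by_cases hR : IsMulCommutative (⊤ : Subgroup G)
    · rw [card_mul_center_abelian _ hR]
      congr 1
      apply le_antisymm
      · exact (h.isMulCommutative_iff_card_le hodd _).mp hR
      · rw [Subgroup.card_top]
        exact Nat.le_of_dvd Nat.card_pos (Subgroup.index_dvd_card _)
    · exact h.card_mul_center_nonabelian hodd _ hR
  have hmax : maxCentralProduct G = (commutator G).index ^ 2 := by
    unfold maxCentralProduct
    apply IsGreatest.csSup_eq
    constructor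
    · exact hatt
    · rintro _ ⟨R, rfl⟩
      exact hup R
  refine ⟨hmax, ?_⟩
  intro R
  unfold IsCentrallyLarge
  rw [hmax]
  constructor
  · intro he
    by_cases hR : IsMulCommutative R
    · right
      rw [card_mul_center_abelian R hR] at he
      rw [h.maximal_iff hodd]
      exact Nat.pow_left_injective (n := 2) (by norm_num) he
    · exact Or.inl hR
  · rintro (hR | hR)
    · exact h.card_mul_center_nonabelian hodd R hR
    · rw [card_mul_center_abelian R hR.prop, (h.maximal_iff hodd R).mp hR]

/-- The centralizer-large subgroups. -/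
theorem centralizer_large [Finite G] (hodd : p ≠ 2) (h : MC p a b u m r n) (R : Subgroup G) :
    IsCentralizerLarge R ↔ Subgroup.center G ≤ R := by
  have hsc := h.sc hodd
  have hKT := SC.card_centralizer_mul_card_sup hodd hsc
  have hup : ∀ R : Subgroup G, Nat.card R * Nat.card (Subgroup.centralizer (R : Set G)) ≤
      Nat.card (Subgroup.center G) * Nat.card G := by
    intro R
    rw [← hKT R, mul_comm]
    apply Nat.mul_le_mul_left
    exact Subgroup.card_le_of_le le_sup_left
  have hatt : Nat.card (⊤ : Subgroup G) * Nat.card (Subgroup.centralizer ((⊤ : Subgroup G) : Set G)) =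
      Nat.card (Subgroup.center G) * Nat.card G := by
    rw [Subgroup.coe_top, Subgroup.centralizer_univ, Subgroup.card_top, mul_comm]
  have hmax : maxCentralizerProduct G = Nat.card (Subgroup.center G) * Nat.card G := by
    unfold maxCentralizerProduct
    apply IsGreatest.csSup_eq
    constructor
    · exact ⟨⊤, hatt⟩
    · rintro _ ⟨R, rfl⟩
      exact hup R
  unfold IsCentralizerLarge
  rw [hmax, ← hKT R, mul_comm (Nat.card (R : Subgroup G))]
  have hpos : 0 < Nat.card (Subgroup.centralizer (R : Set G)) := Nat.card_pos
  rw [mul_right_inj' hpos.ne']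
  constructor
  · intro he
    have h1 := Subgroup.eq_of_le_of_card_ge (le_sup_left : R ≤ R ⊔ Subgroup.center G) he.ge
    rw [h1]
    exact le_sup_right
  · intro hZ
    rw [sup_eq_left.mpr hZ]

/-- Double centralizers of abelian subgroups containing the centre. -/
theorem double_centralizer [Finite G] (hodd : p ≠ 2) (h : MC p a b u m r n) (K : Subgroup G)
    (hK : IsMulCommutative K) (hZ : Subgroup.center G ≤ K) :
    K = Subgroup.centralizer (K : Set G) ⊓
      Subgroup.centralizer (Subgroup.centralizer (K : Set G) : Set G) := by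
  have hsc := h.sc hodd
  have hKT := SC.card_centralizer_mul_card_sup hodd hsc
  have hZC : Subgroup.center G ≤ Subgroup.centralizer (K : Set G) := by
    intro z hz
    rw [Subgroup.mem_centralizer_iff]
    intro y _
    exact (Subgroup.mem_center_iff.mp hz y)
  have h1 := hKT K
  have h2 := hKT (Subgroup.centralizer (K : Set G))
  rw [sup_eq_left.mpr hZ] at h1
  rw [sup_eq_left.mpr hZC] at h2
  have hKK : K ≤ Subgroup.centralizer (Subgroup.centralizer (K : Set G) : Set G) := by
    intro x hx
    rw [Subgroup.mem_centralizer_iff]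
    intro y hy
    exact ((Subgroup.mem_centralizer_iff.mp hy) x hx).symm
  have hcard : Nat.card (Subgroup.centralizer (Subgroup.centralizer (K : Set G) : Set G)) = Nat.card K := by
    have hpos : 0 < Nat.card (Subgroup.centralizer (K : Set G)) := Nat.card_pos
    apply Nat.eq_of_mul_eq_mul_left hpos
    rw [mul_comm, h2, ← h1]
  have heq := Subgroup.eq_of_le_of_card_ge hKK hcard.le
  apply le_antisymm
  · apply le_inf _ hKK
    intro x hx
    rw [Subgroup.mem_centralizer_iff]
    intro y hy
    exact congrArg Subtype.val (hK.is_comm.comm ⟨y, hy⟩ ⟨x, hx⟩)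
  · intro x hx
    have := (Subgroup.mem_inf.mp hx).2
    rw [← heq] at this
    exact this

/-- The Frattini subgroup statement. -/
theorem not_mem_frattini_iff [Finite G] (hodd : p ≠ 2) (hG : IsPGroup p G) (h : MC p a b u m r n)
    (hna : ¬ IsMulCommutative G) (g : G) :
    g ∉ frattini G ↔ IsMulCommutative ↥(Subgroup.centralizer ({g} : Set G)) := by
  have hn : n ≠ 0 := by
    rintro rfl
    apply hna
    rw [isMulCommutative_iff_commutator, h.card_commutator, pow_zero]
  have hp1 := hp.out.one_lt
  have hsc := h.sc hodd
  rw [h.frattini_iff hodd hG hn, h.isMulCommutative_iff_card_le hodd, ← addOrderOf_le_iff]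
  obtain ⟨e, he, hae⟩ := exists_addOrderOf_eq (h.th g)
  have h1 := SC.index_centralizer_singleton hodd hsc g
  rw [hae] at h1 ⊢
  have h2 := Subgroup.card_mul_index (Subgroup.centralizer ({g} : Set G))
  have h3 := Subgroup.card_mul_index (commutator G)
  rw [h.card_commutator] at h3
  rw [h1] at h2
  have h4 : Nat.card (Subgroup.centralizer ({g} : Set G)) * p ^ e = (commutator G).index * p ^ n := by
    rw [h2, ← h3, mul_comm]
  rw [Nat.pow_le_pow_iff_right hp1]
  have hpn : 0 < p ^ n := pow_pos hp.out.pos n
  have hpe : 0 < p ^ e := pow_pos hp.out.pos e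
  constructor
  · intro h5
    have h6 : e = n := by omega
    subst h6
    exact (Nat.eq_of_mul_eq_mul_right hpn h4).le
  · intro h5 h6
    have h7 : e < n := by omega
    have h8 : p ^ e < p ^ n := Nat.pow_lt_pow_right hp1 h7
    have hidx : 0 < (commutator G).index := Nat.pos_of_ne_zero Subgroup.index_ne_zero_of_finite
    have h9 : Nat.card (Subgroup.centralizer ({g} : Set G)) * p ^ e <
        (commutator G).index * p ^ n := by
      calc Nat.card (Subgroup.centralizer ({g} : Set G)) * p ^ e
          ≤ (commutator G).index * p ^ e := Nat.mul_le_mul_right _ h5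
        _ < (commutator G).index * p ^ n := Nat.mul_lt_mul_of_pos_left h8 hidx
    omega

end MC

end

end Cfsg.Agent.Lib.PGroup.Meta
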