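import Mathlib
import Cfsg.Agent.Lib.PGroup.MinAct
import Cfsg.Agent.Lib.PGroup.CWGroup
import Cfsg.Agent.Lib.Hall.CoprimeLemmas

/-!
# Minimal non-trivial action of a family of `p'`-elements

`MinFam p Q 𝒜 B`: `Q` is a `p`-subgroup invariant under the subgroup `B`, the `p'`-elements of the
`B`-invariant subset `𝒜 ⊆ B` do not all centralize `Q`, but they centralize every proper
`B`-invariant subgroup of `Q`.
-/

set_option autoImplicit false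

namespace Cfsg.Agent.Lib.PGroup.MinFamily

open Subgroup Cfsg.Agent.Lib.PGroup
open scoped commutatorElement

variable {X : Type*} [Group X] [Finite X] {p : ℕ} [Fact p.Prime]

/-- Minimal non-trivial action of a family. -/
structure MinFam (p : ℕ) (Q : Subgroup X) (𝒜 : Set X) (B : Subgroup X) : Prop where
  isP : IsPGroup p Q
  cop : ∀ a ∈ 𝒜, (orderOf a).Coprime p
  sub : 𝒜 ⊆ B
  conj : ∀ a ∈ 𝒜, ∀ b ∈ B, b * a * b⁻¹ ∈ 𝒜
  inv : ∀ b ∈ B, ∀ x ∈ Q, b * x * b⁻¹ ∈ Q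
  not_fix : ∃ a ∈ 𝒜, ∃ x ∈ Q, a * x * a⁻¹ ≠ x
  min : ∀ U : Subgroup X, U ≤ Q → U ≠ Q → (∀ b ∈ B, ∀ u ∈ U, b * u * b⁻¹ ∈ U) →
    ∀ a ∈ 𝒜, ∀ u ∈ U, a * u * a⁻¹ = u

/-- Any non-trivial action has a minimal non-trivial piece. -/
theorem exists_minFam (Q : Subgroup X) (hQ : IsPGroup p Q) {𝒜 : Set X} {B : Subgroup X}
    (hcop : ∀ a ∈ 𝒜, (orderOf a).Coprime p) (hsub : 𝒜 ⊆ B) (hconj : ∀ a ∈ 𝒜, ∀ b ∈ B, b * a * b⁻¹ ∈ 𝒜)
    (hinv : ∀ b ∈ B, ∀ x ∈ Q, b * x * b⁻¹ ∈ Q) (hnf : ∃ a ∈ 𝒜, ∃ x ∈ Q, a * x * a⁻¹ ≠ x) :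
    ∃ Q₀ ≤ Q, MinFam p Q₀ 𝒜 B := by
  induction Q using WellFoundedLT.induction with
  | ind Q IH =>
  by_cases hmin : ∀ U : Subgroup X, U ≤ Q → U ≠ Q → (∀ b ∈ B, ∀ u ∈ U, b * u * b⁻¹ ∈ U) →
      ∀ a ∈ 𝒜, ∀ u ∈ U, a * u * a⁻¹ = u
  · exact ⟨Q, le_rfl, ⟨hQ, hcop, hsub, hconj, hinv, hnf, hmin⟩⟩
  · push Not at hmin
    obtain ⟨U, hUQ, hUne, hUinv, a, ha, u, hu, hua⟩ := hmin
    obtain ⟨Q₀, hQ₀, h₀⟩ := IH U (lt_of_le_of_ne hUQ hUne) (hQ.to_le hUQ) hUinv ⟨a, ha, u, hu, hua⟩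
    exact ⟨Q₀, hQ₀.trans hUQ, h₀⟩

namespace MinFam

variable {Q : Subgroup X} {𝒜 : Set X} {B : Subgroup X}

theorem ne_bot (h : MinFam p Q 𝒜 B) : Q ≠ ⊥ := by
  rintro rfl
  obtain ⟨a, -, x, hx, hxa⟩ := h.not_fix
  rw [Subgroup.mem_bot] at hx
  subst hx
  simp at hxa

/-- The elements of `𝒜` normalize `Q`. -/
theorem inv' (h : MinFam p Q 𝒜 B) {a : X} (ha : a ∈ 𝒜) {x : X} (hx : x ∈ Q) : a * x * a⁻¹ ∈ Q :=
  h.inv a (h.sub ha) x hx

/-- If all `x⁻¹ (a x a⁻¹)` lie in the subgroup `S`, then `Q ≤ S`. -/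
theorem le_of_gen (h : MinFam p Q 𝒜 B) (S : Subgroup X)
    (hS : ∀ a ∈ 𝒜, ∀ x ∈ Q, x⁻¹ * (a * x * a⁻¹) ∈ S) : Q ≤ S := by
  classical
  obtain ⟨D, hD⟩ : ∃ D : Subgroup X, D = Subgroup.closure {y | ∃ a ∈ 𝒜, ∃ x ∈ Q, y = x⁻¹ * (a * x * a⁻¹)} :=
    ⟨_, rfl⟩
  have hDQ : D ≤ Q := by
    rw [hD, Subgroup.closure_le]
    rintro _ ⟨a, ha, x, hx, rfl⟩
    exact Q.mul_mem (Q.inv_mem hx) (h.inv' ha hx)
  have hDS : D ≤ S := by
    rw [hD, Subgroup.closure_le]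
    rintro _ ⟨a, ha, x, hx, rfl⟩
    exact hS a ha x hx
  have hDinv : ∀ b ∈ B, ∀ u ∈ D, b * u * b⁻¹ ∈ D := by
    intro b hb
    have : D ≤ D.comap (MulAut.conj b).toMonoidHom := by
      conv_lhs => rw [hD]
      rw [Subgroup.closure_le]
      rintro _ ⟨a, ha, x, hx, rfl⟩
      show b * (x⁻¹ * (a * x * a⁻¹)) * b⁻¹ ∈ D
      rw [hD]
      refine Subgroup.subset_closure ⟨b * a * b⁻¹, h.conj a ha b hb, b * x * b⁻¹, h.inv b hb x hx, ?_⟩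
      group
    exact fun u hu => this hu
  by_cases he : D = Q
  · rw [← he]; exact hDS
  · exfalso
    have hfix := h.min D hDQ he hDinv
    obtain ⟨a, ha, x, hx, hxa⟩ := h.not_fix
    apply hxa
    refine fix_of_comm_fixed h.isP (h.cop a ha) (fun y hy => h.inv' ha hy) hx (hfix a ha _ ?_)
    rw [hD]
    exact Subgroup.subset_closure ⟨a, ha, x, hx, rfl⟩

theorem agComm_fix (h : MinFam p Q 𝒜 B) {a : X} (ha : a ∈ 𝒜) {t : X} (ht : t ∈ agComm p Q) :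
    a * t * a⁻¹ = t :=
  h.min _ (agComm_le Q) (agComm_ne h.isP h.ne_bot) (fun b hb _ hu => agComm_conj (h.inv b hb) hu) a ha t ht

theorem pow_fix (h : MinFam p Q 𝒜 B) {a : X} (ha : a ∈ 𝒜) {x : X} (hx : x ∈ Q) :
    a * x ^ p * a⁻¹ = x ^ p :=
  h.agComm_fix ha (pow_mem_agComm hx)

theorem comm_fix (h : MinFam p Q 𝒜 B) {a : X} (ha : a ∈ 𝒜) {x z : X} (hx : x ∈ Q) (hz : z ∈ Q) :
    a * (x * z * x⁻¹ * z⁻¹) * a⁻¹ = x * z * x⁻¹ * z⁻¹ :=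
  h.agComm_fix ha (comm_mem_agComm hx hz)

/-- Fixed points are central. -/
theorem central (h : MinFam p Q 𝒜 B) {c : X} (hc : c ∈ Q) (hfix : ∀ a ∈ 𝒜, a * c * a⁻¹ = c) {x : X}
    (hx : x ∈ Q) : x * c = c * x := by
  have hle : Q ≤ Subgroup.centralizer ({c} : Set X) := by
    refine h.le_of_gen _ ?_
    intro a ha y hy
    rw [Subgroup.mem_centralizer_singleton_iff]
    have e1 := h.comm_fix ha hy hc
    have e2 : a * (y * c * y⁻¹ * c⁻¹) * a⁻¹ =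
        (a * y * a⁻¹) * (a * c * a⁻¹) * (a * y * a⁻¹)⁻¹ * (a * c * a⁻¹)⁻¹ := by group
    rw [e2, hfix a ha] at e1
    have e3 : (a * y * a⁻¹) * c * (a * y * a⁻¹)⁻¹ = y * c * y⁻¹ := mul_right_cancel e1
    calc y⁻¹ * (a * y * a⁻¹) * c = y⁻¹ * ((a * y * a⁻¹) * c * (a * y * a⁻¹)⁻¹) * (a * y * a⁻¹) := by
          group
      _ = y⁻¹ * (y * c * y⁻¹) * (a * y * a⁻¹) := by rw [e3]
      _ = c * (y⁻¹ * (a * y * a⁻¹)) := by group
  exact Subgroup.mem_centralizer_singleton_iff.1 (hle hx)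

theorem pow_central (h : MinFam p Q 𝒜 B) {x z : X} (hx : x ∈ Q) (hz : z ∈ Q) :
    z * x ^ p = x ^ p * z :=
  h.central (pow_mem hx p) (fun _ ha => h.pow_fix ha hx) hz

theorem comm_central (h : MinFam p Q 𝒜 B) {x z w : X} (hx : x ∈ Q) (hz : z ∈ Q) (hw : w ∈ Q) :
    w * (x * z * x⁻¹ * z⁻¹) = (x * z * x⁻¹ * z⁻¹) * w :=
  h.central (Q.mul_mem (Q.mul_mem (Q.mul_mem hx hz) (Q.inv_mem hx)) (Q.inv_mem hz))
    (fun _ ha => h.comm_fix ha hx hz) hw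

/-- Commutators have order dividing `p`. -/
theorem comm_pow (h : MinFam p Q 𝒜 B) {x b : X} (hx : x ∈ Q) (hb : b ∈ Q) :
    (b⁻¹ * x⁻¹ * b * x) ^ p = 1 := by
  obtain ⟨c, hcdef⟩ : ∃ c, c = b⁻¹ * x⁻¹ * b * x := ⟨_, rfl⟩
  rw [← hcdef]
  have hccen : ∀ w ∈ Q, w * c = c * w := by
    intro w hw
    have := h.comm_central (Q.inv_mem hb) (Q.inv_mem hx) hw
    simpa [hcdef] using this
  have hcQ : c ∈ Q := by
    rw [hcdef]
    exact Q.mul_mem (Q.mul_mem (Q.mul_mem (Q.inv_mem hb) (Q.inv_mem hx)) hb) hx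
  have e1 : x⁻¹ * b * x = b * c := by rw [hcdef]; group
  have e2 : x⁻¹ * b ^ p * x = b ^ p * c ^ p := by
    have e3 : x⁻¹ * b ^ p * x = (x⁻¹ * b * x) ^ p := by
      have := conj_pow (a := x⁻¹) (b := b) (i := p)
      simpa using this.symm
    rw [e3, e1]
    have hcomm : Commute b c := hccen b hb
    exact hcomm.mul_pow p
  have e4 : x⁻¹ * b ^ p * x = b ^ p := by
    have := h.pow_central hb (Q.inv_mem hx)
    rw [this]
    group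
  rw [e4] at e2
  exact (mul_eq_left.mp e2.symm)

end MinFam

section Two

variable {Q : Subgroup X} {𝒜 : Set X} {B : Subgroup X}

/-- For `p = 2`, the exponent of `Q` divides `4`. -/
theorem MinFam.pow_four [Fact (2 : ℕ).Prime] (h : MinFam 2 Q 𝒜 B) {x : X} (hx : x ∈ Q) : x ^ 4 = 1 := by
  have hmulpow : ∀ x ∈ Q, ∀ b ∈ Q, (x * b) ^ 4 = x ^ 4 * b ^ 4 := by
    intro x hx b hb
    obtain ⟨c, hcdef⟩ : ∃ c, c = b⁻¹ * x⁻¹ * b * x := ⟨_, rfl⟩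
    have hcp : c ^ 2 = 1 := by rw [hcdef]; exact h.comm_pow hx hb
    have hcen : ∀ w ∈ Q, w * c = c * w := by
      intro w hw
      have := h.comm_central (Q.inv_mem hb) (Q.inv_mem hx) hw
      simpa [hcdef] using this
    have e := mul_pow_of_comm_comm x b c (by rw [hcdef]; group)
      (hcen x hx).symm (hcen b hb).symm 4
    have h6 : Nat.choose 4 2 = 2 * 3 := by decide
    rw [e, h6, pow_mul, hcp, one_pow, mul_one]
  let f : ↥Q →* ↥Q :=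
    { toFun := fun y => y ^ 4
      map_one' := one_pow 4
      map_mul' := fun y z => Subtype.ext (by
        show ((y : X) * z) ^ 4 = (y : X) ^ 4 * (z : X) ^ 4
        exact hmulpow _ y.2 _ z.2) }
  have hle : Q ≤ f.ker.map Q.subtype := by
    refine h.le_of_gen _ ?_
    intro a ha y hy
    refine ⟨⟨y⁻¹ * (a * y * a⁻¹), Q.mul_mem (Q.inv_mem hy) (h.inv' ha hy)⟩, ?_, rfl⟩
    rw [SetLike.mem_coe, MonoidHom.mem_ker]
    apply Subtype.ext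
    show (y⁻¹ * (a * y * a⁻¹)) ^ 4 = 1
    have e4 : a * y ^ 4 * a⁻¹ = y ^ 4 := by
      have h1 := h.pow_fix ha (pow_mem hy 2)
      rw [← pow_mul] at h1
      exact h1
    rw [hmulpow _ (Q.inv_mem hy) _ (h.inv' ha hy), conj_pow, e4, inv_pow, inv_mul_cancel]
  obtain ⟨w, hw, hwe⟩ := hle hx
  rw [SetLike.mem_coe, MonoidHom.mem_ker] at hw
  have : (w : X) ^ 4 = 1 := congrArg Subtype.val hw
  rw [← hwe]
  exact this

/-- The elements of order dividing two in the centre of `Q`. -/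
def omegaZ (Q : Subgroup X) : Subgroup ↥Q where
  carrier := {z | z ∈ center ↥Q ∧ z ^ 2 = 1}
  mul_mem' := fun {a b} ha hb => ⟨(center ↥Q).mul_mem ha.1 hb.1, by
    have hc : Commute a b := (mem_center_iff.mp ha.1 b).symm
    rw [hc.mul_pow, ha.2, hb.2, one_mul]⟩
  one_mem' := ⟨(center ↥Q).one_mem, one_pow 2⟩
  inv_mem' := fun {a} ha => ⟨(center ↥Q).inv_mem ha.1, by rw [inv_pow, ha.2, inv_one]⟩

theorem mem_omegaZ {z : ↥Q} : z ∈ omegaZ Q ↔ z ∈ center ↥Q ∧ z ^ 2 = 1 := Iff.rfl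

/-- The squaring structure of a minimal action. -/
theorem MinFam.sq [Fact (2 : ℕ).Prime] (h : MinFam 2 Q 𝒜 B) : CW.Sq (omegaZ Q) := by
  refine ⟨fun z hz => hz.1, fun φ hφ => hφ.2, fun x => ⟨?_, ?_⟩⟩
  · rw [mem_center_iff]
    intro z
    apply Subtype.ext
    exact h.pow_central x.2 z.2
  · apply Subtype.ext
    show ((x : X) ^ 2) ^ 2 = 1
    rw [← pow_mul]
    exact h.pow_four x.2

/-- `omegaZ` is invariant under all automorphisms coming from the normalizer. -/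
theorem omegaZ_conj {b : X} (hb : ∀ x ∈ Q, b * x * b⁻¹ ∈ Q) {z : X} (hz : z ∈ (omegaZ Q).map Q.subtype) :
    b * z * b⁻¹ ∈ (omegaZ Q).map Q.subtype := by
  have hb' : ∀ x ∈ Q, b⁻¹ * x * b ∈ Q := by
    intro x hx
    -- finite: conjugation by `b` permutes `Q`
    have hn := Cfsg.Agent.Lib.Hall.mem_normalizer_of_conj_le hb
    have := Subgroup.inv_mem _ hn
    have h2 := ((Subgroup.mem_normalizer_iff).mp this x).mp hx
    simpa using h2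
  obtain ⟨w, hw, rfl⟩ := hz
  have hw1 : ((w : X)) ∈ Q := w.2
  refine ⟨⟨b * w * b⁻¹, hb _ hw1⟩, ⟨?_, ?_⟩, rfl⟩
  · rw [mem_center_iff]
    rintro ⟨y, hy⟩
    apply Subtype.ext
    show y * (b * w * b⁻¹) = (b * w * b⁻¹) * y
    have h3 := mem_center_iff.mp hw.1 ⟨b⁻¹ * y * b, hb' y hy⟩
    have h4 : (b⁻¹ * y * b) * (w : X) = (w : X) * (b⁻¹ * y * b) := congrArg Subtype.val h3
    calc y * (b * w * b⁻¹) = b * ((b⁻¹ * y * b) * (w : X)) * b⁻¹ := by group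
      _ = b * ((w : X) * (b⁻¹ * y * b)) * b⁻¹ := by rw [h4]
      _ = _ := by group
  · apply Subtype.ext
    show (b * w * b⁻¹) ^ 2 = 1
    rw [conj_pow]
    have h5 : (w : X) ^ 2 = 1 := congrArg Subtype.val hw.2
    rw [h5]
    group

/-- The bound given by Chevalley--Warning. -/
theorem MinFam.card_quot_le [Fact (2 : ℕ).Prime] (h : MinFam 2 Q 𝒜 B)
    (hinvol : ∀ t : ↥Q, t ^ 2 = 1 → t ∈ omegaZ Q) :
    Nat.card (↥Q ⧸ omegaZ Q) ≤ Nat.card (omegaZ Q) ^ 2 := by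
  have hS := h.sq
  haveI := hS.normal
  have h1 := hS.card_quot_le (fun x y hx hy => ((omegaZ Q).mul_mem (hinvol x hx) (hinvol y hy)).2)
  have h2 : Nat.card {v : ↥Q ⧸ omegaZ Q // ((CW.qf hS v : omegaZ Q) : ↥Q) = 1} = 1 := by
    rw [Nat.card_eq_one_iff_unique]
    refine ⟨⟨?_⟩, ⟨⟨1, ?_⟩⟩⟩
    · rintro ⟨u, hu⟩ ⟨v, hv⟩
      apply Subtype.ext
      obtain ⟨x, rfl⟩ := QuotientGroup.mk_surjective u
      obtain ⟨y, rfl⟩ := QuotientGroup.mk_surjective v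
      rw [CW.qf_mk] at hu hv
      have e1 : ((x : ↥Q) : ↥Q ⧸ omegaZ Q) = 1 := (QuotientGroup.eq_one_iff x).mpr (hinvol x hu)
      have e2 : ((y : ↥Q) : ↥Q ⧸ omegaZ Q) = 1 := (QuotientGroup.eq_one_iff y).mpr (hinvol y hv)
      exact e1.trans e2.symm
    · have := CW.qf_mk hS (1 : ↥Q)
      rw [one_pow] at this
      exact this
  rw [h2, one_mul] at h1
  exact h1

end Two

end Cfsg.Agent.Lib.PGroup.MinFamily
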