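import Mathlib
import Cfsg.Agent.Lib.PGroup.MinFam

/-! Counting lemmas for free actions of cyclic `3`-groups. -/

set_option autoImplicit false

namespace Cfsg.Agent.Lib.PGroup.MinFamily

open Subgroup Cfsg.Agent.Lib.PGroup

/-- A free action: the order of the group divides the order of the set. -/
theorem card_dvd_of_free_action {Γ S : Type*} [Group Γ] [Finite Γ] [MulAction Γ S] [Finite S]
    (hfree : ∀ (γ : Γ) (x : S), γ • x = x → γ = 1) : Nat.card Γ ∣ Nat.card S := by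
  classical
  haveI : Fintype (MulAction.orbitRel.Quotient Γ S) := Fintype.ofFinite _
  have h1 : Nat.card S = Nat.card (Σ ω : MulAction.orbitRel.Quotient Γ S, MulAction.orbit Γ ω.out) :=
    Nat.card_congr (MulAction.selfEquivSigmaOrbits Γ S)
  rw [h1, Nat.card_sigma]
  apply Finset.dvd_sum
  intro ω _
  have h2 : Nat.card (MulAction.orbit Γ ω.out) = Nat.card Γ := by
    apply Nat.card_congr
    symm
    refine Equiv.ofBijective (fun γ => ⟨γ • ω.out, MulAction.mem_orbit _ _⟩) ⟨?_, ?_⟩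
    · intro γ γ' h
      have h3 : γ • ω.out = γ' • ω.out := congrArg Subtype.val h
      have h4 : (γ'⁻¹ * γ) • ω.out = ω.out := by rw [mul_smul, h3, inv_smul_smul]
      have h5 := hfree _ _ h4
      rw [inv_mul_eq_one] at h5
      exact h5.symm
    · rintro ⟨y, γ, hγ⟩
      exact ⟨γ, Subtype.ext hγ⟩
  rw [h2]

/-- A permutation of order dividing nine whose cube has no fixed points. -/
theorem nine_dvd_of_free {S : Type*} [Finite S] (f : Equiv.Perm S) (h9 : f ^ 9 = 1)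
    (h3 : ∀ x, (f ^ 3) x ≠ x) : 9 ∣ Nat.card S := by
  classical
  by_cases hS : IsEmpty S
  · simp
  rw [not_isEmpty_iff] at hS
  obtain ⟨x₀⟩ := hS
  have hf3 : f ^ 3 ≠ 1 := by
    intro h
    apply h3 x₀
    rw [h]
    rfl
  have hord : orderOf f = 9 := by
    have := orderOf_eq_prime_pow (p := 3) (n := 1) (x := f) (by simpa using hf3) (by simpa using h9)
    simpa using this
  haveI : Fact (Nat.Prime 3) := ⟨Nat.prime_three⟩
  have h2 : Nat.card (zpowers f) ∣ Nat.card S := by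
    apply card_dvd_of_free_action
    rintro ⟨γ, hγ⟩ x hx
    obtain ⟨k, hk⟩ := mem_powers_iff_mem_zpowers.mpr hγ
    have hk' : f ^ k = γ := hk
    subst hk'
    have hx' : (f ^ k) x = x := hx
    apply Subtype.ext
    show f ^ k = 1
    have e : f ^ k = f ^ (k % 9) := by rw [← hord, pow_mod_orderOf]
    by_cases hr : k % 9 = 0
    · rw [e, hr, pow_zero]
    · exfalso
      have hex : ∀ r : Fin 9, r.val ≠ 0 → ∃ m : Fin 9, r.val * m.val % 9 = 3 := by decide
      obtain ⟨m, hm⟩ := hex ⟨k % 9, Nat.mod_lt _ (by norm_num)⟩ hr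
      have h5 : ((f ^ k) ^ m.val) x = x := Equiv.Perm.pow_apply_eq_self_of_apply_eq_self hx' _
      have hm' : k % 9 * m.val % 9 = 3 := hm
      have h6 : (f ^ k) ^ m.val = f ^ 3 := by
        calc (f ^ k) ^ m.val = (f ^ (k % 9)) ^ m.val := by rw [← e]
          _ = f ^ (k % 9 * m.val) := (pow_mul _ _ _).symm
          _ = f ^ (k % 9 * m.val % orderOf f) := (pow_mod_orderOf _ _).symm
          _ = f ^ 3 := by rw [hord, hm']
      rw [h6] at h5
      exact h3 x h5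
  rw [Nat.card_zpowers, hord] at h2
  exact h2

theorem six_comm {A : Type*} [CommGroup A] (a b c d e g : A) :
    a * b * (c * d) * (e * g) = a * c * e * (b * d * g) := by
  ac_rfl

section
variable {X : Type*} [Group X] [Finite X]

theorem conj_perm_pow (τ : X) (k : ℕ) (x : X) :
    (((MulAut.conj τ).toEquiv : Equiv.Perm X) ^ k) x = τ ^ k * x * (τ ^ k)⁻¹ := by
  induction k generalizing x with
  | zero => simp
  | succ k ih =>
    rw [pow_succ, Equiv.Perm.mul_apply, ih]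
    show τ ^ k * (τ * x * τ⁻¹) * (τ ^ k)⁻¹ = _
    rw [pow_succ]
    group

/-- Counting outside an invariant subgroup. -/
theorem nine_dvd {Q T : Subgroup X} (hTQ : T ≤ Q) {τ : X} (hQ : ∀ x ∈ Q, τ * x * τ⁻¹ ∈ Q)
    (hT : ∀ x ∈ T, τ * x * τ⁻¹ ∈ T) (h9 : τ ^ 9 = 1)
    (hfree : ∀ x ∈ Q, τ ^ 3 * x * (τ ^ 3)⁻¹ = x → x ∈ T) : 9 ∣ Nat.card Q - Nat.card T := by
  classical
  have hnQ := Cfsg.Agent.Lib.Hall.mem_normalizer_of_conj_le hQ
  have hnT := Cfsg.Agent.Lib.Hall.mem_normalizer_of_conj_le hT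
  let p : X → Prop := fun x => x ∈ Q ∧ x ∉ T
  let F : Equiv.Perm X := (MulAut.conj τ).toEquiv
  have hp : ∀ x, p (F x) ↔ p x := by
    intro x
    have e1 : F x = τ * x * τ⁻¹ := rfl
    show (F x ∈ Q ∧ F x ∉ T) ↔ (x ∈ Q ∧ x ∉ T)
    rw [e1, ← (Subgroup.mem_normalizer_iff.mp hnQ x), ← (Subgroup.mem_normalizer_iff.mp hnT x)]
  let f : Equiv.Perm {x // p x} := F.subtypePerm hp
  have hpow : ∀ k (x : {x // p x}), ((f ^ k) x : X) = τ ^ k * x * (τ ^ k)⁻¹ := by
    intro k x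
    rw [Equiv.Perm.subtypePerm_pow, Equiv.Perm.subtypePerm_apply]
    exact conj_perm_pow τ k x
  have h1 : 9 ∣ Nat.card {x // p x} := by
    apply nine_dvd_of_free f
    · ext x
      rw [hpow, h9]
      simp
    · intro x hx
      have h2 : τ ^ 3 * (x : X) * (τ ^ 3)⁻¹ = x := by
        rw [← hpow, hx]
      exact x.2.2 (hfree _ x.2.1 h2)
  have h2 : Nat.card {x // p x} = Nat.card Q - Nat.card T := by
    have e : Nat.card {x // p x} = ((Q : Set X) \ (T : Set X)).ncard := (Nat.card_coe_set_eq _)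
    rw [e, Set.ncard_diff (fun x hx => hTQ hx) (Set.toFinite _)]
    rw [← Nat.card_coe_set_eq, ← Nat.card_coe_set_eq]
    rfl
  rw [← h2]
  exact h1

variable {Q : Subgroup X} {B : Subgroup X}

/-- Elements fixed by the order-three element lie in `T`. -/
theorem fix_mem [Fact (2 : ℕ).Prime] {σ : X} (h : MinFam 2 Q {σ} B) (hσ : σ ^ 3 = 1)
    (T : Subgroup ↥Q) (hT : CW.Sq T) (x : ↥Q) (hx : σ * (x : X) * σ⁻¹ = x) : x ∈ T := by
  classical
  haveI := hT.normal
  letI := hT.commQuot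
  have hσm : σ ∈ ({σ} : Set X) := rfl
  let s : ↥Q →* ↥Q :=
    { toFun := fun y => ⟨σ * y * σ⁻¹, h.inv' hσm y.2⟩
      map_one' := Subtype.ext (by simp)
      map_mul' := fun y z => Subtype.ext (by
        show σ * ((y : X) * z) * σ⁻¹ = (σ * y * σ⁻¹) * (σ * z * σ⁻¹)
        group) }
  have hs3 : ∀ y, s (s (s y)) = y := by
    intro y
    apply Subtype.ext
    show σ * (σ * (σ * (y : X) * σ⁻¹) * σ⁻¹) * σ⁻¹ = y
    have e : σ * (σ * (σ * (y : X) * σ⁻¹) * σ⁻¹) * σ⁻¹ = σ ^ 3 * y * (σ ^ 3)⁻¹ := by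
      rw [pow_succ, pow_two]; group
    rw [e, hσ]
    simp
  let π : ↥Q →* (↥Q ⧸ T) := QuotientGroup.mk' T
  let n : ↥Q →* (↥Q ⧸ T) :=
    { toFun := fun y => π y * π (s y) * π (s (s y))
      map_one' := by simp
      map_mul' := fun y z => by
        simp only [map_mul]
        exact six_comm (π y) (π z) (π (s y)) (π (s z)) (π (s (s y))) (π (s (s z))) }
  have hle : Q ≤ n.ker.map Q.subtype := by
    refine h.le_of_gen _ ?_
    rintro a rfl y hy
    refine ⟨(⟨y, hy⟩ : ↥Q)⁻¹ * s ⟨y, hy⟩, ?_, rfl⟩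
    rw [SetLike.mem_coe, MonoidHom.mem_ker]
    show π ((⟨y, hy⟩ : ↥Q)⁻¹ * s ⟨y, hy⟩) * π (s ((⟨y, hy⟩ : ↥Q)⁻¹ * s ⟨y, hy⟩)) *
      π (s (s ((⟨y, hy⟩ : ↥Q)⁻¹ * s ⟨y, hy⟩))) = 1
    simp only [map_mul, map_inv, hs3]
    group
  have hn : n x = 1 := by
    obtain ⟨w, hw, hwe⟩ := hle x.2
    have : w = x := Subtype.ext hwe
    rw [← this]
    exact hw
  have hsx : s x = x := Subtype.ext hx
  have h1 : n x = π x * π x * π x := by
    show π x * π (s x) * π (s (s x)) = _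
    rw [hsx, hsx]
  have h2 : π x * π x = 1 := by
    rw [← map_mul, ← pow_two]
    exact (QuotientGroup.eq_one_iff _).mpr (hT.sq x)
  rw [h1, h2, one_mul] at hn
  exact (QuotientGroup.eq_one_iff x).mp hn

/-- Adjoining an involution to an elementary abelian central subgroup. -/
theorem elem_sup {G : Type*} [Group G] {Ω : Subgroup G} (hcen : Ω ≤ center G) (h2 : ∀ z ∈ Ω, z ^ 2 = 1)
    {t : G} (ht : t ^ 2 = 1) :
    (∀ x ∈ zpowers t ⊔ Ω, ∀ y ∈ zpowers t ⊔ Ω, x * y = y * x) ∧ ∀ x ∈ zpowers t ⊔ Ω, x ^ 2 = 1 := by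
  haveI : Ω.Normal := ⟨fun x hx g => by
    have : g * x * g⁻¹ = x := by
      rw [mem_center_iff.mp (hcen hx) g, mul_inv_cancel_right]
    rwa [this]⟩
  have hdec : ∀ x ∈ zpowers t ⊔ Ω, ∃ k : ℤ, ∃ z ∈ Ω, x = t ^ k * z := by
    intro x hx
    obtain ⟨a, ha, z, hz, rfl⟩ := Subgroup.mem_sup_of_normal_right.mp hx
    obtain ⟨k, rfl⟩ := Subgroup.mem_zpowers_iff.mp ha
    exact ⟨k, z, hz, rfl⟩
  constructor
  · intro x hx y hy
    obtain ⟨k, z, hz, rfl⟩ := hdec x hx
    obtain ⟨l, w, hw, rfl⟩ := hdec y hy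
    have e1 : z * (t ^ l * w) = (t ^ l * w) * z := (mem_center_iff.mp (hcen hz) _).symm
    have e2 : w * (t ^ k) = (t ^ k) * w := (mem_center_iff.mp (hcen hw) _).symm
    calc t ^ k * z * (t ^ l * w) = t ^ k * (z * (t ^ l * w)) := by group
      _ = t ^ k * ((t ^ l * w) * z) := by rw [e1]
      _ = (t ^ k * t ^ l) * w * z := by group
      _ = (t ^ l * t ^ k) * w * z := by
        rw [← zpow_add, ← zpow_add, add_comm]
      _ = t ^ l * (w * t ^ k) * z := by rw [e2]; group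
      _ = _ := by group
  · intro x hx
    obtain ⟨k, z, hz, rfl⟩ := hdec x hx
    have e1 : Commute (t ^ k) z := (mem_center_iff.mp (hcen hz) _)
    rw [e1.mul_pow, h2 z hz, mul_one, ← zpow_natCast, ← zpow_mul, mul_comm, zpow_mul, zpow_natCast, ht]
    simp

end

end Cfsg.Agent.Lib.PGroup.MinFamily
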