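import Mathlib
import Cfsg.Agent.Lib.PGroup.Meta
import Cfsg.Agent.Lib.Transfer.Frat
import Cfsg.Agent.Lib.Hall.CoprimeLemmas
import Cfsg.Agent.Lib.PGroup.Basic
import Cfsg.Agent.Lib.PGroup.Sylow

/-!
# Odd-order automorphisms of `2`-groups
-/

set_option autoImplicit false

namespace Cfsg.Agent.Lib.PGroup.Odd2

open Cfsg Subgroup
open Cfsg.Agent.Lib.PGroup.Meta (gs gs_int gs_succ)
open scoped commutatorElement

universe u

variable {X : Type u} [Group X] [Finite X]

omit [Finite X] in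
theorem odd_gs {k : ℕ} (hk : Odd k) (n : ℕ) : (gs k n) % 2 = n % 2 := by
  induction n with
  | zero => simp
  | succ n ih =>
    rw [gs_succ]
    have h1 : Odd (k ^ n) := hk.pow
    have h2 : k ^ n % 2 = 1 := Nat.odd_iff.mp h1
    omega

/-- An element of odd order normalizing a cyclic `2`-group centralizes it. -/
theorem conj_eq_of_mem_zpowers {a x : X} (ha : Odd (orderOf a)) (hx : ∃ e, orderOf x = 2 ^ e)
    (h : a * x * a⁻¹ ∈ zpowers x) : a * x * a⁻¹ = x := by
  obtain ⟨e, he⟩ := hx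
  obtain ⟨k, hk⟩ := mem_powers_iff_mem_zpowers.mpr h
  have hk' : x ^ k = a * x * a⁻¹ := hk
  rcases Nat.eq_zero_or_pos e with rfl | he0
  · have hx1 : x = 1 := by simpa using he
    rw [hx1]
    group
  have hpow : ∀ j : ℕ, a ^ j * x * (a ^ j)⁻¹ = x ^ (k ^ j) := by
    intro j
    induction j with
    | zero => simp
    | succ j ih =>
      have e1 : a ^ (j + 1) * x * (a ^ (j + 1))⁻¹ = a ^ j * (a * x * a⁻¹) * (a ^ j)⁻¹ := by
        rw [pow_succ]
        group
      rw [e1, ← hk', ← conj_pow, ih, ← pow_mul, pow_succ]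
  set n := orderOf a with hn
  have h1 := hpow n
  rw [hn, pow_orderOf_eq_one, ← hn] at h1
  have h2 : x ^ 1 = x ^ (k ^ n) := by
    rw [pow_one, ← h1]
    group
  rw [pow_eq_pow_iff_modEq, he] at h2
  have hdvd : ((2 ^ e : ℕ) : ℤ) ∣ ((k ^ n : ℕ) : ℤ) - ((1 : ℕ) : ℤ) := (Nat.modEq_iff_dvd).mp h2
  have hkodd : Odd k := by
    by_contra hk2
    rw [Nat.not_odd_iff_even] at hk2
    have h3 : Even (k ^ n) := hk2.pow_of_ne_zero (by rintro h0; rw [h0] at ha; simp at ha)
    have h4 : (2 : ℤ) ∣ ((k ^ n : ℕ) : ℤ) := by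
      exact_mod_cast h3.two_dvd
    have h5 : (2 : ℤ) ∣ ((2 ^ e : ℕ) : ℤ) := by
      exact_mod_cast dvd_pow_self 2 he0.ne'
    have h6 := h5.trans hdvd
    have h7 : (2 : ℤ) ∣ 1 := by
      have := dvd_sub h4 h6
      simpa using this
    norm_num at h7
  have hgs : Nat.Coprime (2 ^ e) (gs k n) := by
    apply Nat.Coprime.pow_left
    rw [Nat.Prime.coprime_iff_not_dvd Nat.prime_two]
    intro hd
    have h8 := odd_gs hkodd n
    have h9 : gs k n % 2 = 0 := Nat.mod_eq_zero_of_dvd hd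
    have h10 : n % 2 = 1 := Nat.odd_iff.mp ha
    omega
  have hi := gs_int k n
  have hdvd2 : ((2 ^ e : ℕ) : ℤ) ∣ ((k : ℤ) - 1) * (gs k n : ℤ) := by
    rw [hi]
    push_cast at hdvd ⊢
    exact hdvd
  have hc : IsCoprime ((2 ^ e : ℕ) : ℤ) (gs k n : ℤ) := Nat.isCoprime_iff_coprime.mpr hgs
  have h11 := hc.dvd_of_dvd_mul_right hdvd2
  have h12 : x ^ k = x ^ 1 := by
    rw [pow_eq_pow_iff_modEq, he, Nat.modEq_iff_dvd]
    have := dvd_neg.mpr h11
    simpa using this
  rw [← hk', h12, pow_one]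

/-- A fixed "difference" is trivial. -/
theorem eq_one_of_fixed {a x c : X} (ha : Odd (orderOf a)) (h1 : a * x * a⁻¹ = x * c)
    (h2 : a * c * a⁻¹ = c) (h3 : ∃ k, c ^ 2 ^ k = 1) : c = 1 := by
  have hcomm : ∀ j : ℕ, a ^ j * c * (a ^ j)⁻¹ = c := by
    intro j
    induction j with
    | zero => simp
    | succ j ih =>
      have e1 : a ^ (j + 1) * c * (a ^ (j + 1))⁻¹ = a ^ j * (a * c * a⁻¹) * (a ^ j)⁻¹ := by
        rw [pow_succ]
        group
      rw [e1, h2, ih]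
  have hpow : ∀ j : ℕ, a ^ j * x * (a ^ j)⁻¹ = x * c ^ j := by
    intro j
    induction j with
    | zero => simp
    | succ j ih =>
      have e1 : a ^ (j + 1) * x * (a ^ (j + 1))⁻¹ = a ^ j * (a * x * a⁻¹) * (a ^ j)⁻¹ := by
        rw [pow_succ]
        group
      have e2 : a ^ j * (x * c) * (a ^ j)⁻¹ = (a ^ j * x * (a ^ j)⁻¹) * (a ^ j * c * (a ^ j)⁻¹) := by
        group
      rw [e1, h1, e2, ih, hcomm, pow_succ, mul_assoc]
  have h4 := hpow (orderOf a)
  rw [pow_orderOf_eq_one] at h4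
  have h5 : c ^ orderOf a = 1 := by
    have : x = x * c ^ orderOf a := by
      rw [← h4]
      group
    exact mul_eq_left.mp this.symm
  obtain ⟨k, hk⟩ := h3
  have h6 : orderOf c ∣ orderOf a := orderOf_dvd_of_pow_eq_one h5
  have h7 : orderOf c ∣ 2 ^ k := orderOf_dvd_of_pow_eq_one hk
  have h8 : Nat.Coprime (orderOf a) (2 ^ k) := by
    apply Nat.Coprime.pow_right
    rw [Nat.coprime_comm, Nat.Prime.coprime_iff_not_dvd Nat.prime_two]
    intro hd
    have h9 : orderOf a % 2 = 1 := Nat.odd_iff.mp ha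
    have h10 := Nat.mod_eq_zero_of_dvd hd
    omega
  exact orderOf_eq_one_iff.mp (Nat.Coprime.eq_one_of_dvd (h8.coprime_dvd_left h6) h7)

theorem exists_pow_two_eq_one {Q : Subgroup X} (hQ : IsPGroup 2 Q) {x : X} (hx : x ∈ Q) :
    ∃ k, x ^ 2 ^ k = 1 := by
  obtain ⟨k, hk⟩ := hQ ⟨x, hx⟩
  exact ⟨k, by simpa using congrArg Subtype.val hk⟩

/-- The minimal `a`-invariant subgroup with nontrivial action. -/
theorem exists_minQ {a : X} (ha : Odd (orderOf a)) {P : Subgroup X} (hP : IsPGroup 2 P)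
    (haP : ∀ x ∈ P, a * x * a⁻¹ ∈ P) (hnc : ¬ ∀ x ∈ P, a * x * a⁻¹ = x) :
    ∃ Q : Subgroup X, Q ≤ P ∧ (∀ x ∈ Q, a * x * a⁻¹ ∈ Q) ∧ (¬ ∀ x ∈ Q, a * x * a⁻¹ = x) ∧
      (∀ x ∈ Q, x ^ 4 = 1) ∧ ¬ IsCyclic Q := by
  classical
  let S : Set (Subgroup X) := {Q | Q ≤ P ∧ (∀ x ∈ Q, a * x * a⁻¹ ∈ Q) ∧ ¬ ∀ x ∈ Q, a * x * a⁻¹ = x}
  obtain ⟨Q, ⟨hQP, hQa, hQn⟩, hmin⟩ := Set.exists_min_image S (fun Q => Nat.card Q)
    (Set.toFinite _) ⟨P, le_rfl, haP, hnc⟩
  have hQ2 : IsPGroup 2 Q := hP.to_le hQP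
  have hsub : ∀ T : Subgroup X, T ≤ Q → T ≠ Q → (∀ x ∈ T, a * x * a⁻¹ ∈ T) →
      ∀ x ∈ T, a * x * a⁻¹ = x := by
    intro T hTQ hne hTa
    by_contra hcon
    have h1 := hmin T ⟨hTQ.trans hQP, hTa, hcon⟩
    exact hne (Subgroup.eq_of_le_of_card_ge hTQ h1)
  have hfix : ∀ x ∈ Q, a * (x⁻¹ * (a * x * a⁻¹)) * a⁻¹ = x⁻¹ * (a * x * a⁻¹) → a * x * a⁻¹ = x := by
    intro x hx h0
    have h1 : a * x * a⁻¹ = x * (x⁻¹ * (a * x * a⁻¹)) := by group
    have h2 := eq_one_of_fixed ha h1 h0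
      (exists_pow_two_eq_one hQ2 (mul_mem (inv_mem hx) (hQa x hx)))
    rw [h1, h2, mul_one]
  -- squares
  let T : Subgroup X := closure {y | ∃ x ∈ Q, x ^ 2 = y}
  have hTQ : T ≤ Q := by
    rw [closure_le]
    rintro _ ⟨x, hx, rfl⟩
    exact pow_mem hx 2
  have hsq : ∀ x ∈ Q, x ^ 2 ∈ T := fun x hx => subset_closure ⟨x, hx, rfl⟩
  have hTa : ∀ x ∈ T, a * x * a⁻¹ ∈ T := by
    intro x hx
    induction hx using closure_induction with
    | mem y hy =>
      obtain ⟨z, hz, rfl⟩ := hy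
      rw [← conj_pow]
      exact hsq _ (hQa z hz)
    | one => simp
    | mul y w _ _ hy hw =>
      have e : a * (y * w) * a⁻¹ = (a * y * a⁻¹) * (a * w * a⁻¹) := by group
      rw [e]
      exact mul_mem hy hw
    | inv y _ hy =>
      have e : a * y⁻¹ * a⁻¹ = (a * y * a⁻¹)⁻¹ := by group
      rw [e]
      exact inv_mem hy
  have hQne : (⊤ : Subgroup Q) ≠ ⊥ := by
    intro h0
    apply hQn
    intro x hx
    have h1 : (⟨x, hx⟩ : Q) ∈ (⊤ : Subgroup Q) := trivial
    rw [h0, Subgroup.mem_bot] at h1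
    have h2 : x = 1 := congrArg Subtype.val h1
    rw [h2]
    group
  have hTne : T ≠ Q := by
    intro he
    haveI : Nontrivial (Subgroup Q) := ⟨⟨⊤, ⊥, hQne⟩⟩
    obtain ⟨M, hM⟩ : ∃ M : Subgroup Q, IsCoatom M := by
      obtain h | ⟨M, hM, _⟩ := eq_top_or_exists_le_coatom (⊥ : Subgroup Q)
      · exact absurd h.symm hQne
      · exact ⟨M, hM⟩
    apply hM.1
    rw [eq_top_iff]
    rintro ⟨x, hx⟩ _
    have hx' : x ∈ T := he ▸ hx
    have : ∀ y ∈ T, ∀ hy : y ∈ Q, (⟨y, hy⟩ : Q) ∈ M := by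
      intro y hy
      induction hy using closure_induction with
      | mem y hy =>
        obtain ⟨z, hz, rfl⟩ := hy
        intro _
        exact Cfsg.Agent.Lib.Transfer.pow_mem_coatom hQ2 hM ⟨z, hz⟩
      | one =>
        intro _
        exact one_mem _
      | mul y w hy' hw' hy hw =>
        intro _
        exact mul_mem (hy (hTQ hy')) (hw (hTQ hw'))
      | inv y hy' hy =>
        intro _
        exact inv_mem (hy (hTQ hy'))
    exact this x hx' hx
  have hTfix : ∀ t ∈ T, a * t * a⁻¹ = t := hsub T hTQ hTne hTa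
  have hTnormal : ∀ x ∈ Q, ∀ t ∈ T, x * t * x⁻¹ ∈ T := by
    intro x hx t ht
    induction ht using closure_induction with
    | mem y hy =>
      obtain ⟨z, hz, rfl⟩ := hy
      rw [← conj_pow]
      exact hsq _ (mul_mem (mul_mem hx hz) (inv_mem hx))
    | one => simp
    | mul y w _ _ hy hw =>
      have e : x * (y * w) * x⁻¹ = (x * y * x⁻¹) * (x * w * x⁻¹) := by group
      rw [e]
      exact mul_mem hy hw
    | inv y _ hy =>
      have e : x * y⁻¹ * x⁻¹ = (x * y * x⁻¹)⁻¹ := by group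
      rw [e]
      exact inv_mem hy
  have hcommT : ∀ x ∈ Q, ∀ y ∈ Q, x * y * x⁻¹ * y⁻¹ ∈ T := by
    intro x hx y hy
    have e : x * y * x⁻¹ * y⁻¹ = (x * y) ^ 2 * (y⁻¹ * x⁻¹ * y) ^ 2 * (y⁻¹) ^ 2 := by
      simp only [pow_two]
      group
    rw [e]
    exact mul_mem (mul_mem (hsq _ (mul_mem hx hy))
      (hsq _ (mul_mem (mul_mem (inv_mem hy) (inv_mem hx)) hy))) (hsq _ (inv_mem hy))
  -- `T` is central in `Q`
  have hTcentral : ∀ t ∈ T, ∀ x ∈ Q, t * x = x * t := by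
    intro t ht
    let Cq : Subgroup X := Q ⊓ centralizer ({t} : Set X)
    by_cases hCq : Cq = Q
    · intro x hx
      have h1 : x ∈ Cq := hCq ▸ hx
      exact (mem_centralizer_singleton_iff.mp (Subgroup.mem_inf.mp h1).2).symm
    · exfalso
      have hCa : ∀ x ∈ Cq, a * x * a⁻¹ ∈ Cq := by
        intro x hx
        obtain ⟨h1, h2⟩ := Subgroup.mem_inf.mp hx
        refine Subgroup.mem_inf.mpr ⟨hQa x h1, ?_⟩
        rw [mem_centralizer_singleton_iff]
        have h3 : x * t = t * x := mem_centralizer_singleton_iff.mp h2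
        have h4 := hTfix t ht
        calc a * x * a⁻¹ * t = a * x * a⁻¹ * (a * t * a⁻¹) := by rw [h4]
          _ = a * (x * t) * a⁻¹ := by group
          _ = a * (t * x) * a⁻¹ := by rw [h3]
          _ = (a * t * a⁻¹) * (a * x * a⁻¹) := by group
          _ = t * (a * x * a⁻¹) := by rw [h4]
      have hCfix := hsub Cq inf_le_left hCq hCa
      apply hQn
      intro x hx
      apply hfix x hx
      apply hCfix
      refine Subgroup.mem_inf.mpr ⟨mul_mem (inv_mem hx) (hQa x hx), ?_⟩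
      rw [mem_centralizer_singleton_iff]
      have h4 := hTfix t ht
      have h5 : a * (x * t * x⁻¹) * a⁻¹ = x * t * x⁻¹ := hTfix _ (hTnormal x hx t ht)
      have h6 : (a * x * a⁻¹) * t * (a * x * a⁻¹)⁻¹ = x * t * x⁻¹ := by
        rw [← h5]
        nth_rewrite 1 [← h4]
        group
      have h7 : (a * x * a⁻¹) * t = x * t * x⁻¹ * (a * x * a⁻¹) := by
        rw [← h6]
        group
      calc x⁻¹ * (a * x * a⁻¹) * t = x⁻¹ * ((a * x * a⁻¹) * t) := by group
        _ = x⁻¹ * (x * t * x⁻¹ * (a * x * a⁻¹)) := by rw [h7]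
        _ = t * (x⁻¹ * (a * x * a⁻¹)) := by group
  -- the fourth power
  have hfour : ∀ x ∈ Q, ∀ y ∈ Q, (x * y) ^ 4 = x ^ 4 * y ^ 4 := by
    intro x hx y hy
    set z := y * x * y⁻¹ * x⁻¹ with hz
    have hzT : z ∈ T := hcommT y hy x hx
    have hzQ : z ∈ Q := hTQ hzT
    have hx2 : x ^ 2 ∈ T := hsq x hx
    have hy2 : y ^ 2 ∈ T := hsq y hy
    have hyx : y * x = z * x * y := by
      rw [hz]
      group
    have hzx : z * x = x * z := hTcentral z hzT x hx
    have hzy : z * y = y * z := hTcentral z hzT y hy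
    have hz2 : z ^ 2 = 1 := by
      have h1 : y ^ 2 * x = x * y ^ 2 := hTcentral _ hy2 x hx
      have h2 : y ^ 2 * x = z ^ 2 * x * y ^ 2 := by
        calc y ^ 2 * x = y * (y * x) := by rw [pow_two, mul_assoc]
          _ = y * (z * x * y) := by rw [hyx]
          _ = (y * z) * x * y := by group
          _ = (z * y) * x * y := by rw [hzy]
          _ = z * (y * x) * y := by group
          _ = z * (z * x * y) * y := by rw [hyx]
          _ = z ^ 2 * x * y ^ 2 := by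
            rw [pow_two, pow_two]
            group
      have h3 : z ^ 2 * x * y ^ 2 = x * y ^ 2 := h2.symm.trans h1
      have h4 : z ^ 2 * (x * y ^ 2) = x * y ^ 2 := by rw [← mul_assoc]; exact h3
      exact mul_eq_right.mp h4
    have hsq2 : (x * y) ^ 2 = z * x ^ 2 * y ^ 2 := by
      calc (x * y) ^ 2 = x * (y * x) * y := by rw [pow_two]; group
        _ = x * (z * x * y) * y := by rw [hyx]
        _ = (x * z) * x * y * y := by group
        _ = (z * x) * x * y * y := by rw [hzx]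
        _ = z * x ^ 2 * y ^ 2 := by
          rw [pow_two, pow_two]
          group
    have hx2z : x ^ 2 * z = z * x ^ 2 := hTcentral _ hx2 z hzQ
    have hy2z : y ^ 2 * z = z * y ^ 2 := hTcentral _ hy2 z hzQ
    have hx2y2 : y ^ 2 * x ^ 2 = x ^ 2 * y ^ 2 := hTcentral _ hy2 _ (hTQ hx2)
    have e4 : (4 : ℕ) = 2 * 2 := rfl
    rw [e4, pow_mul, hsq2, pow_mul, pow_mul, pow_two (z * x ^ 2 * y ^ 2), pow_two (x ^ 2),
      pow_two (y ^ 2)]
    calc z * x ^ 2 * y ^ 2 * (z * x ^ 2 * y ^ 2)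
        = z * x ^ 2 * (y ^ 2 * z) * x ^ 2 * y ^ 2 := by group
      _ = z * x ^ 2 * (z * y ^ 2) * x ^ 2 * y ^ 2 := by rw [hy2z]
      _ = z * (x ^ 2 * z) * y ^ 2 * x ^ 2 * y ^ 2 := by group
      _ = z * (z * x ^ 2) * y ^ 2 * x ^ 2 * y ^ 2 := by rw [hx2z]
      _ = z ^ 2 * x ^ 2 * (y ^ 2 * x ^ 2) * y ^ 2 := by
        rw [pow_two z]
        group
      _ = z ^ 2 * x ^ 2 * (x ^ 2 * y ^ 2) * y ^ 2 := by rw [hx2y2]
      _ = x ^ 2 * x ^ 2 * (y ^ 2 * y ^ 2) := by
        rw [hz2, one_mul]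
        group
  let K : Subgroup X :=
    { carrier := {x | x ∈ Q ∧ x ^ 4 = 1}
      one_mem' := ⟨one_mem _, one_pow _⟩
      mul_mem' := by
        rintro x y ⟨hx, hx4⟩ ⟨hy, hy4⟩
        exact ⟨mul_mem hx hy, by rw [hfour x hx y hy, hx4, hy4, one_mul]⟩
      inv_mem' := by
        rintro x ⟨hx, hx4⟩
        exact ⟨inv_mem hx, by rw [inv_pow, hx4, inv_one]⟩ }
  have hKQ : K = Q := by
    by_contra hne
    have hKa : ∀ x ∈ K, a * x * a⁻¹ ∈ K := by
      rintro x ⟨hx, hx4⟩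
      refine ⟨hQa x hx, ?_⟩
      rw [conj_pow, hx4]
      group
    have hKfix := hsub K (fun x hx => hx.1) hne hKa
    apply hQn
    intro x hx
    apply hfix x hx
    apply hKfix
    refine ⟨mul_mem (inv_mem hx) (hQa x hx), ?_⟩
    rw [hfour _ (inv_mem hx) _ (hQa x hx), conj_pow, inv_pow]
    have h1 : x ^ 4 ∈ T := by
      have : x ^ 4 = (x ^ 2) ^ 2 := by rw [← pow_mul]
      rw [this]
      exact pow_mem (hsq x hx) 2
    rw [hTfix _ h1]
    group
  refine ⟨Q, hQP, hQa, hQn, ?_, ?_⟩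
  · intro x hx
    have h1 : x ∈ K := hKQ ▸ hx
    exact h1.2
  · intro hcyc
    obtain ⟨g, hg⟩ := IsCyclic.exists_generator (α := Q)
    have hgen : ∀ x ∈ Q, x ∈ zpowers (g : X) := by
      intro x hx
      obtain ⟨j, hj⟩ := Subgroup.mem_zpowers_iff.mp (hg ⟨x, hx⟩)
      exact Subgroup.mem_zpowers_iff.mpr ⟨j, congrArg Subtype.val hj⟩
    have hgfix : a * (g : X) * a⁻¹ = g := by
      apply conj_eq_of_mem_zpowers ha
      · obtain ⟨k, hk⟩ := IsPGroup.iff_card.mp (hQ2.to_subgroup (zpowers g))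
        refine ⟨k, ?_⟩
        rw [Subgroup.orderOf_coe, ← Nat.card_zpowers, hk]
      · exact hgen _ (hQa g g.2)
    apply hQn
    intro x hx
    obtain ⟨j, hj⟩ := Subgroup.mem_zpowers_iff.mp (hgen x hx)
    rw [← hj, ← conj_zpow, hgfix]

/-- Separation by a subgroup of index two. -/
theorem sep {E : Type*} [Group E] [Finite E] (hE : IsPGroup 2 E) {x y : E}
    (hy : y ∉ zpowers x ⊔ frattini E) : ∃ M : Subgroup E, M.index = 2 ∧ x ∈ M ∧ y ∉ M := by
  classical
  haveI : Fact (Nat.Prime 2) := ⟨Nat.prime_two⟩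
  let S : Set (Subgroup E) := {M | zpowers x ⊔ frattini E ≤ M ∧ y ∉ M}
  obtain ⟨M, ⟨hWM, hyM⟩, hmax⟩ := Set.exists_max_image S (fun M => Nat.card M) (Set.toFinite _)
    ⟨_, le_rfl, hy⟩
  have hΦ : frattini E ≤ M := le_sup_right.trans hWM
  have hsq : ∀ z : E, z ^ 2 ∈ M := fun z => hΦ (Cfsg.Agent.Lib.Transfer.pow_mem_frattini hE z)
  have hcomm : commutator E ≤ M := (Cfsg.Agent.Lib.Transfer.commutator_le_frattini hE).trans hΦ
  haveI hMn : M.Normal := by
    constructor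
    intro m hm g
    have e : g * m * g⁻¹ = ⁅g, m⁆ * m := by
      rw [commutatorElement_def]
      group
    rw [e]
    exact mul_mem (hcomm (Subgroup.commutator_mem_commutator trivial trivial)) hm
  refine ⟨M, ?_, hWM (Subgroup.mem_sup_left (mem_zpowers x)), hyM⟩
  rw [Subgroup.index_eq_two_iff]
  refine ⟨y, fun b => ?_⟩
  by_cases hb : b ∈ M
  · right
    refine ⟨hb, fun h => hyM ?_⟩
    have := mul_mem (inv_mem hb) h
    simpa using this
  · left
    refine ⟨?_, hb⟩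
    have hlt : M < M ⊔ zpowers b := by
      refine lt_of_le_of_ne le_sup_left ?_
      intro he
      apply hb
      rw [he]
      exact Subgroup.mem_sup_right (mem_zpowers b)
    have hy' : y ∈ M ⊔ zpowers b := by
      by_contra hcon
      have h1 := hmax (M ⊔ zpowers b) ⟨hWM.trans le_sup_left, hcon⟩
      exact absurd h1 (not_le_of_gt (Cfsg.Agent.Lib.PGroup.card_lt_card_of_lt hlt))
    obtain ⟨m, hm, w, hw, rfl⟩ := (Subgroup.mem_sup_of_normal_left).mp hy'
    obtain ⟨j, rfl⟩ := Subgroup.mem_zpowers_iff.mp hw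
    rcases Int.even_or_odd' j with ⟨i, rfl | rfl⟩
    · exfalso
      apply hyM
      rw [zpow_mul]
      refine mul_mem hm (zpow_mem ?_ i)
      exact_mod_cast hsq b
    · have e : b * (m * b ^ (2 * i + 1)) = (b * m * b⁻¹) * (b ^ (2 : ℤ)) ^ (i + 1) := by
        rw [← zpow_mul]
        have e1 : (2 : ℤ) * (i + 1) = 1 + (2 * i + 1) := by ring
        rw [e1, zpow_add, zpow_one]
        group
      rw [e]
      refine mul_mem (hMn.conj_mem m hm b) (zpow_mem ?_ _)
      exact_mod_cast hsq b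

/-- The hyperplane lemma. -/
theorem centralizes_of_hyperplanes {A E : Subgroup X} (hA : Odd (Nat.card A)) (hE : IsPGroup 2 E)
    (hnc : ¬ IsCyclic E)
    (hinv : ∀ H : Subgroup X, H ≤ E → Nat.card H * 2 = Nat.card E → A ≤ normalizer (H : Set X)) :
    A ≤ centralizer (E : Set X) := by
  haveI : Fact (Nat.Prime 2) := ⟨Nat.prime_two⟩
  -- maximal subgroups
  have hnorm : ∀ M : Subgroup E, M.index = 2 → ∀ a ∈ A, ∀ t : E, t ∈ M →
      a * (t : X) * a⁻¹ ∈ M.map E.subtype := by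
    intro M hM a ha t ht
    have hc : Nat.card (M.map E.subtype) * 2 = Nat.card E := by
      have h1 : Nat.card (M.map E.subtype) = Nat.card M :=
        (Nat.card_congr (M.equivMapOfInjective E.subtype E.subtype_injective).toEquiv).symm
      rw [h1, ← hM, Subgroup.card_mul_index]
    have h2 := hinv _ (Subgroup.map_subtype_le M) hc ha
    exact (mem_normalizer_iff.mp h2 t).mp ⟨t, ht, rfl⟩
  have hcoatom : ∀ M : Subgroup E, IsCoatom M → M.index = 2 := fun M hM =>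
    Cfsg.Agent.Lib.PGroup.index_eq_prime_of_isCoatom hE hM
  have hs1 : ∀ a ∈ A, ∀ x ∈ E, a * x * a⁻¹ ∈ E := by
    intro a ha x hx
    have hne : zpowers (⟨x, hx⟩ : E) ≠ ⊤ := by
      intro h0
      exact hnc (isCyclic_iff_exists_zpowers_eq_top.mpr ⟨_, h0⟩)
    obtain h | ⟨M, hM, hle⟩ := eq_top_or_exists_le_coatom (zpowers (⟨x, hx⟩ : E))
    · exact absurd h hne
    · have h1 := hnorm M (hcoatom M hM) a ha ⟨x, hx⟩ (hle (mem_zpowers _))
      exact (Subgroup.map_subtype_le M) h1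
  have hAK : A ≤ normalizer (E : Set X) := by
    intro a ha
    rw [mem_normalizer_iff]
    intro h
    refine ⟨hs1 a ha h, fun h1 => ?_⟩
    have h2 := hs1 a⁻¹ (inv_mem ha) _ h1
    have e : a⁻¹ * (a * h * a⁻¹) * a⁻¹⁻¹ = h := by group
    rwa [e] at h2
  have hcop : (Nat.card A).Coprime (Nat.card (frattini E)) := by
    obtain ⟨k, hk⟩ := IsPGroup.iff_card.mp (hE.to_subgroup (frattini E))
    rw [hk]
    apply Nat.Coprime.pow_right
    rw [Nat.coprime_comm, Nat.Prime.coprime_iff_not_dvd Nat.prime_two]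
    intro hd
    have h1 := Nat.mod_eq_zero_of_dvd hd
    have h2 := Nat.odd_iff.mp hA
    omega
  refine Cfsg.Agent.Lib.Hall.le_centralizer_of_frattini A E hAK hcop ?_
  intro a ha k hk
  set x : E := ⟨k, hk⟩ with hx
  set y : E := ⟨a * k * a⁻¹, hs1 a ha k hk⟩ with hy
  have hgoal : y * x⁻¹ ∈ frattini E := by
    by_cases hmem : y ∈ zpowers x ⊔ frattini E
    · obtain ⟨w, hw, f, hf, hwf⟩ := (Subgroup.mem_sup_of_normal_right).mp hmem
      obtain ⟨j, rfl⟩ := Subgroup.mem_zpowers_iff.mp hw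
      have hsqx : x ^ (2 : ℤ) ∈ frattini E := by
        exact_mod_cast Cfsg.Agent.Lib.Transfer.pow_mem_frattini hE x
      rcases Int.even_or_odd' j with ⟨i, rfl | rfl⟩
      · have hyΦ : y ∈ frattini E := by
          rw [← hwf, zpow_mul]
          exact mul_mem (zpow_mem hsqx i) hf
        have hxΦ : x ∈ frattini E := by
          rw [Cfsg.Agent.Lib.Core.mem_frattini_iff]
          intro M hM
          have h1 : y ∈ M := Cfsg.Agent.Lib.Core.mem_frattini_iff.mp hyΦ M hM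
          have h2 := hnorm M (hcoatom M hM) a⁻¹ (inv_mem ha) y h1
          have e : a⁻¹ * (y : X) * a⁻¹⁻¹ = k := by
            show a⁻¹ * (a * k * a⁻¹) * a⁻¹⁻¹ = k
            group
          rw [e] at h2
          obtain ⟨z, hz, hzk⟩ := h2
          have : z = x := Subtype.ext hzk
          rwa [this] at hz
        exact mul_mem hyΦ (inv_mem hxΦ)
      · have e : y * x⁻¹ = x * ((x ^ (2 : ℤ)) ^ i * f) * x⁻¹ := by
          rw [← hwf, ← zpow_mul, zpow_add, zpow_one, mul_assoc (x ^ (2 * i)) x f]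
          have e2 : x ^ (2 * i) * x = x * x ^ (2 * i) := ((Commute.refl x).zpow_left _).eq
          rw [← mul_assoc (x ^ (2 * i)) x f, e2]
          group
        rw [e]
        exact (inferInstance : (frattini E).Normal).conj_mem _
          (mul_mem (zpow_mem hsqx i) hf) x
    · exfalso
      obtain ⟨M, hM, hxM, hyM⟩ := sep hE hmem
      have h1 := hnorm M hM a ha x hxM
      obtain ⟨z, hz, hzk⟩ := h1
      have : z = y := Subtype.ext hzk
      rw [this] at hz
      exact hyM hz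
  refine ⟨y * x⁻¹, hgoal, ?_⟩
  show a * k * a⁻¹ * k⁻¹ = _
  rfl

/-- Extending a subgroup inside a `p`-group. -/
theorem exists_between {p : ℕ} [Fact p.Prime] {S T : Subgroup X} (hTS : T ≤ S) (hS : IsPGroup p S)
    {i j : ℕ} (hT : Nat.card T = p ^ i) (hij : i ≤ j) (hdvd : p ^ j ∣ Nat.card S) :
    ∃ K : Subgroup X, T ≤ K ∧ K ≤ S ∧ Nat.card K = p ^ j := by
  have h1 : Nat.card (T.subgroupOf S) = p ^ i := by
    rw [← hT]
    exact Nat.card_congr (Subgroup.subgroupOfEquivOfLe hTS).toEquiv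
  obtain ⟨K, hK, hle⟩ := Sylow.exists_subgroup_card_pow_prime_le p hdvd _ h1 hij
  refine ⟨K.map S.subtype, ?_, Subgroup.map_subtype_le K, ?_⟩
  · intro t ht
    exact ⟨⟨t, hTS ht⟩, hle ht, rfl⟩
  · rw [← hK]
    exact (Nat.card_congr (K.equivMapOfInjective S.subtype S.subtype_injective).toEquiv).symm

/-- A small noncyclic subgroup through a given element. -/
theorem exists_small_noncyclic {Q : Subgroup X} (hQ : IsPGroup 2 Q) (hQ4 : ∀ x ∈ Q, x ^ 4 = 1)
    (hQc : ¬ IsCyclic Q) {x : X} (hx : x ∈ Q) :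
    ∃ C : Subgroup X, C ≤ Q ∧ x ∈ C ∧ ¬ IsCyclic C ∧ ∃ c, c ≤ 3 ∧ Nat.card C = 2 ^ c := by
  classical
  haveI : Fact (Nat.Prime 2) := ⟨Nat.prime_two⟩
  let S : Set (Subgroup X) := {C | C ≤ Q ∧ x ∈ C ∧ IsCyclic C}
  have hS : S.Nonempty := ⟨zpowers x, zpowers_le.mpr hx, mem_zpowers x, inferInstance⟩
  obtain ⟨C, ⟨hCQ, hxC, hCc⟩, hmax⟩ := Set.exists_max_image S (fun C => Nat.card C)
    (Set.toFinite _) hS
  have hCne : C ≠ Q := fun h => hQc (h ▸ hCc)
  have hClt : C < Q := lt_of_le_of_ne hCQ hCne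
  obtain ⟨c, hc⟩ := IsPGroup.iff_card.mp (hQ.to_le hCQ)
  obtain ⟨q, hq⟩ := IsPGroup.iff_card.mp hQ
  have hcq : c < q := by
    have h1 := Cfsg.Agent.Lib.PGroup.card_lt_card_of_lt hClt
    rw [hc, hq] at h1
    exact (Nat.pow_lt_pow_iff_right (by norm_num)).mp h1
  have hc2 : c ≤ 2 := by
    obtain ⟨g, hg⟩ := IsCyclic.exists_generator (α := C)
    have h1 : orderOf g = Nat.card C := orderOf_eq_card_of_forall_mem_zpowers hg
    have h2 : (g : X) ^ 4 = 1 := hQ4 _ (hCQ g.2)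
    have h3 : orderOf g ∣ 4 := by
      rw [← Subgroup.orderOf_coe]
      exact orderOf_dvd_of_pow_eq_one h2
    rw [h1, hc] at h3
    have h4 : (4 : ℕ) = 2 ^ 2 := rfl
    rw [h4] at h3
    exact (Nat.pow_dvd_pow_iff_le_right (by norm_num)).mp h3
  obtain ⟨K, hCK, hKQ, hKc⟩ := exists_between hCQ hQ hc (Nat.le_succ c)
    (by rw [hq]; exact pow_dvd_pow 2 hcq)
  refine ⟨K, hKQ, hCK hxC, ?_, c + 1, by omega, hKc⟩
  intro hKcyc
  have h1 := hmax K ⟨hKQ, hCK hxC, hKcyc⟩
  rw [hKc, hc] at h1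
  have h2 : 2 ^ c < 2 ^ (c + 1) := Nat.pow_lt_pow_right (by norm_num) (Nat.lt_succ_self c)
  omega

/-- The theorem. -/
theorem main (P A D : Subgroup X) (hP : IsPGroup 2 P) (hA : Odd (Nat.card A))
    (hAP : A ≤ normalizer (P : Set X)) (hDP : D ≤ P) (hD1 : 1 < Nat.card D)
    (hD2 : Nat.card D < Nat.card P)
    (hinv : ∀ E : Subgroup X, E ≤ P → (Nat.card E = Nat.card D ∨ (Nat.card D = 2 ∧ Nat.card E = 4)) →
      A ≤ normalizer (E : Set X)) :
    A ≤ centralizer (P : Set X) := by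
  haveI : Fact (Nat.Prime 2) := ⟨Nat.prime_two⟩
  obtain ⟨k, hk⟩ := IsPGroup.iff_card.mp (hP.to_le hDP)
  obtain ⟨m, hm⟩ := IsPGroup.iff_card.mp hP
  have hk0 : k ≠ 0 := by
    rintro rfl
    rw [hk] at hD1
    simp at hD1
  have hkm : k < m := by
    rw [hk, hm] at hD2
    exact (Nat.pow_lt_pow_iff_right (by norm_num)).mp hD2
  intro a ha
  have haodd : Odd (orderOf a) := by
    have h1 : orderOf (⟨a, ha⟩ : A) = orderOf a := Subgroup.orderOf_mk _ _
    rw [← h1]
    exact Odd.of_dvd_nat hA (orderOf_dvd_natCard _)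
  rw [mem_centralizer_iff]
  intro y hy
  by_contra hne
  obtain ⟨Q, hQP, hQa, hQn, hQ4, hQc⟩ := exists_minQ haodd hP
    (fun x hx => (mem_normalizer_iff.mp (hAP ha) x).mp hx)
    (fun h => hne (by
      have h1 := h y hy
      calc y * a = a * y * a⁻¹ * a := by rw [h1]
        _ = a * y := by group))
  apply hQn
  intro x hx
  by_cases hk1 : k = 1
  · subst hk1
    rw [pow_one] at hk
    have h1 : orderOf x ∣ 2 ^ 2 := orderOf_dvd_of_pow_eq_one (hQ4 x hx)
    obtain ⟨e, he, hoe⟩ := (Nat.dvd_prime_pow Nat.prime_two).mp h1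
    rcases Nat.eq_zero_or_pos e with rfl | he0
    · have : x = 1 := orderOf_eq_one_iff.mp (by simpa using hoe)
      rw [this]
      group
    · have hcard : Nat.card (zpowers x) = Nat.card D ∨ (Nat.card D = 2 ∧ Nat.card (zpowers x) = 4) := by
        rw [Nat.card_zpowers, hoe, hk]
        interval_cases e
        · left
          norm_num
        · right
          norm_num
      have h2 := hinv (zpowers x) (zpowers_le.mpr (hQP hx)) hcard ha
      have h3 := (mem_normalizer_iff.mp h2 x).mp (mem_zpowers x)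
      exact conj_eq_of_mem_zpowers haodd ⟨e, hoe⟩ h3
  · have hk2 : 2 ≤ k := by omega
    obtain ⟨C, hCQ, hxC, hCc, c, hc3, hCcard⟩ :=
      exists_small_noncyclic (hP.to_le hQP) hQ4 hQc hx
    obtain ⟨E, hCE, hEP, hEcard⟩ := exists_between (hCQ.trans hQP) hP hCcard
      (show c ≤ k + 1 by omega) (by rw [hm]; exact pow_dvd_pow 2 hkm)
    have hEnc : ¬ IsCyclic E := by
      intro hcyc
      apply hCc
      exact isCyclic_of_injective (Subgroup.inclusion hCE) (Subgroup.inclusion_injective hCE)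
    have h1 := centralizes_of_hyperplanes (A := A) (E := E) hA (hP.to_le hEP) hEnc
      (fun H hHE hc => hinv H (hHE.trans hEP) (Or.inl (by
        rw [hEcard, pow_succ] at hc
        rw [hk]
        exact Nat.eq_of_mul_eq_mul_right (by norm_num) hc))) ha
    have h2 := mem_centralizer_iff.mp h1 x (hCE hxC)
    calc a * x * a⁻¹ = x * a * a⁻¹ := by rw [h2]
      _ = x := by group

end Cfsg.Agent.Lib.PGroup.Odd2
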