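import Mathlib
import Cfsg.Agent.Lib.Core.Basic
import Cfsg.Agent.Lib.PSolv.Basic
import Cfsg.Agent.Lib.Hall.CoprimeSylow
import Cfsg.Agent.Lib.Hall.CoprimeLemmas
import Cfsg.Agent.Lib.Fusion.ModelPSolv
import Cfsg.Agent.Lib.FStar.Constrained
import Cfsg.Agent.Lib.Core.Conj

/-!
# Counting `p`-elements in a `p`-soluble group

Coprime actions of a `p`-group: an inequality between the indices of fixed points of elements and of the whole group,
and its use to bound the number of `p`-elements from below.
-/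

set_option autoImplicit false

namespace Cfsg.Agent.Lib.PGroup.PElts

open Subgroup Cfsg
open scoped BigOperators Pointwise

universe u v

section act

variable {P : Type v} [Group P] {S : Type u} [Group S]

/-- The fixed points of a subgroup. -/
def fixS (σ : P →* MulAut S) (R : Subgroup P) : Subgroup S where
  carrier := {s | ∀ x ∈ R, σ x s = s}
  mul_mem' := fun ha hb x hx => by rw [map_mul, ha x hx, hb x hx]
  one_mem' := fun x _ => map_one _
  inv_mem' := fun ha x hx => by rw [map_inv, ha x hx]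

theorem mem_fixS {σ : P →* MulAut S} {R : Subgroup P} {s : S} : s ∈ fixS σ R ↔ ∀ x ∈ R, σ x s = s := Iff.rfl

/-- The fixed points of one automorphism. -/
def fixA (y : MulAut S) : Subgroup S where
  carrier := {s | y s = s}
  mul_mem' := fun ha hb => by
    simp only [Set.mem_setOf_eq] at ha hb ⊢
    rw [map_mul, ha, hb]
  one_mem' := map_one _
  inv_mem' := fun ha => by
    simp only [Set.mem_setOf_eq] at ha ⊢
    rw [map_inv, ha]

theorem mem_fixA {y : MulAut S} {s : S} : s ∈ fixA y ↔ y s = s := Iff.rfl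

theorem pow_fix {y : MulAut S} {s : S} (h : y s = s) (n : ℕ) : (y ^ n) s = s := by
  induction n with
  | zero => rfl
  | succ n ih => rw [pow_succ, MulAut.mul_apply, h, ih]

theorem fixS_zpowers (σ : P →* MulAut S) (x : P) : fixS σ (zpowers x) = fixA (σ x) := by
  ext s
  rw [mem_fixS, mem_fixA]
  constructor
  · intro h
    exact h x (mem_zpowers x)
  · rintro h _ ⟨n, rfl⟩
    have h1 : ∀ n : ℤ, (σ x ^ n) s = s := by
      intro n
      induction n using Int.induction_on with
      | zero => rfl
      | succ i ih =>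
        rw [zpow_add_one, MulAut.mul_apply, h, ih]
      | pred i ih =>
        rw [zpow_sub_one, MulAut.mul_apply]
        have h2 : (σ x)⁻¹ s = s := by
          calc (σ x)⁻¹ s = (σ x)⁻¹ (σ x s) := by rw [h]
            _ = s := by rw [MulAut.inv_apply_self]
        rw [h2, ih]
    show σ (x ^ n) s = s
    rw [map_zpow, h1]

/-- The action on an invariant subgroup. -/
def resA (σ : P →* MulAut S) (L : Subgroup S) (hL : ∀ x, ∀ l ∈ L, σ x l ∈ L) : P →* MulAut L where
  toFun x :=
    { toFun := fun l => ⟨σ x l, hL x l l.2⟩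
      invFun := fun l => ⟨σ x⁻¹ l, hL x⁻¹ l l.2⟩
      left_inv := fun l => by
        apply Subtype.ext
        show σ x⁻¹ (σ x l) = l
        rw [map_inv, MulAut.inv_apply_self]
      right_inv := fun l => by
        apply Subtype.ext
        show σ x (σ x⁻¹ l) = l
        rw [map_inv, MulAut.apply_inv_self]
      map_mul' := fun a b => by
        apply Subtype.ext
        show σ x (a * b) = σ x a * σ x b
        rw [map_mul] }
  map_one' := by
    ext l
    show σ 1 l = l
    rw [map_one, MulAut.one_apply]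
  map_mul' a b := by
    ext l
    show σ (a * b) l = σ a (σ b l)
    rw [map_mul, MulAut.mul_apply]

theorem resA_coe (σ : P →* MulAut S) (L : Subgroup S) (hL : ∀ x, ∀ l ∈ L, σ x l ∈ L) (x : P) (l : L) :
    ((resA σ L hL x l : L) : S) = σ x l := rfl

theorem map_eq_of_inv (σ : P →* MulAut S) (L : Subgroup S) (hL : ∀ x, ∀ l ∈ L, σ x l ∈ L) (x : P) :
    L.map ((σ x : S ≃* S) : S →* S) = L := by
  apply le_antisymm
  · rintro _ ⟨l, hl, rfl⟩
    exact hL x l hl
  · intro l hl
    refine ⟨σ x⁻¹ l, hL x⁻¹ l hl, ?_⟩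
    show σ x (σ x⁻¹ l) = l
    rw [map_inv, MulAut.apply_inv_self]

/-- The action on a quotient by an invariant normal subgroup. -/
def quoA (σ : P →* MulAut S) (L : Subgroup S) [L.Normal] (hL : ∀ x, ∀ l ∈ L, σ x l ∈ L) : P →* MulAut (S ⧸ L) where
  toFun x := QuotientGroup.congr L L (σ x) (map_eq_of_inv σ L hL x)
  map_one' := by
    ext w
    induction w using QuotientGroup.induction_on with
    | H v =>
      rw [QuotientGroup.congr_mk]
      simp
  map_mul' a b := by
    ext w
    induction w using QuotientGroup.induction_on with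
    | H v =>
      rw [MulAut.mul_apply, QuotientGroup.congr_mk, QuotientGroup.congr_mk, QuotientGroup.congr_mk]
      simp

theorem quoA_mk (σ : P →* MulAut S) (L : Subgroup S) [L.Normal] (hL : ∀ x, ∀ l ∈ L, σ x l ∈ L) (x : P) (s : S) :
    quoA σ L hL x (s : S ⧸ L) = ((σ x s : S) : S ⧸ L) :=
  QuotientGroup.congr_mk L L (σ x) (map_eq_of_inv σ L hL x) s

variable {p : ℕ} [hp : Fact p.Prime]

/-- Fixed points in a section, coprime action of a `p`-group. -/
theorem card_fixS_mul [Finite S] (σ : P →* MulAut S) (R : Subgroup P) (hR : IsPGroup p R) (L : Subgroup S) [hLn : L.Normal]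
    (hL : ∀ x, ∀ l ∈ L, σ x l ∈ L) (hc : (Nat.card L).Coprime p) :
    Nat.card (fixS σ R) = Nat.card (fixS (resA σ L hL) R) * Nat.card (fixS (quoA σ L hL) R) := by
  classical
  have hpp : p.Prime := Fact.out
  let φ : fixS σ R →* fixS (quoA σ L hL) R :=
    { toFun := fun s => ⟨((s : S) : S ⧸ L), fun x hx => by
        rw [quoA_mk, s.2 x hx]⟩
      map_one' := rfl
      map_mul' := fun _ _ => rfl }
  have hφs : Function.Surjective φ := by
    rintro ⟨c, hc'⟩
    obtain ⟨s₀, rfl⟩ := QuotientGroup.mk_surjective c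
    -- the action on the coset
    let X := {s : S // ((s : S) : S ⧸ L) = (s₀ : S ⧸ L)}
    have hX : ∀ (x : R) (s : X), ((σ x s.1 : S) : S ⧸ L) = (s₀ : S ⧸ L) := by
      intro x s
      rw [← quoA_mk σ L hL, s.2]
      exact hc' x x.2
    letI : MulAction R X :=
      { smul := fun x s => ⟨σ x s.1, hX x s⟩
        one_smul := fun s => by
          apply Subtype.ext
          show σ ((1 : R) : P) s.1 = s.1
          simp
        mul_smul := fun a b s => by
          apply Subtype.ext
          show σ ((a * b : R) : P) s.1 = σ a (σ b s.1)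
          simp }
    have hcard : Nat.card X = Nat.card L := by
      refine Nat.card_congr ?_
      exact
        { toFun := fun s => ⟨s₀⁻¹ * s.1, QuotientGroup.eq.mp s.2.symm⟩
          invFun := fun l => ⟨s₀ * l, by
            apply QuotientGroup.eq.mpr
            simp⟩
          left_inv := fun s => by
            apply Subtype.ext
            simp
          right_inv := fun l => by
            apply Subtype.ext
            simp }
    haveI : Finite X := inferInstance
    have hnd : ¬ p ∣ Nat.card X := by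
      rw [hcard]
      exact fun h => (Nat.Prime.coprime_iff_not_dvd hpp).mp hc.symm h
    obtain ⟨s₁, hs₁⟩ := hR.nonempty_fixed_point_of_prime_not_dvd_card X hnd
    have hfix : s₁.1 ∈ fixS σ R := by
      intro x hx
      have h1 := hs₁ ⟨x, hx⟩
      exact congrArg Subtype.val h1
    refine ⟨⟨s₁.1, hfix⟩, ?_⟩
    apply Subtype.ext
    exact s₁.2
  have hker : Nat.card φ.ker = Nat.card (fixS (resA σ L hL) R) := by
    refine Nat.card_congr ?_
    exact
      { toFun := fun s => ⟨⟨s.1.1, by
            have h1 : φ s.1 = 1 := s.2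
            have h2 : ((s.1.1 : S) : S ⧸ L) = 1 := congrArg Subtype.val h1
            exact (QuotientGroup.eq_one_iff _).mp h2⟩, fun x hx => by
            apply Subtype.ext
            exact s.1.2 x hx⟩
        invFun := fun l => ⟨⟨l.1.1, fun x hx => congrArg Subtype.val (l.2 x hx)⟩, by
            rw [MonoidHom.mem_ker]
            apply Subtype.ext
            exact (QuotientGroup.eq_one_iff _).mpr l.1.2⟩
        left_inv := fun s => rfl
        right_inv := fun l => rfl }
  have h1 := Subgroup.card_mul_index φ.ker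
  rw [Subgroup.index_ker, hker, MonoidHom.range_eq_top.mpr hφs, Subgroup.card_top] at h1
  exact h1.symm

theorem index_fixS_mul [Finite S] (σ : P →* MulAut S) (R : Subgroup P) (hR : IsPGroup p R) (L : Subgroup S) [hLn : L.Normal]
    (hL : ∀ x, ∀ l ∈ L, σ x l ∈ L) (hc : (Nat.card L).Coprime p) :
    (fixS σ R).index = (fixS (resA σ L hL) R).index * (fixS (quoA σ L hL) R).index := by
  have h1 := Subgroup.card_mul_index (fixS σ R)
  have h2 := Subgroup.card_mul_index (fixS (resA σ L hL) R)
  have h3 := Subgroup.card_mul_index (fixS (quoA σ L hL) R)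
  have h4 := Subgroup.card_mul_index L
  rw [Subgroup.index_eq_card] at h4
  have h5 := card_fixS_mul σ R hR L hL hc
  have hpos : 0 < Nat.card (fixS σ R) := Nat.card_pos
  apply Nat.eq_of_mul_eq_mul_left hpos
  rw [h1, ← h4, ← h2, ← h3, h5]
  ring

/-- The inequality for an action. -/
def TT (p : ℕ) [Fintype P] (σ : P →* MulAut S) : Prop :=
  (fixS σ ⊤).index ^ ((p - 1) * Fintype.card P) ≤ (∏ x : P, (fixA (σ x)).index) ^ p

theorem TT_of_res_quo [Finite S] [Fintype P] (hP : IsPGroup p P) (σ : P →* MulAut S) (L : Subgroup S) [hLn : L.Normal]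
    (hL : ∀ x, ∀ l ∈ L, σ x l ∈ L) (hc : (Nat.card L).Coprime p) (h1 : TT p (resA σ L hL)) (h2 : TT p (quoA σ L hL)) :
    TT p σ := by
  unfold TT at *
  have hi : ∀ x : P, (fixA (σ x)).index = (fixA (resA σ L hL x)).index * (fixA (quoA σ L hL x)).index := by
    intro x
    have := index_fixS_mul σ (zpowers x) (hP.to_subgroup _) L hL hc
    rwa [fixS_zpowers, fixS_zpowers, fixS_zpowers] at this
  have ht := index_fixS_mul σ ⊤ (hP.to_subgroup _) L hL hc
  rw [ht, mul_pow]
  simp only [hi]
  rw [Finset.prod_mul_distrib, mul_pow]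
  exact Nat.mul_le_mul h1 h2

end act

section abel

variable {p : ℕ} [hp : Fact p.Prime]

variable {A : Type u} [CommGroup A] [Finite A]

/-- Elements moved in a way compatible with two commuting automorphisms are independent. -/
theorem eq_one_of_prod {x z : MulAut A} (hxz : Commute x z) (hzp : z ^ p = 1) (hz : ∀ w, z w = w → w = 1)
    (hc : (Nat.card A).Coprime p) (v : Fin p → A) (hv : ∀ i : Fin p, (x * z ^ (i : ℕ)) (v i) = v i) (hprod : ∏ i, v i = 1)
    (j : Fin p) : v j = 1 := by
  classical
  have hpp : p.Prime := Fact.out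
  set y : MulAut A := x * z ^ (j : ℕ) with hy
  -- the powers of `z` relating `y` and `x * z ^ i`
  let u : Fin p → MulAut A := fun i => z ^ ((j : ℕ) + p - (i : ℕ))
  have hu : ∀ i : Fin p, z ^ (i : ℕ) * u i = z ^ (j : ℕ) := by
    intro i
    show z ^ (i : ℕ) * z ^ ((j : ℕ) + p - (i : ℕ)) = _
    rw [← pow_add]
    have h1 : (i : ℕ) + ((j : ℕ) + p - (i : ℕ)) = (j : ℕ) + p := by
      have := i.2
      omega
    rw [h1, pow_add, hzp, mul_one]
  have hyu : ∀ i : Fin p, y = u i * (x * z ^ (i : ℕ)) := by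
    intro i
    have h1 : Commute (u i) (x * z ^ (i : ℕ)) :=
      ((hxz.pow_right _).symm).mul_right (Commute.pow_pow_self z _ _)
    rw [h1.eq, hy, ← hu i, mul_assoc]
  have hyk : ∀ (k : ℕ) (i : Fin p), (y ^ k) (v i) = (u i ^ k) (v i) := by
    intro k i
    have h1 : Commute (u i) (x * z ^ (i : ℕ)) :=
      ((hxz.pow_right _).symm).mul_right (Commute.pow_pow_self z _ _)
    rw [hyu i, h1.mul_pow, MulAut.mul_apply, pow_fix (hv i)]
  have hk : ∀ k : ℕ, ∏ i, (u i ^ k) (v i) = 1 := by
    intro k
    have h1 := congrArg (y ^ k) hprod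
    rw [map_prod, map_one] at h1
    rw [← h1]
    exact Finset.prod_congr rfl fun i _ => (hyk k i).symm
  have hall : ∏ i, ∏ k ∈ Finset.range p, (u i ^ k) (v i) = 1 := by
    rw [Finset.prod_comm]
    exact Finset.prod_eq_one fun k _ => hk k
  have hother : ∀ i, i ≠ j → ∏ k ∈ Finset.range p, (u i ^ k) (v i) = 1 := by
    intro i hij
    set N := ∏ k ∈ Finset.range p, (u i ^ k) (v i) with hN
    have hup : u i ^ p = 1 := by
      show (z ^ ((j : ℕ) + p - (i : ℕ))) ^ p = 1
      rw [← pow_mul, mul_comm, pow_mul, hzp, one_pow]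
    have hfixN : u i N = N := by
      rw [hN, map_prod]
      have h1 := Finset.prod_range_succ (fun k => (u i ^ k) (v i)) p
      have h2 := Finset.prod_range_succ' (fun k => (u i ^ k) (v i)) p
      rw [h1, hup] at h2
      simp only [pow_zero, MulAut.one_apply] at h2
      have h3 := mul_right_cancel h2
      rw [h3]
      refine Finset.prod_congr rfl fun k _ => ?_
      rw [pow_succ', MulAut.mul_apply]
    -- `z` is a power of `u i`
    have hcop : Nat.Coprime ((j : ℕ) + p - (i : ℕ)) p := by
      rw [Nat.coprime_comm, Nat.Prime.coprime_iff_not_dvd hpp]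
      intro hd
      have hi := i.2
      have hj := j.2
      have hne : (i : ℕ) ≠ (j : ℕ) := fun h => hij (Fin.ext h)
      obtain ⟨c, hc⟩ := hd
      have h0 : 0 < (j : ℕ) + p - (i : ℕ) := by omega
      have h1 : (j : ℕ) + p - (i : ℕ) < 2 * p := by omega
      have h2 : c = 1 := by
        rcases c with _ | _ | c
        · omega
        · rfl
        · exfalso
          have : p * (c + 1 + 1) = p * c + 2 * p := by ring
          omega
      subst h2
      omega
    obtain ⟨m, -, hm⟩ := Nat.exists_mul_mod_eq_one_of_coprime hcop hpp.one_lt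
    have hzu : (u i ^ m) = z := by
      show (z ^ ((j : ℕ) + p - (i : ℕ))) ^ m = z
      rw [← pow_mul, pow_eq_pow_mod _ hzp, hm, pow_one]
    apply hz
    rw [← hzu]
    exact pow_fix hfixN m
  have hj : ∏ k ∈ Finset.range p, (u j ^ k) (v j) = v j ^ p := by
    have huj : u j = 1 := by
      show z ^ ((j : ℕ) + p - (j : ℕ)) = 1
      rw [Nat.add_sub_cancel_left, hzp]
    simp [huj]
  have h3 : v j ^ p = 1 := by
    rw [← hj]
    rw [← Finset.prod_erase_mul _ _ (Finset.mem_univ j)] at hall
    rwa [Finset.prod_eq_one (fun i hi => hother i (Finset.ne_of_mem_erase hi)), one_mul] at hall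
  have h4 : v j ^ Nat.card A = 1 := pow_card_eq_one'
  exact Cfsg.Agent.Lib.FStar.eq_one_of_pow_of_coprime (p := p) (n := 1) (by simpa using h3) h4 hc

theorem prod_card_fix_le {x z : MulAut A} (hxz : Commute x z) (hzp : z ^ p = 1) (hz : ∀ w, z w = w → w = 1)
    (hc : (Nat.card A).Coprime p) : ∏ i : Fin p, Nat.card (fixA (x * z ^ (i : ℕ))) ≤ Nat.card A := by
  classical
  let Φ : (∀ i : Fin p, fixA (x * z ^ (i : ℕ))) → A := fun w => ∏ i, (w i : A)
  have hΦ : Function.Injective Φ := by
    intro w w' h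
    funext j
    apply Subtype.ext
    have h1 := eq_one_of_prod hxz hzp hz hc (fun i => (w i : A) * (w' i : A)⁻¹)
      (fun i => by
        rw [map_mul, map_inv]
        have h2 : (x * z ^ (i : ℕ)) (w i : A) = (w i : A) := (w i).2
        have h3 : (x * z ^ (i : ℕ)) (w' i : A) = (w' i : A) := (w' i).2
        rw [h2, h3])
      (by
        rw [Finset.prod_mul_distrib, Finset.prod_inv_distrib]
        have h4 : ∏ i, (w i : A) = ∏ i, (w' i : A) := h
        rw [h4, mul_inv_cancel]) j
    exact mul_inv_eq_one.mp h1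
  have h2 := Nat.card_le_card_of_injective Φ hΦ
  rwa [Nat.card_pi] at h2

end abel

section tt

variable {p : ℕ} [hp : Fact p.Prime]

theorem exists_central_elt {P : Type v} [Group P] [Finite P] (hP : IsPGroup p P) {A : Type u} [Group A]
    (σ : P →* MulAut A) (hσ : σ ≠ 1) :
    ∃ z : P, σ z ≠ 1 ∧ (σ z) ^ p = 1 ∧ ∀ x, Commute (σ x) (σ z) := by
  classical
  have hRp : IsPGroup p σ.range := hP.of_surjective σ.rangeRestrict σ.rangeRestrict_surjective
  haveI : Finite σ.range := Finite.of_surjective σ.rangeRestrict σ.rangeRestrict_surjective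
  haveI : Nontrivial σ.range := by
    obtain ⟨x, hx⟩ : ∃ x, σ x ≠ 1 := by
      by_contra hcon
      push Not at hcon
      exact hσ (MonoidHom.ext hcon)
    exact ⟨⟨⟨σ x, x, rfl⟩, 1, fun h => hx (congrArg Subtype.val h)⟩⟩
  haveI := hRp.center_nontrivial
  have hcp : IsPGroup p (center σ.range) := hRp.to_subgroup _
  obtain ⟨k, hk⟩ := IsPGroup.iff_card.mp hcp
  have hk0 : k ≠ 0 := by
    rintro rfl
    rw [pow_zero] at hk
    exact Finite.one_lt_card.ne' hk
  have hd : p ∣ Nat.card (center σ.range) := by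
    rw [hk]
    exact dvd_pow_self p hk0
  obtain ⟨ζ, hζ⟩ := exists_prime_orderOf_dvd_card' p hd
  obtain ⟨z, hz⟩ := (ζ : σ.range).2
  have hcoe : σ z = ((ζ : σ.range) : MulAut A) := hz
  refine ⟨z, ?_, ?_, ?_⟩
  · intro h
    have h1 : ζ = 1 := by
      apply Subtype.ext
      apply Subtype.ext
      rw [← hcoe, h]
      rfl
    rw [h1, orderOf_one] at hζ
    exact (Fact.out : p.Prime).one_lt.ne hζ
  · rw [hcoe]
    have h1 : ζ ^ p = 1 := by
      rw [← hζ]
      exact pow_orderOf_eq_one ζ
    have h2 := congrArg (fun w : center σ.range => ((w : σ.range) : MulAut A)) h1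
    simpa using h2
  · intro x
    rw [hcoe]
    have h1 := Subgroup.mem_center_iff.mp ζ.2 ⟨σ x, x, rfl⟩
    exact congrArg Subtype.val h1

theorem TT_abelian {P : Type v} [Group P] [Fintype P] (hP : IsPGroup p P) :
    ∀ (n : ℕ) (A : Type u) [Group A] [Finite A], Nat.card A = n → (∀ a b : A, a * b = b * a) →
      (Nat.card A).Coprime p → ∀ σ : P →* MulAut A, TT p σ := by
  intro n
  induction n using Nat.strong_induction_on with
  | _ n ih =>
  intro A _ _ hn hcomm hc σ
  classical
  have hpp : p.Prime := Fact.out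
  by_cases hσ : σ = 1
  · subst hσ
    have h1 : fixS (1 : P →* MulAut A) ⊤ = ⊤ := by
      ext s
      simp [mem_fixS]
    have h2 : fixA (1 : MulAut A) = ⊤ := by
      ext s
      simp [mem_fixA]
    unfold TT
    rw [h1]
    simp [h2]
  obtain ⟨z, hz1, hz2, hz3⟩ := exists_central_elt hP σ hσ
  set Z := σ z with hZ
  letI cA : CommGroup A := { (inferInstance : Group A) with mul_comm := hcomm }
  let Nf : A → A := fun w => ∏ k ∈ Finset.range p, (Z ^ k) w
  have hNmul : ∀ a b, Nf (a * b) = Nf a * Nf b := by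
    intro a b
    simp only [Nf, map_mul, Finset.prod_mul_distrib]
  have hN1 : Nf 1 = 1 := by
    simp [Nf]
  have hNZ : ∀ w, Z (Nf w) = Nf w := by
    intro w
    simp only [Nf]
    rw [map_prod]
    have h1 := Finset.prod_range_succ (fun k => (Z ^ k) w) p
    have h2 := Finset.prod_range_succ' (fun k => (Z ^ k) w) p
    rw [h1, hz2] at h2
    simp only [pow_zero, MulAut.one_apply] at h2
    have h3 := mul_right_cancel h2
    rw [h3]
    refine Finset.prod_congr rfl fun k _ => ?_
    rw [pow_succ', MulAut.mul_apply]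
  let L : Subgroup A :=
    { carrier := {w | Nf w = 1}
      mul_mem' := fun {a b} ha hb => by
        show Nf (a * b) = 1
        rw [hNmul, ha, hb, one_mul]
      one_mem' := hN1
      inv_mem' := fun {a} ha => by
        show Nf a⁻¹ = 1
        have h1 := hNmul a a⁻¹
        rw [mul_inv_cancel, hN1, ha, one_mul] at h1
        exact h1.symm }
  have hmemL : ∀ w, w ∈ L ↔ Nf w = 1 := fun _ => Iff.rfl
  have hL : ∀ x, ∀ l ∈ L, σ x l ∈ L := by
    intro x l hl
    rw [hmemL] at hl ⊢
    have h1 : Nf (σ x l) = σ x (Nf l) := by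
      simp only [Nf]
      rw [map_prod]
      refine Finset.prod_congr rfl fun k _ => ?_
      have h2 : Commute (Z ^ k) (σ x) := ((hz3 x).symm).pow_left k
      rw [← MulAut.mul_apply, ← MulAut.mul_apply, h2.eq]
    rw [h1, hl, map_one]
  haveI hLn : L.Normal := ⟨fun l hl g => by
    rw [hcomm g l, mul_inv_cancel_right]
    exact hl⟩
  have hLfix : ∀ w ∈ L, Z w = w → w = 1 := by
    intro w hw hfix
    have h1 : Nf w = w ^ p := by
      simp only [Nf]
      have h2 : ∀ k ∈ Finset.range p, (Z ^ k) w = w := fun k _ => pow_fix hfix k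
      rw [Finset.prod_congr rfl h2]
      simp
    rw [hmemL, h1] at hw
    have h4 : w ^ Nat.card A = 1 := pow_card_eq_one'
    exact Cfsg.Agent.Lib.FStar.eq_one_of_pow_of_coprime (p := p) (n := 1) (by simpa using hw) h4 hc
  have hLne : L ≠ ⊥ := by
    intro hbot
    apply hz1
    ext w
    have h1 : Z w * w⁻¹ ∈ L := by
      rw [hmemL, hNmul]
      have h2 : Nf (Z w) = Z (Nf w) := by
        simp only [Nf]
        rw [map_prod]
        refine Finset.prod_congr rfl fun k _ => ?_
        rw [← MulAut.mul_apply, ← MulAut.mul_apply, ← pow_succ, ← pow_succ']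
      have h3 : Nf w⁻¹ = (Nf w)⁻¹ := by
        have h4 := hNmul w w⁻¹
        rw [mul_inv_cancel, hN1] at h4
        exact eq_inv_of_mul_eq_one_right h4.symm
      rw [h2, hNZ, h3, mul_inv_cancel]
    rw [hbot, Subgroup.mem_bot] at h1
    exact mul_inv_eq_one.mp h1
  have hcL : (Nat.card L).Coprime p := Nat.Coprime.coprime_dvd_left (Subgroup.card_subgroup_dvd_card L) hc
  have hcardq := Subgroup.card_eq_card_quotient_mul_card_subgroup L
  have hLgt : 1 < Nat.card L := by
    have h0 : Nat.card L ≠ 1 := fun h => hLne (Subgroup.eq_bot_of_card_eq L h)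
    have h1 : 0 < Nat.card L := Nat.card_pos
    omega
  have hqlt : Nat.card (A ⧸ L) < n := by
    rw [← hn, hcardq]
    exact lt_mul_of_one_lt_right Nat.card_pos hLgt
  have hqc : (Nat.card (A ⧸ L)).Coprime p :=
    Nat.Coprime.coprime_dvd_left (Subgroup.card_quotient_dvd_card L) hc
  have hqcomm : ∀ a b : A ⧸ L, a * b = b * a := by
    intro a b
    induction a using QuotientGroup.induction_on with
    | H a =>
      induction b using QuotientGroup.induction_on with
      | H b =>
        rw [← QuotientGroup.mk_mul, ← QuotientGroup.mk_mul, hcomm a b]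
  have hTq : TT p (quoA σ L hL) := ih _ hqlt (A ⧸ L) rfl hqcomm hqc _
  refine TT_of_res_quo hP σ L hL hcL ?_ hTq
  -- the part on which `z` has no fixed points
  set τ := resA σ L hL with hτ
  have hτdet : ∀ x y, σ x = σ y → τ x = τ y := by
    intro x y hxy
    ext l
    show σ x l = σ y l
    rw [hxy]
  have hτz : (τ z) ^ p = 1 := by
    rw [← map_pow, ← map_one τ]
    apply hτdet
    rw [map_pow, hz2, map_one]
  have hτc : ∀ x, Commute (τ x) (τ z) := by
    intro x
    show τ x * τ z = τ z * τ x
    rw [← map_mul, ← map_mul]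
    apply hτdet
    rw [map_mul, map_mul]
    exact hz3 x
  have hτf : ∀ w, τ z w = w → w = 1 := by
    intro w hw
    apply Subtype.ext
    exact hLfix w w.2 (congrArg Subtype.val hw)
  letI cL : CommGroup L := { (inferInstance : Group L) with mul_comm := fun a b => Subtype.ext (hcomm a b) }
  set a := Nat.card L with ha
  have hhg : ∀ x, Nat.card (fixA (τ x)) * (fixA (τ x)).index = a := fun x => Subgroup.card_mul_index _
  have hprod : ∀ x : P, ∏ i : Fin p, Nat.card (fixA (τ (x * z ^ (i : ℕ)))) ≤ a := by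
    intro x
    have h1 := prod_card_fix_le (hτc x) hτz hτf hcL
    simp only [map_mul, map_pow]
    exact h1
  set Hh : ℕ := ∏ x : P, Nat.card (fixA (τ x)) with hHh
  set Gg : ℕ := ∏ x : P, (fixA (τ x)).index with hGg
  have hHp : Hh ^ p ≤ a ^ Fintype.card P := by
    have h1 : Hh ^ p = ∏ _i : Fin p, Hh := by simp
    have h2 : ∀ i : Fin p, Hh = ∏ x : P, Nat.card (fixA (τ (x * z ^ (i : ℕ)))) := by
      intro i
      rw [hHh]
      exact (Equiv.prod_comp (Equiv.mulRight (z ^ (i : ℕ))) (fun x => Nat.card (fixA (τ x)))).symm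
    rw [h1, Finset.prod_congr rfl (fun i _ => h2 i), Finset.prod_comm]
    calc ∏ x : P, ∏ i : Fin p, Nat.card (fixA (τ (x * z ^ (i : ℕ)))) ≤ ∏ _x : P, a :=
          Finset.prod_le_prod' fun x _ => hprod x
      _ = a ^ Fintype.card P := by simp
  have hGH : Hh * Gg = a ^ Fintype.card P := by
    rw [hHh, hGg, ← Finset.prod_mul_distrib]
    simp [hhg]
  have htop : (fixS τ ⊤).index = a := by
    have h1 : fixS τ ⊤ = ⊥ := by
      rw [eq_bot_iff]
      intro w hw
      exact hτf w (hw z trivial)
    rw [h1, Subgroup.index_bot]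
  unfold TT
  rw [htop, ← hGg, mul_comm (p - 1), pow_mul]
  set D := a ^ Fintype.card P with hD
  have hDpos : 0 < D := pow_pos (by omega) _
  have h3 : D ^ p = Hh ^ p * Gg ^ p := by
    rw [← hGH, mul_pow]
  have h4 : D ^ (p - 1) * D ≤ Gg ^ p * D := by
    rw [← pow_succ, Nat.sub_add_cancel hpp.pos, h3, mul_comm]
    exact Nat.mul_le_mul_left _ hHp
  exact Nat.le_of_mul_le_mul_right h4 hDpos

theorem TT_pgroup {P : Type v} [Group P] [Fintype P] (hP : IsPGroup p P) {r : ℕ} [hr : Fact r.Prime] :
    ∀ (n : ℕ) (S : Type u) [Group S] [Finite S], Nat.card S = n → IsPGroup r S →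
      (Nat.card S).Coprime p → ∀ σ : P →* MulAut S, TT p σ := by
  intro n
  induction n using Nat.strong_induction_on with
  | _ n ih =>
  intro S _ _ hn hS hc σ
  classical
  by_cases hnt : Nontrivial S
  · haveI := hS.center_nontrivial
    let L : Subgroup S := center S
    have hL : ∀ x, ∀ l ∈ L, σ x l ∈ L := by
      intro x l hl
      rw [Subgroup.mem_center_iff] at hl ⊢
      intro g
      have h1 := hl ((σ x)⁻¹ g)
      have h2 := congrArg (σ x) h1
      rw [map_mul, map_mul, MulAut.apply_inv_self] at h2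
      exact h2
    have hcL : (Nat.card L).Coprime p := Nat.Coprime.coprime_dvd_left (Subgroup.card_subgroup_dvd_card L) hc
    have hLgt : 1 < Nat.card L := Finite.one_lt_card
    have hcardq := Subgroup.card_eq_card_quotient_mul_card_subgroup L
    have hqlt : Nat.card (S ⧸ L) < n := by
      rw [← hn, hcardq]
      exact lt_mul_of_one_lt_right Nat.card_pos hLgt
    have hqc : (Nat.card (S ⧸ L)).Coprime p :=
      Nat.Coprime.coprime_dvd_left (Subgroup.card_quotient_dvd_card L) hc
    have hTq : TT p (quoA σ L hL) := ih _ hqlt (S ⧸ L) rfl (hS.to_quotient L) hqc _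
    have hTa : TT p (resA σ L hL) := TT_abelian hP _ L rfl (fun a b => Subtype.ext (Subgroup.mem_center_iff.mp b.2 a)) hcL _
    exact TT_of_res_quo hP σ L hL hcL hTa hTq
  · rw [not_nontrivial_iff_subsingleton] at hnt
    unfold TT
    have h1 : ∀ T : Subgroup S, T.index = 1 := by
      intro T
      have : T = ⊤ := Subsingleton.elim _ _
      rw [this, Subgroup.index_top]
    simp [h1]

end tt

section ambient

variable {G : Type u} [Group G] [Finite G] {p : ℕ} [hp : Fact p.Prime]

theorem mem_cz {x u : G} : u ∈ centralizer (zpowers x : Set G) ↔ x * u = u * x := by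
  rw [Subgroup.mem_centralizer_iff]
  constructor
  · intro h
    exact h x (mem_zpowers x)
  · rintro h _ ⟨n, rfl⟩
    have h1 : Commute x u := h
    exact (h1.zpow_left n)

theorem card_subgroupOf_eq (H K : Subgroup G) : Nat.card (H.subgroupOf K) = Nat.card ↥(H ⊓ K) := by
  refine Nat.card_congr ?_
  exact
    { toFun := fun x => ⟨x.1.1, x.2, x.1.2⟩
      invFun := fun x => ⟨⟨x.1, x.2.2⟩, x.2.1⟩
      left_inv := fun x => rfl
      right_inv := fun x => rfl }

/-- An invariant Sylow subgroup meets the fixed points in a Sylow subgroup of the fixed points. -/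
theorem sylow_inf (K R : Subgroup G) (hRK : R ≤ normalizer (K : Set G)) (hRp : IsPGroup p R)
    (hc : (Nat.card K).Coprime p) {r : ℕ} [hr : Fact r.Prime] (S : Sylow r K)
    (hS : R ≤ normalizer (((S : Subgroup K).map K.subtype : Subgroup G) : Set G)) :
    Nat.card ↥(((S : Subgroup K).map K.subtype) ⊓ centralizer (R : Set G)) =
      r ^ (Nat.card ↥(centralizer (R : Set G) ⊓ K)).factorization r := by
  classical
  set Sh : Subgroup G := (S : Subgroup K).map K.subtype with hSh
  set C : Subgroup G := centralizer (R : Set G) ⊓ K with hC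
  set T : Subgroup G := Sh ⊓ centralizer (R : Set G) with hT
  have hShK : Sh ≤ K := by
    rintro _ ⟨s, _, rfl⟩
    exact s.2
  have hTC : T ≤ C := fun t ht => ⟨ht.2, hShK ht.1⟩
  have hShp : IsPGroup r Sh := S.isPGroup'.map K.subtype
  have hTp : IsPGroup r T := hShp.to_le inf_le_left
  have hT'p : IsPGroup r (T.subgroupOf C) := hTp.comap_of_injective C.subtype C.subtype_injective
  obtain ⟨Q, hQ⟩ := IsPGroup.exists_le_sylow hT'p
  set T₁ : Subgroup G := (Q : Subgroup C).map C.subtype with hT₁
  have hT₁C : T₁ ≤ C := by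
    rintro _ ⟨s, _, rfl⟩
    exact s.2
  have hT₁p : IsPGroup r T₁ := Q.isPGroup'.map C.subtype
  have hT₁R : R ≤ normalizer (T₁ : Set G) := by
    intro a ha
    rw [Subgroup.mem_normalizer_iff]
    have hcomm : ∀ t ∈ T₁, a * t = t * a := fun t ht =>
      Subgroup.mem_centralizer_iff.mp (hT₁C ht).1 a ha
    intro t
    constructor
    · intro ht
      rw [hcomm t ht, mul_inv_cancel_right]
      exact ht
    · intro ht
      have h1 := hcomm _ ht
      have h2 : t = a * t * a⁻¹ := by
        have h3 : a * (a * t * a⁻¹) = a * t * a⁻¹ * a := h1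
        rw [inv_mul_cancel_right] at h3
        have h4 : a * (a * t * a⁻¹) = a * t := h3
        have h5 : a * t * a⁻¹ = t := mul_left_cancel h4
        exact h5.symm
      rw [h2]
      exact ht
  have hcopR : (Nat.card R).Coprime (Nat.card K) := by
    obtain ⟨k, hk⟩ := IsPGroup.iff_card.mp hRp
    rw [hk]
    exact Nat.Coprime.pow_left _ hc.symm
  have hsolv : Group.IsSolvable R ∨ Group.IsSolvable K := by
    left
    haveI := hRp.isNilpotent
    infer_instance
  obtain ⟨S₁, hS₁, hS₁R⟩ := Cfsg.Agent.Lib.Hall.exists_invariant_sylow_le R K hRK hcopR hsolv r T₁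
    (hT₁C.trans inf_le_right) hT₁p hT₁R
  obtain ⟨c, hcR, hcS⟩ := Cfsg.Agent.Lib.Hall.exists_centralizer_conj_sylow R K hRK hcopR hsolv r S₁ S hS₁R hS
  have hinj : Nat.card T₁ ≤ Nat.card T := by
    refine Nat.card_le_card_of_injective (fun t : T₁ => (⟨(c : G) * t * (c : G)⁻¹, ?_⟩ : T)) ?_
    · obtain ⟨s, hs, hst⟩ := hS₁ t.2
      have h1 : MulAut.conj c • (S₁ : Subgroup K) = (S : Subgroup K) := by
        rw [← hcS]
        rfl
      have h2 : (c * s * c⁻¹) ∈ (S : Subgroup K) := by
        rw [← h1, Subgroup.mem_smul_pointwise_iff_exists]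
        exact ⟨s, hs, rfl⟩
      refine ⟨⟨c * s * c⁻¹, h2, ?_⟩, ?_⟩
      · simp [← hst]
      · have h3 := (hT₁C t.2).1
        exact (centralizer (R : Set G)).mul_mem ((centralizer (R : Set G)).mul_mem hcR h3)
          ((centralizer (R : Set G)).inv_mem hcR)
    · intro a b hab
      have h1 : (c : G) * a * (c : G)⁻¹ = c * b * (c : G)⁻¹ := congrArg Subtype.val hab
      apply Subtype.ext
      have h2 : (c : G) * a = c * b := mul_right_cancel h1
      exact mul_left_cancel h2
  have hTT₁ : T ≤ T₁ := by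
    intro t ht
    have h1 : (⟨t, hTC ht⟩ : C) ∈ T.subgroupOf C := ht
    exact ⟨_, hQ h1, rfl⟩
  have hle : Nat.card T ≤ Nat.card T₁ := Subgroup.card_le_of_le hTT₁
  have hT₁card : Nat.card T₁ = Nat.card (Q : Subgroup C) :=
    (Nat.card_congr ((Q : Subgroup C).equivMapOfInjective C.subtype C.subtype_injective).toEquiv).symm
  rw [le_antisymm hle hinj, hT₁card, Q.card_eq_multiplicity]

/-- Conjugation as an action. -/
noncomputable def conjHom (P K : Subgroup G) (h : P ≤ normalizer (K : Set G)) : P →* MulAut K where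
  toFun x := Cfsg.Agent.Lib.Hall.normalizerAut K (h x.2)
  map_one' := by
    ext k
    rw [Cfsg.Agent.Lib.Hall.normalizerAut_coe]
    simp
  map_mul' a b := by
    ext k
    rw [Cfsg.Agent.Lib.Hall.normalizerAut_coe, MulAut.mul_apply, Cfsg.Agent.Lib.Hall.normalizerAut_coe,
      Cfsg.Agent.Lib.Hall.normalizerAut_coe]
    simp only [Subgroup.coe_mul]
    group

theorem conjHom_coe (P K : Subgroup G) (h : P ≤ normalizer (K : Set G)) (x : P) (k : K) :
    ((conjHom P K h x k : K) : G) = x * k * (x : G)⁻¹ := rfl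

/-- The index of the fixed points in an invariant Sylow subgroup is the `r`-part of the index in `K`. -/
theorem index_bridge (K R : Subgroup G) (hRK : R ≤ normalizer (K : Set G)) (hRp : IsPGroup p R)
    (hc : (Nat.card K).Coprime p) {r : ℕ} [hr : Fact r.Prime] (S : Sylow r K)
    (hS : R ≤ normalizer (((S : Subgroup K).map K.subtype : Subgroup G) : Set G))
    (F : Subgroup ↥((S : Subgroup K).map K.subtype))
    (hF : ∀ s, s ∈ F ↔ (s : G) ∈ centralizer (R : Set G)) :
    F.index = r ^ ((centralizer (R : Set G)).relIndex K).factorization r := by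
  have hrp : r.Prime := Fact.out
  have h1 := sylow_inf K R hRK hRp hc S hS
  have h2 : Nat.card F = Nat.card ↥(((S : Subgroup K).map K.subtype) ⊓ centralizer (R : Set G)) := by
    refine Nat.card_congr ?_
    exact
      { toFun := fun s => ⟨s.1.1, s.1.2, (hF _).mp s.2⟩
        invFun := fun s => ⟨⟨s.1, s.2.1⟩, (hF _).mpr s.2.2⟩
        left_inv := fun s => rfl
        right_inv := fun s => rfl }
  have h3 := Subgroup.card_mul_index F
  have h4 : Nat.card ↥((S : Subgroup K).map K.subtype) = r ^ (Nat.card K).factorization r := by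
    have h5 : Nat.card ↥((S : Subgroup K).map K.subtype) = Nat.card (S : Subgroup K) :=
      (Nat.card_congr ((S : Subgroup K).equivMapOfInjective K.subtype K.subtype_injective).toEquiv).symm
    rw [h5, S.card_eq_multiplicity]
  have h6 : Nat.card K = Nat.card ↥(centralizer (R : Set G) ⊓ K) * (centralizer (R : Set G)).relIndex K := by
    have h7 := Subgroup.card_mul_index ((centralizer (R : Set G)).subgroupOf K)
    rw [card_subgroupOf_eq] at h7
    exact h7.symm
  have hpos1 : Nat.card ↥(centralizer (R : Set G) ⊓ K) ≠ 0 := Nat.card_pos.ne'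
  have hpos2 : (centralizer (R : Set G)).relIndex K ≠ 0 := by
    intro h0
    rw [h0, mul_zero] at h6
    exact Nat.card_pos.ne' h6
  have h8 : r ^ (Nat.card K).factorization r = r ^ (Nat.card ↥(centralizer (R : Set G) ⊓ K)).factorization r *
      r ^ ((centralizer (R : Set G)).relIndex K).factorization r := by
    rw [h6, Nat.factorization_mul hpos1 hpos2, Finsupp.add_apply, pow_add]
  rw [← h4, ← h1, ← h2, ← h3] at h8
  exact Nat.eq_of_mul_eq_mul_left Nat.card_pos h8

/-- **The inequality for conjugation**. -/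
theorem core_ineq (P K : Subgroup G) (hPK : P ≤ normalizer (K : Set G)) (hPp : IsPGroup p P)
    (hc : (Nat.card K).Coprime p) [Fintype P] :
    ((centralizer (P : Set G)).relIndex K) ^ ((p - 1) * Fintype.card P) ≤
      (∏ x : P, (centralizer (zpowers (x : G) : Set G)).relIndex K) ^ p := by
  classical
  have hpp : p.Prime := Fact.out
  have hrel : ∀ R : Subgroup G, R.relIndex K ≠ 0 := by
    intro R h0
    have h7 := Subgroup.card_mul_index (R.subgroupOf K)
    have h8 : (R.subgroupOf K).index = 0 := h0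
    rw [h8, mul_zero] at h7
    exact Nat.card_pos.ne' h7.symm
  have hb : (∏ x : P, (centralizer (zpowers (x : G) : Set G)).relIndex K) ^ p ≠ 0 :=
    pow_ne_zero _ (Finset.prod_ne_zero_iff.mpr fun x _ => hrel _)
  apply Nat.le_of_dvd (Nat.pos_of_ne_zero hb)
  rw [← Nat.factorization_le_iff_dvd (pow_ne_zero _ (hrel _)) hb]
  intro r
  by_cases hr : r.Prime
  · haveI : Fact r.Prime := ⟨hr⟩
    have hcopP : (Nat.card P).Coprime (Nat.card K) := by
      obtain ⟨k, hk⟩ := IsPGroup.iff_card.mp hPp
      rw [hk]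
      exact Nat.Coprime.pow_left _ hc.symm
    have hsolv : Group.IsSolvable P ∨ Group.IsSolvable K := by
      left
      haveI := hPp.isNilpotent
      infer_instance
    obtain ⟨S, hS⟩ := Cfsg.Agent.Lib.Hall.exists_invariant_sylow P K hPK hcopP hsolv r
    have hShp : IsPGroup r ((S : Subgroup K).map K.subtype) := S.isPGroup'.map K.subtype
    have hShK : (S : Subgroup K).map K.subtype ≤ K := by
      rintro _ ⟨s, _, rfl⟩
      exact s.2
    have hShc : (Nat.card ((S : Subgroup K).map K.subtype)).Coprime p :=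
      Nat.Coprime.coprime_dvd_left (Subgroup.card_dvd_of_le hShK) hc
    have hPnil : IsPGroup p P := hPp
    have hTT := TT_pgroup (p := p) hPp (r := r) _ ((S : Subgroup K).map K.subtype) rfl hShp hShc
      (conjHom P ((S : Subgroup K).map K.subtype) hS)
    unfold TT at hTT
    have htop : (fixS (conjHom P ((S : Subgroup K).map K.subtype) hS) ⊤).index =
        r ^ ((centralizer (P : Set G)).relIndex K).factorization r := by
      apply index_bridge K P hPK hPp hc S hS
      intro s
      rw [Subgroup.mem_centralizer_iff]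
      constructor
      · intro h x hx
        have h1 := h ⟨x, hx⟩ trivial
        have h2 := congrArg Subtype.val h1
        rw [conjHom_coe] at h2
        simp only at h2
        exact (mul_inv_eq_iff_eq_mul.mp h2)
      · intro h x _
        apply Subtype.ext
        rw [conjHom_coe]
        rw [h x x.2]
        group
    have hx : ∀ x : P, (fixA (conjHom P ((S : Subgroup K).map K.subtype) hS x)).index =
        r ^ ((centralizer (zpowers (x : G) : Set G)).relIndex K).factorization r := by
      intro x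
      have hzp : zpowers (x : G) ≤ P := by
        rw [Subgroup.zpowers_le]
        exact x.2
      apply index_bridge K (zpowers (x : G)) (hzp.trans hPK) (hPp.to_le hzp) hc S (hzp.trans hS)
      intro s
      rw [mem_cz, mem_fixA]
      constructor
      · intro h
        have h2 := congrArg Subtype.val h
        rw [conjHom_coe] at h2
        exact (mul_inv_eq_iff_eq_mul.mp h2)
      · intro h
        apply Subtype.ext
        rw [conjHom_coe]
        rw [h]
        group
    rw [htop, Finset.prod_congr rfl (fun x _ => hx x), Finset.prod_pow_eq_pow_sum, ← pow_mul, ← pow_mul] at hTT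
    have h3 := (Nat.pow_le_pow_iff_right hr.one_lt).mp hTT
    rw [Nat.factorization_pow, Nat.factorization_pow, Nat.factorization_prod (fun x _ => hrel _)]
    simp only [Finsupp.smul_apply, Finsupp.coe_finset_sum, Finset.sum_apply, smul_eq_mul]
    rw [mul_comm]
    rw [mul_comm p]
    exact h3
  · simp [Nat.factorization_eq_zero_of_not_prime _ hr]

end ambient

section main

variable {p : ℕ} [hp : Fact p.Prime]

theorem amgm {ι : Type*} (s : Finset ι) (hs : s.Nonempty) (f : ι → ℝ) (hf : ∀ i ∈ s, 0 ≤ f i) :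
    (s.card : ℝ) ^ s.card * ∏ i ∈ s, f i ≤ (∑ i ∈ s, f i) ^ s.card := by
  have hc : (0 : ℝ) < s.card := by exact_mod_cast hs.card_pos
  have h1 := Real.geom_mean_le_arith_mean_weighted s (fun _ => 1 / (s.card : ℝ)) f
    (fun _ _ => by positivity) (by
      rw [Finset.sum_const, nsmul_eq_mul]
      field_simp) hf
  rw [← Finset.mul_sum] at h1
  have h2 : (∏ i ∈ s, f i ^ (1 / (s.card : ℝ))) ^ s.card = ∏ i ∈ s, f i := by
    rw [← Finset.prod_pow]
    refine Finset.prod_congr rfl fun i hi => ?_
    rw [← Real.rpow_natCast, ← Real.rpow_mul (hf i hi)]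
    rw [one_div, inv_mul_cancel₀ hc.ne', Real.rpow_one]
  have h3 : 0 ≤ ∏ i ∈ s, f i ^ (1 / (s.card : ℝ)) :=
    Finset.prod_nonneg fun i hi => Real.rpow_nonneg (hf i hi) _
  have h4 := pow_le_pow_left₀ h3 h1 s.card
  rw [h2, mul_pow] at h4
  calc (s.card : ℝ) ^ s.card * ∏ i ∈ s, f i
      ≤ (s.card : ℝ) ^ s.card * ((1 / (s.card : ℝ)) ^ s.card * (∑ i ∈ s, f i) ^ s.card) :=
        mul_le_mul_of_nonneg_left h4 (by positivity)
    _ = (∑ i ∈ s, f i) ^ s.card := by
        rw [← mul_assoc, ← mul_pow, mul_one_div_cancel hc.ne', one_pow, one_mul]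

variable {G : Type u} [Group G] [Finite G]

theorem relIndex_sup_eq (N K : Subgroup G) [hK : K.Normal] : N.relIndex (N ⊔ K) = N.relIndex K := by
  have h1 : K.relIndex (N ⊔ K) = K.relIndex N := Subgroup.relIndex_sup_right N K
  have h2 := Subgroup.card_mul_index (K.subgroupOf (N ⊔ K))
  have h3 := Subgroup.card_mul_index (K.subgroupOf N)
  have h4 := Subgroup.card_mul_index (N.subgroupOf K)
  have h5 := Subgroup.card_mul_index (N.subgroupOf (N ⊔ K))
  rw [card_subgroupOf_eq, inf_eq_left.mpr (le_sup_right : K ≤ N ⊔ K)] at h2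
  rw [card_subgroupOf_eq, inf_eq_left.mpr (le_sup_left : N ≤ N ⊔ K)] at h5
  rw [card_subgroupOf_eq] at h3 h4
  rw [inf_comm] at h4
  have hr1 : (K.subgroupOf (N ⊔ K)).index = K.relIndex N := h1
  have hr2 : (K.subgroupOf N).index = K.relIndex N := rfl
  rw [hr1] at h2
  rw [hr2] at h3
  show (N.subgroupOf (N ⊔ K)).index = (N.subgroupOf K).index
  apply Nat.eq_of_mul_eq_mul_left (Nat.card_pos (α := N))
  rw [h5, ← h2, ← h4, ← h3]
  ring

/-- The number of Sylow subgroups of a quotient. -/
theorem card_sylow_quot (K : Subgroup G) [hK : K.Normal] (P : Sylow p G) :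
    Nat.card (Sylow p G) = Nat.card (Sylow p (G ⧸ K)) * (normalizer ((P : Subgroup G) : Set G)).relIndex K := by
  classical
  have hπs : Function.Surjective (QuotientGroup.mk' K) := QuotientGroup.mk'_surjective K
  set π := QuotientGroup.mk' K with hπ
  let Pb : Sylow p (G ⧸ K) := P.mapSurjective hπs
  have hPb : (Pb : Subgroup (G ⧸ K)) = (P : Subgroup G).map π := Sylow.coe_mapSurjective _ _
  set Nn : Subgroup G := normalizer ((P : Subgroup G) : Set G) with hNn
  have hcomap : (normalizer ((Pb : Subgroup (G ⧸ K)) : Set (G ⧸ K))).comap π = Nn ⊔ K := by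
    apply le_antisymm
    · intro g hg
      rw [Subgroup.mem_comap, Subgroup.mem_normalizer_iff] at hg
      set H : Subgroup G := (P : Subgroup G) ⊔ K with hH
      have hPH : (P : Subgroup G) ≤ H := le_sup_left
      have hQH : ((g • P : Sylow p G) : Subgroup G) ≤ H := by
        intro q hq
        rw [Sylow.coe_subgroup_smul, Subgroup.mem_smul_pointwise_iff_exists] at hq
        obtain ⟨a, ha, rfl⟩ := hq
        have h1 : π a ∈ (Pb : Subgroup (G ⧸ K)) := by
          rw [hPb]
          exact ⟨a, ha, rfl⟩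
        have h2 := (hg (π a)).mp h1
        rw [hPb] at h2
        obtain ⟨b, hb, hba⟩ := h2
        have h3 : b⁻¹ * (MulAut.conj g • a) ∈ K := by
          apply (QuotientGroup.eq_one_iff _).mp
          show π (b⁻¹ * (MulAut.conj g • a)) = 1
          rw [map_mul, map_inv, hba]
          have e : π (MulAut.conj g • a) = π g * π a * (π g)⁻¹ := by
            show π (g * a * g⁻¹) = _
            simp
          rw [e]
          group
        have h4 : MulAut.conj g • a = b * (b⁻¹ * (MulAut.conj g • a)) := by group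
        rw [h4]
        exact H.mul_mem (hPH hb) ((le_sup_right : K ≤ H) h3)
      obtain ⟨h, hh⟩ := MulAction.exists_smul_eq H (P.subtype hPH) ((g • P).subtype hQH)
      have hh' : (h : G) • P = g • P := by
        have h1 := congrArg (fun X : Sylow p H => (X : Subgroup H).map H.subtype) hh
        simp only [Sylow.coe_subtype] at h1
        apply Sylow.ext
        have h2 : (((P.subtype hPH : Sylow p H) : Subgroup H)).map H.subtype = (P : Subgroup G) := by
          rw [Sylow.coe_subtype]
          exact Subgroup.map_subgroupOf_eq_of_le hPH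
        have h3 : ((((g • P).subtype hQH : Sylow p H) : Subgroup H)).map H.subtype = ((g • P : Sylow p G) : Subgroup G) := by
          rw [Sylow.coe_subtype]
          exact Subgroup.map_subgroupOf_eq_of_le hQH
        rw [← h3, ← hh, Sylow.coe_subgroup_smul, Sylow.coe_subgroup_smul,
          Cfsg.Agent.Lib.Core.map_subtype_conj_smul, h2]
      have h2 : (h : G) ∈ K ⊔ (P : Subgroup G) := by
        rw [sup_comm]
        exact h.2
      obtain ⟨k, hk, y, hy, hky⟩ := Subgroup.mem_sup_of_normal_left.mp h2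
      have hyP : y • P = P := Sylow.smul_eq_iff_mem_normalizer.mpr (Subgroup.le_normalizer hy)
      have hkn : k⁻¹ * g ∈ Nn := by
        rw [hNn]
        apply Sylow.smul_eq_iff_mem_normalizer.mp
        rw [mul_smul, ← hh', ← hky, mul_smul, hyP, ← mul_smul, inv_mul_cancel, one_smul]
      have h3 : g = (k⁻¹ * g) * (g⁻¹ * k * g) := by group
      rw [h3]
      exact (Nn ⊔ K).mul_mem ((le_sup_left : Nn ≤ Nn ⊔ K) hkn)
        ((le_sup_right : K ≤ Nn ⊔ K) (by simpa using hK.conj_mem k hk g⁻¹))
    · refine sup_le ?_ ?_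
      · intro n hn
        rw [Subgroup.mem_comap, hPb]
        exact Subgroup.le_normalizer_map π ⟨n, hn, rfl⟩
      · intro k hk
        rw [Subgroup.mem_comap]
        have h1 : π k = 1 := (QuotientGroup.eq_one_iff k).mpr hk
        rw [h1]
        exact Subgroup.one_mem _
  rw [Sylow.card_eq_index_normalizer P, Sylow.card_eq_index_normalizer Pb]
  have h1 : (normalizer ((Pb : Subgroup (G ⧸ K)) : Set (G ⧸ K))).index = (Nn ⊔ K).index := by
    rw [← hcomap, Subgroup.index_comap_of_surjective _ hπs]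
  have h2 := Subgroup.relIndex_mul_index (le_sup_left : Nn ≤ Nn ⊔ K)
  rw [relIndex_sup_eq] at h2
  show Nn.index = (normalizer ((Pb : Subgroup (G ⧸ K)) : Set (G ⧸ K))).index * Nn.relIndex K
  rw [h1, ← h2, mul_comm]

open Classical in
/-- The statement proved by induction. -/
def MainStmt (p : ℕ) [Fact p.Prime] (G : Type u) [Group G] [Fintype G] : Prop :=
  ∀ (f : G → ℝ), (∀ g, 0 ≤ f g) → (∀ g x, f (x * g * x⁻¹) = f g) → ∀ (P : Sylow p G) (C : ℝ), 0 ≤ C →
    C ^ Nat.card (P : Subgroup G) ≤ (∏ x ∈ Finset.univ.filter (· ∈ (P : Subgroup G)), f x) ^ p →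
    C * (Nat.card (P : Subgroup G) : ℝ) ^ p * (Nat.card (Sylow p G) : ℝ) ^ (p - 1) ≤ (∑ y, f y) ^ p

open Classical in
theorem step_pgroup {G : Type u} [Group G] [Fintype G] (N : Subgroup G) [hN : N.Normal] (hNp : IsPGroup p N)
    [Fintype (G ⧸ N)] (h : MainStmt p (G ⧸ N)) : MainStmt p G := by
  intro f hf0 hcl P C hC hprod
  have hπs : Function.Surjective (QuotientGroup.mk' N) := QuotientGroup.mk'_surjective N
  set π := QuotientGroup.mk' N with hπ
  let Pb : Sylow p (G ⧸ N) := P.mapSurjective hπs
  have hPb : (Pb : Subgroup (G ⧸ N)) = (P : Subgroup G).map π := Sylow.coe_mapSurjective _ _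
  have hNP : N ≤ (P : Subgroup G) :=
    (Cfsg.Agent.Lib.Core.le_pCore hN hNp).trans (Cfsg.Agent.Lib.Core.pCore_le_sylow P)
  -- the function on the quotient
  let F : G ⧸ N → ℝ := fun b => ∑ y ∈ Finset.univ.filter (fun y => π y = b), f y
  have hF0 : ∀ b, 0 ≤ F b := fun b => Finset.sum_nonneg fun y _ => hf0 y
  have hFcl : ∀ b a, F (a * b * a⁻¹) = F b := by
    intro b a
    obtain ⟨u, rfl⟩ := hπs a
    symm
    refine Finset.sum_equiv (MulAut.conj u).toEquiv ?_ ?_
    · intro y
      simp only [Finset.mem_filter, Finset.mem_univ, true_and, MulEquiv.toEquiv_eq_coe, EquivLike.coe_coe,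
        MulAut.conj_apply, map_mul, map_inv]
      constructor
      · rintro rfl
        rfl
      · intro h1
        exact mul_left_cancel (mul_right_cancel h1)
    · intro y _
      exact (hcl y u).symm
  have hsum : ∑ b, F b = ∑ y, f y := Finset.sum_fiberwise _ _ _
  set c := Nat.card N with hc
  have hcpos : 0 < c := Nat.card_pos
  have hfibc : ∀ x : G, (Finset.univ.filter (fun y => π y = π x)).card = c := by
    intro x
    rw [← Fintype.card_subtype, hc, ← Nat.card_eq_fintype_card]
    refine Nat.card_congr ?_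
    exact
      { toFun := fun y => ⟨x⁻¹ * y.1, QuotientGroup.eq.mp y.2.symm⟩
        invFun := fun l => ⟨x * l.1, by
          apply QuotientGroup.eq.mpr
          simp⟩
        left_inv := fun y => by
          apply Subtype.ext
          simp
        right_inv := fun l => by
          apply Subtype.ext
          simp }
  set Ps := Finset.univ.filter (· ∈ (P : Subgroup G)) with hPs
  set Bs := Finset.univ.filter (· ∈ (Pb : Subgroup (G ⧸ N))) with hBs
  have hmaps : ∀ x ∈ Ps, π x ∈ Bs := by
    intro x hx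
    rw [hPs, Finset.mem_filter] at hx
    rw [hBs, Finset.mem_filter, hPb]
    exact ⟨Finset.mem_univ _, x, hx.2, rfl⟩
  have hfib : ∀ b ∈ Bs, Ps.filter (fun y => π y = b) = Finset.univ.filter (fun y => π y = b) := by
    intro b hb
    ext y
    simp only [Finset.mem_filter, Finset.mem_univ, true_and, hPs]
    constructor
    · exact fun h1 => h1.2
    · intro h1
      refine ⟨?_, h1⟩
      rw [hBs, Finset.mem_filter, hPb] at hb
      obtain ⟨-, x, hx, rfl⟩ := hb
      have h2 : x⁻¹ * y ∈ N := QuotientGroup.eq.mp h1.symm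
      have h3 : y = x * (x⁻¹ * y) := by group
      rw [h3]
      exact (P : Subgroup G).mul_mem hx (hNP h2)
  have hfibc' : ∀ b ∈ Bs, (Finset.univ.filter (fun y => π y = b)).card = c := by
    intro b _
    obtain ⟨x, rfl⟩ := hπs b
    exact hfibc x
  set b := Nat.card (Pb : Subgroup (G ⧸ N)) with hb
  have hBcard : Bs.card = b := by
    rw [hb, Nat.card_eq_fintype_card, Fintype.card_subtype]
  have hPcard : Ps.card = Nat.card (P : Subgroup G) := by
    rw [Nat.card_eq_fintype_card, Fintype.card_subtype]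
  have hPcb : Nat.card (P : Subgroup G) = c * b := by
    rw [← hPcard, Finset.card_eq_sum_card_fiberwise hmaps, ← hBcard]
    rw [Finset.sum_congr rfl (fun t ht => by rw [hfib t ht, hfibc' t ht])]
    simp [mul_comm]
  set Pf := ∏ x ∈ Ps, f x with hPf
  have hPf0 : 0 ≤ Pf := Finset.prod_nonneg fun x _ => hf0 x
  set Pi := ∏ t ∈ Bs, F t with hPi
  have hPi0 : 0 ≤ Pi := Finset.prod_nonneg fun t _ => hF0 t
  have hfw : Pf = ∏ t ∈ Bs, ∏ y ∈ Finset.univ.filter (fun y => π y = t), f y := by
    rw [hPf, ← Finset.prod_fiberwise_of_maps_to hmaps]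
    exact Finset.prod_congr rfl fun t ht => by rw [hfib t ht]
  have hamgm : ∀ t ∈ Bs, (c : ℝ) ^ c * ∏ y ∈ Finset.univ.filter (fun y => π y = t), f y ≤ F t ^ c := by
    intro t ht
    have h1 := hfibc' t ht
    have h2 := amgm (Finset.univ.filter (fun y => π y = t)) (by
      rw [← Finset.card_pos, h1]
      exact hcpos) f (fun y _ => hf0 y)
    rwa [h1] at h2
  have h5 : ((c : ℝ) ^ c) ^ b * Pf ≤ Pi ^ c := by
    rw [hfw, hPi, ← hBcard, ← Finset.prod_const, ← Finset.prod_mul_distrib, ← Finset.prod_pow]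
    refine Finset.prod_le_prod (fun t _ => ?_) hamgm
    exact mul_nonneg (by positivity) (Finset.prod_nonneg fun y _ => hf0 y)
  have hCc : 0 ≤ (c : ℝ) ^ p * C := by positivity
  have hkey : ((c : ℝ) ^ p * C) ^ b ≤ Pi ^ p := by
    have h6 : (((c : ℝ) ^ p * C) ^ b) ^ c ≤ (Pi ^ p) ^ c := by
      have h7 : (((c : ℝ) ^ p * C) ^ b) ^ c = (((c : ℝ) ^ c) ^ b) ^ p * C ^ Nat.card (P : Subgroup G) := by
        rw [hPcb]
        ring
      have h8 : (Pi ^ p) ^ c = (Pi ^ c) ^ p := by rw [← pow_mul, ← pow_mul, mul_comm]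
      rw [h7, h8]
      calc (((c : ℝ) ^ c) ^ b) ^ p * C ^ Nat.card (P : Subgroup G) ≤ (((c : ℝ) ^ c) ^ b) ^ p * Pf ^ p :=
            mul_le_mul_of_nonneg_left hprod (by positivity)
        _ = (((c : ℝ) ^ c) ^ b * Pf) ^ p := by rw [mul_pow]
        _ ≤ (Pi ^ c) ^ p := pow_le_pow_left₀ (mul_nonneg (by positivity) hPf0) h5 p
    exact (pow_le_pow_iff_left₀ (by positivity) (by positivity) hcpos.ne').mp h6
  have hIH := h F hF0 hFcl Pb _ hCc hkey
  rw [hsum] at hIH
  have hn : Nat.card (Sylow p G) = Nat.card (Sylow p (G ⧸ N)) := by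
    rw [card_sylow_quot N P]
    have h1 : (normalizer ((P : Subgroup G) : Set G)).relIndex N = 1 := by
      rw [Subgroup.relIndex_eq_one]
      exact hNP.trans Subgroup.le_normalizer
    rw [h1, mul_one]
  rw [hn, hPcb]
  push_cast
  calc C * ((c : ℝ) * (b : ℝ)) ^ p * (Nat.card (Sylow p (G ⧸ N)) : ℝ) ^ (p - 1)
      = (c : ℝ) ^ p * C * (b : ℝ) ^ p * (Nat.card (Sylow p (G ⧸ N)) : ℝ) ^ (p - 1) := by
        rw [mul_pow]
        ring
    _ ≤ _ := hIH

open Classical in
theorem orbit_le {G : Type u} [Group G] [Fintype G] (K : Subgroup G) [hK : K.Normal] (f : G → ℝ) (hf0 : ∀ g, 0 ≤ f g)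
    (hcl : ∀ g x, f (x * g * x⁻¹) = f g) (x : G) :
    (((centralizer (zpowers x : Set G)).relIndex K : ℕ) : ℝ) * f x ≤
      ∑ y ∈ Finset.univ.filter (fun y => QuotientGroup.mk' K y = QuotientGroup.mk' K x), f y := by
  letI : MulAction K G := MulAction.compHom G ((MulAut.conj : G →* MulAut G).comp K.subtype)
  have hsmul : ∀ (u : K) (g : G), u • g = (u : G) * g * (u : G)⁻¹ := fun _ _ => rfl
  have hstab : (centralizer (zpowers x : Set G)).subgroupOf K = MulAction.stabilizer K x := by
    ext u
    rw [Subgroup.mem_subgroupOf, mem_cz, MulAction.mem_stabilizer_iff, hsmul, mul_inv_eq_iff_eq_mul]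
    exact eq_comm
  have hidx : (centralizer (zpowers x : Set G)).relIndex K = (MulAction.orbit K x).ncard := by
    show ((centralizer (zpowers x : Set G)).subgroupOf K).index = _
    rw [hstab, MulAction.index_stabilizer]
  set O := (MulAction.orbit K x).toFinset with hO
  have hOc : (MulAction.orbit K x).ncard = O.card := Set.ncard_eq_toFinset_card' _
  have hsub : O ⊆ Finset.univ.filter (fun y => QuotientGroup.mk' K y = QuotientGroup.mk' K x) := by
    intro y hy
    rw [hO, Set.mem_toFinset] at hy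
    obtain ⟨u, rfl⟩ := hy
    rw [Finset.mem_filter]
    refine ⟨Finset.mem_univ _, ?_⟩
    show QuotientGroup.mk' K (u • x) = QuotientGroup.mk' K x
    rw [hsmul, map_mul, map_mul, map_inv]
    have h1 : QuotientGroup.mk' K (u : G) = 1 := (QuotientGroup.eq_one_iff _).mpr u.2
    rw [h1]
    simp
  have h1 := Finset.sum_le_sum_of_subset_of_nonneg hsub (f := f) (fun y _ _ => hf0 y)
  have h2 : ∑ y ∈ O, f y = O.card • f x := by
    rw [← Finset.sum_const]
    refine Finset.sum_congr rfl fun y hy => ?_
    rw [hO, Set.mem_toFinset] at hy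
    obtain ⟨u, rfl⟩ := hy
    show f (u • x) = f x
    rw [hsmul]
    exact hcl x u
  rw [h2, nsmul_eq_mul, ← hOc, ← hidx] at h1
  exact h1

theorem inj_of_coprime {G : Type u} [Group G] [Finite G] (K : Subgroup G) [hK : K.Normal]
    (hKc : (Nat.card K).Coprime p) (P : Sylow p G) {x y : G} (hx : x ∈ (P : Subgroup G)) (hy : y ∈ (P : Subgroup G))
    (hxy : QuotientGroup.mk' K x = QuotientGroup.mk' K y) : x = y := by
  have h1 : x⁻¹ * y ∈ K := QuotientGroup.eq.mp hxy
  have h2 : x⁻¹ * y ∈ (P : Subgroup G) := (P : Subgroup G).mul_mem ((P : Subgroup G).inv_mem hx) hy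
  obtain ⟨k, hk⟩ := P.2 ⟨_, h2⟩
  have h3 : (x⁻¹ * y) ^ p ^ k = 1 := by simpa using congrArg Subtype.val hk
  have h4 : (x⁻¹ * y) ^ Nat.card K = 1 := by
    have h5 : (⟨_, h1⟩ : K) ^ Nat.card K = 1 := pow_card_eq_one'
    have h6 := congrArg (fun z : K => (z : G)) h5
    exact h6
  have h6 := Cfsg.Agent.Lib.FStar.eq_one_of_pow_of_coprime h3 h4 hKc
  exact (inv_mul_eq_one.mp h6)

theorem card_sylow_coprime {G : Type u} [Group G] [Finite G] (K : Subgroup G) [hK : K.Normal]
    (hKc : (Nat.card K).Coprime p) (P : Sylow p G) :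
    Nat.card (Sylow p G) = Nat.card (Sylow p (G ⧸ K)) * (centralizer ((P : Subgroup G) : Set G)).relIndex K := by
  rw [card_sylow_quot K P]
  congr 1
  show ((normalizer ((P : Subgroup G) : Set G)).subgroupOf K).index = ((centralizer ((P : Subgroup G) : Set G)).subgroupOf K).index
  congr 1
  ext k
  rw [Subgroup.mem_subgroupOf, Subgroup.mem_subgroupOf]
  constructor
  · intro hk
    rw [Subgroup.mem_centralizer_iff]
    intro x hx
    have h1 : (k : G) * x * (k : G)⁻¹ ∈ (P : Subgroup G) := (Subgroup.mem_normalizer_iff.mp hk x).mp hx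
    have h2 : QuotientGroup.mk' K ((k : G) * x * (k : G)⁻¹) = QuotientGroup.mk' K x := by
      have h3 : QuotientGroup.mk' K (k : G) = 1 := (QuotientGroup.eq_one_iff _).mpr k.2
      rw [map_mul, map_mul, map_inv, h3]
      simp
    have h4 := inj_of_coprime K hKc P h1 hx h2
    rw [mul_inv_eq_iff_eq_mul] at h4
    exact h4.symm
  · exact fun hk => (Subgroup.centralizer_le_normalizer _) hk

open Classical in
theorem core_filter {G : Type u} [Group G] [Fintype G] (K : Subgroup G) [hK : K.Normal]
    (hKc : (Nat.card K).Coprime p) (P : Sylow p G) :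
    (centralizer ((P : Subgroup G) : Set G)).relIndex K ^ ((p - 1) * Nat.card (P : Subgroup G)) ≤
      (∏ x ∈ Finset.univ.filter (· ∈ (P : Subgroup G)), (centralizer (zpowers x : Set G)).relIndex K) ^ p := by
  have h1 := core_ineq (p := p) (P : Subgroup G) K (by
    rw [Subgroup.normalizer_eq_top_iff.mpr hK]
    exact le_top) P.isPGroup' hKc
  have h2 : ∏ x ∈ Finset.univ.filter (· ∈ (P : Subgroup G)), (centralizer (zpowers x : Set G)).relIndex K =
      ∏ x : (P : Subgroup G), (centralizer (zpowers (x : G) : Set G)).relIndex K :=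
    Finset.prod_subtype _ (fun x => by simp) _
  rw [h2, Nat.card_eq_fintype_card]
  exact h1

theorem real_step {j A a q : ℕ} {C Pf Pi : ℝ} (hC : 0 ≤ C) (hPf0 : 0 ≤ Pf)
    (hcore : j ^ ((q - 1) * a) ≤ A ^ q) (hprod : C ^ a ≤ Pf ^ q) (hAPi : (A : ℝ) * Pf ≤ Pi) :
    ((j : ℝ) ^ (q - 1) * C) ^ a ≤ Pi ^ q := by
  rw [mul_pow, ← pow_mul]
  have h1 : ((j : ℝ)) ^ ((q - 1) * a) ≤ (A : ℝ) ^ q := by exact_mod_cast hcore
  calc (j : ℝ) ^ ((q - 1) * a) * C ^ a
      ≤ (A : ℝ) ^ q * Pf ^ q := mul_le_mul h1 hprod (by positivity) (by positivity)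
    _ = ((A : ℝ) * Pf) ^ q := by rw [mul_pow]
    _ ≤ Pi ^ q := pow_le_pow_left₀ (mul_nonneg (Nat.cast_nonneg _) hPf0) hAPi q

theorem prod_step {α β : Type*} [DecidableEq β] (Ps : Finset α) (π : α → β)
    (hinj : Set.InjOn π (Ps : Set α)) (r : α → ℕ) (f : α → ℝ) (F : β → ℝ) (hf0 : ∀ x, 0 ≤ f x)
    (hFx : ∀ x, (r x : ℝ) * f x ≤ F (π x)) :
    ((∏ x ∈ Ps, r x : ℕ) : ℝ) * (∏ x ∈ Ps, f x) ≤ ∏ t ∈ Ps.image π, F t := by
  rw [Finset.prod_image hinj]
  push_cast
  rw [← Finset.prod_mul_distrib]
  exact Finset.prod_le_prod (fun x _ => mul_nonneg (Nat.cast_nonneg _) (hf0 x)) (fun x _ => hFx x)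

theorem final_step {j c n q : ℕ} {C T : ℝ}
    (hIH : (j : ℝ) ^ (q - 1) * C * (c : ℝ) ^ q * (n : ℝ) ^ (q - 1) ≤ T) :
    C * (c : ℝ) ^ q * ((n * j : ℕ) : ℝ) ^ (q - 1) ≤ T := by
  push_cast
  calc C * (c : ℝ) ^ q * ((n : ℝ) * (j : ℝ)) ^ (q - 1)
      = (j : ℝ) ^ (q - 1) * C * (c : ℝ) ^ q * (n : ℝ) ^ (q - 1) := by
        rw [mul_pow]
        ring
    _ ≤ T := hIH

open Classical in
theorem step_coprime {G : Type u} [Group G] [Fintype G] (K : Subgroup G) [hK : K.Normal]
    (hKc : (Nat.card K).Coprime p) [Fintype (G ⧸ K)] (h : MainStmt p (G ⧸ K)) : MainStmt p G := by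
  intro f hf0 hcl P C hC hprod
  have hpp : p.Prime := Fact.out
  have hπs : Function.Surjective (QuotientGroup.mk' K) := QuotientGroup.mk'_surjective K
  set π := QuotientGroup.mk' K with hπ
  let Pb : Sylow p (G ⧸ K) := P.mapSurjective hπs
  have hPb : (Pb : Subgroup (G ⧸ K)) = (P : Subgroup G).map π := Sylow.coe_mapSurjective _ _
  -- the function on the quotient
  let F : G ⧸ K → ℝ := fun b => ∑ y ∈ Finset.univ.filter (fun y => π y = b), f y
  have hF0 : ∀ b, 0 ≤ F b := fun b => Finset.sum_nonneg fun y _ => hf0 y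
  have hFcl : ∀ b a, F (a * b * a⁻¹) = F b := by
    intro b a
    obtain ⟨u, rfl⟩ := hπs a
    symm
    refine Finset.sum_equiv (MulAut.conj u).toEquiv ?_ ?_
    · intro y
      simp only [Finset.mem_filter, Finset.mem_univ, true_and, MulEquiv.toEquiv_eq_coe, EquivLike.coe_coe,
        MulAut.conj_apply, map_mul, map_inv]
      constructor
      · rintro rfl
        rfl
      · intro h1
        exact mul_left_cancel (mul_right_cancel h1)
    · intro y _
      exact (hcl y u).symm
  have hsum : ∑ b, F b = ∑ y, f y := Finset.sum_fiberwise _ _ _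
  have hinj : ∀ x ∈ (P : Subgroup G), ∀ y ∈ (P : Subgroup G), π x = π y → x = y :=
    fun x hx y hy hxy => inj_of_coprime K hKc P hx hy hxy
  set Ps := Finset.univ.filter (· ∈ (P : Subgroup G)) with hPs
  set Bs := Finset.univ.filter (· ∈ (Pb : Subgroup (G ⧸ K))) with hBs
  have hBim : Bs = Ps.image π := by
    ext t
    simp only [hBs, hPs, Finset.mem_filter, Finset.mem_univ, true_and, Finset.mem_image, hPb]
    constructor
    · rintro ⟨x, hx, rfl⟩
      exact ⟨x, hx, rfl⟩
    · rintro ⟨x, hx, rfl⟩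
      exact ⟨x, hx, rfl⟩
  have hinjOn : Set.InjOn π (Ps : Set G) := by
    intro x hx y hy hxy
    simp only [hPs, Finset.coe_filter, Finset.mem_univ, true_and, Set.mem_setOf_eq] at hx hy
    exact hinj x hx y hy hxy
  have hBcard : Nat.card (Pb : Subgroup (G ⧸ K)) = Nat.card (P : Subgroup G) := by
    rw [Nat.card_eq_fintype_card, Fintype.card_subtype, Nat.card_eq_fintype_card, Fintype.card_subtype]
    show Bs.card = Ps.card
    rw [hBim, Finset.card_image_of_injOn hinjOn]
  have hFx : ∀ x : G, (((centralizer (zpowers x : Set G)).relIndex K : ℕ) : ℝ) * f x ≤ F (π x) :=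
    fun x => orbit_le K f hf0 hcl x
  have hPf0 : 0 ≤ ∏ x ∈ Ps, f x := Finset.prod_nonneg fun x _ => hf0 x
  have hAPi : ((∏ x ∈ Ps, (centralizer (zpowers x : Set G)).relIndex K : ℕ) : ℝ) * (∏ x ∈ Ps, f x) ≤
      ∏ t ∈ Bs, F t := by
    rw [hBim]
    exact prod_step Ps π hinjOn _ f F hf0 hFx
  have hcore := core_filter K hKc P
  have hCc : 0 ≤ (((centralizer ((P : Subgroup G) : Set G)).relIndex K : ℕ) : ℝ) ^ (p - 1) * C :=
    mul_nonneg (pow_nonneg (Nat.cast_nonneg _) _) hC
  have hkey := real_step hC hPf0 hcore hprod hAPi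
  rw [← hBcard] at hkey
  have hIH := h F hF0 hFcl Pb _ hCc hkey
  rw [hsum, hBcard] at hIH
  have hn : Nat.card (Sylow p G) = Nat.card (Sylow p (G ⧸ K)) * (centralizer ((P : Subgroup G) : Set G)).relIndex K :=
    card_sylow_coprime K hKc P
  rw [hn]
  exact final_step hIH

theorem main_all : ∀ (n : ℕ) (G : Type u) [Group G] [Fintype G], Nat.card G = n → IsPSolvable p G → MainStmt p G := by
  intro n
  induction n using Nat.strong_induction_on with
  | _ n ih =>
  intro G _ _ hn hs
  classical
  have hpp : p.Prime := Fact.out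
  have hlt : ∀ (N : Subgroup G) [N.Normal], N ≠ ⊥ → Nat.card (G ⧸ N) < n := by
    intro N _ hN
    have h1 := Subgroup.card_eq_card_quotient_mul_card_subgroup N
    have h2 : Nat.card N ≠ 1 := fun h => hN (Subgroup.eq_bot_of_card_eq N h)
    have h3 : 0 < Nat.card N := Nat.card_pos
    rw [← hn, h1]
    exact lt_mul_of_one_lt_right Nat.card_pos (by omega)
  have hsq : ∀ (N : Subgroup G) [N.Normal], IsPSolvable p (G ⧸ N) := fun N _ =>
    Cfsg.Agent.Lib.Fusion.isPSolvable_of_surjective hpp (QuotientGroup.mk' N) (QuotientGroup.mk'_surjective N) hs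
  by_cases hnt : Nontrivial G
  · by_cases hO : pCore p G = ⊥
    · have hO' : pPrimeCore p G ≠ ⊥ := by
        intro h0
        have hc := Cfsg.Agent.Lib.PSolv.centralizer_pCore_le (Cfsg.Agent.Lib.PSolv.pStep_of_isPSolvable hpp hs) h0
        rw [hO] at hc
        obtain ⟨x, hx⟩ := exists_ne (1 : G)
        apply hx
        have h1 : x ∈ (⊥ : Subgroup G) := by
          apply hc
          rw [Subgroup.mem_centralizer_iff]
          intro h hh
          have h2 : h = 1 := by simpa using hh
          simp [h2]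
        simpa using h1
      haveI := Cfsg.Agent.Lib.Core.pPrimeCore_normal p G
      letI : Fintype (G ⧸ pPrimeCore p G) := Fintype.ofFinite _
      exact step_coprime _ (Cfsg.Agent.Lib.Core.pPrimeCore_coprime p G) (ih _ (hlt _ hO') _ rfl (hsq _))
    · haveI := Cfsg.Agent.Lib.Core.pCore_normal p G
      letI : Fintype (G ⧸ pCore p G) := Fintype.ofFinite _
      exact step_pgroup _ (Cfsg.Agent.Lib.Core.pCore_isPGroup p G) (ih _ (hlt _ hO) _ rfl (hsq _))
  · rw [not_nontrivial_iff_subsingleton] at hnt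
    intro f _ _ P C _ hprod
    have huniv : (Finset.univ : Finset G) = {1} := by
      ext x
      simp [Subsingleton.elim x 1]
    have hfil : Finset.univ.filter (· ∈ (P : Subgroup G)) = {1} := by
      ext x
      simp [Subsingleton.elim x 1, Subgroup.one_mem]
    have hc1 : Nat.card (P : Subgroup G) = 1 := Nat.card_of_subsingleton (1 : (P : Subgroup G))
    haveI : Subsingleton (Sylow p G) := ⟨fun a b => Sylow.ext (Subsingleton.elim _ _)⟩
    have hc2 : Nat.card (Sylow p G) = 1 := Nat.card_of_subsingleton P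
    rw [hfil, hc1] at hprod
    rw [hc1, hc2, huniv]
    simpa using hprod

/-- The bound on the number of `p`-elements. -/
theorem card_pelts {G : Type u} [Group G] [Finite G] (hG : IsPSolvable p G) (P : Sylow p G) :
    Nat.card (P : Subgroup G) ^ p * Nat.card (Sylow p G) ^ (p - 1) ≤
      Nat.card {g : G // ∃ k : ℕ, orderOf g = p ^ k} ^ p := by
  classical
  letI : Fintype G := Fintype.ofFinite G
  let f : G → ℝ := fun y => if ∃ k : ℕ, orderOf y = p ^ k then 1 else 0
  have hf0 : ∀ g, 0 ≤ f g := fun g => by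
    simp only [f]
    split_ifs <;> norm_num
  have hcl : ∀ g x, f (x * g * x⁻¹) = f g := by
    intro g x
    have h1 : orderOf (x * g * x⁻¹) = orderOf g := by
      have := (MulAut.conj x).orderOf_eq g
      simpa using this
    simp only [f, h1]
  have hP1 : ∀ x ∈ Finset.univ.filter (· ∈ (P : Subgroup G)), f x = 1 := by
    intro x hx
    rw [Finset.mem_filter] at hx
    simp only [f]
    rw [if_pos]
    obtain ⟨k, hk⟩ := (IsPGroup.iff_orderOf.mp P.isPGroup') ⟨x, hx.2⟩
    exact ⟨k, by rwa [Subgroup.orderOf_mk] at hk⟩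
  have hprod : (1 : ℝ) ^ Nat.card (P : Subgroup G) ≤ (∏ x ∈ Finset.univ.filter (· ∈ (P : Subgroup G)), f x) ^ p := by
    rw [Finset.prod_eq_one hP1]
    simp
  have hmain := main_all (p := p) _ G rfl hG f hf0 hcl P 1 zero_le_one hprod
  have hsum : ∑ y, f y = (Nat.card {g : G // ∃ k : ℕ, orderOf g = p ^ k} : ℝ) := by
    simp only [f]
    rw [Finset.sum_boole, Nat.card_eq_fintype_card, Fintype.card_subtype]
  rw [hsum, one_mul] at hmain
  exact_mod_cast hmain

end main

end Cfsg.Agent.Lib.PGroup.PElts
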