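import Mathlib
import Cfsg.Agent.Lib.PGroup.PComp
import Cfsg.Agent.Lib.Core.MinNormal2
import Cfsg.Agent.Lib.Hall.Elementary
import Cfsg.Prelude.Def_OddOrderLocal

/-!
# Hall subgroups of groups with a solvable normal subgroup and `σ`-quotient
-/

set_option autoImplicit false

namespace Cfsg.Agent.Lib.PGroup.PiHall

open Cfsg Cfsg.Agent.Lib.PSolv Cfsg.Agent.Lib.PGroup.PComp

universe u

section

variable {Y : Type u} [Group Y] [Finite Y]

/-- A solvable nontrivial normal subgroup contains a nontrivial normal `q`-subgroup. -/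
theorem exists_normal_pgroup_le (N : Subgroup Y) [hN : N.Normal] (hsol : Group.IsSolvable N) (h1 : N ≠ ⊥) :
    ∃ q : ℕ, q.Prime ∧ ∃ D : Subgroup Y, D.Normal ∧ D ≠ ⊥ ∧ D ≤ N ∧ IsPGroup q D := by
  classical
  obtain ⟨L, hLn, hL1, hLN, hmin⟩ := Cfsg.Agent.Lib.Core.exists_minimal_normal_le hN h1
  haveI := hLn
  have hnt : Nontrivial L := (Subgroup.nontrivial_iff_ne_bot L).mpr hL1
  have hsolL : Group.IsSolvable L := by
    haveI := hsol
    exact solvable_of_solvable_injective (f := Subgroup.inclusion hLN) (Subgroup.inclusion_injective hLN)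
  obtain ⟨A, hA1, hA2, hA3⟩ := Cfsg.Agent.Lib.Core.exists_abelian_characteristic (G := L)
  have hAG : (A.map L.subtype).Normal := Cfsg.Agent.Lib.Core.normal_map_of_characteristic L A
  have hone : Nat.card L ≠ 1 := fun h => hL1 (Subgroup.eq_bot_of_card_eq L h)
  let q := (Nat.card L).minFac
  have hq : q.Prime := Nat.minFac_prime hone
  have hf : Fact q.Prime := ⟨hq⟩
  have hAN : A = ⊤ := by
    rcases hmin _ hAG (Subgroup.map_subtype_le _) with h | h
    · exfalso
      apply hA1
      rw [eq_bot_iff]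
      intro x hx
      have : (x : Y) ∈ A.map L.subtype := ⟨x, hx, rfl⟩
      rw [h, Subgroup.mem_bot] at this
      exact Subgroup.mem_bot.mpr (Subtype.ext this)
    · rw [eq_top_iff]
      intro x _
      have : (x : Y) ∈ A.map L.subtype := by
        rw [h]
        exact x.2
      obtain ⟨y, hy, hyx⟩ := this
      have h2 : y = x := Subtype.ext hyx
      exact h2 ▸ hy
  have hcomm : IsMulCommutative L := by
    subst hAN
    exact IsMulCommutative.of_comm (fun a b => by
      have := hA3.is_comm.comm ⟨a, Subgroup.mem_top a⟩ ⟨b, Subgroup.mem_top b⟩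
      exact congrArg Subtype.val this)
  letI : CommGroup L := { (inferInstance : Group L) with mul_comm := hcomm.is_comm.comm }
  refine ⟨q, hq, L, hLn, hL1, hLN, ?_⟩
  obtain ⟨x₀, hx₀⟩ := exists_prime_orderOf_dvd_card' q (Nat.minFac_dvd (Nat.card L))
  let T : Subgroup L := Cfsg.Agent.Lib.Hall.tors q
  have hTc : T.Characteristic := by
    rw [Subgroup.characteristic_iff_le_comap]
    intro φ x hx
    have h1 : x ^ q = 1 := Cfsg.Agent.Lib.Hall.mem_tors.mp hx
    apply Cfsg.Agent.Lib.Hall.mem_tors.mpr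
    show (φ x) ^ q = 1
    rw [← map_pow, h1, map_one]
  have hTn := Cfsg.Agent.Lib.Core.normal_map_of_characteristic L T
  rcases hmin _ hTn (Subgroup.map_subtype_le _) with h | h
  · exfalso
    have h1 : (x₀ : Y) ∈ T.map L.subtype :=
      ⟨x₀, Cfsg.Agent.Lib.Hall.mem_tors.mpr (hx₀ ▸ pow_orderOf_eq_one x₀), rfl⟩
    rw [h, Subgroup.mem_bot] at h1
    have h2 : x₀ = 1 := Subtype.ext h1
    rw [h2, orderOf_one] at hx₀
    exact hq.one_lt.ne hx₀
  · intro x
    have hx : (x : Y) ∈ T.map L.subtype := by rw [h]; exact x.2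
    obtain ⟨y, hy, hyx⟩ := hx
    have h3 := Cfsg.Agent.Lib.Hall.mem_tors.mp hy
    have h4 : y = x := Subtype.ext hyx
    rw [h4] at h3
    exact ⟨1, by simpa using h3⟩

/-- All primes of the order of `U` lie in `σ`. -/
def IsSig (σ : Set ℕ) (U : Subgroup Y) : Prop := ∀ r : ℕ, r.Prime → r ∣ Nat.card U → r ∈ σ

theorem isPiHall_map {σ : Set ℕ} (D : Subgroup Y) [hD : D.Normal] {H : Subgroup Y} (hH : IsPiHall σ H) :
    IsPiHall σ (H.map (QuotientGroup.mk' D)) :=
  ⟨fun r hr hd => hH.1 r hr (hd.trans (Subgroup.card_map_dvd _ _)),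
    fun r hr hrσ hd => hH.2 r hr hrσ (hd.trans (Subgroup.index_map_dvd H (QuotientGroup.mk'_surjective D)))⟩

theorem isSig_map {σ : Set ℕ} (D : Subgroup Y) [hD : D.Normal] {U : Subgroup Y} (hU : IsSig σ U) :
    IsSig σ (U.map (QuotientGroup.mk' D)) :=
  fun r hr hd => hU r hr (hd.trans (Subgroup.card_map_dvd _ _))

theorem le_of_hall_of_normal_sig {σ : Set ℕ} {H D : Subgroup Y} [hD : D.Normal] (hH : IsPiHall σ H)
    (hDs : IsSig σ D) : D ≤ H := by
  have h2 := card_sup_mul_card_inf H D
  have h4 : H.relIndex (H ⊔ D) ∣ Nat.card (H ⊔ D : Subgroup Y) := Subgroup.relIndex_dvd_card _ _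
  have h5 : H.relIndex (H ⊔ D) ∣ H.index := Subgroup.relIndex_dvd_index_of_le le_sup_left
  have h6 : H.relIndex (H ⊔ D) = 1 := by
    by_contra hne
    obtain ⟨r, hr, hd⟩ := Nat.exists_prime_and_dvd hne
    have h7 : r ∣ Nat.card H * Nat.card D := by
      rw [← h2]
      exact (hd.trans h4).trans (dvd_mul_right _ _)
    have h8 : r ∈ σ := by
      rcases (Nat.Prime.dvd_mul hr).mp h7 with h9 | h9
      · exact hH.1 r hr h9
      · exact hDs r hr h9
    exact hH.2 r hr h8 (hd.trans h5)
  have h7 := Subgroup.relIndex_eq_one.mp h6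
  exact le_sup_right.trans h7

theorem coprime_of_sig {σ : Set ℕ} {U : Subgroup Y} (hU : IsSig σ U) {q : ℕ} (hq : q.Prime) (hqσ : q ∉ σ) :
    (Nat.card U).Coprime q := by
  apply Nat.Coprime.symm
  rw [Nat.Prime.coprime_iff_not_dvd hq]
  intro hd
  exact hqσ (hU q hq hd)

end

/-- **Hall's theorem** for groups with a solvable normal subgroup and a `σ`-quotient. -/
theorem hall_main (σ : Set ℕ) : ∀ (n : ℕ) (Y : Type u) [Group Y] [Finite Y] (N : Subgroup Y) [N.Normal],
    Nat.card Y = n → Group.IsSolvable N → (∀ r : ℕ, r.Prime → r ∣ N.index → r ∈ σ) →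
    (∃ H : Subgroup Y, IsPiHall σ H) ∧ ∀ H : Subgroup Y, IsPiHall σ H → ∀ U : Subgroup Y, IsSig σ U →
      ∃ g : Y, ∀ u ∈ U, g * u * g⁻¹ ∈ H := by
  intro n
  induction n using Nat.strong_induction_on with
  | _ n ih =>
  intro Y _ _ N hNn hn hsol hidx
  subst hn
  by_cases hN1 : N = ⊥
  · subst hN1
    have hI : (⊥ : Subgroup Y).index = Nat.card Y := Subgroup.index_bot
    rw [hI] at hidx
    have hH : ∀ H : Subgroup Y, IsPiHall σ H → H = ⊤ := by
      intro H hH
      rw [← Subgroup.index_eq_one]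
      by_contra hne
      obtain ⟨r, hr, hd⟩ := Nat.exists_prime_and_dvd hne
      exact hH.2 r hr (hidx r hr (hd.trans (Subgroup.index_dvd_card H))) hd
    refine ⟨⟨⊤, ?_, ?_⟩, ?_⟩
    · intro r hr hd
      rw [Subgroup.card_top] at hd
      exact hidx r hr hd
    · intro r hr _ hd
      rw [Subgroup.index_top] at hd
      exact hr.one_lt.ne' (Nat.dvd_one.mp hd)
    · intro H hHh U _
      refine ⟨1, fun u _ => ?_⟩
      rw [hH H hHh]
      trivial
  obtain ⟨q, hq, D, hDn, hD1, hDN, hDp⟩ := exists_normal_pgroup_le N hsol hN1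
  haveI := hDn
  haveI : Fact q.Prime := ⟨hq⟩
  let π := QuotientGroup.mk' D
  have hπs : Function.Surjective π := QuotientGroup.mk'_surjective D
  have hker : π.ker = D := QuotientGroup.ker_mk' D
  have hlt : Nat.card (Y ⧸ D) < Nat.card Y := by
    have h2 : Nat.card Y = Nat.card (Y ⧸ D) * Nat.card D :=
      Subgroup.card_eq_card_quotient_mul_card_subgroup D
    have h3 : 1 < Nat.card D := by
      have h4 : Nat.card D ≠ 1 := fun h => hD1 (Subgroup.eq_bot_of_card_eq D h)
      have h5 : 0 < Nat.card D := Nat.card_pos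
      omega
    rw [h2]
    exact lt_mul_of_one_lt_right Nat.card_pos h3
  haveI hNbn : (N.map π).Normal := hNn.map π hπs
  have hsolb : Group.IsSolvable (N.map π) := by
    haveI := hsol
    exact solvable_of_surjective (MonoidHom.subgroupMap_surjective π N)
  have hidxb : ∀ r : ℕ, r.Prime → r ∣ (N.map π).index → r ∈ σ := fun r hr hd =>
    hidx r hr (hd.trans (Subgroup.index_map_dvd N hπs))
  obtain ⟨⟨Hb, hHb⟩, hdom⟩ := ih _ hlt (Y ⧸ D) (N.map π) rfl hsolb hidxb
  obtain ⟨j, hj⟩ := IsPGroup.iff_card.mp hDp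
  by_cases hqσ : q ∈ σ
  · -- `D` is a `σ`-group
    have hDs : IsSig σ D := by
      intro r hr hd
      rw [hj] at hd
      have := (Nat.prime_dvd_prime_iff_eq hr hq).mp (hr.dvd_of_dvd_pow hd)
      rwa [this]
    constructor
    · refine ⟨Hb.comap π, ?_, ?_⟩
      · intro r hr hd
        rw [Cfsg.Agent.Lib.Core.card_comap_of_surjective π hπs, hker] at hd
        rcases (Nat.Prime.dvd_mul hr).mp hd with h | h
        · exact hDs r hr h
        · exact hHb.1 r hr h
      · intro r hr hrσ hd
        rw [Subgroup.index_comap_of_surjective _ hπs] at hd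
        exact hHb.2 r hr hrσ hd
    · intro H hH U hU
      obtain ⟨gb, hgb⟩ := hdom _ (isPiHall_map D hH) _ (isSig_map D hU)
      obtain ⟨g, hg⟩ := lift_conj D U (H.map π) gb (by
        rintro _ ⟨_, ⟨u, hu, rfl⟩, rfl⟩
        exact hgb _ ⟨u, hu, rfl⟩)
      have hc : (H.map π).comap π = H := by
        rw [Subgroup.comap_map_eq, hker, sup_eq_left]
        exact le_of_hall_of_normal_sig hH hDs
      refine ⟨g, fun u hu => ?_⟩
      have := hg u hu
      rwa [hc] at this
  · -- `D` is a `σ'`-group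
    constructor
    · let L : Subgroup Y := Hb.comap π
      have hDL : D ≤ L := by
        intro x hx
        show π x ∈ Hb
        have : π x = 1 := (QuotientGroup.eq_one_iff x).mpr hx
        rw [this]; exact one_mem _
      have hcL : Nat.card L = Nat.card D * Nat.card Hb := by
        have := Cfsg.Agent.Lib.Core.card_comap_of_surjective π hπs Hb
        rwa [hker] at this
      let D' : Subgroup L := D.subgroupOf L
      haveI : D'.Normal := inferInstance
      have hcD' : Nat.card D' = Nat.card D := Cfsg.Agent.Lib.Coprime.card_subgroupOf_of_le hDL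
      have hidxD : D'.index = Nat.card Hb := by
        have h1 := D'.card_mul_index
        rw [hcD', hcL] at h1
        exact Nat.eq_of_mul_eq_mul_left Nat.card_pos h1
      have hHbq : (Nat.card Hb).Coprime q := coprime_of_sig hHb.1 hq hqσ
      have hcop : (Nat.card D').Coprime D'.index := by
        rw [hcD', hidxD, hj]
        exact Nat.Coprime.pow_left j hHbq.symm
      obtain ⟨R', hR'⟩ := Subgroup.exists_right_complement'_of_coprime hcop
      have hcR' : Nat.card R' = Nat.card Hb := by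
        have h1 := hR'.card_mul
        rw [hcD', hcL] at h1
        exact Nat.eq_of_mul_eq_mul_left Nat.card_pos h1
      refine ⟨R'.map L.subtype, ?_, ?_⟩
      · intro r hr hd
        rw [Subgroup.card_map_of_injective L.subtype_injective, hcR'] at hd
        exact hHb.1 r hr hd
      · intro r hr hrσ hd
        rw [Subgroup.index_map_subtype, hR'.index_eq_card, hcD', hj] at hd
        rcases (Nat.Prime.dvd_mul hr).mp hd with h | h
        · have := (Nat.prime_dvd_prime_iff_eq hr hq).mp (hr.dvd_of_dvd_pow h)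
          exact hqσ (this ▸ hrσ)
        · have h2 : L.index = Hb.index := Subgroup.index_comap_of_surjective _ hπs
          rw [h2] at h
          exact hHb.2 r hr hrσ h
    · intro H hH U hU
      obtain ⟨gb, hgb⟩ := hdom _ (isPiHall_map D hH) _ (isSig_map D hU)
      obtain ⟨g, hg⟩ := lift_conj D U (H.map π) gb (by
        rintro _ ⟨_, ⟨u, hu, rfl⟩, rfl⟩
        exact hgb _ ⟨u, hu, rfl⟩)
      have hc : (H.map π).comap π = H ⊔ D := by
        rw [Subgroup.comap_map_eq, hker]
      let W : Subgroup Y := U.map (MulAut.conj g).toMonoidHom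
      have hWc : (Nat.card W).Coprime q := by
        rw [Cfsg.Agent.Lib.Coprime.card_map_conj]; exact coprime_of_sig hU hq hqσ
      have hWH : W ≤ H ⊔ D := by
        rintro _ ⟨u, hu, rfl⟩
        have := hg u hu
        rw [hc] at this
        exact this
      let A : Subgroup Y := H ⊓ (W ⊔ D)
      have hAc : (Nat.card A).Coprime q :=
        Nat.Coprime.coprime_dvd_left (Subgroup.card_dvd_of_le inf_le_left) (coprime_of_sig hH.1 hq hqσ)
      have hsup : W ⊔ D = A ⊔ D := by
        apply le_antisymm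
        · refine sup_le ?_ le_sup_right
          intro w hw
          obtain ⟨h, hh, d, hd, rfl⟩ := Subgroup.mem_sup_of_normal_right.mp (hWH hw)
          refine mul_mem (Subgroup.mem_sup_left ⟨hh, ?_⟩) (Subgroup.mem_sup_right hd)
          have e : h = (h * d) * d⁻¹ := by group
          rw [e]
          exact mul_mem (Subgroup.mem_sup_left hw) (Subgroup.mem_sup_right (inv_mem hd))
        · exact sup_le (inf_le_right) le_sup_right
      obtain ⟨k, -, hk⟩ := complement_conj_sub D W A hDp hWc hAc hsup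
      refine ⟨k * g, fun u hu => ?_⟩
      have h1 := hk (g * u * g⁻¹) ⟨u, hu, rfl⟩
      have e : k * g * u * (k * g)⁻¹ = k * (g * u * g⁻¹) * k⁻¹ := by group
      rw [e]
      exact h1.1

section

variable {Y : Type u} [Group Y] [Finite Y]

theorem isPiHall_conj {σ : Set ℕ} {H : Subgroup Y} (hH : IsPiHall σ H) (g : Y) :
    IsPiHall σ (H.map (MulAut.conj g).toMonoidHom) := by
  have hc := Cfsg.Agent.Lib.Coprime.card_map_conj H g
  have hi : (H.map (MulAut.conj g).toMonoidHom).index = H.index := by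
    have h1 := (H.map (MulAut.conj g).toMonoidHom).card_mul_index
    have h2 := H.card_mul_index
    rw [hc] at h1
    exact Nat.eq_of_mul_eq_mul_left Nat.card_pos (h1.trans h2.symm)
  exact ⟨fun r hr hd => hH.1 r hr (hc ▸ hd), fun r hr hrσ hd => hH.2 r hr hrσ (hi ▸ hd)⟩

/-- Every `σ`-subgroup lies in a Hall `σ`-subgroup. -/
theorem hall_le (σ : Set ℕ) (N : Subgroup Y) [N.Normal] (hsol : Group.IsSolvable N)
    (hidx : ∀ r : ℕ, r.Prime → r ∣ N.index → r ∈ σ) (U : Subgroup Y) (hU : IsSig σ U) :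
    ∃ H : Subgroup Y, IsPiHall σ H ∧ U ≤ H := by
  obtain ⟨⟨H₀, hH₀⟩, hdom⟩ := hall_main σ _ Y N rfl hsol hidx
  obtain ⟨g, hg⟩ := hdom H₀ hH₀ U hU
  refine ⟨H₀.map (MulAut.conj g⁻¹).toMonoidHom, isPiHall_conj hH₀ g⁻¹, fun u hu => ?_⟩
  refine ⟨g * u * g⁻¹, hg u hu, ?_⟩
  simp [MulAut.conj_apply]
  group

end

end Cfsg.Agent.Lib.PGroup.PiHall
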