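import Cfsg.Prelude.Def_TwoFusion
import Cfsg.Prelude.Def_Transfer
import Cfsg.Agent.Lib.FrobThm.PNil
import Cfsg.Agent.Lib.Techniques.Tower
import Cfsg.Agent.Lib.Transfer.Frobenius
import Cfsg.Agent.Lib.PGroup.NilCover
import Cfsg.Agent.Lib.Core.Subnormal
import Cfsg.Agent.Lib.Hall.CoprimeLemmas
import Cfsg.Agent.Lib.Core.Basic
import Mathlib

/-! Frobenius' normal `p`-complement criterion relative to a strongly closed subgroup. -/

set_option autoImplicit false

universe u

namespace Cfsg.Agent.Lib.PGroup.RelFrob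

open Cfsg Cfsg.Agent.Lib.FrobThm Cfsg.Agent.Lib.Techniques Subgroup

/-- The hypothesis in terms of `PNil`. -/
def CHyp {G : Type u} [Group G] (p : ℕ) (D : Subgroup G) : Prop :=
  ∀ U : Subgroup G, U ≤ D → D ⊓ centralizer (U : Set G) ≤ U → PNil p (normalizer (U : Set G))

/-- The induction hypothesis. -/
def IH (p : ℕ) [Fact p.Prime] (n : ℕ) : Prop :=
  ∀ (G' : Type u) [Group G'] [Finite G'], Nat.card G' < n → ∀ (S' : Sylow p G') (D' : Subgroup G'),
    IsStronglyClosed D' (S' : Subgroup G') → CHyp p D' → PNil p (⊤ : Subgroup G')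

variable {G : Type u} [Group G] [Finite G] {p : ℕ} [hp : Fact p.Prime]

theorem mem_normalizer_sup {A B : Subgroup G} {n : G} (hA : n ∈ normalizer (A : Set G))
    (hB : n ∈ normalizer (B : Set G)) : n ∈ normalizer ((A ⊔ B : Subgroup G) : Set G) := by
  rw [mem_normalizer_iff_conjS] at hA hB ⊢
  rw [conjS, Subgroup.map_sup]
  show conjS n A ⊔ conjS n B = _
  rw [hA, hB]

omit [Finite G] in
theorem comm_of_pNil {T Y : Subgroup G} (hT : PNil p T) (hYT : Y ≤ T) (hYp : IsPGroup p Y) {v : G}
    (hv : v ∈ T) (hvc : (orderOf v).Coprime p) (hvn : v ∈ normalizer (Y : Set G)) :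
    v ∈ centralizer (Y : Set G) := by
  rw [Subgroup.mem_centralizer_iff]
  intro y hy
  have hy' : y ∈ Y := hy
  have h1 : v * y * v⁻¹ * y⁻¹ ∈ Y :=
    Y.mul_mem (((Subgroup.mem_normalizer_iff).mp hvn y).mp hy') (Y.inv_mem hy')
  have hk : v ∈ hT.ker := ⟨hv, hvc⟩
  have hk' : v⁻¹ ∈ hT.ker := hT.ker.inv_mem hk
  have h2 : y * v⁻¹ * y⁻¹ ∈ hT.ker := hT.conj_mem_ker (hYT hy') hk'
  have h3 : v * (y * v⁻¹ * y⁻¹) ∈ hT.ker := hT.ker.mul_mem hk h2
  have h4 : v * y * v⁻¹ * y⁻¹ = v * (y * v⁻¹ * y⁻¹) := by group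
  have h5 : v * y * v⁻¹ * y⁻¹ = 1 :=
    eq_one_of_isPGroup_of_coprime hp.out hYp h1 (by rw [h4]; exact h3.2)
  have h6 : v * y = y * v := by
    have : v * y * v⁻¹ = y := by
      have := congrArg (· * y) h5
      simpa [mul_assoc] using this
    calc v * y = v * y * v⁻¹ * v := by group
      _ = y * v := by rw [this]
  exact h6.symm

/-- Lemma F. -/
theorem lemF (S : Sylow p G) {Y T : Subgroup G} (hY : Y.Normal) (hYp : IsPGroup p Y) (hT : PNil p T)
    (hYT : Y ≤ T)
    (hN : normalizer (((S : Subgroup G) ⊓ centralizer (Y : Set G) : Subgroup G) : Set G) ≤ T)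
    {g : G} (hg : (orderOf g).Coprime p) : g ∈ centralizer (Y : Set G) := by
  classical
  set C := centralizer (Y : Set G) with hC
  haveI hCn : C.Normal := Subgroup.normal_centralizer (H := Y)
  obtain ⟨Q, hQ⟩ := Cfsg.Agent.Lib.Core.sylow_inf_normal p C S
  have hF := Sylow.normalizer_sup_eq_top Q
  have hmap : (Q : Subgroup C).map C.subtype = (S : Subgroup G) ⊓ C := by
    rw [hQ, Subgroup.subgroupOf_map_subtype]
  rw [hmap] at hF
  have hgm : g ∈ normalizer (((S : Subgroup G) ⊓ C : Subgroup G) : Set G) ⊔ C := by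
    rw [hF]; trivial
  obtain ⟨n, hn, c, hc, hnc⟩ := Subgroup.mem_sup_of_normal_right.mp hgm
  have hnT : n ∈ T := hN hn
  obtain ⟨s, v, hs, hv, hsv, hsp, hvc⟩ := Cfsg.Agent.Lib.PGroup.NilCover.exists_decomp (p := p) n
  have hvT : v ∈ T := (zpowers_le.mpr hnT) hv
  have hvC : v ∈ C :=
    comm_of_pNil hT hYT hYp hvT hvc (by rw [Subgroup.normalizer_eq_top_iff.mpr hY]; trivial)
  obtain ⟨k, hk⟩ := hsp ⟨s, mem_zpowers s⟩
  have hk' : s ^ p ^ k = 1 := by
    have := congrArg Subtype.val hk
    simpa using this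
  let π := QuotientGroup.mk' C
  have h1 : π g = π s := by
    have e1 : π v = 1 := (QuotientGroup.eq_one_iff v).mpr hvC
    have e2 : π c = 1 := (QuotientGroup.eq_one_iff c).mpr hc
    rw [← hnc, hsv, map_mul, map_mul, e1, e2, mul_one, mul_one]
  have h2 : (π g) ^ p ^ k = 1 := by rw [h1, ← map_pow, hk', map_one]
  have h3 : π g = 1 := eq_one_of_pow_p_of_coprime hp.out h2 (coprime_orderOf_map π hg)
  exact (QuotientGroup.eq_one_iff g).mp h3

theorem caseA (ih : IH.{u} p (Nat.card G)) (S : Sylow p G) {D : Subgroup G}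
    (hD : IsStronglyClosed D (S : Subgroup G)) (hyp : CHyp p D) {V : Subgroup G} (hV : V.Normal)
    (hVD : V ≤ D) (hV1 : V ≠ ⊥) : PNil p (⊤ : Subgroup G) := by
  classical
  have hVp : IsPGroup p V := S.isPGroup'.to_le (hVD.trans hD.1)
  let π := QuotientGroup.mk' V
  have hπ : Function.Surjective π := QuotientGroup.mk'_surjective V
  have hπk : ∀ x, π x = 1 ↔ x ∈ V := fun x => QuotientGroup.eq_one_iff x
  have hcard : Nat.card (G ⧸ V) < Nat.card G := by
    have h1 := Subgroup.card_eq_card_quotient_mul_card_subgroup V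
    have h2 : 1 < Nat.card V := (Subgroup.one_lt_card_iff_ne_bot V).mpr hV1
    have h3 : 0 < Nat.card (G ⧸ V) := Nat.card_pos
    rw [h1]
    nlinarith
  have hpre : ∀ x d : G, d ∈ D → π x = π d → x ∈ D := by
    intro x d hd h
    have h1 : π (d⁻¹ * x) = 1 := by rw [map_mul, map_inv, h, inv_mul_cancel]
    have h2 := hVD ((hπk _).mp h1)
    have h3 := D.mul_mem hd h2
    simpa using h3
  have hstrong : IsStronglyClosed (D.map π) ((S.mapSurjective hπ : Sylow p (G ⧸ V)) : Subgroup (G ⧸ V)) := by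
    refine ⟨?_, ?_⟩
    · rw [Sylow.coe_mapSurjective]
      exact Subgroup.map_mono hD.1
    · rintro _ ⟨d, hd, rfl⟩ gb h
      obtain ⟨g, rfl⟩ := hπ gb
      rw [Sylow.coe_mapSurjective] at h
      obtain ⟨s, hs, hse⟩ := h
      have h1 : π (s⁻¹ * (g * d * g⁻¹)) = 1 := by
        have e : π (g * d * g⁻¹) = π g * π d * (π g)⁻¹ := by simp
        rw [map_mul, map_inv, hse, e, inv_mul_cancel]
      have h2 : s⁻¹ * (g * d * g⁻¹) ∈ (S : Subgroup G) := hD.1 (hVD ((hπk _).mp h1))
      have h3 : g * d * g⁻¹ ∈ (S : Subgroup G) := by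
        have := (S : Subgroup G).mul_mem hs h2
        simpa using this
      exact ⟨_, hD.2 d hd g h3, by simp⟩
  have hq : PNil p (⊤ : Subgroup (G ⧸ V)) := by
    refine ih (G ⧸ V) hcard (S.mapSurjective hπ) (D.map π) hstrong ?_
    intro Ub hUb hc
    let U := Ub.comap π
    have hUD : U ≤ D := by
      intro x hx
      obtain ⟨d, hd, hde⟩ := hUb hx
      exact hpre x d hd hde.symm
    have hUc : D ⊓ centralizer (U : Set G) ≤ U := by
      rintro c ⟨hcD, hcU⟩
      show π c ∈ Ub
      apply hc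
      refine Subgroup.mem_inf.mpr ⟨⟨c, hcD, rfl⟩, ?_⟩
      rw [Subgroup.mem_centralizer_iff]
      intro ub hub
      obtain ⟨u, rfl⟩ := hπ ub
      have hu : u ∈ U := hub
      have := (Subgroup.mem_centralizer_iff.mp hcU) u hu
      rw [← map_mul, ← map_mul, this]
    have hP := (hyp U hUD hUc).map hp.out π
    refine hP.mono ?_
    intro nb hnb
    obtain ⟨n, rfl⟩ := hπ nb
    refine ⟨n, ?_, rfl⟩
    show n ∈ normalizer (U : Set G)
    rw [Subgroup.mem_normalizer_iff] at hnb ⊢
    intro x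
    have := hnb (π x)
    show π x ∈ Ub ↔ π (n * x * n⁻¹) ∈ Ub
    rw [this]
    simp
  -- all `p'`-elements centralize `V`
  have hcen : ∀ g : G, (orderOf g).Coprime p → g ∈ centralizer (V : Set G) := by
    intro g hg
    set U₁ := V ⊔ (D ⊓ centralizer (V : Set G)) with hU₁
    have hU₁D : U₁ ≤ D := sup_le hVD inf_le_left
    have hU₁c : D ⊓ centralizer (U₁ : Set G) ≤ U₁ := by
      rintro c ⟨hcD, hcU⟩
      refine (le_sup_right : D ⊓ centralizer (V : Set G) ≤ U₁) (Subgroup.mem_inf.mpr ⟨hcD, ?_⟩)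
      exact Subgroup.centralizer_le (by
        intro x hx
        exact (le_sup_left : V ≤ U₁) hx) hcU
    refine lemF S hV hVp (hyp U₁ hU₁D hU₁c) (le_sup_left.trans Subgroup.le_normalizer) ?_ hg
    intro n hn
    apply mem_normalizer_sup
    · rw [Subgroup.normalizer_eq_top_iff.mpr hV]; trivial
    · apply Cfsg.Agent.Lib.Hall.mem_normalizer_of_conj_le
      rintro x ⟨hxD, hxC⟩
      have h1 : x ∈ (S : Subgroup G) ⊓ centralizer (V : Set G) := Subgroup.mem_inf.mpr ⟨hD.1 hxD, hxC⟩
      have h2 := ((Subgroup.mem_normalizer_iff).mp hn x).mp h1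
      exact Subgroup.mem_inf.mpr ⟨hD.2 x hxD n h2.1, h2.2⟩
  -- the final step
  intro x _ y _ hx hy
  set W := Subgroup.closure ({x, y} : Set G) with hW
  have hxW : x ∈ W := Subgroup.subset_closure (by simp)
  have hyW : y ∈ W := Subgroup.subset_closure (by simp)
  have hWC : W ≤ centralizer (V : Set G) := by
    rw [hW, Subgroup.closure_le]
    rintro z (rfl | rfl)
    · exact hcen _ hx
    · exact hcen _ hy
  have hWq : W ≤ hq.ker.comap π := by
    rw [hW, Subgroup.closure_le]
    rintro z (rfl | rfl)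
    · exact ⟨Subgroup.mem_top _, coprime_orderOf_map π hx⟩
    · exact ⟨Subgroup.mem_top _, coprime_orderOf_map π hy⟩
  obtain ⟨P⟩ : Nonempty (Sylow p W) := inferInstance
  have hPV : ∀ t : W, t ∈ (P : Subgroup W) → (t : G) ∈ V := by
    intro t ht
    obtain ⟨k, hk⟩ := P.isPGroup' ⟨t, ht⟩
    have hk' : (t : G) ^ p ^ k = 1 := by
      have := congrArg (fun z : P => ((z : W) : G)) hk
      simpa using this
    have h1 : π (t : G) = 1 := by
      apply eq_one_of_pow_p_of_coprime hp.out (k := k)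
      · rw [← map_pow, hk', map_one]
      · exact (hWq t.2).2
    exact (hπk _).mp h1
  have hburn : normalizer ((P : Subgroup W) : Set W) ≤ centralizer ((P : Subgroup W) : Set W) := by
    intro w _
    rw [Subgroup.mem_centralizer_iff]
    intro t ht
    apply Subtype.ext
    have := (Subgroup.mem_centralizer_iff.mp (hWC w.2)) (t : G) (hPV t ht)
    exact this
  have hNC := Cfsg.Agent.Lib.Transfer.hasNormalPComplement_of_burnside P hburn
  have hPN : PNil p W := (hasNormalPComplement_iff_pNil W).mp hNC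
  exact hPN x hxW y hyW hx hy

theorem strong_sub {S D H : Subgroup G} (hD : IsStronglyClosed D S) (hS : SylowIn p (S ⊓ H) H) :
    IsStronglyClosed (D.subgroupOf H) ((hS.toSylow : Sylow p H) : Subgroup H) := by
  refine ⟨?_, ?_⟩
  · intro x hx
    rw [SylowIn.coe_toSylow, Subgroup.mem_subgroupOf]
    exact Subgroup.mem_inf.mpr ⟨hD.1 hx, x.2⟩
  · intro x hx g hg
    rw [SylowIn.coe_toSylow, Subgroup.mem_subgroupOf] at hg
    rw [Subgroup.mem_subgroupOf]
    exact hD.2 (x : G) hx (g : G) (Subgroup.mem_inf.mp hg).1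

theorem ih_sub (ih : IH.{u} p (Nat.card G)) {S D H : Subgroup G} (hD : IsStronglyClosed D S)
    (hS : SylowIn p (S ⊓ H) H) (hH : H ≠ ⊤)
    (hyp : ∀ U₃ : Subgroup H, U₃ ≤ D.subgroupOf H →
      D.subgroupOf H ⊓ centralizer (U₃ : Set H) ≤ U₃ → PNil p ((normalizer (U₃ : Set H)).map H.subtype)) :
    PNil p H := by
  have hcard : Nat.card H < Nat.card G := by
    have h1 := Subgroup.card_mul_index H
    have h2 : H.index ≠ 1 := fun h => hH (Subgroup.index_eq_one.mp h)
    have h3 : H.index ≠ 0 := Subgroup.index_ne_zero_of_finite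
    have h4 : 0 < Nat.card H := Nat.card_pos
    have h5 : 2 ≤ H.index := by omega
    rw [← h1]
    nlinarith
  have := ih H hcard hS.toSylow (D.subgroupOf H) (strong_sub hD hS) (fun U₃ h1 h2 =>
    PNil.of_map H.subtype (fun k hk => by
      have : k = 1 := by
        have h3 : (H.subtype) k = 1 := hk
        exact Subtype.ext (by simpa using h3)
      rw [this]; simp) (hyp U₃ h1 h2))
  exact (pNil_top_subtype_iff H).mp this

theorem k1 (ih : IH.{u} p (Nat.card G)) (S : Sylow p G) {D : Subgroup G}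
    (hD : IsStronglyClosed D (S : Subgroup G)) (hyp : CHyp p D)
    (hB : ∀ V : Subgroup G, V.Normal → V ≤ D → V = ⊥) {U₀ : Subgroup G} (hU₀ : U₀ ≤ D) (hne : U₀ ≠ ⊥) :
    PNil p (normalizer (U₀ : Set G)) := by
  obtain ⟨a, haS, hfn, -⟩ := exists_fullyNorm_conj (sylowIn_top_of_sylow S) (hU₀.trans hD.1)
  set U₂ := conjS a U₀ with hU₂
  have hU₂D : U₂ ≤ D := by
    rintro _ ⟨x, hx, rfl⟩
    exact hD.2 x (hU₀ hx) a (haS ⟨x, hx, rfl⟩)
  have hU₂ne : U₂ ≠ ⊥ := by
    intro h
    apply hne
    have h1 := (Subgroup.map_eq_bot_iff_of_injective U₀ (MulAut.conj a).injective).mp h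
    exact h1
  have hNtop : normalizer (U₂ : Set G) ≠ ⊤ := fun h =>
    hU₂ne (hB U₂ (Subgroup.normalizer_eq_top_iff.mp h) hU₂D)
  have key : PNil p (normalizer (U₂ : Set G)) := by
    refine ih_sub ih hD hfn hNtop ?_
    intro U₃ h1 h2
    set W := U₃.map (normalizer (U₂ : Set G)).subtype ⊔ U₂ with hWd
    have hWD : W ≤ D := by
      refine sup_le ?_ hU₂D
      rintro _ ⟨u, hu, rfl⟩
      exact h1 hu
    have hWc : D ⊓ centralizer (W : Set G) ≤ W := by
      rintro c ⟨hcD, hcW⟩
      have hcU₂ : c ∈ centralizer (U₂ : Set G) :=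
        Subgroup.centralizer_le (fun x hx => (le_sup_right : U₂ ≤ W) hx) hcW
      have hcU₃ : c ∈ centralizer ((U₃.map (normalizer (U₂ : Set G)).subtype : Subgroup G) : Set G) :=
        Subgroup.centralizer_le (fun x hx => (le_sup_left : U₃.map (normalizer (U₂ : Set G)).subtype ≤ W) hx) hcW
      have hcH : c ∈ normalizer (U₂ : Set G) := Cfsg.Agent.Lib.PGroup.NilCover.centralizer_le_normalizer' _ hcU₂
      have h3 : (⟨c, hcH⟩ : normalizer (U₂ : Set G)) ∈ U₃ := by
        apply h2
        refine Subgroup.mem_inf.mpr ⟨by simpa [Subgroup.mem_subgroupOf] using hcD, ?_⟩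
        rw [Subgroup.mem_centralizer_iff]
        intro u hu
        apply Subtype.ext
        exact (Subgroup.mem_centralizer_iff.mp hcU₃) (u : G) ⟨u, hu, rfl⟩
      exact (le_sup_left : U₃.map (normalizer (U₂ : Set G)).subtype ≤ W) ⟨_, h3, rfl⟩
    refine (hyp W hWD hWc).mono ?_
    rintro _ ⟨n, hn, rfl⟩
    apply mem_normalizer_sup
    · exact Subgroup.le_normalizer_map (normalizer (U₂ : Set G)).subtype ⟨n, hn, rfl⟩
    · exact n.2
  have := key.map hp.out (MulAut.conj a⁻¹).toMonoidHom
  have e : (normalizer (U₂ : Set G)).map (MulAut.conj a⁻¹).toMonoidHom = normalizer (U₀ : Set G) := by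
    rw [hU₂, conj_normalizer]
    exact conjS_inv_conjS a _
  rwa [e] at this

theorem frobHyp (ih : IH.{u} p (Nat.card G)) (S : Sylow p G) {D : Subgroup G}
    (hD : IsStronglyClosed D (S : Subgroup G)) (hyp : CHyp p D)
    (hB : ∀ V : Subgroup G, V.Normal → V ≤ D → V = ⊥) (hDne : D ≠ ⊥) :
    Cfsg.Agent.Lib.Transfer.FrobeniusHyp p (S : Subgroup G) := by
  classical
  have hSD : ∀ s ∈ (S : Subgroup G), s ∈ normalizer (D : Set G) := by
    intro s hs
    apply Cfsg.Agent.Lib.Hall.mem_normalizer_of_conj_le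
    intro x hx
    exact hD.2 x hx s ((S : Subgroup G).mul_mem ((S : Subgroup G).mul_mem hs (hD.1 hx))
      ((S : Subgroup G).inv_mem hs))
  intro Q hQ g hg hgc
  obtain ⟨a, haS, hfn, -⟩ := exists_fullyNorm_conj (sylowIn_top_of_sylow S) hQ
  set Q₂ := conjS a Q with hQ₂
  have hQ₂p : IsPGroup p Q₂ := S.isPGroup'.to_le haS
  have key : ∀ g₂ ∈ normalizer (Q₂ : Set G), (orderOf g₂).Coprime p → g₂ ∈ centralizer (Q₂ : Set G) := by
    intro g₂ hg₂ hg₂c
    by_cases htop : normalizer (Q₂ : Set G) = ⊤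
    · have hnorm : Q₂.Normal := Subgroup.normalizer_eq_top_iff.mp htop
      have hDN : ∀ n : G, (∀ x ∈ D, n * x * n⁻¹ ∈ (S : Subgroup G)) → n ∈ normalizer (D : Set G) := by
        intro n hn
        apply Cfsg.Agent.Lib.Hall.mem_normalizer_of_conj_le
        intro x hx
        exact hD.2 x hx n (hn x hx)
      have hinf : Q₂ ⊓ D = ⊥ := by
        apply hB
        · have hDS : ∀ q ∈ Q₂, ∀ x ∈ Q₂ ⊓ D, q * x * q⁻¹ ∈ Q₂ ⊓ D := by
            rintro q hq x ⟨hx1, hx2⟩
            exact Subgroup.mem_inf.mpr ⟨Q₂.mul_mem (Q₂.mul_mem hq hx1) (Q₂.inv_mem hq),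
              hD.2 x hx2 q (haS (Q₂.mul_mem (Q₂.mul_mem hq hx1) (Q₂.inv_mem hq)))⟩
          constructor
          rintro x ⟨hx1, hx2⟩ n
          exact Subgroup.mem_inf.mpr ⟨hnorm.conj_mem x hx1 n,
            hD.2 x hx2 n (haS (hnorm.conj_mem x hx1 n))⟩
        · exact inf_le_right
      have hDC : D ≤ centralizer (Q₂ : Set G) := by
        intro d hd
        rw [Subgroup.mem_centralizer_iff]
        intro q hq
        have hq' : q ∈ Q₂ := hq
        have h1 : q * d * q⁻¹ * d⁻¹ ∈ Q₂ ⊓ D := by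
          refine Subgroup.mem_inf.mpr ⟨?_, ?_⟩
          · have := Q₂.mul_mem hq' (hnorm.conj_mem q⁻¹ (Q₂.inv_mem hq') d)
            have e : q * d * q⁻¹ * d⁻¹ = q * (d * q⁻¹ * d⁻¹) := by group
            rw [e]; exact this
          · refine D.mul_mem ?_ (D.inv_mem hd)
            exact hD.2 d hd q ((S : Subgroup G).mul_mem ((S : Subgroup G).mul_mem (haS hq') (hD.1 hd))
              ((S : Subgroup G).inv_mem (haS hq')))
        rw [hinf, Subgroup.mem_bot] at h1
        have h2 : q * d * q⁻¹ = d := by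
          have := congrArg (· * d) h1
          simpa [mul_assoc] using this
        calc q * d = q * d * q⁻¹ * q := by group
          _ = d * q := by rw [h2]
      refine lemF S hnorm hQ₂p (hyp D le_rfl inf_le_left) (fun q hq => hSD q (haS hq)) ?_ hg₂c
      intro n hn
      apply hDN
      intro x hx
      have h1 : x ∈ (S : Subgroup G) ⊓ centralizer (Q₂ : Set G) := Subgroup.mem_inf.mpr ⟨hD.1 hx, hDC hx⟩
      exact (((Subgroup.mem_normalizer_iff).mp hn x).mp h1).1
    · have hPN : PNil p (normalizer (Q₂ : Set G)) := by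
        refine ih_sub ih hD hfn htop ?_
        intro U₃ h1 h2
        have hU₃ne : U₃ ≠ ⊥ := by
          rintro rfl
          -- `D` meets the centre of `S`
          haveI hnil : Group.IsNilpotent (S : Subgroup G) := S.isPGroup'.isNilpotent
          haveI hnorm : (D.subgroupOf (S : Subgroup G)).Normal := by
            constructor
            intro x hx s
            rw [Subgroup.mem_subgroupOf] at hx ⊢
            exact (((Subgroup.mem_normalizer_iff).mp (hSD s s.2)) x).mp hx
          have hne' : D.subgroupOf (S : Subgroup G) ≠ ⊥ := by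
            intro h
            apply hDne
            rw [eq_bot_iff]
            intro x hx
            have : (⟨x, hD.1 hx⟩ : (S : Subgroup G)) ∈ D.subgroupOf (S : Subgroup G) := by
              simpa [Subgroup.mem_subgroupOf] using hx
            rw [h, Subgroup.mem_bot] at this
            have := congrArg Subtype.val this
            simpa using this
          have hinf := Cfsg.Agent.Lib.Core.normal_inf_center_ne_bot _ hne'
          obtain ⟨z, hz⟩ := Subgroup.ne_bot_iff_exists_ne_one.mp hinf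
          have hzD : (((z : ↥(D.subgroupOf (S : Subgroup G) ⊓ center (S : Subgroup G))) : (S : Subgroup G)) : G) ∈ D :=
            Subgroup.mem_subgroupOf.mp (z.2.1)
          have hzC := z.2.2
          set w : (S : Subgroup G) := (z : (S : Subgroup G)) with hw
          have hwH : (w : G) ∈ normalizer (Q₂ : Set G) := by
            apply Cfsg.Agent.Lib.PGroup.NilCover.centralizer_le_normalizer'
            rw [Subgroup.mem_centralizer_iff]
            intro q hq
            have h3 := (Subgroup.mem_center_iff.mp hzC) ⟨q, haS hq⟩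
            exact congrArg Subtype.val h3
          have h4 : (⟨(w : G), hwH⟩ : normalizer (Q₂ : Set G)) ∈ (⊥ : Subgroup (normalizer (Q₂ : Set G))) := by
            apply h2
            refine Subgroup.mem_inf.mpr ⟨by simpa [Subgroup.mem_subgroupOf] using hzD, ?_⟩
            rw [Subgroup.mem_centralizer_iff]
            intro u hu
            have hu' : u = 1 := hu
            rw [hu']; simp
          apply hz
          rw [Subgroup.mem_bot] at h4
          have h5 : (w : G) = 1 := congrArg Subtype.val h4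
          apply Subtype.ext
          apply Subtype.ext
          exact h5
        have hne : U₃.map (normalizer (Q₂ : Set G)).subtype ≠ ⊥ := fun h =>
          hU₃ne ((Subgroup.map_eq_bot_iff_of_injective U₃ (normalizer (Q₂ : Set G)).subtype_injective).mp h)
        have hle : U₃.map (normalizer (Q₂ : Set G)).subtype ≤ D := by
          rintro _ ⟨u, hu, rfl⟩
          exact h1 hu
        exact (k1 ih S hD hyp hB hle hne).mono (Subgroup.le_normalizer_map (normalizer (Q₂ : Set G)).subtype)
      exact comm_of_pNil hPN Subgroup.le_normalizer hQ₂p hg₂ hg₂c hg₂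
  have hg2 : a * g * a⁻¹ ∈ normalizer (Q₂ : Set G) := by
    rw [hQ₂, conj_normalizer]
    exact conj_mem_conjS hg
  have hg3 := key _ hg2 (by rw [orderOf_conj_eq]; exact hgc)
  rw [hQ₂, conj_centralizer_subgroup, mem_conjS] at hg3
  simpa [mul_assoc] using hg3

theorem main (n : ℕ) : ∀ (G : Type u) [Group G] [Finite G], Nat.card G = n →
    ∀ (S : Sylow p G) (D : Subgroup G), IsStronglyClosed D (S : Subgroup G) → CHyp p D →
    PNil p (⊤ : Subgroup G) := by
  induction n using Nat.strong_induction_on with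
  | _ n ih =>
    intro G _ _ hcard S D hD hyp
    have ih' : IH.{u} p (Nat.card G) := by
      intro G' _ _ hlt S' D' hD' hyp'
      exact ih _ (hcard ▸ hlt) G' rfl S' D' hD' hyp'
    by_cases hDb : D = ⊥
    · subst hDb
      have := hyp ⊥ le_rfl inf_le_left
      rwa [Subgroup.normalizer_eq_top_iff.mpr (inferInstance : (⊥ : Subgroup G).Normal)] at this
    by_cases hex : ∃ V : Subgroup G, V.Normal ∧ V ≤ D ∧ V ≠ ⊥
    · obtain ⟨V, hV, hVD, hV1⟩ := hex
      exact caseA ih' S hD hyp hV hVD hV1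
    · have hB : ∀ V : Subgroup G, V.Normal → V ≤ D → V = ⊥ := by
        intro V hV hVD
        by_contra h
        exact hex ⟨V, hV, hVD, h⟩
      obtain ⟨N, hN, hc⟩ := Cfsg.Agent.Lib.Transfer.frobenius S (frobHyp ih' S hD hyp hB hDb)
      exact pNil_top_of_hasNormalPComplement ⟨S, N, hN, hc⟩

/-- The theorem. -/
theorem relFrobenius {G : Type u} [Group G] [Finite G] {p : ℕ} [Fact p.Prime] (S : Sylow p G)
    (D : Subgroup G) (hD : IsStronglyClosed D (S : Subgroup G)) :
    HasNormalPComplement p G ↔ ∀ U : Subgroup G, U ≤ D → D ⊓ centralizer (U : Set G) ≤ U →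
      HasNormalPComplement p ↥(normalizer (U : Set G)) := by
  constructor
  · intro h U _ _
    exact Cfsg.Agent.Lib.Transfer.hasNormalPComplement_subgroup h _
  · intro h
    apply hasNormalPComplement_of_pNil_top
    exact main _ G rfl S D hD (fun U h1 h2 => (hasNormalPComplement_iff_pNil _).mp (h U h1 h2))

end Cfsg.Agent.Lib.PGroup.RelFrob
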