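import Mathlib
import Cfsg.Prelude.Def_Transfer
import Cfsg.Agent.Lib.PGroup.Nine

/-! Fibres of the squaring map, and counting modulo three. -/

set_option autoImplicit false

namespace Cfsg.Agent.Lib.PGroup.MinFamily

open Subgroup Cfsg

section
variable {G : Type*} [Group G]

/-- Counting fixed points modulo three. -/
theorem fin_mod_three [DecidableEq G] (S : Finset G) (y : G) (k : ℕ) (hy : y ^ 3 ^ k = 1)
    (hn : ∀ a ∈ S, y * a * y⁻¹ ∈ S) :
    S.card % 3 = (S.filter (fun a => y * a * y⁻¹ = a)).card % 3 := by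
  haveI : Fact (Nat.Prime 3) := ⟨Nat.prime_three⟩
  let f : Function.End ↥S := fun a => ⟨y * a * y⁻¹, hn a a.2⟩
  have hpow : ∀ (j : ℕ) (x : ↥S), ((f ^ j) x : G) = y ^ j * x * (y ^ j)⁻¹ := by
    intro j
    induction j with
    | zero => intro x; simp; rfl
    | succ j ih =>
      intro x
      rw [pow_succ]
      show (((f ^ j) (f x)) : G) = _
      rw [ih]
      show y ^ j * (y * x * y⁻¹) * (y ^ j)⁻¹ = _
      rw [pow_succ]
      group
  have hf : f ^ 3 ^ k = 1 := by
    funext x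
    apply Subtype.ext
    rw [hpow, hy]
    simp
    rfl
  have h1 := Equiv.Perm.card_fixedPoints_modEq (f := f) (p := 3) (n := k) hf
  rw [Fintype.card_coe] at h1
  have h2 : Fintype.card (Function.fixedPoints f) = (S.filter (fun a => y * a * y⁻¹ = a)).card := by
    rw [← Fintype.card_coe]
    apply Fintype.card_congr
    refine ⟨fun a => ⟨a.1.1, Finset.mem_filter.mpr ⟨a.1.2, congrArg Subtype.val a.2⟩⟩,
      fun a => ⟨⟨a.1, (Finset.mem_filter.mp a.2).1⟩, Subtype.ext (Finset.mem_filter.mp a.2).2⟩,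
      fun a => rfl, fun a => rfl⟩
  rw [h2] at h1
  exact h1

variable [Finite G]

/-- Counting fixed points modulo three, for subgroups. -/
theorem card_mod_three (A : Subgroup G) (y : G) (k : ℕ) (hy : y ^ 3 ^ k = 1)
    (hn : ∀ a ∈ A, y * a * y⁻¹ ∈ A) :
    Nat.card A % 3 = Nat.card ↥(A ⊓ centralizer ({y} : Set G)) % 3 := by
  classical
  have hfin := Set.toFinite (A : Set G)
  have h1 := fin_mod_three hfin.toFinset y k hy (by
    intro a ha
    rw [Set.Finite.mem_toFinset] at ha ⊢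
    exact hn a ha)
  have e1 : Nat.card A = hfin.toFinset.card := Nat.card_eq_card_finite_toFinset hfin
  have hfin2 := Set.toFinite ((A ⊓ centralizer ({y} : Set G) : Subgroup G) : Set G)
  have e2 : Nat.card ↥(A ⊓ centralizer ({y} : Set G)) = hfin2.toFinset.card :=
    Nat.card_eq_card_finite_toFinset hfin2
  have e3 : hfin.toFinset.filter (fun a => y * a * y⁻¹ = a) = hfin2.toFinset := by
    ext a
    simp only [Finset.mem_filter, Set.Finite.mem_toFinset, SetLike.mem_coe, Subgroup.mem_inf,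
      Subgroup.mem_centralizer_singleton_iff]
    constructor
    · rintro ⟨h1, h2⟩
      refine ⟨h1, ?_⟩
      rw [mul_inv_eq_iff_eq_mul] at h2
      exact h2.symm
    · rintro ⟨h1, h2⟩
      refine ⟨h1, ?_⟩
      rw [mul_inv_eq_iff_eq_mul]
      exact h2.symm
  rw [e1, e2, ← e3]
  exact h1

omit [Finite G] in
/-- Adjoining an involution centralizing an elementary abelian `2`-subgroup. -/
theorem exists_elem_adjoin {W : Subgroup G} (hW : IsElementaryAbelian 2 W) {t : G} (ht : t ^ 2 = 1)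
    (htc : ∀ w ∈ W, t * w = w * t) : ∃ E : Subgroup G, W ≤ E ∧ t ∈ E ∧ IsElementaryAbelian 2 E := by
  have htt : t * t = 1 := by rw [← pow_two]; exact ht
  have hti : t⁻¹ = t := inv_eq_of_mul_eq_one_right htt
  have hWc : ∀ a ∈ W, ∀ b ∈ W, a * b = b * a := fun a ha b hb =>
    congrArg Subtype.val (hW.1.is_comm.comm ⟨a, ha⟩ ⟨b, hb⟩)
  have hcm : ∀ a, t * a ∈ W → a * t = t * a := by
    intro a ha
    have h2 : t * (t * a) = (t * a) * t := htc _ ha
    have h3 : a = t * a * t := by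
      rw [← h2, ← mul_assoc, htt, one_mul]
    calc a * t = t * a * t * t := by rw [← h3]
      _ = t * a * (t * t) := by group
      _ = t * a := by rw [htt, mul_one]
  let E : Subgroup G :=
    { carrier := {x | x ∈ W ∨ t * x ∈ W}
      mul_mem' := by
        rintro a b (ha | ha) (hb | hb)
        · exact Or.inl (W.mul_mem ha hb)
        · refine Or.inr ?_
          have e : t * (a * b) = a * (t * b) := by
            rw [← mul_assoc, htc a ha, mul_assoc]
          rw [e]
          exact W.mul_mem ha hb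
        · refine Or.inr ?_
          rw [← mul_assoc]
          exact W.mul_mem ha hb
        · refine Or.inl ?_
          have e : a * b = (t * a) * (t * b) := by
            calc a * b = (t * t) * (a * b) := by rw [htt, one_mul]
              _ = t * (t * a) * b := by group
              _ = t * (a * t) * b := by rw [hcm a ha]
              _ = _ := by group
          rw [e]
          exact W.mul_mem ha hb
      one_mem' := Or.inl W.one_mem
      inv_mem' := by
        rintro a (ha | ha)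
        · exact Or.inl (W.inv_mem ha)
        · refine Or.inr ?_
          have e : t * a⁻¹ = (t * a)⁻¹ := by
            have h3 : (t * a)⁻¹ = a⁻¹ * t := by rw [mul_inv_rev, hti]
            rw [h3]
            have h4 : Commute a t := hcm a ha
            exact (h4.inv_left).eq.symm
          rw [e]
          exact W.inv_mem ha }
  have hdec : ∀ x ∈ E, ∃ w ∈ W, x = w ∨ x = t * w := by
    rintro x (hx | hx)
    · exact ⟨x, hx, Or.inl rfl⟩
    · exact ⟨t * x, hx, Or.inr (by rw [← mul_assoc, htt, one_mul])⟩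
  refine ⟨E, fun w hw => Or.inl hw, Or.inr (by rw [htt]; exact W.one_mem), ⟨⟨⟨?_⟩⟩, ?_⟩⟩
  · rintro ⟨a, ha⟩ ⟨b, hb⟩
    apply Subtype.ext
    show a * b = b * a
    obtain ⟨w, hw, ea⟩ := hdec a ha
    obtain ⟨v, hv, eb⟩ := hdec b hb
    rcases ea with ea | ea <;> rcases eb with eb | eb <;> rw [ea, eb]
    · exact hWc w hw v hv
    · rw [← mul_assoc, ← htc w hw, mul_assoc, hWc w hw v hv, mul_assoc]
    · rw [mul_assoc, hWc w hw v hv, ← mul_assoc, htc v hv, mul_assoc]
    · calc t * w * (t * v) = t * (w * t) * v := by group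
        _ = t * (t * w) * v := by rw [htc w hw]
        _ = (t * t) * (w * v) := by group
        _ = (t * t) * (v * w) := by rw [hWc w hw v hv]
        _ = t * (t * v) * w := by group
        _ = t * (v * t) * w := by rw [htc v hv]
        _ = _ := by group
  · intro a ha
    obtain ⟨w, hw, ea⟩ := hdec a ha
    rcases ea with ea | ea <;> rw [ea]
    · exact hW.2 w hw
    · have e : (t * w) ^ 2 = (t * t) * (w * w) := by
        calc (t * w) ^ 2 = t * (w * t) * w := by rw [pow_two]; group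
          _ = t * (t * w) * w := by rw [htc w hw]
          _ = _ := by group
      rw [e, htt, one_mul, ← pow_two]
      exact hW.2 w hw

/-- The element of order dividing two in the center of a nontrivial `2`-group. -/
theorem omegaZ_ne_bot [Fact (2 : ℕ).Prime] {Q : Subgroup G} (hp : IsPGroup 2 Q) (hQne : Q ≠ ⊥) :
    omegaZ Q ≠ ⊥ := by
  haveI : Nontrivial ↥Q := (Subgroup.nontrivial_iff_ne_bot Q).mpr hQne
  haveI := hp.center_nontrivial
  obtain ⟨k, hk0, hk⟩ := (IsPGroup.nontrivial_iff_card (hp.to_subgroup (Subgroup.center ↥Q))).mp inferInstance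
  have h2 : 2 ∣ Nat.card (Subgroup.center ↥Q) := by
    rw [hk]; exact dvd_pow_self 2 hk0.ne'
  obtain ⟨y, hy⟩ := exists_prime_orderOf_dvd_card' 2 h2
  have hy2 : (y : ↥Q) ^ 2 = 1 := by
    have : y ^ 2 = 1 := by rw [← hy]; exact pow_orderOf_eq_one y
    exact congrArg Subtype.val this
  have hyΩ : (y : ↥Q) ∈ omegaZ Q := ⟨y.2, hy2⟩
  intro h1
  rw [h1, Subgroup.mem_bot] at hyΩ
  have h4 : y = 1 := Subtype.ext hyΩ
  rw [h4] at hy
  simp at hy

/-- A `p`-group normalizing a nontrivial `p`-group centralizes a nontrivial element. -/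
theorem exists_fixed {p : ℕ} [Fact p.Prime] {Y Z : Subgroup G} (hY : IsPGroup p Y) (hZ : IsPGroup p Z)
    (hZ1 : Z ≠ ⊥) (hYZ : Y ≤ normalizer (Z : Set G)) : ∃ z ∈ Z, z ≠ 1 ∧ ∀ y ∈ Y, y * z = z * y := by
  have hsup : IsPGroup p ↥(Y ⊔ Z) := IsPGroup.to_sup_of_normal_right' hY hZ hYZ
  haveI : Group.IsNilpotent ↥(Y ⊔ Z) := hsup.isNilpotent
  haveI hn : (Z.subgroupOf (Y ⊔ Z)).Normal := by
    apply Subgroup.normal_subgroupOf_iff_le_normalizer le_sup_right |>.mpr
    exact sup_le hYZ Subgroup.le_normalizer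
  have hne : Z.subgroupOf (Y ⊔ Z) ≠ ⊥ := by
    intro h
    apply hZ1
    rw [eq_bot_iff]
    intro z hz
    have h1 : (⟨z, (le_sup_right : Z ≤ Y ⊔ Z) hz⟩ : ↥(Y ⊔ Z)) ∈ Z.subgroupOf (Y ⊔ Z) := by
      simpa [Subgroup.mem_subgroupOf] using hz
    rw [h, Subgroup.mem_bot] at h1
    exact Subgroup.mem_bot.mpr (congrArg Subtype.val h1)
  have hinf := Cfsg.Agent.Lib.Core.normal_inf_center_ne_bot _ hne
  obtain ⟨w, hw⟩ := Subgroup.ne_bot_iff_exists_ne_one.mp hinf
  refine ⟨((w : ↥(Y ⊔ Z)) : G), Subgroup.mem_subgroupOf.mp w.2.1, ?_, ?_⟩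
  · intro h
    apply hw
    apply Subtype.ext
    apply Subtype.ext
    exact h
  · intro y hy
    have := Subgroup.mem_center_iff.mp w.2.2 ⟨y, (le_sup_left : Y ≤ Y ⊔ Z) hy⟩
    exact congrArg Subtype.val this

/-- The fibres of the squaring map, counted modulo three. -/
theorem centralizes_of_fibres {R W : Subgroup G} (hWR : W ≤ R) (hW4 : Nat.card W = 4)
    (hWel : ∀ w ∈ W, w ^ 2 = 1) (hcen : ∀ w ∈ W, ∀ r ∈ R, r * w = w * r) (hsq : ∀ r ∈ R, r ^ 2 ∈ W)
    (h1 : ∀ r ∈ R, r ^ 2 = 1 → r ∈ W) {d x : G} {k : ℕ} (hdk : d ^ 3 ^ k = 1)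
    (hdR : d ∈ normalizer (R : Set G)) (hdW : ∀ w ∈ W, d * w * d⁻¹ ∈ W)
    (hfpf : ∀ w ∈ W, d * w * d⁻¹ = w → w = 1) {j : ℕ} (hx3 : x ^ 3 ^ j = 1)
    (hxR : ∀ r ∈ R, x * r * x⁻¹ ∈ R) (hxW : ∀ w ∈ W, x * w * x⁻¹ = w) {v m : ℕ}
    (hv : Nat.card R = 4 * v) (hv16 : v ≤ 16) (hv1 : v ≠ 1) (hm : Nat.card R = 2 ^ m) :
    ∀ r ∈ R, x * r * x⁻¹ = r := by
  classical
  have hWne : W ≠ ⊥ := by
    rintro rfl
    rw [Subgroup.card_bot] at hW4
    omega
  obtain ⟨⟨w₁, hw₁⟩, hw₁1'⟩ := Subgroup.ne_bot_iff_exists_ne_one.mp hWne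
  have hw₁1 : w₁ ≠ 1 := fun h => hw₁1' (Subtype.ext h)
  obtain ⟨w₂, hw₂d⟩ : ∃ w₂, w₂ = d * w₁ * d⁻¹ := ⟨_, rfl⟩
  obtain ⟨w₃, hw₃d⟩ : ∃ w₃, w₃ = d * w₂ * d⁻¹ := ⟨_, rfl⟩
  have hw₂ : w₂ ∈ W := by rw [hw₂d]; exact hdW _ hw₁
  have hw₃ : w₃ ∈ W := by rw [hw₃d]; exact hdW _ hw₂
  have hconj1 : ∀ y, y ≠ 1 → d * y * d⁻¹ ≠ 1 := by
    intro y hy h
    apply hy
    have := congrArg (fun z => d⁻¹ * z * d) h
    simpa [mul_assoc] using this
  have hw₂1 : w₂ ≠ 1 := by rw [hw₂d]; exact hconj1 _ hw₁1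
  have hw₃1 : w₃ ≠ 1 := by rw [hw₃d]; exact hconj1 _ hw₂1
  have h21 : w₂ ≠ w₁ := fun h => hw₁1 (hfpf _ hw₁ (by rw [← hw₂d]; exact h))
  have h32 : w₃ ≠ w₂ := fun h => hw₂1 (hfpf _ hw₂ (by rw [← hw₃d]; exact h))
  have h31 : w₃ ≠ w₁ := by
    intro h
    have h2 : d ^ 2 * w₁ * (d ^ 2)⁻¹ = w₁ := by
      have e : w₁ = d * (d * w₁ * d⁻¹) * d⁻¹ := by
        rw [← hw₂d, ← hw₃d, h]
      conv_rhs => rw [e]
      rw [pow_two]
      group
    have h3 : ∀ n : ℕ, (d ^ 2) ^ n * w₁ * ((d ^ 2) ^ n)⁻¹ = w₁ := by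
      intro n
      induction n with
      | zero => simp
      | succ n ih =>
        calc (d ^ 2) ^ (n + 1) * w₁ * ((d ^ 2) ^ (n + 1))⁻¹
            = (d ^ 2) ^ n * (d ^ 2 * w₁ * (d ^ 2)⁻¹) * ((d ^ 2) ^ n)⁻¹ := by
              rw [pow_succ]; group
          _ = w₁ := by rw [h2, ih]
    have hodd : Odd (3 ^ k) := Odd.pow (by decide)
    obtain ⟨t, ht⟩ := hodd
    have h4 := h3 (t + 1)
    have e : (d ^ 2) ^ (t + 1) = d := by
      rw [← pow_mul]
      have : 2 * (t + 1) = 3 ^ k + 1 := by omega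
      rw [this, pow_succ, hdk, one_mul]
    rw [e] at h4
    exact hw₁1 (hfpf _ hw₁ h4)
  -- the finset of `W`
  have hfinW := Set.toFinite (W : Set G)
  let Ws : Finset G := {1, w₁, w₂, w₃}
  have hne1 : (1 : G) ∉ ({w₁, w₂, w₃} : Finset G) := by
    simp only [Finset.mem_insert, Finset.mem_singleton, not_or]
    exact ⟨hw₁1.symm, hw₂1.symm, hw₃1.symm⟩
  have hne2 : w₁ ∉ ({w₂, w₃} : Finset G) := by
    simp only [Finset.mem_insert, Finset.mem_singleton, not_or]
    exact ⟨h21.symm, h31.symm⟩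
  have hne3 : w₂ ∉ ({w₃} : Finset G) := by
    simp only [Finset.mem_singleton]
    exact h32.symm
  have hcWs : Ws.card = 4 := by
    rw [Finset.card_insert_of_notMem hne1, Finset.card_insert_of_notMem hne2,
      Finset.card_insert_of_notMem hne3, Finset.card_singleton]
  have hWseq : Ws = hfinW.toFinset := by
    apply Finset.eq_of_subset_of_card_le
    · intro a ha
      rw [Set.Finite.mem_toFinset]
      simp only [Ws, Finset.mem_insert, Finset.mem_singleton] at ha
      rcases ha with rfl | rfl | rfl | rfl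
      · exact W.one_mem
      · exact hw₁
      · exact hw₂
      · exact hw₃
    · rw [hcWs, ← Nat.card_eq_card_finite_toFinset hfinW]
      exact hW4.le
  have hWs : ∀ a, a ∈ Ws ↔ a ∈ W := by
    intro a
    rw [hWseq, Set.Finite.mem_toFinset]
    rfl
  have hfinR := Set.toFinite (R : Set G)
  let Rs : Finset G := hfinR.toFinset
  have hRs : ∀ a, a ∈ Rs ↔ a ∈ R := by
    intro a
    rw [Set.Finite.mem_toFinset]
    rfl
  have hcR : Rs.card = Nat.card R := (Nat.card_eq_card_finite_toFinset hfinR).symm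
  let Cs : Finset G := Rs.filter (fun r => x * r * x⁻¹ = r)
  let F : G → ℕ := fun w => (Rs.filter (fun r => r ^ 2 = w)).card
  let K : G → ℕ := fun w => (Cs.filter (fun r => r ^ 2 = w)).card
  have hsum1 : Rs.card = F 1 + (F w₁ + (F w₂ + F w₃)) := by
    have h := Finset.card_eq_sum_card_fiberwise (f := fun r : G => r ^ 2) (s := Rs) (t := Ws)
      (fun r hr => (hWs _).mpr (hsq r ((hRs r).mp hr)))
    rw [h, Finset.sum_insert hne1, Finset.sum_insert hne2, Finset.sum_insert hne3, Finset.sum_singleton]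
  have hsum2 : Cs.card = K 1 + (K w₁ + (K w₂ + K w₃)) := by
    have h := Finset.card_eq_sum_card_fiberwise (f := fun r : G => r ^ 2) (s := Cs) (t := Ws)
      (fun r hr => (hWs _).mpr (hsq r ((hRs r).mp (Finset.mem_filter.mp hr).1)))
    rw [h, Finset.sum_insert hne1, Finset.sum_insert hne2, Finset.sum_insert hne3, Finset.sum_singleton]
  have hF1 : F 1 = 4 := by
    rw [← hcWs]
    show (Rs.filter (fun r => r ^ 2 = 1)).card = _
    congr 1
    ext a
    rw [Finset.mem_filter, hRs, hWs]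
    exact ⟨fun ⟨h2, h3⟩ => h1 a h2 h3, fun h => ⟨hWR h, hWel a h⟩⟩
  have hK1 : K 1 = 4 := by
    rw [← hcWs]
    show (Cs.filter (fun r => r ^ 2 = 1)).card = _
    congr 1
    ext a
    rw [Finset.mem_filter, Finset.mem_filter, hRs, hWs]
    exact ⟨fun ⟨⟨h2, _⟩, h3⟩ => h1 a h2 h3, fun h => ⟨⟨hWR h, hxW a h⟩, hWel a h⟩⟩
  have hFd : ∀ w, F (d * w * d⁻¹) = F w := by
    intro w
    symm
    apply Finset.card_nbij' (fun r => d * r * d⁻¹) (fun r => d⁻¹ * r * d)
    · intro r hr
      have hr' := Finset.mem_filter.mp (Finset.mem_coe.mp hr)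
      refine Finset.mem_coe.mpr (Finset.mem_filter.mpr ⟨(hRs _).mpr ?_, ?_⟩)
      · exact (Subgroup.mem_normalizer_iff.mp hdR r).mp ((hRs r).mp hr'.1)
      · show (d * r * d⁻¹) ^ 2 = _
        rw [conj_pow, hr'.2]
    · intro r hr
      have hr' := Finset.mem_filter.mp (Finset.mem_coe.mp hr)
      refine Finset.mem_coe.mpr (Finset.mem_filter.mpr ⟨(hRs _).mpr ?_, ?_⟩)
      · have := (Subgroup.mem_normalizer_iff.mp (Subgroup.inv_mem _ hdR) r).mp ((hRs r).mp hr'.1)
        simpa using this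
      · have e : d⁻¹ * r * d = d⁻¹ * r * (d⁻¹)⁻¹ := by simp
        show (d⁻¹ * r * d) ^ 2 = w
        rw [e, conj_pow, hr'.2]
        group
    · intro r _
      show d⁻¹ * (d * r * d⁻¹) * d = r
      group
    · intro r _
      show d * (d⁻¹ * r * d) * d⁻¹ = r
      group
  have hF2 : F w₂ = F w₁ := by rw [hw₂d]; exact hFd _
  have hF3 : F w₃ = F w₁ := by rw [hw₃d, hFd, hF2]
  have hKmod : ∀ w ∈ W, K w % 3 = F w % 3 := by
    intro w hw
    have h2 := fin_mod_three (Rs.filter (fun r => r ^ 2 = w)) x j hx3 (by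
      intro r hr
      have hr' := Finset.mem_filter.mp hr
      refine Finset.mem_filter.mpr ⟨(hRs _).mpr (hxR r ((hRs r).mp hr'.1)), ?_⟩
      rw [conj_pow, hr'.2, hxW w hw])
    have e : (Rs.filter (fun r => r ^ 2 = w)).filter (fun a => x * a * x⁻¹ = a) =
        Cs.filter (fun r => r ^ 2 = w) := by
      rw [Finset.filter_comm]
    rw [e] at h2
    exact h2.symm
  have hcmod : Cs.card % 3 = Rs.card % 3 :=
    (fin_mod_three Rs x j hx3 (fun r hr => (hRs _).mpr (hxR r ((hRs r).mp hr)))).symm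
  -- `Cs` is a subgroup
  have hfinC := Set.toFinite ((R ⊓ centralizer ({x} : Set G) : Subgroup G) : Set G)
  have hCs : Cs = hfinC.toFinset := by
    ext a
    simp only [Cs, Finset.mem_filter, hRs, Set.Finite.mem_toFinset, SetLike.mem_coe, Subgroup.mem_inf,
      Subgroup.mem_centralizer_singleton_iff]
    constructor
    · rintro ⟨h2, h3⟩
      refine ⟨h2, ?_⟩
      rw [mul_inv_eq_iff_eq_mul] at h3
      exact h3.symm
    · rintro ⟨h2, h3⟩
      refine ⟨h2, ?_⟩
      rw [mul_inv_eq_iff_eq_mul]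
      exact h3.symm
  have hcC : Cs.card = Nat.card ↥(R ⊓ centralizer ({x} : Set G)) := by
    rw [hCs]
    exact (Nat.card_eq_card_finite_toFinset hfinC).symm
  have hdvd : Cs.card ∣ Rs.card := by
    rw [hcC, hcR]
    exact Subgroup.card_dvd_of_le inf_le_left
  -- cosets
  have hcoset : ∀ w, K w ≠ 0 → 4 ≤ K w := by
    intro w hw
    obtain ⟨r, hr⟩ := Finset.card_pos.mp (Nat.pos_of_ne_zero hw)
    have hr' := Finset.mem_filter.mp hr
    have hr2 := Finset.mem_filter.mp hr'.1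
    rw [← hcWs]
    apply Finset.card_le_card_of_injOn (fun a => r * a)
    · intro a ha
      have haW := (hWs a).mp (Finset.mem_coe.mp ha)
      have hrR := (hRs r).mp hr2.1
      refine Finset.mem_coe.mpr (Finset.mem_filter.mpr ⟨Finset.mem_filter.mpr ⟨(hRs _).mpr (R.mul_mem hrR (hWR haW)), ?_⟩, ?_⟩)
      · calc x * (r * a) * x⁻¹ = (x * r * x⁻¹) * (x * a * x⁻¹) := by group
          _ = r * a := by rw [hr2.2, hxW a haW]
      · have hcm : Commute r a := hcen a haW r hrR
        rw [hcm.mul_pow, hWel a haW, mul_one, hr'.2]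
    · intro a _ b _ hab
      exact mul_left_cancel hab
  -- arithmetic
  have hn : Rs.card = 4 * v := by rw [hcR, hv]
  have hn2 : Rs.card = 2 ^ m := by rw [hcR, hm]
  have hsum1' : Rs.card = 4 + 3 * F w₁ := by
    rw [hsum1, hF1, hF2, hF3]; ring
  have hm6 : m ≤ 6 := by
    by_contra hcon
    have h2 : 2 ^ 7 ≤ 2 ^ m := Nat.pow_le_pow_right (by norm_num) (by omega)
    omega
  have hcases : Rs.card = 16 ∨ Rs.card = 64 := by
    rw [hn2] at hsum1' hn ⊢
    have hv0 : v ≠ 0 := by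
      rintro rfl
      have := pow_pos (show 0 < 2 by norm_num) m
      omega
    interval_cases m <;> omega
  have hK1' := hKmod w₁ hw₁
  have hK2' := hKmod w₂ hw₂
  have hK3' := hKmod w₃ hw₃
  have hCR : Cs.card = Rs.card := by
    rcases hcases with h16 | h64
    · have hFw : F w₁ = 4 := by omega
      rw [hF2, hFw] at hK2'
      rw [hF3, hFw] at hK3'
      rw [hFw] at hK1'
      have h7 : 7 ≤ Cs.card := by omega
      rw [h16] at hdvd hcmod ⊢
      have hle := Nat.le_of_dvd (by norm_num) hdvd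
      interval_cases h : Cs.card <;> omega
    · have hFw : F w₁ = 20 := by omega
      rw [hF2, hFw] at hK2'
      rw [hF3, hFw] at hK3'
      rw [hFw] at hK1'
      have a1 := hcoset w₁ (by omega)
      have a2 := hcoset w₂ (by omega)
      have a3 := hcoset w₃ (by omega)
      have h19 : 19 ≤ Cs.card := by omega
      rw [h64] at hdvd hcmod ⊢
      have hle := Nat.le_of_dvd (by norm_num) hdvd
      interval_cases h : Cs.card <;> omega
  have hall : Cs = Rs := Finset.eq_of_subset_of_card_le (Finset.filter_subset _ _) hCR.ge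
  intro r hr
  have : r ∈ Cs := by rw [hall]; exact (hRs r).mpr hr
  exact (Finset.mem_filter.mp this).2

end

end Cfsg.Agent.Lib.PGroup.MinFamily
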