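import Mathlib
import Cfsg.Prelude.Def_Transfer
import Cfsg.Prelude.Def_PLocal
import Cfsg.Prelude.Def_CaseTheorems
import Cfsg.Agent.Lib.Cl.CycNormal
import Cfsg.Agent.Lib.Transfer.Critical
import Cfsg.Agent.Lib.Transfer.Frat
import Cfsg.Agent.Lib.Amalgam.ResOf
import Cfsg.Agent.Lib.PGroup.Basic
import Cfsg.Agent.Lib.PGroup.Pairing
import Cfsg.Agent.Lib.PGroup.Heisenberg
import Cfsg.Agent.Lib.PGroup.MaxClassK

/-! P. Hall's theorem on `p`-groups of symplectic type. -/

set_option autoImplicit false
set_option linter.style.haveILetI false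

namespace Cfsg.Agent.Lib.PGroup.SympType

open Subgroup Cfsg
open scoped commutatorElement

section Basic

variable {G : Type*} [Group G]

/-- In a cyclic group a smaller order gives a smaller subgroup. -/
theorem mem_zpowers_of_orderOf_dvd [Finite G] {a b c : G} (hb : b ∈ zpowers a) (hc : c ∈ zpowers a)
    (h : orderOf b ∣ orderOf c) : b ∈ zpowers c := by
  classical
  haveI := Fintype.ofFinite (zpowers a)
  let b' : zpowers a := ⟨b, hb⟩
  let c' : zpowers a := ⟨c, hc⟩
  have hd : 0 < orderOf c' := orderOf_pos c'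
  have hS := IsCyclic.card_pow_eq_one_le (α := zpowers a) hd
  have hT : (Finset.univ.filter (fun x : zpowers a => x ∈ zpowers c')).card = orderOf c' := by
    rw [← Nat.card_zpowers]
    rw [Nat.card_eq_fintype_card]
    rw [Fintype.card_subtype]
  have hsub : (Finset.univ.filter (fun x : zpowers a => x ∈ zpowers c')) ⊆
      (Finset.univ.filter (fun x : zpowers a => x ^ orderOf c' = 1)) := by
    intro x hx
    rw [Finset.mem_filter] at hx ⊢
    refine ⟨Finset.mem_univ _, ?_⟩
    obtain ⟨k, rfl⟩ := hx.2
    rw [← zpow_natCast, ← zpow_mul, mul_comm, zpow_mul, zpow_natCast, pow_orderOf_eq_one, one_zpow]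
  have heq := Finset.eq_of_subset_of_card_le hsub (by rw [hT]; exact hS)
  have hb' : b' ∈ Finset.univ.filter (fun x : zpowers a => x ^ orderOf c' = 1) := by
    rw [Finset.mem_filter]
    refine ⟨Finset.mem_univ _, orderOf_dvd_iff_pow_eq_one.1 ?_⟩
    have e1 : orderOf b' = orderOf b := Subgroup.orderOf_mk b hb
    have e2 : orderOf c' = orderOf c := Subgroup.orderOf_mk c hc
    rw [e1, e2]
    exact h
  rw [← heq, Finset.mem_filter] at hb'
  obtain ⟨k, hk⟩ := hb'.2
  refine ⟨k, ?_⟩
  have := congrArg Subtype.val hk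
  simpa [b', c'] using this

/-- Recognition of extraspecial groups. -/
theorem isExtraspecial_of_data {T : Type*} [Group T] [Finite T] {p : ℕ} [hp : Fact p.Prime] (hT : IsPGroup p T)
    {Z : Subgroup T} (hcen : center T = Z) (hcard : Nat.card Z = p) (hcom : ∀ a b : T, ⁅a, b⁆ ∈ Z)
    (hpow : ∀ a : T, a ^ p ∈ Z) (hna : ¬ IsMulCommutative T) : IsExtraspecial p T := by
  have hpp := hp.out
  have h1 : commutator T ≤ Z := by
    rw [_root_.commutator_def, commutator_le]
    intro a _ b _
    exact hcom a b
  have h2 : commutator T ≠ ⊥ := by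
    intro h
    apply hna
    refine ⟨⟨fun a b => ?_⟩⟩
    have h3 : ⁅a, b⁆ ∈ commutator T := commutator_mem_commutator (mem_top a) (mem_top b)
    rw [h, mem_bot, commutatorElement_eq_one_iff_mul_comm] at h3
    exact h3
  have h3 : commutator T = Z := by
    have h4 := Subgroup.card_dvd_of_le h1
    rw [hcard] at h4
    rcases (Nat.dvd_prime hpp).1 h4 with h5 | h5
    · exact absurd (Subgroup.eq_bot_of_card_eq _ h5) h2
    · exact Subgroup.eq_of_le_of_card_ge h1 (by rw [hcard, h5])
  have h5 : frattini T = Z :=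
    le_antisymm (Cfsg.Agent.Lib.Amalgam.frattini_le_of_elementary_quotient (p := p) Z hcom hpow)
      (by rw [← h3]; exact Cfsg.Agent.Lib.Transfer.commutator_le_frattini hT)
  refine ⟨⟨hT, ?_, ?_⟩, ?_⟩
  · rw [h5, hcen]
  · rw [h3, hcen]
  · rw [hcen, hcard]

/-- `G = E C_G(E)` when `G` induces inner automorphisms on `E`. -/
theorem sup_centralizer_eq_top [Finite G] {p : ℕ} [hp : Fact p.Prime] {E₀ : Subgroup G} {z : G}
    (hzo : orderOf z = p) (hzE : z ∈ E₀) (hzc : z ∈ center G)
    (hcom : ∀ g : G, ∀ x ∈ E₀, ⁅g, x⁆ ∈ zpowers z)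
    (hcen : E₀ ⊓ centralizer (E₀ : Set G) = zpowers z) : E₀ ⊔ centralizer (E₀ : Set G) = ⊤ := by
  have hpp := hp.out
  have hn : E₀.Normal := by
    constructor
    intro x hx g
    have h1 := hcom g x hx
    have h2 : g * x * g⁻¹ = ⁅g, x⁆ * x := by
      rw [commutatorElement_def]
      group
    rw [h2]
    refine E₀.mul_mem ?_ hx
    exact (zpowers_le.2 hzE) h1
  have hzcc : ∀ c ∈ zpowers z, ∀ g : G, c * g = g * c := by
    intro c hc g
    exact ((zpowers_le.2 hzc) hc |> mem_center_iff.1) g |>.symm
  by_cases hb : ⁅(⊤ : Subgroup G), E₀⁆ = ⊥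
  · rw [eq_top_iff]
    intro g _
    refine mem_sup_right (mem_centralizer_iff.2 fun x hx => ?_)
    have h1 : ⁅g, x⁆ ∈ ⁅(⊤ : Subgroup G), E₀⁆ := commutator_mem_commutator (mem_top g) hx
    rw [hb, mem_bot, commutatorElement_eq_one_iff_mul_comm] at h1
    exact h1.symm
  have hle : ⁅(⊤ : Subgroup G), E₀⁆ ≤ zpowers z := by
    rw [commutator_le]
    intro a _ b hb
    exact hcom a b hb
  have heq : ⁅(⊤ : Subgroup G), E₀⁆ = zpowers z := by
    have h4 := Subgroup.card_dvd_of_le hle
    rw [Nat.card_zpowers, hzo] at h4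
    rcases (Nat.dvd_prime hpp).1 h4 with h5 | h5
    · exact absurd (Subgroup.eq_bot_of_card_eq _ h5) hb
    · exact Subgroup.eq_of_le_of_card_ge hle (by rw [Nat.card_zpowers, hzo, h5])
  have hpair := Cfsg.Agent.Lib.PGroup.relIndex_centralizer_eq_of_central_commutator (⊤ : Subgroup G) E₀
    (by rw [heq, Nat.card_zpowers, hzo]; exact hpp)
    (by rw [heq]; exact fun c hc a _ => hzcc c hc a)
    (by rw [heq]; exact fun c hc a _ => hzcc c hc a)
    le_top
  have h1 : E₀ ⊓ centralizer ((⊤ : Subgroup G) : Set G) = zpowers z := by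
    apply le_antisymm
    · rw [← hcen]
      intro x hx
      refine ⟨hx.1, mem_centralizer_iff.2 fun h _ => ?_⟩
      exact mem_centralizer_iff.1 hx.2 h (mem_top h)
    · rw [zpowers_le]
      refine ⟨hzE, mem_centralizer_iff.2 fun h _ => ?_⟩
      exact (mem_center_iff.1 hzc h)
  rw [h1, top_inf_eq, relIndex_top_right, ← hcen, inf_comm, inf_relIndex_right] at hpair
  have h2 := relIndex_mul_index (H := centralizer (E₀ : Set G)) (K := E₀ ⊔ centralizer (E₀ : Set G)) le_sup_right
  rw [relIndex_sup_right, ← hpair] at h2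
  have h3 : (E₀ ⊔ centralizer (E₀ : Set G)).index = 1 := by
    have h4 : (centralizer (E₀ : Set G)).index ≠ 0 := index_ne_zero_of_finite
    exact Nat.eq_of_mul_eq_mul_left (Nat.pos_of_ne_zero h4) (by rw [h2, mul_one])
  exact index_eq_one.1 h3

/-- The subgroup `Y` is abelian: comparing `p`-th powers in a cyclic group. -/
theorem commute_of_pow_cyclic [Finite G] {p : ℕ} [hp : Fact p.Prime] {a : G} {n : ℕ} (ha : orderOf a = p ^ n)
    (Y D : Subgroup G) (hmul : ∀ u ∈ Y, ∀ v ∈ Y, (u * v) ^ p * (u ^ p * v ^ p)⁻¹ ∈ D)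
    (hker : ∀ u ∈ Y, u ^ p ∈ D → u ∈ zpowers a) (hpZ : ∀ u ∈ Y, u ^ p ∈ zpowers a)
    (hcent : ∀ u ∈ Y, Commute u a) {y y' : G} (hy : y ∈ Y) (hy' : y' ∈ Y) : y * y' = y' * y := by
  have hpp := hp.out
  have key : ∀ {s t : G}, s ∈ Y → t ∈ Y → t ^ p ∈ zpowers (s ^ p) → s * t = t * s := by
    intro s t hs ht hk
    obtain ⟨k, hk⟩ := hk
    have hk' : (s ^ p) ^ k = t ^ p := hk
    have hsk : (s ^ k)⁻¹ ∈ Y := Y.inv_mem (Y.zpow_mem hs k)
    have h1 := hmul t ht _ hsk
    have h2 : ((s ^ k)⁻¹) ^ p = (t ^ p)⁻¹ := by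
      have e : (s ^ k) ^ p = (s ^ p) ^ k := by
        rw [← zpow_natCast (s ^ k) p, ← zpow_mul, mul_comm, zpow_mul, zpow_natCast]
      rw [inv_pow, e, hk']
    rw [h2, mul_inv_cancel, inv_one, mul_one] at h1
    have h3 := hker _ (Y.mul_mem ht hsk) h1
    obtain ⟨j, hj⟩ := h3
    have hj' : a ^ j = t * (s ^ k)⁻¹ := hj
    have h4 : t = a ^ j * s ^ k := by
      rw [hj']
      group
    rw [h4]
    have hc1 : Commute s (a ^ j) := (hcent s hs).zpow_right j
    have hc2 : Commute s (s ^ k) := (Commute.refl s).zpow_right k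
    exact (hc1.mul_right hc2).eq
  have hb := hpZ y hy
  have hc := hpZ y' hy'
  have hdb : orderOf (y ^ p) ∣ p ^ n := by
    rw [← ha]
    exact orderOf_dvd_of_mem_zpowers hb
  have hdc : orderOf (y' ^ p) ∣ p ^ n := by
    rw [← ha]
    exact orderOf_dvd_of_mem_zpowers hc
  obtain ⟨i, _, hi⟩ := (Nat.dvd_prime_pow hpp).1 hdb
  obtain ⟨j, _, hj⟩ := (Nat.dvd_prime_pow hpp).1 hdc
  rcases le_total i j with hij | hij
  · have h1 : y ^ p ∈ zpowers (y' ^ p) := mem_zpowers_of_orderOf_dvd hb hc (by
      rw [hi, hj]
      exact pow_dvd_pow p hij)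
    exact (key hy' hy h1).symm
  · have h1 : y' ^ p ∈ zpowers (y ^ p) := mem_zpowers_of_orderOf_dvd hc hb (by
      rw [hi, hj]
      exact pow_dvd_pow p hij)
    exact key hy hy' h1

end Basic

section Assembly

variable {G : Type*} [Group G] [Finite G] {p : ℕ} [hp : Fact p.Prime]

/-- Cyclic groups of exponent `p` have order at most `p`. -/
theorem card_le_of_cyclic_exp {A : Type*} [Group A] [Finite A] [IsCyclic A] (h : ∀ x : A, x ^ p = 1) :
    Nat.card A ≤ p := by
  have hpp := hp.out
  obtain ⟨g, hg⟩ := IsCyclic.exists_generator (α := A)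
  rw [← orderOf_eq_card_of_forall_mem_zpowers hg]
  exact orderOf_le_of_pow_eq_one hpp.pos (h g)

/-- The assembly: from the subgroup `E₀` to the central product. -/
theorem assembly (hG : IsPGroup p G)
    (hsymp : ∀ A : Subgroup G, A.Characteristic → IsMulCommutative A → IsCyclic A)
    {C E₀ : Subgroup G} (hCc : centralizer (C : Set G) ≤ C) {a : G} {n : ℕ} (hn : 1 ≤ n)
    (ha : orderOf a = p ^ n) (hZ : C ⊓ centralizer (C : Set G) = zpowers a) (hZch : (zpowers a).Characteristic)
    (hE₀C : E₀ ≤ C) (hzE : a ^ p ^ (n - 1) ∈ E₀) (hzc : a ^ p ^ (n - 1) ∈ center G)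
    (hcom : ∀ g : G, ∀ x ∈ E₀, ⁅g, x⁆ ∈ zpowers (a ^ p ^ (n - 1)))
    (hpow : ∀ x ∈ E₀, x ^ p ∈ zpowers (a ^ p ^ (n - 1)))
    (hcen : E₀ ⊓ centralizer (E₀ : Set G) = zpowers (a ^ p ^ (n - 1)))
    (hY : ∀ y ∈ C ⊓ centralizer (E₀ : Set G), ∀ y' ∈ C ⊓ centralizer (E₀ : Set G), y * y' = y' * y)
    (hW : 2 ≤ n → (p ≠ 2 ∨ 3 ≤ n) → ∃ W : Subgroup G, W.Characteristic ∧
      ∀ x : G, Commute x (a ^ p) → (x ∈ centralizer (W : Set G) ↔ x ∈ centralizer (E₀ : Set G))) :
    ∃ E R : Subgroup G, (∀ e ∈ E, ∀ r ∈ R, e * r = r * e) ∧ E ⊔ R = ⊤ ∧ (E = ⊥ ∨ IsExtraspecial p ↥E) ∧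
      (IsCyclic R ∨ (p = 2 ∧ 16 ≤ Nat.card R ∧ ((∃ m : ℕ, Nonempty (↥R ≃* DihedralGroup m)) ∨
        (∃ m : ℕ, Nonempty (↥R ≃* QuaternionGroup m)) ∨ IsQuasiDihedral ↥R))) := by
  have hpp := hp.out
  obtain ⟨z, hzdef⟩ : ∃ z, z = a ^ p ^ (n - 1) := ⟨_, rfl⟩
  rw [← hzdef] at hzE hzc hcom hpow hcen
  have hzo : orderOf z = p := by rw [hzdef]; exact Cfsg.Agent.Lib.Cl.orderOf_top ha hn
  have hzcomm : ∀ g : G, g * z = z * g := fun g => (mem_center_iff.1 hzc g)
  have hzle : zpowers z ≤ E₀ := zpowers_le.2 hzE
  have hzcc : ∀ c ∈ zpowers z, ∀ g : G, g * c = c * g := by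
    intro c hc g
    exact mem_center_iff.1 ((zpowers_le.2 hzc) hc) g
  have hE₀n : E₀.Normal := by
    constructor
    intro x hx g
    have h2 : g * x * g⁻¹ = ⁅g, x⁆ * x := by
      rw [commutatorElement_def]
      group
    rw [h2]
    exact E₀.mul_mem (hzle (hcom g x hx)) hx
  have hsup : E₀ ⊔ centralizer (E₀ : Set G) = ⊤ := sup_centralizer_eq_top hzo hzE hzc hcom hcen
  obtain ⟨R, hRdef⟩ : ∃ R, R = centralizer (E₀ : Set G) := ⟨_, rfl⟩
  rw [← hRdef] at hcen hY hW hsup
  have hRn : R.Normal := by rw [hRdef]; infer_instance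
  have hmemR : ∀ {r : G}, r ∈ R ↔ ∀ e ∈ E₀, e * r = r * e := by
    intro r
    rw [hRdef, mem_centralizer_iff]
    rfl
  have hform : ∀ g : G, ∃ e ∈ E₀, ∃ r ∈ R, g = e * r := by
    intro g
    have h1 : g ∈ ((E₀ ⊔ R : Subgroup G) : Set G) := by rw [hsup]; exact mem_top g
    rw [Subgroup.mul_normal, Set.mem_mul] at h1
    obtain ⟨e, he, r, hr, rfl⟩ := h1
    exact ⟨e, he, r, hr, rfl⟩
  have hYZ : ∀ y ∈ C, y ∈ R → y ∈ zpowers a := by
    intro y hyC hyR
    rw [← hZ]
    refine ⟨hyC, mem_centralizer_iff.2 ?_⟩
    intro c hc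
    obtain ⟨e, he, r, hr, rfl⟩ := hform c
    have hrC : r ∈ C := by
      have h1 : r = e⁻¹ * (e * r) := by group
      rw [h1]
      exact C.mul_mem (C.inv_mem (hE₀C he)) hc
    have h2 : r * y = y * r := hY r ⟨hrC, hr⟩ y ⟨hyC, hyR⟩
    calc e * r * y = e * (r * y) := mul_assoc _ _ _
      _ = e * (y * r) := by rw [h2]
      _ = (e * y) * r := (mul_assoc _ _ _).symm
      _ = y * e * r := by rw [hmemR.1 hyR e he]
      _ = y * (e * r) := mul_assoc _ _ _
  have haZ : a ∈ C ⊓ centralizer (C : Set G) := by rw [hZ]; exact mem_zpowers a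
  have haR : a ∈ R := hmemR.2 fun e he => mem_centralizer_iff.1 haZ.2 e (hE₀C he)
  have hselfc : ∀ r ∈ R, Commute r a → r ∈ zpowers a := by
    intro r hr hra
    have hrC : r ∈ centralizer (C : Set G) := by
      rw [mem_centralizer_iff]
      intro c hc
      obtain ⟨e, he, s, hs, rfl⟩ := hform c
      have hsC : s ∈ C := by
        have h1 : s = e⁻¹ * (e * s) := by group
        rw [h1]
        exact C.mul_mem (C.inv_mem (hE₀C he)) hc
      obtain ⟨k, hk⟩ := hYZ s hsC hs
      have hk' : a ^ k = s := hk
      have h2 : Commute r s := by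
        rw [← hk']
        exact hra.zpow_right k
      have h3 : e * r = r * e := hmemR.1 hr e he
      calc e * s * r = e * (s * r) := mul_assoc _ _ _
        _ = e * (r * s) := by rw [h2.eq]
        _ = (e * r) * s := (mul_assoc _ _ _).symm
        _ = r * e * s := by rw [h3]
        _ = r * (e * s) := mul_assoc _ _ _
    rw [← hZ]
    exact ⟨hCc hrC, hrC⟩
  -- the helper for `E`
  have hEx : ∃ E : Subgroup G, (E = ⊥ ∨ IsExtraspecial p ↥E) ∧ (∀ e ∈ E, ∀ r ∈ R, e * r = r * e) ∧ E ⊔ R = ⊤ := by
    by_cases hb : E₀ = zpowers z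
    · refine ⟨⊥, Or.inl rfl, ?_, ?_⟩
      · intro e he r _
        rw [mem_bot.1 he, one_mul, mul_one]
      · rw [bot_sup_eq, eq_top_iff]
        intro g _
        refine hmemR.2 fun e he => ?_
        rw [hb] at he
        exact (hzcc e he g).symm
    · refine ⟨E₀, Or.inr ?_, fun e he r hr => hmemR.1 hr e he, hsup⟩
      have hcardZ : Nat.card ((zpowers z).subgroupOf E₀) = p := by
        rw [← hzo, ← Nat.card_zpowers]
        exact Nat.card_congr (Subgroup.subgroupOfEquivOfLe hzle).toEquiv
      refine isExtraspecial_of_data (hG.to_subgroup E₀) (Z := (zpowers z).subgroupOf E₀) ?_ hcardZ ?_ ?_ ?_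
      · ext x
        rw [mem_center_iff, mem_subgroupOf, ← hcen]
        constructor
        · intro h
          refine ⟨x.2, hmemR.2 fun e he => ?_⟩
          exact congrArg Subtype.val (h ⟨e, he⟩)
        · intro h y
          exact Subtype.ext (hmemR.1 h.2 y y.2)
      · intro u v
        rw [mem_subgroupOf]
        exact hcom u v v.2
      · intro u
        rw [mem_subgroupOf]
        exact hpow u u.2
      · intro hab
        apply hb
        refine le_antisymm ?_ hzle
        rw [← hcen]
        intro x hx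
        refine ⟨hx, hmemR.2 fun e he => ?_⟩
        exact congrArg Subtype.val (hab.is_comm.comm ⟨e, he⟩ ⟨x, hx⟩)
  -- the group `R`
  let a' : R := ⟨a, haR⟩
  have ha' : orderOf a' = p ^ n := by
    rw [← ha]
    exact Subgroup.orderOf_mk a haR
  have hmemz : ∀ x : R, x ∈ zpowers a' ↔ (x : G) ∈ zpowers a := by
    intro x
    constructor
    · rintro ⟨k, rfl⟩
      exact ⟨k, by simp [a']⟩
    · rintro ⟨k, hk⟩
      refine ⟨k, Subtype.ext ?_⟩
      have hk' : a ^ k = (x : G) := hk
      simpa [a'] using hk'
  have hZn : (zpowers a).Normal := inferInstance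
  have hU' : (zpowers a').Normal := by
    constructor
    intro x hx g
    rw [hmemz] at hx ⊢
    exact hZn.conj_mem _ hx _
  have hC' : ∀ g : R, Commute g a' → g ∈ zpowers a' := by
    intro g hg
    rw [hmemz]
    exact hselfc g g.2 (congrArg Subtype.val hg)
  have hRp : IsPGroup p R := hG.to_subgroup R
  have hcontra : ∀ x : R, 2 ≤ n → Commute x (a' ^ p) → x ∉ zpowers a' → (p ≠ 2 ∨ 3 ≤ n) → False := by
    intro x hn2 hx hxU hpn
    obtain ⟨-, h2, h3, -⟩ := Cfsg.Agent.Lib.Cl.alt_two hRp ha' hn2 hpn hU' hC' hx hxU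
    obtain ⟨W, hWc, hWiff⟩ := hW hn2 hpn
    obtain ⟨M, hMdef⟩ : ∃ M, M = centralizer (W : Set G) ⊓
      centralizer ((powerClosure p 1 (zpowers a) : Subgroup G) : Set G) := ⟨_, rfl⟩
    have hmemM : ∀ {x : G}, x ∈ M ↔ x ∈ centralizer (W : Set G) ∧ Commute x (a ^ p) := by
      intro x
      rw [hMdef, mem_inf, Cfsg.Agent.Lib.Cl.mem_centralizer_powerClosure_iff (p := p)]
    have hAeq : omegaOne p M = (omegaOne p (centralizer
        ((powerClosure p 1 (zpowers a') : Subgroup R) : Set R))).map R.subtype := by
      rw [omegaOne, omegaOne, MonoidHom.map_closure]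
      congr 1
      ext u
      constructor
      · rintro ⟨hu, hup⟩
        obtain ⟨hu1, hu2⟩ := hmemM.1 hu
        have huR : u ∈ R := (hWiff u hu2).1 hu1
        refine ⟨⟨u, huR⟩, ⟨?_, ?_⟩, rfl⟩
        · rw [Cfsg.Agent.Lib.Cl.mem_centralizer_powerClosure_iff (p := p)]
          exact Subtype.ext (by simpa [a'] using hu2.eq)
        · exact Subtype.ext (by simpa using hup)
      · rintro ⟨v, ⟨hv1, hv2⟩, rfl⟩
        rw [Cfsg.Agent.Lib.Cl.mem_centralizer_powerClosure_iff (p := p)] at hv1
        have hv3 : Commute (v : G) (a ^ p) := by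
          have := congrArg Subtype.val hv1.eq
          simpa [a', Commute, SemiconjBy] using this
        refine ⟨hmemM.2 ⟨(hWiff _ hv3).2 v.2, hv3⟩, ?_⟩
        have := congrArg Subtype.val hv2
        simpa using this
    have hMσ : ∀ σ : G ≃* G, ∀ x ∈ M, σ x ∈ M := by
      intro σ x hx
      obtain ⟨h1, h2'⟩ := hmemM.1 hx
      refine hmemM.2 ⟨?_, ?_⟩
      · rw [mem_centralizer_iff]
        intro w hw
        have hw' : σ.symm w ∈ W := by
          exact (characteristic_iff_le_comap.1 hWc σ.symm) hw
        have h3' := mem_centralizer_iff.1 h1 _ hw'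
        have h4 := congrArg σ h3'
        simpa using h4
      · have hb : σ.symm a ∈ zpowers a := (characteristic_iff_le_comap.1 hZch σ.symm) (mem_zpowers a)
        obtain ⟨k, hk⟩ := hb
        have hk' : a ^ k = σ.symm a := hk
        have h5 : Commute x ((σ.symm a) ^ p) := by
          rw [← hk', ← zpow_natCast, ← zpow_mul, mul_comm, zpow_mul, zpow_natCast]
          exact h2'.zpow_right k
        have h6 := h5.map σ
        simpa using h6
    have hAchar : (omegaOne p M).Characteristic := by
      refine characteristic_iff_le_comap.2 fun σ => ?_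
      rw [omegaOne, closure_le]
      rintro u ⟨hu, hup⟩
      refine subset_closure ⟨hMσ σ u hu, ?_⟩
      change σ u ^ p = 1
      rw [← map_pow, hup, map_one]
    have hAcomm : IsMulCommutative (omegaOne p M) := by
      refine ⟨⟨fun u v => Subtype.ext ?_⟩⟩
      have hu := hAeq.le u.2
      have hv := hAeq.le v.2
      obtain ⟨u', hu', hu2⟩ := hu
      obtain ⟨v', hv', hv2⟩ := hv
      have := h2.1.is_comm.comm ⟨u', hu'⟩ ⟨v', hv'⟩
      have h7 : u' * v' = v' * u' := congrArg Subtype.val this
      have h8 : (u' : G) * (v' : G) = (v' : G) * (u' : G) := congrArg Subtype.val h7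
      have hu3 : (u' : G) = u := hu2
      have hv3 : (v' : G) = v := hv2
      rw [hu3, hv3] at h8
      exact h8
    haveI hcyc := hsymp _ hAchar hAcomm
    have hexp : ∀ u : omegaOne p M, u ^ p = 1 := by
      intro u
      have hu := hAeq.le u.2
      obtain ⟨u', hu', hu2⟩ := hu
      have h9 := h2.2 u' hu'
      apply Subtype.ext
      have h10 : (u' : G) ^ p = 1 := congrArg Subtype.val h9
      have hu3 : (u' : G) = u := hu2
      rw [hu3] at h10
      exact h10
    have hle := card_le_of_cyclic_exp (p := p) hexp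
    have hcard : Nat.card (omegaOne p M) = p ^ 2 := by
      rw [hAeq, Subgroup.card_map_of_injective R.subtype_injective, h3]
    rw [hcard] at hle
    have := hpp.two_le
    nlinarith
  have hmain : IsCyclic R ∨ (p = 2 ∧ 16 ≤ Nat.card R ∧ ((∃ m : ℕ, Nonempty (↥R ≃* DihedralGroup m)) ∨
      (∃ m : ℕ, Nonempty (↥R ≃* QuaternionGroup m)) ∨ IsQuasiDihedral ↥R)) ∨
      IsExtraspecial p ↥(⊤ : Subgroup G) := by
    by_cases hall : ∀ r : R, r ∈ zpowers a'
    · left
      exact isCyclic_iff_exists_zpowers_eq_top.2 ⟨a', eq_top_iff.2 fun r _ => hall r⟩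
    push Not at hall
    obtain ⟨g, hg⟩ := hall
    have hn2 : 2 ≤ n := by
      by_contra hlt
      have hn1 : n = 1 := by omega
      apply hg
      have hcard : Nat.card (zpowers a) = p := by
        rw [Nat.card_zpowers, ha, hn1, pow_one]
      have hac := Cfsg.Agent.Lib.PGroup.le_center_of_normal_of_card_eq_prime hG (zpowers a) hcard
        (mem_zpowers a)
      exact hC' g (Subtype.ext (mem_center_iff.1 hac g))
    by_cases hp2 : p = 2
    · subst hp2
      by_cases hyp : n = 2 ∨ ∀ x : R, Commute x (a' ^ 2) → x ∈ zpowers a'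
      · obtain ⟨hc, hiso⟩ := Cfsg.Agent.Lib.Cl.alt_one hRp ha' hn2 hU' hC' hyp hg
        by_cases hn3 : n = 2
        · right; right
          subst hn3
          have hz2 : z = a ^ 2 := by rw [hzdef]; norm_num
          have ha4 : a ^ 4 = 1 := by
            rw [show (4 : ℕ) = 2 ^ 2 by norm_num, ← ha]
            exact pow_orderOf_eq_one a
          have hidx : (zpowers a').index = 2 := by
            have h1 := card_mul_index (zpowers a')
            rw [Nat.card_zpowers, ha', hc] at h1
            omega
          have hodd : ∀ k : ℤ, Odd k → a = (a ^ k) ^ k := by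
            intro k hk
            obtain ⟨m, rfl⟩ := hk
            rw [← zpow_mul, show (2 * m + 1) * (2 * m + 1) = 4 * (m * m + m) + 1 by ring, zpow_add, zpow_mul,
              zpow_one]
            have h4 : a ^ (4 : ℤ) = 1 := by exact_mod_cast ha4
            rw [h4, one_zpow, one_mul]
          have hzmem : ∀ k : ℤ, Even k → a ^ k ∈ zpowers z := by
            intro k hk
            obtain ⟨m, rfl⟩ := hk
            refine ⟨m, ?_⟩
            change z ^ m = a ^ (m + m)
            rw [hz2, ← zpow_natCast, ← zpow_mul]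
            congr 1
            push_cast
            ring
          have hsqR : ∀ r : R, (r : G) ^ 2 ∈ zpowers z := by
            intro r
            by_cases hr : r ∈ zpowers a'
            · obtain ⟨k, hk⟩ := (hmemz r).1 hr
              have hk' : a ^ k = (r : G) := hk
              rw [← hk', ← zpow_natCast, ← zpow_mul]
              exact hzmem _ (by simp)
            · have h1 : r ^ 2 ∈ zpowers a' := Subgroup.sq_mem_of_index_two hidx r
              obtain ⟨k, hk⟩ := (hmemz _).1 h1
              have hk' : a ^ k = (r : G) ^ 2 := hk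
              rcases Int.even_or_odd k with he | ho
              · rw [← hk']
                exact hzmem k he
              · exfalso
                apply hr
                apply hC'
                have h3 : a = ((r : G) ^ 2) ^ k := by
                  rw [← hk']
                  exact hodd k ho
                have h4 : Commute (r : G) a := by
                  rw [h3]
                  exact ((Commute.refl _).pow_right 2).zpow_right k
                exact Subtype.ext h4.eq
          haveI hZzn : (zpowers z).Normal := by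
            constructor
            intro x hx g
            rw [mem_center_iff.1 ((zpowers_le.2 hzc) hx) g]
            simpa using hx
          have hcomR : ∀ r s : R, ⁅(r : G), (s : G)⁆ ∈ zpowers z := by
            let Zr : Subgroup R := (zpowers z).subgroupOf R
            haveI : Zr.Normal := Subgroup.normal_subgroupOf
            have hZrle : zpowers z ≤ R := zpowers_le.2 (hmemR.2 fun e _ => hzcomm e)
            have hZrc : Nat.card Zr = 2 := by
              rw [show Nat.card Zr = Nat.card (zpowers z) from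
                Nat.card_congr (Subgroup.subgroupOfEquivOfLe hZrle).toEquiv, Nat.card_zpowers, hzo]
            have hQ : Nat.card (R ⧸ Zr) = 2 ^ 2 := by
              have h1 := card_mul_index Zr
              rw [hZrc, hc] at h1
              rw [← Subgroup.index_eq_card]
              omega
            have hab := IsPGroup.isMulCommutative_of_card_eq_prime_sq hQ
            intro r s
            have h2 := (MaxClassK.comm_mem_iff_mk Zr r s).2 (hab.is_comm.comm _ _)
            exact h2
          have hcomG : ∀ u w : G, ⁅u, w⁆ ∈ zpowers z := by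
            have hRrel : ∀ r ∈ R, ∀ w : G, ⁅r, w⁆ ∈ zpowers z := by
              intro r hr w
              have h1 : E₀ ⊔ R ≤ MaxClassK.commSub r (zpowers z) := by
                refine sup_le ?_ ?_
                · intro e he
                  rw [MaxClassK.mem_commSub]
                  have h2 : ⁅r, e⁆ = 1 := commutatorElement_eq_one_iff_mul_comm.2 (hmemR.1 hr e he).symm
                  rw [h2]
                  exact one_mem _
                · intro s hs
                  rw [MaxClassK.mem_commSub]
                  exact hcomR ⟨r, hr⟩ ⟨s, hs⟩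
              rw [hsup] at h1
              exact MaxClassK.mem_commSub.1 (h1 (mem_top w))
            have h1 : E₀ ⊔ R ≤ MaxClassK.relCent ⊤ (zpowers z) := by
              refine sup_le ?_ ?_
              · intro e he
                rw [MaxClassK.mem_relCent]
                intro w _
                have e1 : ⁅e, w⁆ = ⁅w, e⁆⁻¹ := (commutatorElement_inv w e).symm
                rw [e1]
                exact inv_mem (hcom w e he)
              · intro r hr
                rw [MaxClassK.mem_relCent]
                intro w _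
                exact hRrel r hr w
            rw [hsup] at h1
            intro u w
            exact MaxClassK.mem_relCent.1 (h1 (mem_top u)) w (mem_top w)
          have hpowG : ∀ u : G, u ^ 2 ∈ zpowers z := by
            intro u
            obtain ⟨e, he, r, hr, rfl⟩ := hform u
            have hc1 : Commute e r := hmemR.1 hr e he
            rw [hc1.mul_pow]
            exact mul_mem (hpow e he) (hsqR ⟨r, hr⟩)
          have hcenter : center G = zpowers z := by
            apply le_antisymm _ (zpowers_le.2 hzc)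
            intro u hgc
            obtain ⟨e, he, r, hr, rfl⟩ := hform u
            have he2 : e ∈ R := hmemR.2 fun x hx => by
              have h1 := mem_center_iff.1 hgc x
              have h2 := hmemR.1 hr x hx
              have h3 : x * e * r = e * x * r := by
                calc x * e * r = x * (e * r) := mul_assoc _ _ _
                  _ = e * r * x := h1
                  _ = e * (r * x) := mul_assoc _ _ _
                  _ = e * (x * r) := by rw [h2]
                  _ = e * x * r := (mul_assoc _ _ _).symm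
              exact mul_right_cancel h3
            have he3 : e ∈ zpowers z := by
              rw [← hcen]
              exact ⟨he, he2⟩
            have hrc : r ∈ center G := by
              have h1 : r = e⁻¹ * (e * r) := by group
              rw [h1]
              exact mul_mem (inv_mem ((zpowers_le.2 hzc) he3)) hgc
            have hra : Commute r a := (mem_center_iff.1 hrc a).symm
            obtain ⟨k, hk⟩ := hselfc r hr hra
            have hk' : a ^ k = r := hk
            rcases Int.even_or_odd k with hev | ho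
            · refine mul_mem he3 ?_
              rw [← hk']
              exact hzmem k hev
            · exfalso
              apply hg
              apply hC'
              have h3 : a = r ^ k := by
                rw [← hk']
                exact hodd k ho
              have hgr : Commute (g : G) (r ^ k) := Commute.zpow_right (mem_center_iff.1 hrc g) k
              rw [← h3] at hgr
              exact Subtype.ext hgr.eq
          have hna : ¬ IsMulCommutative G := by
            intro hab
            exact hg (hC' g (Subtype.ext (hab.is_comm.comm _ _)))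
          exact Cfsg.Agent.Lib.PGroup.isExtraspecial_of_equiv Subgroup.topEquiv.symm
            (isExtraspecial_of_data hG hcenter (by rw [Nat.card_zpowers, hzo]) hcomG hpowG hna)
        · right; left
          refine ⟨rfl, ?_, hiso⟩
          rw [hc]
          calc 16 = 2 ^ 4 := by norm_num
            _ ≤ 2 ^ (n + 1) := Nat.pow_le_pow_right (by norm_num) (by omega)
      · push Not at hyp
        obtain ⟨hn3, x, hx, hxU⟩ := hyp
        exact (hcontra x hn2 hx hxU (Or.inr (by omega))).elim
    · obtain ⟨j, hj1, hj2⟩ := Cfsg.Agent.Lib.Cl.exists_pow_not_mem_pow_mem hRp (zpowers a') hg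
      have hx := Cfsg.Agent.Lib.Cl.commute_pow_of_pow_mem_odd hp2 ha' hn2 hU' hj2
      exact (hcontra _ hn2 hx hj1 (Or.inl hp2)).elim
  obtain ⟨E, hE1, hE2, hE3⟩ := hEx
  rcases hmain with h | h | h
  · exact ⟨E, R, hE2, hE3, hE1, Or.inl h⟩
  · exact ⟨E, R, hE2, hE3, hE1, Or.inr h⟩
  · refine ⟨⊤, ⊥, ?_, top_sup_eq _, Or.inr h, Or.inl inferInstance⟩
    intro e _ r hr
    rw [mem_bot.1 hr, one_mul, mul_one]

end Assembly

section MainT

variable {G : Type*} [Group G] [Finite G] {p : ℕ} [hp : Fact p.Prime]

omit [Finite G] in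
theorem char_inf_centralizer {W : Subgroup G} (hW : W.Characteristic) :
    (W ⊓ centralizer (W : Set G)).Characteristic := by
  refine characteristic_iff_le_comap.2 fun σ x hx => ?_
  refine ⟨(characteristic_iff_le_comap.1 hW σ) hx.1, mem_centralizer_iff.2 fun c hc => ?_⟩
  have hc' : σ.symm c ∈ W := (characteristic_iff_le_comap.1 hW σ.symm) hc
  have h1 := mem_centralizer_iff.1 hx.2 _ hc'
  have h2 := congrArg σ h1
  simpa using h2

omit [Finite G] in
theorem isMulCommutative_inf_centralizer (W : Subgroup G) :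
    IsMulCommutative ↥(W ⊓ centralizer (W : Set G)) := by
  refine ⟨⟨fun u v => Subtype.ext ?_⟩⟩
  exact mem_centralizer_iff.1 v.2.2 u u.2.1

/-- **P. Hall's theorem.** -/
theorem symp_main (hG : IsPGroup p G)
    (hsymp : ∀ A : Subgroup G, A.Characteristic → IsMulCommutative A → IsCyclic A) :
    ∃ E R : Subgroup G, (∀ e ∈ E, ∀ r ∈ R, e * r = r * e) ∧ E ⊔ R = ⊤ ∧ (E = ⊥ ∨ IsExtraspecial p ↥E) ∧
      (IsCyclic R ∨ (p = 2 ∧ 16 ≤ Nat.card R ∧ ((∃ m : ℕ, Nonempty (↥R ≃* DihedralGroup m)) ∨
        (∃ m : ℕ, Nonempty (↥R ≃* QuaternionGroup m)) ∨ IsQuasiDihedral ↥R))) := by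
  classical
  have hpp := hp.out
  by_cases htriv : Subsingleton G
  · refine ⟨⊥, ⊥, ?_, ?_, Or.inl rfl, Or.inl inferInstance⟩
    · intro e he r _
      rw [mem_bot.1 he, one_mul, mul_one]
    · rw [eq_top_iff]
      intro x _
      rw [Subsingleton.elim x 1]
      exact one_mem _
  rw [not_subsingleton_iff_nontrivial] at htriv
  obtain ⟨C, hCch, hCp, hCr, hCc⟩ := Cfsg.Agent.Lib.Transfer.exists_critical hG
  have hZch := char_inf_centralizer hCch
  haveI hZcyc := hsymp _ hZch (isMulCommutative_inf_centralizer C)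
  obtain ⟨Z, hZdef⟩ : ∃ Z, Z = C ⊓ centralizer (C : Set G) := ⟨_, rfl⟩
  rw [← hZdef] at hZch hZcyc hCp hCr
  obtain ⟨a₀, ha₀⟩ := IsCyclic.exists_generator (α := Z)
  obtain ⟨a, ha⟩ : ∃ a : G, a = a₀ := ⟨_, rfl⟩
  have hZa : zpowers a = Z := by
    apply le_antisymm
    · rw [zpowers_le, ha]
      exact a₀.2
    · intro x hx
      obtain ⟨k, hk⟩ := ha₀ ⟨x, hx⟩
      refine ⟨k, ?_⟩
      have h1 := congrArg Subtype.val hk
      rw [ha]
      exact h1
  obtain ⟨n, hn⟩ := (IsPGroup.iff_orderOf.1 hG) a
  have hZle : Z ≤ C := by rw [hZdef]; exact inf_le_left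
  have hZcent : ∀ c ∈ C, ∀ y ∈ Z, c * y = y * c := by
    intro c hc y hy
    rw [hZdef] at hy
    exact mem_centralizer_iff.1 hy.2 c hc
  have hmemZ : ∀ {y : G}, y ∈ C → (∀ c ∈ C, c * y = y * c) → y ∈ Z := by
    intro y hy h
    rw [hZdef]
    exact ⟨hy, mem_centralizer_iff.2 h⟩
  have hZne : Z ≠ ⊥ := by
    intro hZb
    have hCne : C ≠ ⊥ := by
      intro hCb
      have h1 : centralizer (C : Set G) ≤ C := hCc
      rw [hCb] at h1
      have h2 : (⊤ : Subgroup G) ≤ ⊥ := by
        intro x _
        apply h1
        rw [mem_centralizer_iff]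
        intro h hh
        rw [mem_bot.1 hh, one_mul, mul_one]
      obtain ⟨x, hx⟩ := exists_ne (1 : G)
      exact hx (mem_bot.1 (h2 (mem_top x)))
    haveI : Nontrivial C := (Subgroup.nontrivial_iff_ne_bot C).2 hCne
    haveI := (hG.to_subgroup C).center_nontrivial
    obtain ⟨⟨c, hc⟩, hc1⟩ := exists_ne (1 : center C)
    have h3 : (c : G) ∈ Z := by
      refine hmemZ c.2 fun d hd => ?_
      have h4 := mem_center_iff.1 hc ⟨d, hd⟩
      exact congrArg Subtype.val h4
    rw [hZb, mem_bot] at h3
    exact hc1 (Subtype.ext (Subtype.ext h3))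
  have hn1 : 1 ≤ n := by
    by_contra h
    have hn0 : n = 0 := by omega
    rw [hn0, pow_zero, orderOf_eq_one_iff] at hn
    apply hZne
    rw [← hZa, hn, zpowers_one_eq_bot]
  obtain ⟨z, hzdef⟩ : ∃ z, z = a ^ p ^ (n - 1) := ⟨_, rfl⟩
  have hzZ : z ∈ Z := by
    rw [hzdef, ← hZa]
    exact npow_mem_zpowers a _
  have hzo : orderOf z = p := by rw [hzdef]; exact Cfsg.Agent.Lib.Cl.orderOf_top hn hn1
  have hzp : z ^ p = 1 := by
    rw [← hzo]
    exact pow_orderOf_eq_one z
  have hzle : zpowers z ≤ Z := zpowers_le.2 hzZ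
  have hzleC : zpowers z ≤ C := hzle.trans hZle
  have hmemtop : ∀ {c : G}, c ∈ Z → c ^ p = 1 → c ∈ zpowers z := by
    intro c hc hcp
    rw [hzdef]
    exact Cfsg.Agent.Lib.Cl.mem_zpowers_top_of_pow_eq_one hn hn1 (by rw [hZa]; exact hc) hcp
  have hzpow : ∀ {c : G}, c ∈ zpowers z → c ^ p = 1 := by
    rintro c ⟨k, rfl⟩
    change (z ^ k) ^ p = 1
    rw [← zpow_natCast, ← zpow_mul, mul_comm, zpow_mul, zpow_natCast, hzp, one_zpow]
  haveI hZn : Z.Normal := inferInstance
  have hzn : (zpowers z).Normal := by
    constructor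
    intro x hx g
    refine hmemtop (hZn.conj_mem _ (hzle hx) g) ?_
    rw [conj_pow, hzpow hx]
    group
  haveI := hzn
  have hzcenter : zpowers z ≤ center G :=
    Cfsg.Agent.Lib.PGroup.le_center_of_normal_of_card_eq_prime hG (zpowers z)
      (by rw [Nat.card_zpowers, hzo])
  have hzc : z ∈ center G := hzcenter (mem_zpowers z)
  have hzσ : ∀ σ : G ≃* G, σ z ∈ zpowers z := by
    intro σ
    refine hmemtop ((characteristic_iff_le_comap.1 hZch σ) hzZ) ?_
    rw [← map_pow, hzp, map_one]
  have hcomC : ∀ x ∈ C, ∀ y ∈ C, ⁅x, y⁆ ∈ zpowers z := by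
    intro x hx y hy
    have h1 := hCr x y hy
    have h2 : Commute ⁅x, y⁆ x := (hZcent x hx _ h1).symm
    have h3 := Cfsg.Agent.Lib.Transfer.comm_pow_left h2 p
    have h4 : ⁅x ^ p, y⁆ = 1 :=
      commutatorElement_eq_one_iff_mul_comm.2 (hZcent y hy _ (hCp x hx)).symm
    rw [h4] at h3
    exact hmemtop h1 h3.symm
  have hpm : ∀ x ∈ C, ∀ y ∈ C, (x * y) ^ p = x ^ p * y ^ p * ⁅y, x⁆ ^ (p.choose 2) := by
    intro x hx y hy
    have h1 := hCr y x hx
    exact Cfsg.Agent.Lib.Transfer.mul_pow_class2 (hZcent x hx _ h1).symm (hZcent y hy _ h1).symm p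
  have haZ : a ∈ Z := by
    rw [← hZa]
    exact mem_zpowers a
  have hZeq : C ⊓ centralizer (C : Set G) = zpowers a := by rw [← hZdef, hZa]
  have hZch' : (zpowers a).Characteristic := by rw [hZa]; exact hZch
  have hpZ : ∀ u ∈ C, u ^ p ∈ zpowers a := by
    intro u hu
    rw [hZa]
    exact hCp u hu
  have hcomZ : ∀ g x : G, x ∈ C → ⁅g, x⁆ ∈ Z := fun g x hx => hCr g x hx
  by_cases hp2 : p = 2
  · subst hp2
    by_cases hn2 : n = 1
    · -- `|Z| = 2`
      subst hn2
      have hza : z = a := by rw [hzdef]; simp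
      have hZz : Z = zpowers z := by rw [hza, hZa]
      refine assembly hG hsymp hCc le_rfl hn hZeq hZch' le_rfl ?_ ?_ ?_ ?_ ?_ ?_ ?_
      · rw [← hzdef]
        exact hzleC (mem_zpowers z)
      · rw [← hzdef]
        exact hzc
      · rw [← hzdef]
        intro g x hx
        rw [← hZz]
        exact hCr g x hx
      · rw [← hzdef]
        intro x hx
        rw [← hZz]
        exact hCp x hx
      · rw [← hzdef, ← hZdef, hZz]
      · intro y hy y' hy'
        exact mem_centralizer_iff.1 hy'.2 y hy.1
      · intro h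
        omega
    · -- `|Z| ≥ 4`
      have hn2' : 2 ≤ n := by omega
      obtain ⟨i, hidef⟩ : ∃ i, i = a ^ 2 ^ (n - 2) := ⟨_, rfl⟩
      have hi2 : i ^ 2 = z := by
        rw [hidef, hzdef, ← pow_mul, ← pow_succ]
        congr 2
        omega
      have hiZ : i ∈ Z := by
        rw [hidef, ← hZa]
        exact npow_mem_zpowers a _
      have hz1 : z ≠ 1 := by
        intro h
        rw [h, orderOf_one] at hzo
        omega
      have hiz : i ∉ zpowers z := by
        intro h
        have h1 := hzpow h
        rw [hi2] at h1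
        exact hz1 h1
      -- the subgroup `W`
      let W : Subgroup G :=
        { carrier := {x | x ∈ C ∧ x ^ 2 ∈ zpowers z}
          one_mem' := ⟨one_mem _, by simp⟩
          mul_mem' := by
            rintro x y ⟨hx, hx2⟩ ⟨hy, hy2⟩
            refine ⟨mul_mem hx hy, ?_⟩
            rw [hpm x hx y hy]
            exact mul_mem (mul_mem hx2 hy2) (pow_mem (hcomC y hy x hx) _)
          inv_mem' := by
            rintro x ⟨hx, hx2⟩
            refine ⟨inv_mem hx, ?_⟩
            rw [inv_pow]
            exact inv_mem hx2 }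
      have hmemW : ∀ {x : G}, x ∈ W ↔ x ∈ C ∧ x ^ 2 ∈ zpowers z := Iff.rfl
      have hWch : W.Characteristic := by
        refine characteristic_iff_le_comap.2 fun σ x hx => ?_
        refine ⟨(characteristic_iff_le_comap.1 hCch σ) hx.1, ?_⟩
        change σ x ^ 2 ∈ zpowers z
        rw [← map_pow]
        obtain ⟨k, hk⟩ := hx.2
        have hk' : z ^ k = x ^ 2 := hk
        rw [← hk', map_zpow]
        exact zpow_mem (hzσ σ) k
      have hWC : W ≤ C := fun x hx => hx.1
      have hzW : zpowers z ≤ W := by
        intro x hx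
        refine ⟨hzleC hx, ?_⟩
        rw [hzpow hx]
        exact one_mem _
      have hiW : i ∈ W := ⟨hZle hiZ, by rw [hi2]; exact mem_zpowers z⟩
      have hcomW : ∀ g : G, ∀ x ∈ W, ⁅g, x⁆ ∈ zpowers z := by
        intro g x hx
        have hw := hcomZ g x hx.1
        refine hmemtop hw ?_
        have h1 : g * x * g⁻¹ = ⁅g, x⁆ * x := by
          rw [commutatorElement_def]
          group
        have h2 : Commute ⁅g, x⁆ x := (hZcent x hx.1 _ hw).symm
        have h3 := h2.mul_pow 2
        rw [← h1, conj_pow] at h3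
        have h4 : g * x ^ 2 * g⁻¹ = x ^ 2 := by
          rw [mem_center_iff.1 (hzcenter hx.2) g]
          group
        rw [h4] at h3
        exact mul_eq_right.1 h3.symm
      -- the centre of `W`
      have hTW : W ⊓ centralizer (W : Set G) = zpowers i := by
        have hTch := char_inf_centralizer hWch
        haveI hTc := hsymp _ hTch (isMulCommutative_inf_centralizer W)
        have hile : zpowers i ≤ W ⊓ centralizer (W : Set G) := by
          rw [zpowers_le]
          exact ⟨hiW, mem_centralizer_iff.2 fun c hc => hZcent c (hWC hc) i hiZ⟩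
        refine (Subgroup.eq_of_le_of_card_ge hile ?_).symm
        have hex : ∀ x : ↥(W ⊓ centralizer (W : Set G)), x ^ 2 ^ 2 = 1 := by
          intro x
          apply Subtype.ext
          have h1 := hzpow x.2.1.2
          have h2 : (x : G) ^ 2 ^ 2 = ((x : G) ^ 2) ^ 2 := by
            rw [← pow_mul]
            norm_num
          change (x : G) ^ 2 ^ 2 = 1
          rw [h2, h1]
        obtain ⟨t, ht⟩ := IsCyclic.exists_generator (α := ↥(W ⊓ centralizer (W : Set G)))
        rw [← orderOf_eq_card_of_forall_mem_zpowers ht, Nat.card_zpowers]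
        have h5 : orderOf i = 4 := by
          have h6 : orderOf i ∣ 2 ^ 2 := by
            apply orderOf_dvd_of_pow_eq_one
            rw [pow_succ, pow_one, pow_mul, hi2]
            have := hzpow (mem_zpowers z)
            exact this
          obtain ⟨e, he, he2⟩ := (Nat.dvd_prime_pow Nat.prime_two).1 h6
          have h7 : e = 2 := by
            by_contra hne
            have h8 : e ≤ 1 := by omega
            apply hz1
            rw [← hi2]
            exact orderOf_dvd_iff_pow_eq_one.1 (by rw [he2]; exact pow_dvd_pow 2 h8)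
          rw [he2, h7]
          norm_num
        rw [h5]
        have h9 := orderOf_le_of_pow_eq_one (by positivity) (hex t)
        simpa using h9
      -- the subgroup `E₀`
      have hne : {X : Subgroup G | X ≤ W ∧ z ∈ X ∧ i ∉ X}.Nonempty :=
        ⟨zpowers z, hzW, mem_zpowers z, hiz⟩
      obtain ⟨E₀, hE₀⟩ := (Set.toFinite {X : Subgroup G | X ≤ W ∧ z ∈ X ∧ i ∉ X}).exists_maximal hne
      obtain ⟨hE₀W, hzE, hiE⟩ := hE₀.prop
      have hzleE : zpowers z ≤ E₀ := zpowers_le.2 hzE
      haveI hE₀n : E₀.Normal := by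
        constructor
        intro x hx g
        have h2 : g * x * g⁻¹ = ⁅g, x⁆ * x := by
          rw [commutatorElement_def]
          group
        rw [h2]
        exact mul_mem (hzleE (hcomW g x (hE₀W hx))) hx
      have hWsup : W ≤ E₀ ⊔ zpowers i := by
        intro x hx
        by_cases hxE : x ∈ E₀
        · exact mem_sup_left hxE
        have hbig : zpowers x ⊔ E₀ ∉ {X : Subgroup G | X ≤ W ∧ z ∈ X ∧ i ∉ X} := by
          intro hmem
          have := hE₀.le_of_ge hmem le_sup_right
          exact hxE (this (mem_sup_left (mem_zpowers x)))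
        have hi1 : i ∈ zpowers x ⊔ E₀ := by
          by_contra hcon
          exact hbig ⟨sup_le ((zpowers_le).2 hx) hE₀W, mem_sup_right hzE, hcon⟩
        have hi2' : i ∈ ((zpowers x ⊔ E₀ : Subgroup G) : Set G) := hi1
        rw [Subgroup.mul_normal, Set.mem_mul] at hi2'
        obtain ⟨u, ⟨k, hk⟩, e, he, hue⟩ := hi2'
        have hk' : x ^ k = u := hk
        have hx2E : x ^ 2 ∈ E₀ := hzleE hx.2
        rcases Int.even_or_odd' k with ⟨m, hm | hm⟩
        · exfalso
          apply hiE
          rw [← hue, ← hk', hm, zpow_mul]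
          refine mul_mem (zpow_mem ?_ m) he
          exact_mod_cast hx2E
        · have e1 : x ^ k = (x ^ 2) ^ m * x := by
            rw [hm, zpow_add, zpow_one, zpow_mul]
            norm_cast
          have he' : x * e * x⁻¹ ∈ E₀ := hE₀n.conj_mem e he x
          have h1 : x = ((x ^ 2) ^ m * (x * e * x⁻¹))⁻¹ * i := by
            rw [← hue, ← hk', e1]
            group
          rw [h1]
          exact mul_mem (mem_sup_left (inv_mem (mul_mem (zpow_mem hx2E m) he')))
            (mem_sup_right (mem_zpowers i))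
      have hmemzi : ∀ {u : G}, u ∈ W → (∀ e ∈ E₀, e * u = u * e) → u ∈ zpowers i := by
        intro u hu hue
        rw [← hTW]
        refine ⟨hu, mem_centralizer_iff.2 fun w hw => ?_⟩
        have h1 : E₀ ⊔ zpowers i ≤ centralizer ({u} : Set G) := by
          refine sup_le ?_ ((zpowers_le).2 ?_)
          · intro e he
            rw [mem_centralizer_iff]
            intro h hh
            rw [Set.mem_singleton_iff.1 hh]
            exact (hue e he).symm
          · rw [mem_centralizer_iff]
            intro h hh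
            rw [Set.mem_singleton_iff.1 hh]
            exact hZcent u (hWC hu) i hiZ
        have h2 := h1 (hWsup hw)
        rw [mem_centralizer_iff] at h2
        exact (h2 u rfl).symm
      have hi4 : i ^ (4 : ℤ) = 1 := by
        have h1 : i ^ 4 = 1 := by
          rw [show (4 : ℕ) = 2 * 2 by norm_num, pow_mul, hi2]
          exact hzpow (mem_zpowers z)
        exact_mod_cast h1
      have hcen : E₀ ⊓ centralizer (E₀ : Set G) = zpowers z := by
        apply le_antisymm
        · rintro x ⟨hxE, hxc⟩
          obtain ⟨k, hk⟩ := hmemzi (hE₀W hxE) (fun e he => mem_centralizer_iff.1 hxc e he)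
          have hk' : i ^ k = x := hk
          rcases Int.even_or_odd' k with ⟨m, hm | hm⟩
          · refine ⟨m, ?_⟩
            change z ^ m = x
            rw [← hk', ← hi2, hm, zpow_mul]
            norm_cast
          · exfalso
            apply hiE
            have h1 : i = x ^ k := by
              rw [← hk', ← zpow_mul, hm, show (2 * m + 1) * (2 * m + 1) = 4 * (m * m + m) + 1 by ring,
                zpow_add, zpow_mul, hi4, one_zpow, one_mul, zpow_one]
            rw [h1]
            exact Subgroup.zpow_mem E₀ hxE k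
        · rw [zpowers_le]
          exact ⟨hzE, mem_centralizer_iff.2 fun h _ => mem_center_iff.1 hzc h⟩
      refine assembly hG hsymp hCc hn1 hn hZeq hZch' (hE₀W.trans hWC) ?_ ?_ ?_ ?_ ?_ ?_ ?_
      · rw [← hzdef]
        exact hzE
      · rw [← hzdef]
        exact hzc
      · rw [← hzdef]
        exact fun g x hx => hcomW g x (hE₀W hx)
      · rw [← hzdef]
        exact fun x hx => (hE₀W hx).2
      · rw [← hzdef]
        exact hcen
      · intro y hy y' hy'
        refine commute_of_pow_cyclic hn (C ⊓ centralizer (E₀ : Set G)) (zpowers z) ?_ ?_ ?_ ?_ hy hy'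
        · intro u hu v hv
          rw [hpm u hu.1 v hv.1]
          have h1 := hcomC v hv.1 u hu.1
          have h2 : (Nat.choose 2 2) = 1 := by norm_num
          rw [h2, pow_one]
          exact hzn.conj_mem _ h1 _
        · intro u hu hu2
          have h1 := hmemzi ⟨hu.1, hu2⟩ (fun e he => mem_centralizer_iff.1 hu.2 e he)
          have h2 : zpowers i ≤ zpowers a := by
            rw [zpowers_le, hidef]
            exact npow_mem_zpowers a _
          exact h2 h1
        · intro u hu
          exact hpZ u hu.1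
        · intro u hu
          exact hZcent u hu.1 a haZ
      · intro _ hpn
        have hn3 : 3 ≤ n := by
          rcases hpn with h | h
          · exact absurd rfl h
          · exact h
        refine ⟨W, hWch, fun x hx => ⟨fun h => ?_, fun h => ?_⟩⟩
        · rw [mem_centralizer_iff] at h ⊢
          exact fun e he => h e (hE₀W he)
        · rw [mem_centralizer_iff] at h ⊢
          intro w hw
          have h1 : E₀ ⊔ zpowers i ≤ centralizer ({x} : Set G) := by
            refine sup_le ?_ ((zpowers_le).2 ?_)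
            · intro e he
              rw [mem_centralizer_iff]
              intro g hg
              rw [Set.mem_singleton_iff.1 hg]
              exact (h e he).symm
            · rw [mem_centralizer_iff]
              intro g hg
              rw [Set.mem_singleton_iff.1 hg]
              have h3 : i = (a ^ 2) ^ 2 ^ (n - 3) := by
                rw [hidef, ← pow_mul, ← pow_succ']
                congr 2
                omega
              rw [h3]
              exact (hx.pow_right _).eq
          have h2 := h1 (hWsup hw)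
          rw [mem_centralizer_iff] at h2
          exact (h2 x rfl).symm
  · -- `p` odd
    have h2p : 2 < p := by
      have := hpp.two_le
      omega
    have hmulp : ∀ x ∈ C, ∀ y ∈ C, (x * y) ^ p = x ^ p * y ^ p := by
      intro x hx y hy
      rw [hpm x hx y hy]
      obtain ⟨k, hk⟩ := hpp.dvd_choose_self (k := 2) (by norm_num) h2p
      rw [hk, pow_mul, hzpow (hcomC y hy x hx), one_pow, mul_one]
    let W : Subgroup G :=
      { carrier := {x | x ∈ C ∧ x ^ p = 1}
        one_mem' := ⟨one_mem _, one_pow _⟩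
        mul_mem' := by
          rintro x y ⟨hx, hx2⟩ ⟨hy, hy2⟩
          refine ⟨mul_mem hx hy, ?_⟩
          rw [hmulp x hx y hy, hx2, hy2, one_mul]
        inv_mem' := by
          rintro x ⟨hx, hx2⟩
          refine ⟨inv_mem hx, ?_⟩
          rw [inv_pow, hx2, inv_one] }
    have hWch : W.Characteristic := by
      refine characteristic_iff_le_comap.2 fun σ x hx => ?_
      refine ⟨(characteristic_iff_le_comap.1 hCch σ) hx.1, ?_⟩
      change σ x ^ p = 1
      rw [← map_pow, hx.2, map_one]
    have hzW : z ∈ W := ⟨hzleC (mem_zpowers z), hzp⟩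
    haveI hWn : W.Normal := inferInstance
    have hcomW : ∀ g : G, ∀ x ∈ W, ⁅g, x⁆ ∈ zpowers z := by
      intro g x hx
      have hw := hcomZ g x hx.1
      refine hmemtop hw ?_
      have h1 : ⁅g, x⁆ ∈ W := by
        rw [commutatorElement_def]
        exact mul_mem (hWn.conj_mem x hx g) (inv_mem hx)
      exact h1.2
    have hcen : W ⊓ centralizer (W : Set G) = zpowers z := by
      have hTch := char_inf_centralizer hWch
      haveI hTc := hsymp _ hTch (isMulCommutative_inf_centralizer W)
      have hle : zpowers z ≤ W ⊓ centralizer (W : Set G) := by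
        rw [zpowers_le]
        exact ⟨hzW, mem_centralizer_iff.2 fun h _ => mem_center_iff.1 hzc h⟩
      refine (Subgroup.eq_of_le_of_card_ge hle ?_).symm
      rw [Nat.card_zpowers, hzo]
      refine card_le_of_cyclic_exp (p := p) fun x => Subtype.ext ?_
      exact x.2.1.2
    refine assembly hG hsymp hCc hn1 hn hZeq hZch' (E₀ := W) (show W ≤ C from fun x hx => hx.1) ?_ ?_ ?_ ?_ ?_ ?_ ?_
    · rw [← hzdef]
      exact hzW
    · rw [← hzdef]
      exact hzc
    · rw [← hzdef]
      exact hcomW
    · rw [← hzdef]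
      intro x hx
      rw [hx.2]
      exact one_mem _
    · rw [← hzdef]
      exact hcen
    · intro y hy y' hy'
      refine commute_of_pow_cyclic hn (C ⊓ centralizer (W : Set G)) ⊥ ?_ ?_ ?_ ?_ hy hy'
      · intro u hu v hv
        rw [hmulp u hu.1 v hv.1, mul_inv_cancel]
        exact one_mem _
      · intro u hu hu2
        have h1 : u ∈ W ⊓ centralizer (W : Set G) := ⟨⟨hu.1, mem_bot.1 hu2⟩, hu.2⟩
        rw [hcen] at h1
        rw [hZa]
        exact hzle h1
      · intro u hu
        exact hpZ u hu.1
      · intro u hu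
        exact hZcent u hu.1 a haZ
    · exact fun _ _ => ⟨W, hWch, fun x _ => Iff.rfl⟩

end MainT

end Cfsg.Agent.Lib.PGroup.SympType
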